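import Cfsg.Agent.Lib.FFModules.PushUpBlocks.TwoConj

/-!
Baumann's lemma: `⟨B^G⟩ ∩ Q ≤ B`.
-/

set_option autoImplicit false
set_option linter.unusedSectionVars false

namespace CfsgLib.FFModules.PushUpBlocks

open Cfsg
open scoped commutatorElement MatrixGroups IsMulCommutative

variable {G : Type*} [Group G]

/-- The order of the join with a normal subgroup. -/
theorem card_sup_normal [Finite G] (X N : Subgroup G) [N.Normal] :
    Nat.card ↥(X ⊔ N) = Nat.card X * (X ⊓ N).relIndex N := by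
  have h1 := relIndex_mul_card (le_sup_right : N ≤ X ⊔ N)
  rw [Subgroup.relIndex_sup_right] at h1
  have h2 := relIndex_mul_card (inf_le_left : X ⊓ N ≤ X)
  rw [Subgroup.inf_relIndex_left] at h2
  rw [← h1, ← h2, ← relIndex_mul_card (inf_le_right : X ⊓ N ≤ N)]
  ring

variable {p : ℕ} [Finite G] [Fact p.Prime] {T : Sylow p G} {r : ℕ} {E : Fin r → Subgroup G} {M : Subgroup G}

theorem relIndex_dvd_index (N : Subgroup G) [N.Normal] : (T : Subgroup G).relIndex N ∣ (T : Subgroup G).index := by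
  have h1 := relIndex_mul_card (inf_le_right : (T : Subgroup G) ⊓ N ≤ N)
  rw [Subgroup.inf_relIndex_right] at h1
  have h2 := relIndex_mul_card (inf_le_left : (T : Subgroup G) ⊓ N ≤ (T : Subgroup G))
  rw [Subgroup.inf_relIndex_left] at h2
  have h3 := relIndex_mul_card (le_sup_right : N ≤ (T : Subgroup G) ⊔ N)
  rw [Subgroup.relIndex_sup_right] at h3
  have h4 : (T : Subgroup G).relIndex N * Nat.card (T : Subgroup G) = Nat.card ↥((T : Subgroup G) ⊔ N) := by
    rw [← h2, ← h3, ← h1]; ring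
  have h5 := Subgroup.card_subgroup_dvd_card ((T : Subgroup G) ⊔ N)
  rw [← h4, ← Subgroup.index_mul_card (T : Subgroup G)] at h5
  exact Nat.dvd_of_mul_dvd_mul_right Nat.card_pos h5

theorem Comps.G1_le_normalizer_moves (hE : Comps T E) {y : G} (hy : y ∈ G1 E) {i : Fin r} {u : G}
    (hu : u ∈ ⁅VG G p, E i⁆) : y * u * y⁻¹ ∈ ⁅VG G p, E i⁆ := by
  have h1 : ⁅VG G p, E i⁆ ≤ (⁅VG G p, E i⁆).comap (MulAut.conj y).toMonoidHom := by
    rw [Subgroup.commutator_le]
    intro v hv e he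
    show y * ⁅v, e⁆ * y⁻¹ ∈ ⁅VG G p, E i⁆
    rw [show y * ⁅v, e⁆ * y⁻¹ = ⁅y * v * y⁻¹, y * e * y⁻¹⁆ by simp [commutatorElement_def, mul_assoc]]
    exact Subgroup.commutator_mem_commutator (VG_normal.conj_mem v hv y)
      ((Subgroup.mem_normalizer_iff.1 (hE.G1_le_normalizer i hy) e).1 he)
  exact h1 hu

/-- The kernel of a projection is trivial on `V / C_V(E_i)`. -/
theorem Comps.Kc_act (hE : Comps T E) {i : Fin r} {k v : G} (hk : k ∈ Kc G p E i) (hv : v ∈ VG G p) :
    k * v * k⁻¹ * v⁻¹ ∈ Wc G p E i := by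
  have h1 : v ∈ ((⁅VG G p, E i⁆ ⊔ Wc G p E i : Subgroup G) : Set G) := (hE.sup_Wc i).ge hv
  haveI : IsMulCommutative ↥(VG G p) := VG_elem.1
  rw [Subgroup.coe_mul_of_left_le_normalizer_right _ _ (fun a ha => Subgroup.mem_normalizer_fintype fun b hb => by
    rw [show a * b = b * a from congrArg Subtype.val
      (mul_comm (⟨a, Comps.moves_le i ha⟩ : ↥(VG G p)) ⟨b, hb.1⟩), mul_inv_cancel_right]
    exact hb)] at h1
  obtain ⟨u, hu, w, hw, rfl⟩ := h1
  have h2 := Subgroup.mem_centralizer_iff.1 (hE.Kc_le_centralizer i hk) u hu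
  have h3 : k * w * k⁻¹ ∈ Wc G p E i :=
    (Subgroup.mem_normalizer_iff.1 (hE.G1_le_normalizer_Wc i (hE.Kc_le i hk)) w).1 hw
  have e : k * (u * w) * k⁻¹ * (u * w)⁻¹ = (k * w * k⁻¹) * w⁻¹ := by
    have h4 : u * (k * w * k⁻¹) = (k * w * k⁻¹) * u := congrArg Subtype.val
      (mul_comm (⟨u, Comps.moves_le i hu⟩ : ↥(VG G p)) ⟨_, h3.1⟩)
    calc k * (u * w) * k⁻¹ * (u * w)⁻¹ = (k * u) * w * k⁻¹ * w⁻¹ * u⁻¹ := by group
      _ = u * (k * w * k⁻¹) * w⁻¹ * u⁻¹ := by rw [← h2]; group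
      _ = (k * w * k⁻¹) * (u * w⁻¹) * u⁻¹ := by rw [h4]; group
      _ = _ := by
        rw [show u * w⁻¹ = w⁻¹ * u from congrArg Subtype.val
          (mul_comm (⟨u, Comps.moves_le i hu⟩ : ↥(VG G p)) ⟨w⁻¹, inv_mem hw.1⟩)]
        group
  rw [e]
  exact mul_mem h3 (inv_mem hw)

theorem thompson_le_T : thompsonSubgroupOf p (T : Subgroup G) ≤ (T : Subgroup G) :=
  ThompsonJ.thompsonSubgroupOf_le p _

/-- An element with prescribed images in all components. -/
theorem Comps.exists_lift (hE : Comps T E) {H : Subgroup G} (hH : H ≤ G1 E) (f : Fin r → G) (hf : ∀ i, f i ∈ H)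
    (hoff : ∀ i j, j ≠ i → f i ∈ Kc G p E j) : ∃ y ∈ H, ∀ i, (f i)⁻¹ * y ∈ Kc G p E i := by
  classical
  suffices h : ∀ s : Finset (Fin r), ∃ y ∈ H,
      (∀ i ∈ s, (f i)⁻¹ * y ∈ Kc G p E i) ∧ ∀ i ∉ s, y ∈ Kc G p E i by
    obtain ⟨y, hy, h1, -⟩ := h Finset.univ
    exact ⟨y, hy, fun i => h1 i (Finset.mem_univ i)⟩
  intro s
  induction s using Finset.induction_on with
  | empty => exact ⟨1, one_mem _, fun i hi => absurd hi (Finset.notMem_empty i), fun i _ => one_mem _⟩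
  | insert a s ha ih =>
    obtain ⟨y, hy, h1, h2⟩ := ih
    refine ⟨f a * y, mul_mem (hf a) hy, fun i hi => ?_, fun i hi => ?_⟩
    · rcases Finset.mem_insert.1 hi with rfl | hi
      · simpa using h2 i ha
      · have hia : i ≠ a := fun e => ha (e ▸ hi)
        have h3 := (Subgroup.mem_normalizer_iff.1 (hE.G1_le_normalizer_Kc i (inv_mem (hH (hf i)))) (f a)).1 (hoff a i hia)
        have h4 := mul_mem h3 (h1 i hi)
        simpa [mul_assoc] using h4
    · rw [Finset.mem_insert, not_or] at hi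
      exact mul_mem (hoff a i hi.1) (h2 i hi.2)

/-- `B(T) ≤ J(T) Q`. -/
theorem baumann_le_sup (h : Hyp T) (hM : IsTop T M) (hE : Comps T E) :
    baumannSubgroupOf p (T : Subgroup G) ≤ thompsonSubgroupOf p (T : Subgroup G) ⊔ pCore p G := by
  classical
  intro b hb
  have hsame : ∀ i, ∃ a ∈ Jc T E i, ∀ v ∈ VG G p, (a * v * a⁻¹) * (b * v * b⁻¹)⁻¹ ∈ Wc G p E i := fun i => by
    obtain ⟨n, hn, ⟨F, hF, hFt, hcard, ⟨D₀⟩⟩ | ⟨hp, ⟨D⟩⟩⟩ := hE.exists_data i
    · haveI : CharP F p := by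
        obtain ⟨c, hc⟩ := CharP.exists F
        obtain ⟨m, hcp, hm⟩ := FiniteField.card F c
        have h1 : c ∣ p := hcp.dvd_of_dvd_pow (hcard ▸ hm ▸ dvd_pow_self c m.pos.ne')
        rwa [(Nat.prime_dvd_prime_iff_eq hcp Fact.out).1 h1] at hc
      obtain ⟨D, hD⟩ := D₀.exists_normalised hE
      exact D.exists_same hE h hM hD hb
    · obtain ⟨p0, τ, hS⟩ := exists_symShape h hM hE hp hn D
      exact D.exists_same hE h hM (by simp [parity_simps]; omega) hS hb
  choose f hf hfv using hsame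
  obtain ⟨e, heJ, he⟩ := hE.exists_lift (thompson_le_G1 hE) f (fun i => (mem_Jc.1 (hf i)).1)
    fun i j hj => (mem_Jc.1 (hf i)).2 j hj
  set x := e⁻¹ * b with hx
  have heG : e ∈ G1 E := thompson_le_G1 hE heJ
  haveI := hE.G1_normal
  haveI : IsMulCommutative ↥(VG G p) := VG_elem.1
  set Z0 := VG G p ⊓ Subgroup.centralizer (G1 E : Set G) with hZ0
  haveI : Z0.Normal := inferInstance
  -- the kernel
  set K2 : Subgroup G := ((Subgroup.centralizer (((VG G p).map (QuotientGroup.mk' Z0) : Subgroup (G ⧸ Z0)) :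
    Set (G ⧸ Z0))).comap (QuotientGroup.mk' Z0)) ⊓ Subgroup.centralizer (Z0 : Set G) with hK2
  haveI : ((VG G p).map (QuotientGroup.mk' Z0)).Normal :=
    Subgroup.Normal.map inferInstance _ (QuotientGroup.mk'_surjective Z0)
  haveI : K2.Normal := inferInstance
  have hK2mem : ∀ g : G, g ∈ K2 ↔ (∀ v ∈ VG G p, g * v * g⁻¹ * v⁻¹ ∈ Z0) ∧ ∀ z ∈ Z0, g * z = z * g := by
    intro g
    simp only [hK2, Subgroup.mem_inf, Subgroup.mem_comap, Subgroup.mem_centralizer_iff, Subgroup.coe_map,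
      Set.forall_mem_image, SetLike.mem_coe]
    refine and_congr (forall₂_congr fun v _ => ?_) (forall₂_congr fun z _ => eq_comm)
    rw [← QuotientGroup.eq_one_iff]
    show _ ↔ QuotientGroup.mk' Z0 (g * v * g⁻¹ * v⁻¹) = 1
    rw [map_mul, map_mul, map_mul, map_inv, map_inv, mul_inv_eq_one, mul_inv_eq_iff_eq_mul]
    exact eq_comm
  have hxK : x ∈ K2 := by
    refine (hK2mem x).2 ⟨fun v hv => ?_, fun z hz => ?_⟩
    · have hxv : x * v * x⁻¹ * v⁻¹ ∈ VG G p := mul_mem (VG_normal.conj_mem v hv x) (inv_mem hv)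
      have hW : ∀ i, x * v * x⁻¹ * v⁻¹ ∈ Wc G p E i := fun i => by
        -- `e v e⁻¹ ≡ f v f⁻¹ ≡ b v b⁻¹`
        have h1 := hE.Kc_act (he i) hv
        have h2 : f i * ((f i)⁻¹ * e * v * ((f i)⁻¹ * e)⁻¹ * v⁻¹) * (f i)⁻¹ ∈ Wc G p E i :=
          (Subgroup.mem_normalizer_iff.1 (hE.G1_le_normalizer_Wc i (Jc_le_G1 hE i (hf i))) _).1 h1
        have h3 := mul_mem h2 (hfv i v hv)
        have h4 := (Subgroup.mem_normalizer_iff.1 (hE.G1_le_normalizer_Wc i (inv_mem heG)) _).1 (inv_mem h3)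
        have e1 : x * v * x⁻¹ * v⁻¹ = e⁻¹ * (f i * ((f i)⁻¹ * e * v * ((f i)⁻¹ * e)⁻¹ * v⁻¹) * (f i)⁻¹ *
            (f i * v * (f i)⁻¹ * (b * v * b⁻¹)⁻¹))⁻¹ * e⁻¹⁻¹ := by
          rw [hx]; group
        rw [e1]; exact h4
      refine ⟨hxv, ?_⟩
      have h5 : G1 E ≤ Subgroup.centralizer ({x * v * x⁻¹ * v⁻¹} : Set G) := iSup_le fun i g hg =>
        Subgroup.mem_centralizer_singleton_iff.2 (Subgroup.mem_centralizer_iff.1 (hW i).2 g hg)
      exact Subgroup.mem_centralizer_iff.2 fun g hg => Subgroup.mem_centralizer_singleton_iff.1 (h5 hg)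
    · have hze : e * z = z * e := Subgroup.mem_centralizer_iff.1 hz.2 e heG
      have hzb : b * z * b⁻¹ = z := by
        rcases isEmpty_or_nonempty (Fin r) with hr | hr
        · exfalso
          refine thompson_not_le_CG h hM ((thompson_le_G1 hE).trans ?_)
          rw [G1, iSup_of_empty]; exact bot_le
        refine conj_fix_of_Fi h hM hE hz.1 hb fun A hA i => Wc_le_Fi hE (offFacts h hM hE hA).le i
          ⟨hz.1, Subgroup.centralizer_le (le_iSup E i) hz.2⟩
      have h2 : b * z = z * b := mul_inv_eq_iff_eq_mul.1 hzb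
      calc x * z = e⁻¹ * (b * z) := by rw [hx, mul_assoc]
        _ = e⁻¹ * (z * b) := by rw [h2]
        _ = (e⁻¹ * z) * b := by rw [mul_assoc]
        _ = z * x := by
          rw [show e⁻¹ * z = z * e⁻¹ from (Commute.inv_left (show Commute e z from hze)).eq, hx, mul_assoc]
  -- a normal `p`-group modulo `C`
  have hpow : ∀ g ∈ K2, g ^ p ∈ CG G p := by
    intro g hg
    obtain ⟨hg1, hg2⟩ := (hK2mem g).1 hg
    refine Subgroup.mem_centralizer_iff.2 fun v hv => ?_
    set z := g * v * g⁻¹ * v⁻¹ with hz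
    have hzZ : z ∈ Z0 := hg1 v hv
    have hit : ∀ k : ℕ, g ^ k * v * (g ^ k)⁻¹ = z ^ k * v := by
      intro k
      induction k with
      | zero => simp
      | succ k ih =>
        have h1 : g * z ^ k = z ^ k * g := hg2 _ (pow_mem hzZ k)
        calc g ^ (k + 1) * v * (g ^ (k + 1))⁻¹ = g * (g ^ k * v * (g ^ k)⁻¹) * g⁻¹ := by rw [pow_succ']; group
          _ = g * (z ^ k * v) * g⁻¹ := by rw [ih]
          _ = z ^ k * (g * v * g⁻¹) := by rw [← mul_assoc g, h1]; group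
          _ = z ^ k * (z * v) := by rw [hz, inv_mul_cancel_right]
          _ = _ := by rw [pow_succ]; exact (mul_assoc _ _ _).symm
    have h2 := hit p
    rw [(ThompsonJ.isElementaryAbelian_iff.1 (VG_elem (G := G) (p := p))).2 z hzZ.1, one_mul] at h2
    exact (mul_inv_eq_iff_eq_mul.1 h2).symm
  have hmap : IsPGroup p (K2.map (QuotientGroup.mk' (CG G p))) := by
    rintro ⟨_, g, hg, rfl⟩
    refine ⟨1, Subtype.ext ?_⟩
    show (QuotientGroup.mk' (CG G p) g) ^ p ^ 1 = 1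
    rw [pow_one, ← map_pow]
    exact (QuotientGroup.eq_one_iff _).2 (hpow g hg)
  haveI : (K2.map (QuotientGroup.mk' (CG G p))).Normal :=
    Subgroup.Normal.map inferInstance _ (QuotientGroup.mk'_surjective _)
  have hS := Cores.le_pCore hmap
  have hle2 : K2.map (QuotientGroup.mk' (CG G p)) ≤
      ((T.mapSurjective (QuotientGroup.mk'_surjective (CG G p)) : Sylow p (G ⧸ CG G p)) : Subgroup (G ⧸ CG G p)) :=
    hS.trans (CfsgLib.FFModules.pCore_le_sylow _)
  rw [Sylow.coe_mapSurjective] at hle2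
  have hK2M : K2 ≤ M := by
    intro g hg
    obtain ⟨t, ht, e1⟩ := hle2 ⟨g, hg, rfl⟩
    have h6 : t⁻¹ * g ∈ CG G p := (QuotientGroup.eq).1 e1
    have := M.mul_mem (hM.le ht) (CG_le h hM h6)
    rwa [mul_inv_cancel_left] at this
  have hxT : x ∈ (T : Subgroup G) := mul_mem (inv_mem (thompson_le_T heJ)) (baumann_le hb)
  have hxQ : x ∈ pCore p G := hM.inf_normal_le inferInstance hK2M ⟨hxT, hxK⟩
  rw [show b = e * x by rw [hx, mul_inv_cancel_left]]
  exact Subgroup.mul_mem_sup heJ hxQ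

theorem pCore_le_G1 (hE : Comps T E) (i : Fin r) : pCore p G ≤ G1 E := pCore_le_CG.trans (hE.CG_le_G1 i)

theorem nonempty_comps (h : Hyp T) (hM : IsTop T M) (hE : Comps T E) : Nonempty (Fin r) := by
  rcases isEmpty_or_nonempty (Fin r) with hr | hr
  · exfalso
    refine thompson_not_le_CG h hM ((thompson_le_G1 hE).trans ?_)
    rw [G1, iSup_of_empty]; exact bot_le
  · exact hr

theorem baumann_le_G1 (h : Hyp T) (hM : IsTop T M) (hE : Comps T E) :
    baumannSubgroupOf p (T : Subgroup G) ≤ G1 E :=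
  (baumann_le_sup h hM hE).trans (sup_le (thompson_le_G1 hE) (pCore_le_G1 hE (nonempty_comps h hM hE).some))

theorem thompson_sup_eq_top (h : Hyp T) (hM : IsTop T M) : thompsonSubgroup p G ⊔ (T : Subgroup G) = ⊤ := by
  haveI : (thompsonSubgroup p G).Characteristic := ThompsonJ.thompsonSubgroup_characteristic p G
  refine hM.eq_top_of_not_le le_sup_right fun hle => thompson_not_le_CG h hM ?_
  have h1 : thompsonSubgroupOf p (T : Subgroup G) ≤ (T : Subgroup G) ⊓ thompsonSubgroup p G :=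
    le_inf thompson_le_T (ThompsonJ.thompsonSubgroupOf_sylow_le T)
  exact h1.trans ((hM.inf_normal_le inferInstance (le_sup_left.trans hle)).trans pCore_le_CG)

/-- `Ω₁(Z(J(Q)))`. -/
abbrev UQ (G : Type*) [Group G] (p : ℕ) : Subgroup G := omegaOneCenter p (thompsonSubgroupOf p (pCore p G))

theorem UQ_normal : (UQ G p).Normal := by
  haveI : (thompsonSubgroupOf p (pCore p G)).Normal := by
    rw [← Subgroup.normalizer_eq_top_iff]
    refine top_le_iff.1 (le_trans ?_ (ThompsonJ.normalizer_le_normalizer_thompsonSubgroupOf p _))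
    haveI := CfsgLib.FFModules.normal_pCore (p := p) (G := G)
    rw [Subgroup.normalizer_eq_top_iff.2 inferInstance]
  exact MinimalParabolic.omegaOneCenter_normal _

/-- What the maximal elementary abelian subgroups give for `Z(J(T))` and `J(Q)`. -/
theorem UQ_facts (h : Hyp T) (hM : IsTop T M) (hE : Comps T E) :
    Z1 T ≤ UQ G p ∧ VG G p ≤ UQ G p ∧ VG G p ≤ thompsonSubgroupOf p (T : Subgroup G) ∧
      ∀ g ∈ thompsonSubgroupOf p (T : Subgroup G), ∀ u ∈ UQ G p, g * u * g⁻¹ * u⁻¹ ∈ VG G p := by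
  haveI := nonempty_comps h hM hE
  set Q := pCore p G
  set V := VG G p
  have hQT : Q ≤ (T : Subgroup G) := CfsgLib.FFModules.pCore_le_sylow T
  have hVQ : V ≤ Q := VG_le.trans inf_le_left
  obtain ⟨A₁, hA₁⟩ := ThompsonJ.exists_isMaxEA p (T : Subgroup G)
  have hA0Q : ∀ A, ThompsonJ.IsMaxEA p (T : Subgroup G) A → ThompsonJ.IsMaxEA p Q (A ⊓ Q ⊔ V) := fun A hA =>
    ⟨sup_le inf_le_right hVQ, (offFacts h hM hE hA).maxEA.elem,
      fun B hB hBe => (offFacts h hM hE hA).maxEA.card_le B (hB.trans hQT) hBe⟩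
  have hJQ : thompsonSubgroupOf p Q ≤ thompsonSubgroupOf p (T : Subgroup G) :=
    ThompsonJ.thompsonSubgroupOf_le_iff.2 fun B hB => ThompsonJ.le_thompsonSubgroupOf
      ⟨hB.le.trans hQT, hB.elem, fun B' hB' hB'e => ((offFacts h hM hE hA₁).maxEA.card_le B' hB' hB'e).trans
        (hB.card_le _ (hA0Q A₁ hA₁).le (hA0Q A₁ hA₁).elem)⟩
  have hVJQ : V ≤ thompsonSubgroupOf p Q := le_sup_right.trans (ThompsonJ.le_thompsonSubgroupOf (hA0Q A₁ hA₁))
  have hUe : IsElementaryAbelian p (UQ G p) := MinimalParabolic.isElementaryAbelian_omegaOneCenter _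
  have hUJ : UQ G p ≤ thompsonSubgroupOf p Q ⊓ Subgroup.centralizer (thompsonSubgroupOf p Q : Set G) :=
    ThompsonJ.omegaOne_le p _
  refine ⟨fun z hz => ?_, fun v hv => ?_, hVJQ.trans hJQ, ?_⟩
  · have h1 := ThompsonJ.omegaOne_le p _ hz
    have hzp := (ThompsonJ.isElementaryAbelian_iff.1
      (ThompsonJ.isElementaryAbelian_omegaOne_centerThompsonOf p (T : Subgroup G))).2 z hz
    exact ThompsonJ.mem_omegaOne ⟨ThompsonJ.le_thompsonSubgroupOf (hA0Q A₁ hA₁)
      (ThompsonJ.omegaOne_centerThompsonOf_le (offFacts h hM hE hA₁).maxEA hz),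
      Subgroup.centralizer_le hJQ h1.2⟩ hzp
  · exact ThompsonJ.mem_omegaOne ⟨hVJQ hv, Subgroup.centralizer_le (ThompsonJ.thompsonSubgroupOf_le p _)
      (VG_le hv).2⟩ ((ThompsonJ.isElementaryAbelian_iff.1 (VG_elem (G := G) (p := p))).2 v hv)
  -- every maximal `A` centralises `U / V`
  have hA : ∀ A, ThompsonJ.IsMaxEA p (T : Subgroup G) A → ∀ a ∈ A, ∀ u ∈ UQ G p, a * u * a⁻¹ * u⁻¹ ∈ V := by
    intro A hA a ha u hu
    have hO := offFacts h hM hE hA
    haveI := UQ_normal (G := G) (p := p)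
    haveI : V.Normal := VG_normal
    set U := UQ G p
    have hUQ : U ≤ Q := hUJ.trans (inf_le_left.trans (ThompsonJ.thompsonSubgroupOf_le p _))
    have hA1e : IsElementaryAbelian p (A ⊓ Q ⊔ U) := ThompsonJ.isElementaryAbelian_sup
      (ThompsonJ.isElementaryAbelian_mono hA.elem inf_le_left) hUe
      (Subgroup.le_centralizer_iff.1 (hUJ.trans (inf_le_right.trans (Subgroup.centralizer_le
        (SetLike.coe_subset_coe.2 (le_sup_left.trans (ThompsonJ.le_thompsonSubgroupOf (hA0Q A hA))))))))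
    have h1 := hA.card_le _ (sup_le (inf_le_left.trans hA.le) (hUQ.trans hQT)) hA1e
    rw [card_sup_normal, inf_assoc, inf_eq_right.2 hUQ, ← relIndex_mul_card (inf_le_left : A ⊓ Q ≤ A),
      Subgroup.inf_relIndex_left, ← hO.index, mul_comm _ (Nat.card ↥(A ⊓ Q))] at h1
    have h2 : (A ⊓ U).relIndex U ≤ (A ⊓ V).relIndex V := Nat.le_of_mul_le_mul_left h1 Nat.card_pos
    have hVU : V ≤ U := fun v hv => ThompsonJ.mem_omegaOne ⟨hVJQ hv, Subgroup.centralizer_le
      (ThompsonJ.thompsonSubgroupOf_le p _) (VG_le hv).2⟩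
      ((ThompsonJ.isElementaryAbelian_iff.1 (VG_elem (G := G) (p := p))).2 v hv)
    have hUeq : (A ⊓ U) ⊔ V = U := by
      refine Subgroup.eq_of_le_of_card_ge (sup_le inf_le_right hVU) ?_
      rw [card_sup_normal, inf_assoc, inf_eq_right.2 hVU, ← relIndex_mul_card (inf_le_right : A ⊓ U ≤ U),
        mul_comm]
      exact Nat.mul_le_mul_left _ h2
    rw [← hUeq] at hu
    obtain ⟨w, hw, v, hv, rfl⟩ := Subgroup.mem_sup_of_normal_right.1 hu
    have hwa : a * w = w * a := hO.comm a ha w hw.1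
    have e : a * (w * v) * a⁻¹ * (w * v)⁻¹ = w * (a * v * a⁻¹ * v⁻¹) * w⁻¹ := by
      calc a * (w * v) * a⁻¹ * (w * v)⁻¹ = (a * w) * v * a⁻¹ * v⁻¹ * w⁻¹ := by group
        _ = (w * a) * v * a⁻¹ * v⁻¹ * w⁻¹ := by rw [hwa]
        _ = _ := by group
    rw [e]
    exact VG_normal.conj_mem _ (mul_mem (VG_normal.conj_mem v hv a) (inv_mem hv)) w
  haveI : V.Normal := VG_normal
  haveI := UQ_normal (G := G) (p := p)
  haveI : ((UQ G p).map (QuotientGroup.mk' V)).Normal :=
    Subgroup.Normal.map inferInstance _ (QuotientGroup.mk'_surjective V)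
  set K3 : Subgroup G := (Subgroup.centralizer (((UQ G p).map (QuotientGroup.mk' V) : Subgroup (G ⧸ V)) :
    Set (G ⧸ V))).comap (QuotientGroup.mk' V) with hK3
  have hmem : ∀ g : G, g ∈ K3 ↔ ∀ u ∈ UQ G p, g * u * g⁻¹ * u⁻¹ ∈ V := by
    intro g
    simp only [hK3, Subgroup.mem_comap, Subgroup.mem_centralizer_iff, Subgroup.coe_map, Set.forall_mem_image,
      SetLike.mem_coe]
    refine forall₂_congr fun u _ => ?_
    rw [← QuotientGroup.eq_one_iff]
    show _ ↔ QuotientGroup.mk' V (g * u * g⁻¹ * u⁻¹) = 1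
    rw [map_mul, map_mul, map_mul, map_inv, map_inv, mul_inv_eq_one, mul_inv_eq_iff_eq_mul]
    exact eq_comm
  have hle : thompsonSubgroupOf p (T : Subgroup G) ≤ K3 :=
    ThompsonJ.thompsonSubgroupOf_le_iff.2 fun A hA' a ha => (hmem a).2 (hA A hA' a ha)
  exact fun g hg => (hmem g).1 (hle hg)

/-- `J(G)` centralises `Ω₁(Z(J(Q))) / V`. -/
theorem commutator_UQ (h : Hyp T) (hM : IsTop T M) (hE : Comps T E) :
    ∀ g ∈ thompsonSubgroup p G, ∀ u ∈ UQ G p, g * u * g⁻¹ * u⁻¹ ∈ VG G p := by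
  haveI : (VG G p).Normal := VG_normal
  haveI := UQ_normal (G := G) (p := p)
  intro g hg
  rw [ThompsonJ.thompsonSubgroup_eq_iSup_sylow] at hg
  induction hg using Subgroup.iSup_induction' with
  | hp S x hx =>
    intro u hu
    obtain ⟨c, rfl⟩ := MulAction.exists_smul_eq G T S
    rw [Sylow.coe_subgroup_smul, Subgroup.pointwise_smul_def] at hx
    rw [show (MulDistribMulAction.toMonoidEnd _ G (MulAut.conj c)) = (MulAut.conj c).toMonoidHom from rfl,
      ThompsonJ.thompsonSubgroupOf_conj] at hx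
    obtain ⟨y, hy, rfl⟩ := hx
    have h1 := (UQ_facts h hM hE).2.2.2 y hy (c⁻¹ * u * c) (by
      simpa using (inferInstance : (UQ G p).Normal).conj_mem u hu c⁻¹)
    have h2 := VG_normal.conj_mem _ h1 c
    show c * y * c⁻¹ * u * (c * y * c⁻¹)⁻¹ * u⁻¹ ∈ _
    convert h2 using 1
    group
  | h1 => intro u hu; simp
  | hmul a b _ _ ha hb =>
    intro u hu
    have h1 := hb u hu
    have hu' : b * u * b⁻¹ ∈ UQ G p := (inferInstance : (UQ G p).Normal).conj_mem u hu b
    have h2 := mul_mem (ha _ hu') h1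
    convert h2 using 1
    group

/-- The subgroup `U₁ = Ω₁(Z(J(T))) V`. -/
abbrev U1 (T : Sylow p G) : Subgroup G := Z1 T ⊔ VG G p

theorem T_conj_Z1 {t z : G} (ht : t ∈ (T : Subgroup G)) (hz : z ∈ Z1 T) : t * z * t⁻¹ ∈ Z1 T := by
  have h1 : t ∈ Subgroup.normalizer (Z1 T : Set G) := by
    refine TwoGroupTricks.normalizer_le_normalizer_omegaOne' _ (TwoGroupTricks.normalizer_inf_le ⟨?_, ?_⟩)
    · exact ThompsonJ.normalizer_le_normalizer_thompsonSubgroupOf p _ (Subgroup.le_normalizer ht)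
    · exact TwoGroupTricks.normalizer_le_normalizer_centralizer' _
        (ThompsonJ.normalizer_le_normalizer_thompsonSubgroupOf p _ (Subgroup.le_normalizer ht))
  exact (Subgroup.mem_normalizer_iff.1 h1 z).1 hz

theorem U1_le_UQ (h : Hyp T) (hM : IsTop T M) (hE : Comps T E) : U1 T ≤ UQ G p :=
  sup_le (UQ_facts h hM hE).1 (UQ_facts h hM hE).2.1

theorem U1_normal (h : Hyp T) (hM : IsTop T M) (hE : Comps T E) : (U1 T).Normal := by
  rw [← Subgroup.normalizer_eq_top_iff, ← top_le_iff, ← thompson_sup_eq_top h hM]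
  refine sup_le (fun g hg => Subgroup.mem_normalizer_fintype fun u hu => ?_)
    fun t ht => Subgroup.mem_normalizer_fintype fun u hu => ?_
  · have h1 : g * u * g⁻¹ * u⁻¹ ∈ U1 T :=
      Subgroup.mem_sup_right (commutator_UQ h hM hE g hg u (U1_le_UQ h hM hE hu))
    simpa using mul_mem h1 hu
  · have h1 : U1 T ≤ (U1 T).comap (MulAut.conj t).toMonoidHom := sup_le
      (fun z hz => Subgroup.mem_sup_left (T_conj_Z1 ht hz))
      (fun v hv => Subgroup.mem_sup_right (VG_normal.conj_mem v hv t))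
    exact h1 hu

/-- An element of order prime to `p` of `C` centralises `Ω₁(Z(J(Q)))`. -/
theorem centralizes_UQ (h : Hyp T) (hM : IsTop T M) (hE : Comps T E) {g : G} (hg : g ∈ CG G p)
    (hco : (orderOf g).Coprime p) : ∀ u ∈ UQ G p, g * u = u * g := by
  haveI : (thompsonSubgroup p G).Characteristic := ThompsonJ.thompsonSubgroup_characteristic p G
  have hgJ : g ∈ thompsonSubgroup p G := by
    have hmem : g ∈ thompsonSubgroup p G ⊔ (T : Subgroup G) := (thompson_sup_eq_top h hM).ge (Subgroup.mem_top g)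
    obtain ⟨j, hj, t, ht, e⟩ := Subgroup.mem_sup_of_normal_left.1 hmem
    set f := QuotientGroup.mk' (thompsonSubgroup p G) with hf
    have h1 : f g = f t := by
      rw [← e, map_mul, show f j = 1 from (QuotientGroup.eq_one_iff _).2 hj, one_mul]
    obtain ⟨k, hk⟩ := T.2 ⟨t, ht⟩
    have h2 : orderOf (f g) ∣ p ^ k := by
      rw [h1]
      refine (orderOf_map_dvd f t).trans (orderOf_dvd_of_pow_eq_one ?_)
      exact congrArg Subtype.val hk
    have h3 : orderOf (f g) = 1 := Nat.eq_one_of_dvd_coprimes (hco.pow_right k) (orderOf_map_dvd f g) h2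
    exact (QuotientGroup.eq_one_iff _).1 (orderOf_eq_one_iff.1 h3)
  intro u hu
  set w := g * u * g⁻¹ * u⁻¹ with hw
  have hwV : w ∈ VG G p := commutator_UQ h hM hE g hgJ u hu
  have hgw : g * w = w * g := (Subgroup.mem_centralizer_iff.1 hg w hwV).symm
  have hit : ∀ k : ℕ, g ^ k * u * (g ^ k)⁻¹ = w ^ k * u := by
    intro k
    induction k with
    | zero => simp
    | succ k ih =>
      have h1 : g * w ^ k = w ^ k * g := ((show Commute g w from hgw).pow_right k).eq
      calc g ^ (k + 1) * u * (g ^ (k + 1))⁻¹ = g * (g ^ k * u * (g ^ k)⁻¹) * g⁻¹ := by rw [pow_succ']; group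
        _ = g * (w ^ k * u) * g⁻¹ := by rw [ih]
        _ = w ^ k * (g * u * g⁻¹) := by rw [← mul_assoc g, h1]; group
        _ = w ^ k * (w * u) := by rw [hw, inv_mul_cancel_right]
        _ = _ := by rw [pow_succ]; exact (mul_assoc _ _ _).symm
  have h4 := hit (orderOf g)
  rw [pow_orderOf_eq_one, one_mul, inv_one, mul_one, eq_comm, mul_eq_right] at h4
  have h5 : w ^ p = 1 := (ThompsonJ.isElementaryAbelian_iff.1 (VG_elem (G := G) (p := p))).2 w hwV
  have h6 : orderOf w = 1 := Nat.eq_one_of_dvd_coprimes hco (orderOf_dvd_of_pow_eq_one h4) (orderOf_dvd_of_pow_eq_one h5)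
  exact mul_inv_eq_iff_eq_mul.1 (mul_inv_eq_one.1 (hw ▸ orderOf_eq_one_iff.1 h6))

/-- `C` is generated by `Q` and elements of order prime to `p`. -/
theorem exists_mul_CG (h : Hyp T) (hM : IsTop T M) {c : G} (hc : c ∈ CG G p) :
    ∃ q ∈ pCore p G, ∃ g ∈ CG G p, (orderOf g).Coprime p ∧ c = q * g := by
  haveI := CfsgLib.FFModules.normal_pCore (p := p) (G := G)
  have hrel : (T : Subgroup G).relIndex (CG G p) = (pCore p G).relIndex (CG G p) := by
    rw [← Subgroup.inf_relIndex_right, inf_CG_eq h hM]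
  set m := (pCore p G).relIndex (CG G p) with hm
  have hcop : m.Coprime p := by
    refine Nat.Coprime.symm ((Fact.out : p.Prime).coprime_iff_not_dvd.2 fun hd => T.not_dvd_index (hd.trans ?_))
    rw [← hrel]; exact relIndex_dvd_index _
  have hcm : c ^ m ∈ pCore p G :=
    Subgroup.mem_subgroupOf.1 (Subgroup.pow_index_mem ((pCore p G).subgroupOf (CG G p)) ⟨c, hc⟩)
  obtain ⟨k, hk⟩ := T.2 ⟨c ^ m, CfsgLib.FFModules.pCore_le_sylow T hcm⟩
  have hk' : (c ^ m) ^ p ^ k = 1 := congrArg Subtype.val hk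
  obtain ⟨a, b, hab⟩ : ∃ a b : ℤ, (a : ℤ) * m + b * (p ^ k : ℕ) = 1 :=
    ⟨_, _, by rw [mul_comm, mul_comm (Nat.gcdB m (p ^ k))]; rw [← Nat.gcd_eq_gcd_ab, hcop.pow_right k]; rfl⟩
  refine ⟨(c ^ m) ^ a, zpow_mem hcm a, (c ^ p ^ k) ^ b, zpow_mem (pow_mem hc _) b, ?_, ?_⟩
  · have h1 : orderOf ((c ^ p ^ k) ^ b) ∣ m := by
      refine orderOf_dvd_of_pow_eq_one ?_
      rw [← zpow_natCast, ← zpow_mul, mul_comm, zpow_mul, zpow_natCast, ← pow_mul, mul_comm, pow_mul, hk', one_zpow]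
    exact Nat.Coprime.coprime_dvd_left h1 hcop
  · conv_lhs => rw [← zpow_one c, ← hab, zpow_add, mul_comm a, mul_comm b, zpow_mul, zpow_mul, zpow_natCast,
      zpow_natCast]

/-- Baumann's lemma. -/
theorem normalClosure_inf_le (h : Hyp T) (hM : IsTop T M) (hE : Comps T E) :
    Subgroup.normalClosure (baumannSubgroupOf p (T : Subgroup G) : Set G) ⊓ pCore p G ≤
      baumannSubgroupOf p (T : Subgroup G) := by
  classical
  haveI := nonempty_comps h hM hE
  haveI : IsMulCommutative ↥(VG G p) := VG_elem.1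
  haveI : (VG G p).Normal := VG_normal
  haveI := hE.G1_normal
  haveI hU1n := U1_normal h hM hE
  haveI := CfsgLib.FFModules.normal_pCore (p := p) (G := G)
  set V := VG G p
  -- the element `y`
  choose y₀ hy₀ htwo using fun i => hE.exists_two h hM i
  obtain ⟨y, hyG, hy⟩ := hE.exists_lift le_rfl (fun i => (y₀ i : G)) (fun i => (y₀ i).2)
    fun i j hj => Subgroup.mem_sup_left (Subgroup.mem_iSup_of_mem i (Subgroup.mem_iSup_of_mem (Ne.symm hj) (hy₀ i)))
  have hty : ∀ i, _ := fun i => htwo i ⟨y, hyG⟩ (hy i)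
  set Y := thompsonSubgroupOf p (T : Subgroup G) ⊔
    (thompsonSubgroupOf p (T : Subgroup G)).map (MulAut.conj y).toMonoidHom with hY
  have hYG : Y ≤ G1 E := sup_le (thompson_le_G1 hE) (by
    rintro _ ⟨a, ha, rfl⟩; exact hE.G1_normal.conj_mem a (thompson_le_G1 hE ha) y)
  -- `G1 = Y C`
  have hYC : ∀ g ∈ G1 E, ∃ w ∈ Y, g⁻¹ * w ∈ CG G p := by
    intro g hg
    choose w hw hwK using fun i => (hty i).2 g hg
    have hwY : ∀ i, w i ∈ Y ∧ ∀ j, j ≠ i → w i ∈ Kc G p E j := fun i => by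
      have hle : Jc T E i ⊔ (Jc T E i).map (MulAut.conj y).toMonoidHom ≤
          Y ⊓ ⨅ j ∈ {j | j ≠ i}, Kc G p E j := by
        refine sup_le (le_inf (inf_le_left.trans le_sup_left) inf_le_right) ?_
        rintro _ ⟨a, ha, rfl⟩
        refine Subgroup.mem_inf.2 ⟨Subgroup.mem_sup_right ⟨a, (mem_Jc.1 ha).1, rfl⟩, ?_⟩
        simp only [Subgroup.mem_iInf, Set.mem_setOf_eq]
        exact fun j hj => (Subgroup.mem_normalizer_iff.1 (hE.G1_le_normalizer_Kc j hyG) a).1 ((mem_Jc.1 ha).2 j hj)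
      have := hle (hw i)
      simp only [Subgroup.mem_inf, Subgroup.mem_iInf] at this
      exact ⟨this.1, fun j hj => this.2 j hj⟩
    obtain ⟨z, hz, hzK⟩ := hE.exists_lift hYG w (fun i => (hwY i).1) fun i => (hwY i).2
    refine ⟨z, hz, hE.iInf_Kc (mul_mem (inv_mem hg) (hYG hz)) fun i => ?_⟩
    have := mul_mem (hwK i) (hzK i)
    simpa [mul_assoc] using this
  -- `F F^y = V`
  set F := Z1 T ⊓ V with hF
  set F' := F.map (MulAut.conj y).toMonoidHom with hF'
  have hF'V : F' ≤ V := by rintro _ ⟨v, hv, rfl⟩; exact VG_normal.conj_mem v hv.2 y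
  have hspan : F ⊔ F' = V := by
    refine le_antisymm (sup_le inf_le_right hF'V) fun v hv => ?_
    choose u₁ u₂ h1 h1' h2 h2' h3 using fun i => (hty i).1 v hv
    suffices hs : ∀ s : Finset (Fin r), ∃ z ∈ F ⊔ F',
        (∀ i ∈ s, v⁻¹ * z ∈ Wc G p E i) ∧ ∀ i ∉ s, z ∈ Wc G p E i by
      obtain ⟨z, hz, hz1, -⟩ := hs Finset.univ
      have hzV : z ∈ V := (sup_le inf_le_right hF'V : F ⊔ F' ≤ V) hz
      have hd : v⁻¹ * z ∈ F := Subgroup.mem_inf.2 ⟨mem_Z1_of_Fi h hM hE (mul_mem (inv_mem hv) hzV) fun A hA i =>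
        Wc_le_Fi hE (offFacts h hM hE hA).le i (hz1 i (Finset.mem_univ i)), mul_mem (inv_mem hv) hzV⟩
      have := mul_mem hz (inv_mem (Subgroup.mem_sup_left hd : v⁻¹ * z ∈ F ⊔ F'))
      simpa using this
    intro s
    induction s using Finset.induction_on with
    | empty => exact ⟨1, one_mem _, fun i hi => absurd hi (Finset.notMem_empty i), fun i _ => one_mem _⟩
    | insert a s ha ih =>
      obtain ⟨z, hz, hz1, hz2⟩ := ih
      set c := u₁ a * (y * u₂ a * y⁻¹) with hc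
      have hcU : c ∈ ⁅VG G p, E a⁆ := mul_mem (h1 a) (hE.G1_le_normalizer_moves hyG (h2 a))
      have hcV : c ∈ V := Comps.moves_le a hcU
      have hcW : ∀ j, j ≠ a → c ∈ Wc G p E j := fun j hj => hE.moves_le_Wc (Ne.symm hj) hcU
      refine ⟨c * z, mul_mem (mul_mem (Subgroup.mem_sup_left ⟨h1' a, Comps.moves_le a (h1 a)⟩)
        (Subgroup.mem_sup_right ⟨u₂ a, ⟨h2' a, Comps.moves_le a (h2 a)⟩, rfl⟩)) hz, fun i hi => ?_, fun i hi => ?_⟩
      · rcases Finset.mem_insert.1 hi with rfl | hi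
        · have := mul_mem (h3 i) (hz2 i ha)
          simpa [mul_assoc, hc] using this
        · have hia : i ≠ a := fun e => ha (e ▸ hi)
          have hzV : z ∈ V := (sup_le inf_le_right hF'V : F ⊔ F' ≤ V) hz
          rw [show v⁻¹ * (c * z) = c * (v⁻¹ * z) by
            rw [← mul_assoc, show v⁻¹ * c = c * v⁻¹ from congrArg Subtype.val
              (mul_comm (⟨v⁻¹, inv_mem hv⟩ : ↥(VG G p)) ⟨c, hcV⟩), mul_assoc]]
          exact mul_mem (hcW i hia) (hz1 i hi)
      · rw [Finset.mem_insert, not_or] at hi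
        exact mul_mem (hcW i hi.1) (hz2 i hi.2)
  -- `D₁ V = U₁`
  set Z' := (Z1 T).map (MulAut.conj y).toMonoidHom with hZ'
  have hZU : Z1 T ≤ U1 T := le_sup_left
  have hZ'U : Z' ≤ U1 T := by rintro _ ⟨z, hz, rfl⟩; exact hU1n.conj_mem z (hZU hz) y
  set D1 := Z1 T ⊓ Z' with hD1
  have hFe : Z' ⊓ V = F' := by
    apply le_antisymm
    · rintro _ ⟨⟨z, hz, rfl⟩, hv⟩
      refine ⟨z, ⟨hz, ?_⟩, rfl⟩
      simpa [mul_assoc] using VG_normal.conj_mem _ hv y⁻¹
    · exact le_inf (Subgroup.map_mono inf_le_left) hF'V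
  have hU1eq : U1 T ≤ D1 ⊔ V := by
    refine (Subgroup.eq_of_le_of_card_ge (sup_le (inf_le_left.trans hZU) le_sup_right) ?_).ge
    have k1 : Nat.card ↥(U1 T) = Nat.card ↥(Z1 T) * F.relIndex V := card_sup_normal _ _
    have hFsub : (F.subgroupOf V).Normal := inferInstance
    have k3 : Nat.card V = Nat.card F * F.relIndex V := by rw [mul_comm, relIndex_mul_card inf_le_right]
    have k4 : Nat.card V = Nat.card F' * (F ⊓ F').relIndex F := by
      have e1 := relIndex_mul_card (inf_le_left : F ⊓ F' ≤ F)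
      have e2 : F'.relIndex (F ⊔ F') = F'.relIndex F := by
        haveI : (F'.subgroupOf (F' ⊔ F)).Normal := (Subgroup.normal_subgroupOf_iff_le_normalizer le_sup_left).2
          (sup_le Subgroup.le_normalizer fun a ha => Subgroup.mem_normalizer_fintype fun b hb => by
            rw [show a * b = b * a from congrArg Subtype.val
              (mul_comm (⟨a, ha.2⟩ : ↥(VG G p)) ⟨b, hF'V hb⟩), mul_inv_cancel_right]; exact hb)
        have h5 := Subgroup.relIndex_sup_left (K := F'.subgroupOf (F' ⊔ F)) (H := F.subgroupOf (F' ⊔ F))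
        rw [← Subgroup.subgroupOf_sup le_sup_left le_sup_right, Subgroup.subgroupOf_self,
          Subgroup.relIndex_top_right, Subgroup.relIndex_subgroupOf le_sup_right] at h5
        rw [sup_comm]; exact h5
      have e3 := relIndex_mul_card (le_sup_right : F' ≤ F ⊔ F')
      rw [e2, hspan, ← Subgroup.inf_relIndex_left F F'] at e3
      rw [← e3, mul_comm]
    have hcF : Nat.card F' = Nat.card F := Subgroup.card_map_of_injective (MulAut.conj y).injective
    have hcZ : Nat.card Z' = Nat.card (Z1 T) := Subgroup.card_map_of_injective (MulAut.conj y).injective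
    have k5 : Nat.card F = Nat.card ↥(F ⊓ F') * (F ⊓ F').relIndex F := by
      rw [mul_comm, relIndex_mul_card inf_le_left]
    have eDV : D1 ⊓ V = F ⊓ F' := by
      rw [hD1, ← hFe, hF]
      exact le_antisymm (le_inf (inf_le_inf_right _ inf_le_left) (inf_le_inf_right _ inf_le_right))
        (le_inf (le_inf (inf_le_left.trans inf_le_left) (inf_le_right.trans inf_le_left))
          (inf_le_left.trans inf_le_right))
    have k6 : Nat.card ↥(D1 ⊔ V) = Nat.card D1 * (F ⊓ F').relIndex V := by rw [card_sup_normal, eDV]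
    have k7 : Nat.card V = Nat.card ↥(F ⊓ F') * (F ⊓ F').relIndex V := by
      rw [mul_comm, relIndex_mul_card (inf_le_left.trans inf_le_right)]
    have k8 : Nat.card ↥(U1 T) ≤ Nat.card D1 * (F.relIndex V * F.relIndex V) := by
      have e1 : (Z1 T).relIndex (U1 T) = F.relIndex V := by
        have := relIndex_mul_card hZU
        rw [k1, mul_comm (Nat.card ↥(Z1 T))] at this
        exact Nat.eq_of_mul_eq_mul_right Nat.card_pos this
      have e2 : Z'.relIndex (U1 T) = F.relIndex V := by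
        have := relIndex_mul_card hZ'U
        rw [hcZ, k1, mul_comm (Nat.card ↥(Z1 T))] at this
        exact Nat.eq_of_mul_eq_mul_right Nat.card_pos this
      rw [← relIndex_mul_card (inf_le_left.trans hZU : D1 ≤ U1 T), mul_comm _ (Nat.card D1)]
      refine Nat.mul_le_mul_left _ ?_
      have h9 : D1.relIndex (U1 T) ≤ (Z1 T).relIndex (U1 T) * Z'.relIndex (U1 T) := Subgroup.relIndex_inf_le
      rwa [e1, e2] at h9
    have k9 : (F ⊓ F').relIndex V = F.relIndex V * F.relIndex V := by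
      have a1 : (F ⊓ F').relIndex F = F.relIndex V := by
        rw [hcF] at k4
        exact Nat.eq_of_mul_eq_mul_left Nat.card_pos (k4.symm.trans k3)
      rw [← Subgroup.relIndex_mul_relIndex (F ⊓ F') F V inf_le_left inf_le_right, a1]
    rw [k6, k9]
    exact k8
  -- `G0` centralizes `D1`
  have hBD : D1 ≤ Subgroup.centralizer (baumannSubgroupOf p (T : Subgroup G) : Set G) :=
    inf_le_left.trans (Subgroup.le_centralizer_iff.1 le_centralizer_Z1)
  have hJD : Y ≤ Subgroup.centralizer (D1 : Set G) := by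
    refine sup_le ((TwoGroupTricks.thompsonSubgroupOf_le_baumann _).trans (Subgroup.le_centralizer_iff.1 hBD)) ?_
    rintro _ ⟨a, ha, rfl⟩
    refine Subgroup.mem_centralizer_iff.2 ?_
    rintro _ ⟨-, z, hz, rfl⟩
    rw [← map_mul, ← map_mul,
      Subgroup.mem_centralizer_iff.1 (le_centralizer_Z1 (TwoGroupTricks.thompsonSubgroupOf_le_baumann _ ha)) z hz]
  have hCD : ∀ c ∈ CG G p, ∀ d ∈ D1, c⁻¹ * d * c ∈ D1 := by
    intro c hc d hd
    obtain ⟨q, hq, g, hg, hgo, rfl⟩ := exists_mul_CG h hM hc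
    have hq' : q⁻¹ * d * q ∈ D1 := by
      refine ⟨?_, ?_⟩
      · simpa using T_conj_Z1 (CfsgLib.FFModules.pCore_le_sylow T (inv_mem hq)) hd.1
      · obtain ⟨z, hz, e⟩ := hd.2
        have hq2 : y⁻¹ * q⁻¹ * y ∈ pCore p G := by
          simpa using (inferInstance : (pCore p G).Normal).conj_mem _ (inv_mem hq) y⁻¹
        refine ⟨_, T_conj_Z1 (CfsgLib.FFModules.pCore_le_sylow T hq2) hz, ?_⟩
        rw [← e]
        show y * (y⁻¹ * q⁻¹ * y * z * (y⁻¹ * q⁻¹ * y)⁻¹) * y⁻¹ = q⁻¹ * (y * z * y⁻¹) * q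
        group
    have hgu := centralizes_UQ h hM hE hg hgo _ (U1_le_UQ h hM hE (hZU hq'.1))
    convert hq' using 1
    calc (q * g)⁻¹ * d * (q * g) = g⁻¹ * ((q⁻¹ * d * q) * g) := by group
      _ = g⁻¹ * (g * (q⁻¹ * d * q)) := by rw [hgu]
      _ = _ := by rw [inv_mul_cancel_left]
  have hG0 : Subgroup.normalClosure (baumannSubgroupOf p (T : Subgroup G) : Set G) ≤
      Subgroup.centralizer (D1 : Set G) := by
    refine (Subgroup.closure_le _).2 fun x hx => ?_
    obtain ⟨b, hb, hc⟩ := Group.mem_conjugatesOfSet_iff.1 hx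
    obtain ⟨g, rfl⟩ := isConj_iff.1 hc
    have htop : g ∈ G1 E ⊔ (T : Subgroup G) := by
      refine (le_of_eq_of_le (thompson_sup_eq_top h hM).symm (sup_le_sup_right ?_ _)) (Subgroup.mem_top g)
      exact le_sup_left.trans hE.sup.ge
    obtain ⟨h₁, hh₁, t, ht, rfl⟩ := Subgroup.mem_sup_of_normal_left.1 htop
    set b' := t * b * t⁻¹
    have hb' : b' ∈ baumannSubgroupOf p (T : Subgroup G) :=
      (Subgroup.mem_normalizer_iff.1 (TwoGroupTricks.le_normalizer_baumann_self _ ht) b).1 hb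
    obtain ⟨w, hw, hwc⟩ := hYC h₁ hh₁
    set c := h₁⁻¹ * w
    refine Subgroup.mem_centralizer_iff.2 fun d hd => ?_
    have hh : h₁ = w * c⁻¹ := by show h₁ = w * (h₁⁻¹ * w)⁻¹; group
    -- conjugate back
    have hd1 : w⁻¹ * d * w = d := by
      rw [mul_assoc, Subgroup.mem_centralizer_iff.1 (hJD hw) d hd, inv_mul_cancel_left]
    have hd2 : c * d * c⁻¹ ∈ D1 := by simpa using hCD c⁻¹ (inv_mem hwc) d hd
    have h7 := Subgroup.mem_centralizer_iff.1 (hBD hd2) b' hb'
    have e1 : h₁ * t * b * (h₁ * t)⁻¹ = h₁ * b' * h₁⁻¹ := by simp [b', mul_assoc]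
    have e2 : d = h₁ * (c * d * c⁻¹) * h₁⁻¹ := by
      rw [hh]
      conv_lhs => rw [← hd1]
      have : w * (w⁻¹ * d * w) * w⁻¹ = d := by group
      calc w⁻¹ * d * w = d := hd1
        _ = w * (w⁻¹ * d * w) * w⁻¹ := this.symm
        _ = w * d * w⁻¹ := by rw [hd1]
        _ = _ := by group
    show d * (h₁ * t * b * (h₁ * t)⁻¹) = h₁ * t * b * (h₁ * t)⁻¹ * d
    rw [e1, e2]
    calc h₁ * (c * d * c⁻¹) * h₁⁻¹ * (h₁ * b' * h₁⁻¹) = h₁ * ((c * d * c⁻¹) * b') * h₁⁻¹ := by group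
      _ = h₁ * (b' * (c * d * c⁻¹)) * h₁⁻¹ := by rw [h7]
      _ = _ := by group
  rintro x ⟨hx0, hxQ⟩
  refine ⟨CfsgLib.FFModules.pCore_le_sylow T hxQ, Subgroup.mem_centralizer_iff.2 fun z hz => ?_⟩
  obtain ⟨d, hd, v, hv, rfl⟩ := Subgroup.mem_sup_of_normal_right.1 (hU1eq (hZU hz))
  have h1 := Subgroup.mem_centralizer_iff.1 (hG0 hx0) d hd
  have h2 := Subgroup.mem_centralizer_iff.1 (pCore_le_CG hxQ) v hv
  calc d * v * x = d * (v * x) := mul_assoc _ _ _
    _ = d * (x * v) := by rw [h2]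
    _ = (d * x) * v := (mul_assoc _ _ _).symm
    _ = (x * d) * v := by rw [h1]
    _ = _ := mul_assoc _ _ _

/-- An element of `T ∩ ⟨B^G⟩` acting on `V` as an element of `J(T)` lies in `B`. -/
theorem mem_baumann_of_same (h : Hyp T) (hM : IsTop T M) (hE : Comps T E) {t j : G}
    (ht : t ∈ (T : Subgroup G)) (ht0 : t ∈ Subgroup.normalClosure (baumannSubgroupOf p (T : Subgroup G) : Set G))
    (hj : j ∈ thompsonSubgroupOf p (T : Subgroup G)) (hC : j⁻¹ * t ∈ CG G p) :
    t ∈ baumannSubgroupOf p (T : Subgroup G) := by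
  have hjB := TwoGroupTricks.thompsonSubgroupOf_le_baumann _ hj
  have h1 : j⁻¹ * t ∈ pCore p G :=
    (inf_CG_eq h hM).le (Subgroup.mem_inf.2 ⟨mul_mem (inv_mem (thompson_le_T hj)) ht, hC⟩)
  have h2 := normalClosure_inf_le h hM hE (Subgroup.mem_inf.2 ⟨mul_mem (inv_mem (Subgroup.subset_normalClosure hjB)) ht0, h1⟩)
  have := mul_mem hjB h2
  rwa [mul_inv_cancel_left] at this

end CfsgLib.FFModules.PushUpBlocks
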