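import Cfsg.Agent.Lib.FFModules.PushUpBlocks.Image

/-!
The Baumann subgroup acts on the components as `J(T)` does.
-/

set_option autoImplicit false
set_option linter.unusedSectionVars false

namespace CfsgLib.FFModules.PushUpBlocks

open Cfsg
open scoped commutatorElement MatrixGroups
open CfsgLib.FFModules.MinimalParabolic (upperSL upperSL_mulVec)

variable {G : Type*} [Group G] {p : ℕ} [Finite G] [Fact p.Prime] {T : Sylow p G} {r : ℕ}
  {E : Fin r → Subgroup G} {M : Subgroup G}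

/-- `Ω₁(Z(J(T)))`. -/
abbrev Z1 (T : Sylow p G) : Subgroup G := omegaOne p (centerThompsonOf p (T : Subgroup G))

theorem le_centralizer_Z1 : baumannSubgroupOf p (T : Subgroup G) ≤ Subgroup.centralizer (Z1 T : Set G) :=
  inf_le_right

/-- An element of `V` that is fixed modulo every `C_V(E_i)` by every maximal elementary abelian subgroup lies in
`Ω₁(Z(J(T)))`. -/
theorem mem_Z1_of_Fi (h : Hyp T) (hM : IsTop T M) (hE : Comps T E) [Nonempty (Fin r)] {v : G} (hv : v ∈ VG G p)
    (hfix : ∀ A, ThompsonJ.IsMaxEA p (T : Subgroup G) A → ∀ i, v ∈ Fi p E A i) : v ∈ Z1 T := by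
  have hin : ∀ A, ThompsonJ.IsMaxEA p (T : Subgroup G) A → v ∈ A := fun A hA =>
    ((offFacts h hM hE hA).iInf.le ⟨Subgroup.mem_iInf.2 (hfix A hA), hv⟩).1
  obtain ⟨A, hA⟩ := ThompsonJ.exists_isMaxEA p (T : Subgroup G)
  refine ThompsonJ.mem_omegaOne ⟨ThompsonJ.le_thompsonSubgroupOf hA (hin A hA), ?_⟩
    ((ThompsonJ.isElementaryAbelian_iff.1 (VG_elem (G := G) (p := p))).2 v hv)
  show v ∈ Subgroup.centralizer (thompsonSubgroupOf p (T : Subgroup G) : Set G)
  have h1 : thompsonSubgroupOf p (T : Subgroup G) ≤ Subgroup.centralizer ({v} : Set G) :=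
    ThompsonJ.thompsonSubgroupOf_le_iff.2 fun B hB b hb => Subgroup.mem_centralizer_singleton_iff.2
      (Subgroup.mem_centralizer_iff.1 (ThompsonJ.isElementaryAbelian_le_centralizer hB.elem (hin B hB)) b hb)
  exact Subgroup.mem_centralizer_iff.2 fun a ha => Subgroup.mem_centralizer_singleton_iff.1 (h1 ha)

theorem conj_fix_of_Fi (h : Hyp T) (hM : IsTop T M) (hE : Comps T E) [Nonempty (Fin r)] {v b : G} (hv : v ∈ VG G p)
    (hb : b ∈ baumannSubgroupOf p (T : Subgroup G))
    (hfix : ∀ A, ThompsonJ.IsMaxEA p (T : Subgroup G) A → ∀ i, v ∈ Fi p E A i) : b * v * b⁻¹ = v := by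
  rw [← Subgroup.mem_centralizer_iff.1 (le_centralizer_Z1 hb) v (mem_Z1_of_Fi h hM hE hv hfix),
    mul_inv_cancel_right]

theorem SLData.conj_fix (h : Hyp T) (hM : IsTop T M) (hE : Comps T E) {i : Fin r} {F : Type} [Field F]
    (D : SLData G p E i F)
    (hD : ∀ a : ↥(G1 E), (a : G) ∈ (T : Subgroup G) → Loc.app (D.Φ a) (Loc.e1 F) = Loc.e1 F)
    {b : G} (hb : b ∈ baumannSubgroupOf p (T : Subgroup G)) {v : ↥(VG G p)} (hv : (v : G) ∈ ⁅VG G p, E i⁆)
    (hv1 : Multiplicative.toAdd (D.Ψ v) 1 = 0) : b * v * b⁻¹ = v := by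
  haveI : Nonempty (Fin r) := ⟨i⟩
  refine conj_fix_of_Fi h hM hE v.2 hb fun A hA j => ?_
  have hA1 := (offFacts h hM hE hA).le
  rcases eq_or_ne j i with rfl | hji
  · refine (mem_Fi_iff D.Φ D.Ψ (fun s y => Multiplicative.ofAdd (Loc.app s (Multiplicative.toAdd y))) D.kerΨ
      (fun g v w hw => Multiplicative.toAdd.injective (D.equiv g v w hw)) hA1 v).2 ?_
    rintro _ ⟨a, ha, rfl⟩
    obtain ⟨t, ht⟩ := Loc.exists_of_fix (hD a (hA.le ha))
    refine Multiplicative.toAdd.injective ?_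
    show Loc.app (D.Φ a) _ = _
    rw [ht, Loc.app, upperSL_mulVec]
    funext k; fin_cases k <;> simp [hv1]
  · exact Wc_le_Fi hE hA1 j (hE.moves_le_Wc (Ne.symm hji) hv)

theorem SymData.conj_fix (h : Hyp T) (hM : IsTop T M) (hE : Comps T E) {i : Fin r} {m : ℕ}
    (D : SymData G p E i m) {p0 : Fin m} {τ : Equiv.Perm (Fin m)} (hS : SymShape T D p0 τ)
    {b : G} (hb : b ∈ baumannSubgroupOf p (T : Subgroup G)) {v : ↥(VG G p)} (hv : (v : G) ∈ ⁅VG G p, E i⁆)
    (hv1 : ∀ k, Multiplicative.toAdd (D.Ψ v) (τ k) = Multiplicative.toAdd (D.Ψ v) k) : b * v * b⁻¹ = v := by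
  haveI : Nonempty (Fin r) := ⟨i⟩
  refine conj_fix_of_Fi h hM hE v.2 hb fun A hA j => ?_
  have hA1 := (offFacts h hM hE hA).le
  rcases eq_or_ne j i with rfl | hji
  · refine (mem_Fi_iff D.Φ D.Ψ (fun s y => Multiplicative.ofAdd fun k => Multiplicative.toAdd y (s⁻¹ k)) D.kerΨ
      (fun g v w hw => Multiplicative.toAdd.injective (funext (D.equiv g v w hw))) hA1 v).2 ?_
    rintro _ ⟨a, ha, rfl⟩
    refine Multiplicative.toAdd.injective (funext fun k => ?_)
    show Multiplicative.toAdd (D.Ψ v) ((D.Φ a)⁻¹ k) = _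
    rcases hS.upper a (ThompsonJ.le_thompsonSubgroupOf hA ha) ((D.Φ a)⁻¹ k) with e | e
    · rw [Equiv.Perm.inv_def, Equiv.apply_symm_apply, ← Equiv.Perm.inv_def] at e
      rw [← e]
    · rw [Equiv.Perm.inv_def, Equiv.apply_symm_apply, ← Equiv.Perm.inv_def] at e
      conv_rhs => rw [e]
      rw [hv1]
  · exact Wc_le_Fi hE hA1 j (hE.moves_le_Wc (Ne.symm hji) hv)

/-- A vector with the given image. -/
theorem SymData.exists_pair {i : Fin r} {m : ℕ} (D : SymData G p E i m) (a c : Fin m) :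
    ∃ v : ↥(VG G p), (v : G) ∈ ⁅VG G p, E i⁆ ∧
      Multiplicative.toAdd (D.Ψ v) = Pi.single a 1 + Pi.single c 1 :=
  D.surjΨ _ (by simp [Finset.sum_add_distrib]; decide)

theorem pair_const {m : ℕ} {τ : Equiv.Perm (Fin m)} (hinv : ∀ k, τ (τ k) = k) (k x : Fin m) :
    (Pi.single k 1 + Pi.single (τ k) 1 : Fin m → ZMod 2) (τ x) =
      (Pi.single k 1 + Pi.single (τ k) 1 : Fin m → ZMod 2) x := by
  simp only [Pi.add_apply, Pi.single_apply]
  have h1 : τ x = k ↔ x = τ k := ⟨fun q => by rw [← q, hinv], fun q => by rw [q, hinv]⟩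
  simp only [h1, τ.injective.eq_iff]
  exact add_comm _ _

/-- The Baumann subgroup normalises every component. -/
theorem baumann_normalizes (h : Hyp T) (hM : IsTop T M) (hE : Comps T E) {b : G}
    (hb : b ∈ baumannSubgroupOf p (T : Subgroup G)) (i : Fin r) :
    (E i).map (MulAut.conj b).toMonoidHom = E i := by
  obtain ⟨j, hj⟩ := hE.exists_conj_eq b i
  rcases eq_or_ne j i with rfl | hji
  · exact hj
  exfalso
  have key : ∀ v : G, v ∈ ⁅VG G p, E i⁆ → b * v * b⁻¹ = v → v ∈ Wc G p E i := fun v hv e => by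
    refine hE.moves_le_Wc hji ?_
    rw [← e]
    have h1 : b * v * b⁻¹ ∈ (⁅VG G p, E i⁆).map (MulAut.conj b).toMonoidHom := ⟨v, hv, rfl⟩
    rw [Subgroup.map_commutator, hj] at h1
    refine Subgroup.commutator_mono ?_ le_rfl h1
    rintro _ ⟨x, hx, rfl⟩; exact VG_normal.conj_mem x hx b
  obtain ⟨n, hn, ⟨F, hF, hFt, hcard, ⟨D₀⟩⟩ | ⟨hp, ⟨D⟩⟩⟩ := hE.exists_data i
  · haveI : CharP F p := by
      obtain ⟨c, hc⟩ := CharP.exists F
      obtain ⟨m, hcp, hm⟩ := FiniteField.card F c
      have h1 : c ∣ p := hcp.dvd_of_dvd_pow (hcard ▸ hm ▸ dvd_pow_self c m.pos.ne')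
      rwa [(Nat.prime_dvd_prime_iff_eq hcp Fact.out).1 h1] at hc
    obtain ⟨D, hD⟩ := D₀.exists_normalised hE
    obtain ⟨v, hv, e⟩ := D.surjΨ (Multiplicative.ofAdd (Loc.e1 F))
    have h1 := (D.kerΨ v).2 (key v hv (D.conj_fix h hM hE hD hb hv (by rw [e]; simp [Loc.e1])))
    rw [e] at h1
    simpa [Loc.e1] using congrFun (congrArg Multiplicative.toAdd h1) 0
  · obtain ⟨p0, τ, hS⟩ := exists_symShape h hM hE hp hn D
    obtain ⟨k, hk⟩ : ∃ k, k ≠ p0 := by
      have hm : 1 < 2 ^ n + 1 := by have := Nat.one_lt_two_pow (show n ≠ 0 by omega); omega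
      exact @exists_ne _ (Fin.nontrivial_iff_two_le.2 (by omega)) p0
    obtain ⟨v, hv, e⟩ := D.exists_pair k (τ k)
    have h1 := (D.kerΨ v).2 (key v hv (D.conj_fix h hM hE hS hb hv (fun x => by
      rw [e]; exact pair_const hS.inv k x)))
    rw [h1] at e
    have h2 := congrFun e k
    simp [Pi.single_apply, Ne.symm (hS.ne k hk)] at h2

variable (hE : Comps T E)
include hE

theorem conj_mem_Kc_of_normalizes {b : G} (hb : ∀ i, (E i).map (MulAut.conj b).toMonoidHom = E i) {i : Fin r}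
    {g : G} (hg : g ∈ Kc G p E i) : b * g * b⁻¹ ∈ Kc G p E i := by
  have h1 : Kc G p E i ≤ (Kc G p E i).comap (MulAut.conj b).toMonoidHom := by
    refine sup_le (iSup₂_le fun j hj x hx => ?_) fun x hx =>
      Subgroup.mem_sup_right ((inferInstance : (CG G p).Normal).conj_mem x hx b)
    refine Subgroup.mem_sup_left (Subgroup.mem_iSup_of_mem j (Subgroup.mem_iSup_of_mem hj ?_))
    exact (hb j).le ⟨x, hx, rfl⟩
  exact h1 hg

theorem conj_mem_Wc_of_normalizes {b : G} (hb : ∀ i, (E i).map (MulAut.conj b).toMonoidHom = E i) {i : Fin r}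
    {v : G} (hv : v ∈ Wc G p E i) : b * v * b⁻¹ ∈ Wc G p E i := by
  refine ⟨VG_normal.conj_mem v hv.1 b, Subgroup.mem_centralizer_iff.2 fun x hx => ?_⟩
  obtain ⟨y, hy, rfl⟩ := (hb i).ge hx
  show b * y * b⁻¹ * (b * v * b⁻¹) = b * v * b⁻¹ * (b * y * b⁻¹)
  have := Subgroup.mem_centralizer_iff.1 hv.2 y hy
  calc b * y * b⁻¹ * (b * v * b⁻¹) = b * (y * v) * b⁻¹ := by group
    _ = b * (v * y) * b⁻¹ := by rw [this]
    _ = _ := by group

/-- On a linear component an element of `B` acts as one of `J(T)`. -/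
theorem SLData.exists_same (h : Hyp T) (hM : IsTop T M) {i : Fin r} {F : Type} [Field F] [Finite F] [CharP F p]
    (D : SLData G p E i F)
    (hD : ∀ a : ↥(G1 E), (a : G) ∈ (T : Subgroup G) → Loc.app (D.Φ a) (Loc.e1 F) = Loc.e1 F)
    {b : G} (hb : b ∈ baumannSubgroupOf p (T : Subgroup G)) :
    ∃ a ∈ Jc T E i, ∀ v ∈ VG G p, (a * v * a⁻¹) * (b * v * b⁻¹)⁻¹ ∈ Wc G p E i := by
  have hbn : ∀ j, (E j).map (MulAut.conj b).toMonoidHom = E j := baumann_normalizes h hM hE hb
  have hmem : ∀ (x : G) (v : ↥(VG G p)), x * v * x⁻¹ ∈ VG G p := fun x v => VG_normal.conj_mem _ v.2 x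
  let Ψb : ↥(VG G p) →* Multiplicative (Fin 2 → F) :=
    D.Ψ.comp (MonoidHom.mk' (fun v => ⟨b * v * b⁻¹, hmem b v⟩) fun u v => Subtype.ext (by
      show b * ((u : G) * v) * b⁻¹ = b * u * b⁻¹ * (b * v * b⁻¹)
      group))
  have hker : ∀ u v, D.Ψ u = D.Ψ v → Ψb u = Ψb v := fun u v e => by
    rw [← mul_inv_eq_one, ← map_inv, ← map_mul]
    refine (D.kerΨ _).2 ?_
    show b * ((u : G) * (v : G)⁻¹) * b⁻¹ ∈ Wc G p E i
    refine conj_mem_Wc_of_normalizes hE hbn ((D.kerΨ (u * v⁻¹)).1 ?_)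
    rw [map_mul, map_inv, e, mul_inv_cancel]
  choose rep hrepU hrep using fun x : Fin 2 → F => D.surjΨ (Multiplicative.ofAdd x)
  set β : (Fin 2 → F) → (Fin 2 → F) := fun x => Multiplicative.toAdd (Ψb (rep x)) with hβ
  have hβv : ∀ v, Multiplicative.toAdd (Ψb v) = β (Multiplicative.toAdd (D.Ψ v)) := fun v =>
    congrArg _ (hker _ _ (by rw [hrep, ofAdd_toAdd]))
  have hadd : ∀ x y, β (x + y) = β x + β y := fun x y => by
    show _ = Multiplicative.toAdd (Ψb (rep x)) + Multiplicative.toAdd (Ψb (rep y))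
    rw [← toAdd_mul, ← map_mul]
    refine congrArg Multiplicative.toAdd (hker _ _ ?_)
    simp only [map_mul, hrep, ofAdd_add]
  have hfix : ∀ x : F, β ![x, 0] = ![x, 0] := fun x => by
    have h1 := D.conj_fix h hM hE hD hb (hrepU ![x, 0]) (by rw [hrep]; simp)
    show Multiplicative.toAdd (D.Ψ ⟨b * (rep ![x, 0] : G) * b⁻¹, hmem b _⟩) = _
    rw [show (⟨b * (rep ![x, 0] : G) * b⁻¹, hmem b _⟩ : ↥(VG G p)) = rep ![x, 0] from Subtype.ext h1, hrep, toAdd_ofAdd]
  have hG1 : ∀ g : ↥(G1 E), b * (g : G) * b⁻¹ ∈ G1 E := fun g => hE.G1_normal.conj_mem _ g.2 b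
  have hconj : ∀ (g : ↥(G1 E)) (x : Fin 2 → F),
      β (Loc.app (D.Φ g) x) = Loc.app (D.Φ ⟨_, hG1 g⟩) (β x) := fun g x => by
    have h1 := D.equiv g (rep x) ⟨_, hmem g (rep x)⟩ rfl
    rw [hrep, toAdd_ofAdd] at h1
    rw [show Loc.app (D.Φ g) x = _ from h1.symm, ← hβv]
    exact D.equiv ⟨_, hG1 g⟩ ⟨_, hmem b (rep x)⟩ ⟨_, hmem b ⟨_, hmem g (rep x)⟩⟩ (by
      show b * ((g : G) * rep x * (g : G)⁻¹) * b⁻¹ = b * (g : G) * b⁻¹ * (b * rep x * b⁻¹) * (b * (g : G) * b⁻¹)⁻¹
      group)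
  have hdec : ∀ x y : F, β ![x, y] = ![x + β ![0, y] 0, β ![0, y] 1] := fun x y => by
    rw [show (![x, y] : Fin 2 → F) = ![x, 0] + ![0, y] by ext k; fin_cases k <;> simp, hadd, hfix]
    ext k; fin_cases k <;> simp
  -- conjugation of the unipotent elements
  obtain ⟨a₁, ha₁, e₁⟩ := imageSL h hM hE D hD 1
  obtain ⟨s, hs⟩ := Loc.exists_of_fix (hD ⟨_, hG1 a₁⟩
    ((T : Subgroup G).mul_mem ((T : Subgroup G).mul_mem (baumann_le hb) (Jc_le_T i ha₁))
      ((T : Subgroup G).inv_mem (baumann_le hb))))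
  have hy : ∀ y : F, y = s * β ![0, y] 1 := fun y => by
    have h1 := hconj a₁ ![0, y]
    rw [e₁, hs, Loc.app, Loc.app, upperSL_mulVec, upperSL_mulVec] at h1
    simp only [Matrix.cons_val_zero, Matrix.cons_val_one, zero_add, one_mul] at h1
    rw [hdec] at h1
    have h2 := congrFun h1 0
    simp only [Matrix.cons_val_zero] at h2
    linear_combination h2
  set l := β ![0, 1] 1 with hl
  have hs0 : s ≠ 0 := fun e => by have := hy 1; rw [e, zero_mul] at this; exact one_ne_zero this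
  have hlin : ∀ y, β ![0, y] 1 = l * y := fun y => by
    have h1 := hy y
    have h2 := hy 1
    rw [← hl] at h2
    refine mul_left_cancel₀ hs0 ?_
    linear_combination -h1 + y * h2
  -- `b` has `p`-power order
  have hl1 : l = 1 := by
    obtain ⟨e, he⟩ := T.2 ⟨b, baumann_le hb⟩
    have hbe : b ^ p ^ e = 1 := congrArg Subtype.val he
    have hiter : ∀ (k : ℕ) (v w : ↥(VG G p)), (w : G) = b ^ k * v * (b ^ k)⁻¹ →
        Multiplicative.toAdd (D.Ψ w) 1 = l ^ k * Multiplicative.toAdd (D.Ψ v) 1 := by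
      intro k
      induction k with
      | zero => intro v w hw; rw [show w = v from Subtype.ext (by simpa using hw)]; simp
      | succ k ih =>
        intro v w hw
        have h1 := ih v ⟨_, hmem (b ^ k) v⟩ rfl
        have h2 := hβv ⟨_, hmem (b ^ k) v⟩
        rw [show w = ⟨b * (b ^ k * v * (b ^ k)⁻¹) * b⁻¹, hmem b ⟨_, hmem (b ^ k) v⟩⟩ from Subtype.ext (by
          rw [hw, pow_succ']; group)]
        show Multiplicative.toAdd (Ψb ⟨_, hmem (b ^ k) v⟩) 1 = _
        rw [h2]
        set z := Multiplicative.toAdd (D.Ψ ⟨b ^ k * v * (b ^ k)⁻¹, hmem (b ^ k) v⟩) with hz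
        rw [show z = ![z 0, z 1] by ext j; fin_cases j <;> simp, hdec]
        simp only [Matrix.cons_val_one, Matrix.cons_val_zero]
        rw [hlin, h1, pow_succ']; ring
    have h1 := hiter (p ^ e) (rep ![0, 1]) (rep ![0, 1]) (by rw [hbe]; simp)
    rw [hrep] at h1
    simp at h1
    have h2 : (l - 1) ^ p ^ e = 0 := by rw [sub_pow_char_pow, ← h1, one_pow, sub_self]
    exact sub_eq_zero.1 (pow_eq_zero_iff (pow_ne_zero e (Fact.out : p.Prime).ne_zero) |>.1 h2)
  -- linearity
  obtain ⟨g, -, eg⟩ := D.surjΦ (⟨!![1, 0; 1, 1], by simp [Matrix.det_fin_two]⟩ : Matrix.SpecialLinearGroup (Fin 2) F)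
  set u := D.Φ ⟨_, hG1 g⟩ with hu
  have hh : ∀ x : F, β ![0, x] 0 = (u 0 0 - 1) * x := fun x => by
    have h1 := hconj g ![x, 0]
    rw [eg, hfix] at h1
    simp only [Loc.app] at h1
    rw [show (!![(1 : F), 0; 1, 1]).mulVec ![x, 0] = ![x, x] by
      ext k; fin_cases k <;> simp [Matrix.mulVec, dotProduct], hdec] at h1
    have h2 := congrFun h1 0
    simp [Matrix.mulVec, dotProduct] at h2
    linear_combination h2
  obtain ⟨a, ha, ea⟩ := imageSL h hM hE D hD (u 0 0 - 1)
  refine ⟨a, ha, fun v hv => (D.kerΨ (⟨_, hmem a ⟨v, hv⟩⟩ * ⟨_, hmem b ⟨v, hv⟩⟩⁻¹)).1 ?_⟩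
  rw [map_mul, map_inv, mul_inv_eq_one]
  refine Multiplicative.toAdd.injective ?_
  rw [D.equiv a ⟨v, hv⟩ ⟨_, hmem a ⟨v, hv⟩⟩ rfl, ea]
  show _ = Multiplicative.toAdd (Ψb ⟨v, hv⟩)
  rw [hβv]
  set z := Multiplicative.toAdd (D.Ψ ⟨v, hv⟩)
  rw [upperSL_mulVec]
  conv_rhs => rw [show z = ![z 0, z 1] by ext j; fin_cases j <;> simp, hdec, hlin, hl1, one_mul, hh]

/-- On a symmetric component an element of `B` acts as one of `J(T)`. -/
theorem SymData.exists_same (h : Hyp T) (hM : IsTop T M) {i : Fin r} {m : ℕ} (hodd : Odd m)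
    (D : SymData G p E i m) {p0 : Fin m} {τ : Equiv.Perm (Fin m)} (hS : SymShape T D p0 τ)
    {b : G} (hb : b ∈ baumannSubgroupOf p (T : Subgroup G)) :
    ∃ a ∈ Jc T E i, ∀ v ∈ VG G p, (a * v * a⁻¹) * (b * v * b⁻¹)⁻¹ ∈ Wc G p E i := by
  classical
  have htwo : ∀ c : ZMod 2, c + c = 0 := CharTwo.add_self_eq_zero
  have hcases : ∀ c : ZMod 2, c = 0 ∨ c = 1 := by decide
  have hbn : ∀ j, (E j).map (MulAut.conj b).toMonoidHom = E j := baumann_normalizes h hM hE hb
  have hmem : ∀ (x : G) (v : ↥(VG G p)), x * v * x⁻¹ ∈ VG G p := fun x v => VG_normal.conj_mem _ v.2 x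
  set P : ↥(VG G p) → (Fin m → ZMod 2) := fun v => Multiplicative.toAdd (D.Ψ v) with hP
  set Pb : ↥(VG G p) → (Fin m → ZMod 2) := fun v => P ⟨b * v * b⁻¹, hmem b v⟩ with hPb
  have hmul : ∀ u v, P (u * v) = P u + P v := fun u v => by simp [hP]
  have hmulb : ∀ u v, Pb (u * v) = Pb u + Pb v := fun u v => by
    simp only [hPb]
    rw [← hmul]
    refine congrArg P (Subtype.ext ?_)
    show b * ((u : G) * v) * b⁻¹ = b * u * b⁻¹ * (b * v * b⁻¹)
    group
  have hker : ∀ u v, P u = P v → Pb u = Pb v := fun u v e => by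
    have h1 : ((u * v⁻¹ : ↥(VG G p)) : G) ∈ Wc G p E i := (D.kerΨ _).1 (Multiplicative.toAdd.injective (by
      have := hmul (u * v⁻¹) v
      rw [inv_mul_cancel_right] at this
      show P (u * v⁻¹) = 0
      rw [e] at this; simpa using this.symm))
    have h2 := (D.kerΨ ⟨_, hmem b (u * v⁻¹)⟩).2 (conj_mem_Wc_of_normalizes hE hbn h1)
    have h3 := hmulb (u * v⁻¹) v
    rw [inv_mul_cancel_right, show Pb (u * v⁻¹) = 0 from congrArg Multiplicative.toAdd h2, zero_add] at h3
    exact h3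
  have hfix : ∀ v, (∀ k, P v (τ k) = P v k) → Pb v = P v := fun v hv => by
    obtain ⟨v', hv', e⟩ := D.surjΨ (P v) (D.even v)
    rw [hker v v' e.symm]
    show P ⟨_, hmem b v'⟩ = _
    rw [show (⟨b * (v' : G) * b⁻¹, hmem b v'⟩ : ↥(VG G p)) = v' from
      Subtype.ext (D.conj_fix h hM hE hS hb hv' (fun k => by rw [e]; exact hv k))]
    exact e
  have hG1 : ∀ g : ↥(G1 E), b * (g : G) * b⁻¹ ∈ G1 E := fun g => hE.G1_normal.conj_mem _ g.2 b
  have hconj : ∀ (g : ↥(G1 E)) (v : ↥(VG G p)) (k : Fin m),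
      Pb ⟨_, hmem g v⟩ k = Pb v ((D.Φ ⟨_, hG1 g⟩)⁻¹ k) := fun g v k =>
    D.equiv ⟨_, hG1 g⟩ ⟨_, hmem b v⟩ ⟨_, hmem b ⟨_, hmem g v⟩⟩ (by
      show b * ((g : G) * v * (g : G)⁻¹) * b⁻¹ = b * (g : G) * b⁻¹ * (b * v * b⁻¹) * (b * (g : G) * b⁻¹)⁻¹
      group) k
  have hequiv : ∀ (g : ↥(G1 E)) (v : ↥(VG G p)) (k : Fin m), P ⟨_, hmem g v⟩ k = P v ((D.Φ g)⁻¹ k) := fun g v k =>
    D.equiv g v ⟨_, hmem g v⟩ rfl k
  have hpre : ∀ a c, ∃ u, Pb u = Pi.single a 1 + Pi.single c 1 := fun a c => by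
    obtain ⟨z, -, e⟩ := D.exists_pair a c
    refine ⟨⟨b⁻¹ * z * b, by simpa using hmem b⁻¹ z⟩, ?_⟩
    show P _ = _
    rw [← e]
    exact congrArg P (Subtype.ext (by simp [mul_assoc]))
  have hne1 : ∀ g : ↥(G1 E), D.Φ ⟨_, hG1 g⟩ = 1 → D.Φ g = 1 := fun g e => by
    refine (D.kerΦ g).2 ?_
    have h1 := conj_mem_Kc_of_normalizes hE (b := b⁻¹) (fun j => by
      conv_lhs => rw [← hbn j]
      rw [Subgroup.map_map]
      convert Subgroup.map_id (E j) using 2
      ext x; simp [mul_assoc]) ((D.kerΦ _).1 e)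
    simpa [mul_assoc] using h1
  choose e he hePair using fun k => D.exists_pair k p0
  choose q hq hqPair using fun k => D.exists_pair k (τ k)
  have hqfix : ∀ k, Pb (q k) = P (q k) := fun k => hfix _ fun x => by
    simp only [hP, hqPair]; exact pair_const hS.inv k x
  have hswap : ∀ k, ∀ x, Equiv.swap k (τ k) x = x ∨ Equiv.swap k (τ k) x = τ x := fun k x => by
    rcases eq_or_ne x k with rfl | h1
    · exact Or.inr (Equiv.swap_apply_left _ _)
    rcases eq_or_ne x (τ k) with rfl | h2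
    · exact Or.inr (by rw [Equiv.swap_apply_right, hS.inv])
    exact Or.inl (Equiv.swap_apply_of_ne_of_ne h1 h2)
  -- the transpositions are fixed
  have hs : ∀ k, k ≠ p0 → ∃ a : ↥(G1 E), (a : G) ∈ Jc T E i ∧ D.Φ a = Equiv.swap k (τ k) ∧
      D.Φ ⟨_, hG1 a⟩ = Equiv.swap k (τ k) := by
    intro k hk
    obtain ⟨a, ha, ea⟩ := hS.full _ (hswap k)
    refine ⟨a, ha, ea, ?_⟩
    set π := D.Φ ⟨_, hG1 a⟩ with hπ
    have hJ : b * (a : G) * b⁻¹ ∈ thompsonSubgroupOf p (T : Subgroup G) :=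
      (Subgroup.mem_normalizer_iff.1 (ThompsonJ.normalizer_le_normalizer_thompsonSubgroupOf p _
        (Subgroup.le_normalizer (baumann_le hb))) a).1 (mem_Jc.1 ha).1
    have hup := hS.upper ⟨_, hG1 a⟩ hJ
    have hloc : ∀ l, π l ≠ l → l = k ∨ l = τ k := by
      intro l hl
      by_contra hh
      push Not at hh
      obtain ⟨u, hu⟩ := hpre l p0
      have h1 := hconj a u
      -- the moved part of `u`
      have h2 : P ⟨_, hmem a u⟩ = P u ∨ P ⟨_, hmem a u⟩ = P u + P (q k) := by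
        have h3 : ∀ x, P ⟨_, hmem a u⟩ x = P u (Equiv.swap k (τ k) x) := fun x => by
          rw [hequiv, ea, Equiv.swap_inv]
        rcases eq_or_ne (P u k) (P u (τ k)) with e' | e'
        · refine Or.inl (funext fun x => ?_)
          rw [h3]
          rcases eq_or_ne x k with rfl | h4
          · rw [Equiv.swap_apply_left, e']
          rcases eq_or_ne x (τ k) with rfl | h5
          · rw [Equiv.swap_apply_right, e']
          rw [Equiv.swap_apply_of_ne_of_ne h4 h5]
        · refine Or.inr (funext fun x => ?_)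
          rw [h3]
          simp only [Pi.add_apply, hP, hqPair, Pi.single_apply]
          have h6 := (MinimalParabolic.zmodTwo_of_ne _ _ e').1
          simp only [hP] at h6
          rcases eq_or_ne x k with rfl | h4
          · rw [Equiv.swap_apply_left, if_pos rfl, if_neg (hS.ne x hk).symm, add_zero, h6]
          rcases eq_or_ne x (τ k) with rfl | h5
          · rw [Equiv.swap_apply_right, if_neg h4, if_pos rfl, zero_add, h6, add_assoc, htwo, add_zero]
          rw [Equiv.swap_apply_of_ne_of_ne h4 h5, if_neg h4, if_neg h5, add_zero, add_zero]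
      have hl0 : l ≠ p0 := fun e' => hl (by
        rcases hup l with e'' | e''
        · exact e''
        · rw [e'', e', hS.fix])
      have hπl : π⁻¹ l = τ l := by
        rw [Equiv.Perm.inv_def, Equiv.symm_apply_eq]
        rcases hup (τ l) with e'' | e''
        · exact absurd ((π.injective (e''.trans ((hup l).resolve_left hl).symm))) (hS.ne l hl0)
        · rw [e'', hS.inv]
      rcases h2 with h2 | h2
      · have h3 := h1 l
        rw [hker _ _ h2, hu, hπl] at h3
        simp [Pi.single_apply, hl0, hS.ne l hl0] at h3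
        exact hl0 (by rw [← hS.inv l, h3, hS.fix])
      · have h3 := h1 l
        have h4 : Pb ⟨_, hmem a u⟩ = Pb u + Pb (q k) := by
          rw [← hmulb]; exact hker _ _ (by rw [h2, hmul])
        rw [h4, hu, hπl, hqfix] at h3
        simp [hP, hqPair, Pi.single_apply, hl0, hS.ne l hl0, hh.1, hh.2] at h3
        exact hl0 (by rw [← hS.inv l, h3, hS.fix])
    have hk1 : π k = τ k := by
      by_contra hne
      have h2 : π k = k := (hup k).resolve_right hne
      have h1 : π = 1 := Equiv.ext fun x => by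
        by_contra hx
        rcases hloc x hx with e' | e' <;> subst e'
        · exact hx h2
        · rcases hup (τ k) with e'' | e''
          · exact hx e''
          · rw [hS.inv] at e''
            exact hS.ne k hk (π.injective (e''.trans h2.symm))
      have h3 := hne1 a h1
      rw [ea] at h3
      exact hS.ne k hk (by simpa using (congrArg (fun s => s k) h3))
    refine Equiv.ext fun x => ?_
    rcases eq_or_ne x k with rfl | h4
    · rw [hk1, Equiv.swap_apply_left]
    rcases eq_or_ne x (τ k) with rfl | h5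
    · rw [Equiv.swap_apply_right]
      rcases hup (τ k) with e' | e'
      · exact absurd (π.injective (e'.trans hk1.symm)) (hS.ne k hk)
      · rw [e', hS.inv]
    rw [Equiv.swap_apply_of_ne_of_ne h4 h5]
    by_contra hx
    rcases hloc x hx with e' | e'
    · exact h4 e'
    · exact h5 e'
  -- the image of a pair through the fixed point
  have hpair : ∀ k, k ≠ p0 → Pb (e k) = P (e k) ∨ Pb (e k) = P (e (τ k)) := by
    intro k hk
    set w := Pb (e k) with hw
    have hwl : ∀ l, l ≠ p0 → l ≠ k → l ≠ τ k → w (τ l) = w l := by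
      intro l hl h1 h2
      obtain ⟨a, -, ea, ea'⟩ := hs l hl
      have h3 := hconj a (e k) (τ l)
      rw [ea', Equiv.swap_inv, Equiv.swap_apply_right, ← hw] at h3
      rw [← h3]
      refine congrFun (hker _ _ (funext fun x => ?_)).symm (τ l) |>.symm
      rw [hequiv, ea, Equiv.swap_inv]
      simp only [hP, hePair, Pi.add_apply, Pi.single_apply]
      have h4 : Equiv.swap l (τ l) x = k ↔ x = k := by
        rw [Equiv.apply_eq_iff_eq_symm_apply, Equiv.symm_swap, Equiv.swap_apply_of_ne_of_ne (Ne.symm h1)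
          (fun e' => h2 (by rw [e', hS.inv]))]
      have h5 : Equiv.swap l (τ l) x = p0 ↔ x = p0 := by
        rw [Equiv.apply_eq_iff_eq_symm_apply, Equiv.symm_swap, Equiv.swap_apply_of_ne_of_ne (Ne.symm hl)
          (fun e' => hl (by rw [← hS.inv l, ← e', hS.fix]))]
      simp only [h4, h5]
    have hwk : w (τ k) = w k + 1 := by
      obtain ⟨a, -, ea, ea'⟩ := hs k hk
      have h3 := hconj a (e k) k
      rw [ea', Equiv.swap_inv, Equiv.swap_apply_left, ← hw] at h3
      rw [← h3, show Pb ⟨_, hmem a (e k)⟩ = w + P (q k) from ?_]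
      · simp [hP, hqPair, Pi.single_apply, (hS.ne k hk).symm]
      · rw [← hqfix, hw, ← hmulb]
        refine hker _ _ ?_
        rw [hmul]
        funext x
        rw [hequiv, ea, Equiv.swap_inv]
        simp only [hP, hePair, hqPair, Pi.add_apply, Pi.single_apply]
        rcases eq_or_ne x k with rfl | h4
        · simp [Ne.symm hk, hk, (hS.ne x hk).symm, show τ x ≠ p0 from fun e' => hk (by rw [← hS.inv x, e', hS.fix]),
            hS.ne x hk]
          exact (htwo 1).symm
        rcases eq_or_ne x (τ k) with rfl | h5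
        · simp [hk, hS.ne k hk, show τ k ≠ p0 from fun e' => hk (by rw [← hS.inv k, e', hS.fix])]
        rw [Equiv.swap_apply_of_ne_of_ne h4 h5]
        simp [h4, h5]
    obtain ⟨g, -, eg⟩ := D.surjΦ (Equiv.swap k p0)
    set π := D.Φ ⟨_, hG1 g⟩ with hπ
    have hπ2 : π * π = 1 := by
      have h1 : (g : G) * g ∈ Kc G p E i := (D.kerΦ (g * g)).1 (by rw [map_mul, eg, Equiv.swap_mul_self])
      rw [hπ, ← map_mul]
      refine (D.kerΦ _).2 ?_
      have := conj_mem_Kc_of_normalizes hE hbn h1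
      simpa [mul_assoc] using this
    have hπ1 : π ≠ 1 := fun e' => by
      have h3 := hne1 g e'
      rw [eg] at h3
      exact hk (by simpa using (congrArg (fun s => s k) h3).symm)
    obtain ⟨c, hc⟩ := Equiv.Perm.exists_fixed_point_of_prime (p := 2) (n := 1) (σ := π)
      (hp := ⟨Nat.prime_two⟩) (by rw [Fintype.card_fin]; obtain ⟨s, hs⟩ := hodd; omega)
      (by rw [pow_one, pow_two, hπ2])
    obtain ⟨a₀, ha₀⟩ : ∃ a₀, π a₀ ≠ a₀ := by
      by_contra hh
      push Not at hh
      exact hπ1 (Equiv.ext fun x => by simp [hh x])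
    obtain ⟨u, hu⟩ := hpre a₀ c
    have hmove : P ⟨_, hmem g u⟩ = P u ∨ P ⟨_, hmem g u⟩ = P u + P (e k) := by
      have h3 : ∀ x, P ⟨_, hmem g u⟩ x = P u (Equiv.swap k p0 x) := fun x => by
        rw [hequiv, eg, Equiv.swap_inv]
      rcases eq_or_ne (P u k) (P u p0) with e' | e'
      · refine Or.inl (funext fun x => ?_)
        rw [h3]
        rcases eq_or_ne x k with rfl | h4
        · rw [Equiv.swap_apply_left, e']
        rcases eq_or_ne x p0 with rfl | h5
        · rw [Equiv.swap_apply_right, e']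
        rw [Equiv.swap_apply_of_ne_of_ne h4 h5]
      · refine Or.inr (funext fun x => ?_)
        rw [h3]
        simp only [Pi.add_apply, hP, hePair, Pi.single_apply]
        have h6 := (MinimalParabolic.zmodTwo_of_ne _ _ e').1
        simp only [hP] at h6
        rcases eq_or_ne x k with rfl | h4
        · rw [Equiv.swap_apply_left, if_pos rfl, if_neg hk, add_zero, h6]
        rcases eq_or_ne x p0 with rfl | h5
        · rw [Equiv.swap_apply_right, if_neg h4, if_pos rfl, zero_add, h6, add_assoc, htwo, add_zero]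
        rw [Equiv.swap_apply_of_ne_of_ne h4 h5, if_neg h4, if_neg h5, add_zero, add_zero]
    have hπinv : π⁻¹ = π := inv_eq_of_mul_eq_one_right hπ2
    have hne : a₀ ≠ c := fun e' => ha₀ (e' ▸ hc)
    rcases hmove with h1 | h1
    · exfalso
      have h3 := hconj g u a₀
      rw [hker _ _ h1, hu, hπinv] at h3
      have h4 : π a₀ ≠ c := fun e' => ha₀ (by rw [π.injective (e'.trans hc.symm)]; exact hc)
      simp [Pi.single_apply, hne, ha₀, h4] at h3
    · have h2 : w = Pi.single a₀ 1 + Pi.single (π a₀) 1 := by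
        funext x
        have h3 := hconj g u x
        have h4 : Pb ⟨_, hmem g u⟩ = Pb u + w := by rw [hw, ← hmulb]; exact hker _ _ (by rw [h1, hmul])
        rw [h4, hu, hπinv] at h3
        have h5 : (π x = a₀) ↔ x = π a₀ := ⟨fun q => by rw [← q, ← Equiv.Perm.mul_apply, hπ2]; rfl,
          fun q => by rw [q, ← Equiv.Perm.mul_apply, hπ2]; rfl⟩
        have h6 : (π x = c) ↔ x = c := ⟨fun q => π.injective (q.trans hc.symm), fun q => q ▸ hc⟩
        simp only [Pi.add_apply, Pi.single_apply, h5, h6] at h3 ⊢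
        have h7 : ∀ P Q R W : ZMod 2, P + Q + W = R + Q → W = P + R := by decide
        exact h7 _ _ _ _ h3
      -- one end is `p0`, the other lies in the pair of `k`
      set a₁ := π a₀ with ha₁
      have hkp : w k ≠ w (τ k) := fun e' => by
        rw [hwk] at e'
        rcases hcases (w k) with e'' | e'' <;> rw [e''] at e' <;> exact absurd e' (by decide)
      have hends : ∀ {a a' : Fin m}, w = Pi.single a 1 + Pi.single a' 1 → a ≠ a' → (a = k ∨ a = τ k) → a' = p0 := by
        intro a a' hwa hne' hak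
        by_contra ha'
        have hk' : a' ≠ k ∧ a' ≠ τ k := by
          refine ⟨fun e' => ?_, fun e' => ?_⟩ <;> rcases hak with e'' | e''
          · exact hne' (e''.trans e'.symm)
          · exact hkp (by rw [hwa, e', e'']; simp [Pi.single_apply, hS.ne k hk, (hS.ne k hk).symm])
          · exact hkp (by rw [hwa, e', e'']; simp [Pi.single_apply, hS.ne k hk, (hS.ne k hk).symm])
          · exact hne' (e''.trans e'.symm)
        have h8 := hwl a' ha' hk'.1 hk'.2
        rw [hwa] at h8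
        have h9 : τ a' ≠ a := fun e' => by
          rcases hak with e'' | e''
          · exact hk'.2 (by rw [← hS.inv a', e', e''])
          · exact hk'.1 (by rw [← hS.inv a', e', e'', hS.inv])
        simp [Pi.single_apply, h9, hne', (hS.ne a' ha'), Ne.symm hne'] at h8
      have hmemk : (a₀ = k ∨ a₀ = τ k) ∨ (a₁ = k ∨ a₁ = τ k) := by
        by_contra hh
        push Not at hh
        exact hkp (by rw [h2]; simp [Pi.single_apply, Ne.symm hh.1.1, Ne.symm hh.1.2, Ne.symm hh.2.1, Ne.symm hh.2.2])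
      have hend : ∀ a, w = Pi.single a 1 + Pi.single p0 1 → (a = k ∨ a = τ k) → w = P (e k) ∨ w = P (e (τ k)) := by
        intro a hwa hak
        rcases hak with rfl | rfl
        · exact Or.inl (by simp only [hP, hePair]; exact hwa)
        · exact Or.inr (by simp only [hP, hePair]; exact hwa)
      rcases hmemk with hk' | hk'
      · exact hend a₀ (by rw [h2, hends h2 (Ne.symm ha₀) hk']) hk'
      · have h2' : w = Pi.single a₁ 1 + Pi.single a₀ 1 := by rw [h2, add_comm]
        exact hend a₁ (by rw [h2', hends h2' ha₀ hk']) hk'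
  -- the permutation
  have hep : ∀ k, P (e (τ k)) = P (e k) + P (q k) := fun k => by
    funext x
    simp only [hP, hePair, hqPair, Pi.add_apply, Pi.single_apply]
    have : ∀ A B C : ZMod 2, C + B = A + B + (A + C) := by decide
    exact this _ _ _
  let f : Fin m → Fin m := fun k => if Pb (e k) = P (e k) then k else τ k
  have hfp : f p0 = p0 := by simp only [f]; split_ifs <;> simp [hS.fix]
  have hfk : ∀ k, Pb (e k) = P (e (f k)) := fun k => by
    by_cases hk : k = p0
    · subst hk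
      rw [hfp]
      exact hfix _ fun x => by simp [hP, hePair, htwo]
    simp only [f]
    split_ifs with h1
    · exact h1
    · exact (hpair k hk).resolve_left h1
  have hft : ∀ k, f (τ k) = if Pb (e k) = P (e k) then τ k else k := fun k => by
    have h1 : Pb (e (τ k)) = Pb (e k) + P (q k) := by
      rw [← hqfix, ← hmulb]; exact hker _ _ (by rw [hmul]; exact hep k)
    simp only [f]
    rw [h1, hep, hS.inv]
    simp only [add_left_inj]
  have hinv : Function.Involutive f := fun k => by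
    by_cases h1 : Pb (e k) = P (e k)
    · simp [f, h1]
    · have h2 : f k = τ k := by simp [f, h1]
      rw [h2, hft, if_neg h1]
  obtain ⟨a, ha, ea⟩ := hS.full (hinv.toPerm f) fun k => by
    show f k = k ∨ f k = τ k
    simp only [f]
    split_ifs <;> simp
  refine ⟨a, ha, fun v hv => (D.kerΨ (⟨_, hmem a ⟨v, hv⟩⟩ * ⟨_, hmem b ⟨v, hv⟩⟩⁻¹)).1 ?_⟩
  rw [map_mul, map_inv, mul_inv_eq_one]
  refine Multiplicative.toAdd.injective ?_
  show P ⟨_, hmem a ⟨v, hv⟩⟩ = Pb ⟨v, hv⟩
  -- both agree on the generators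
  let U : Subgroup ↥(VG G p) :=
    { carrier := {v | P ⟨_, hmem a v⟩ = Pb v}
      one_mem' := by
        show P _ = P _
        exact congrArg P (Subtype.ext (by simp))
      mul_mem' := fun {u v} hu hv => by
        show P _ = Pb _
        rw [hmulb, ← hu, ← hv, ← hmul]
        refine congrArg P (Subtype.ext ?_)
        show (a : G) * ((u : G) * v) * (a : G)⁻¹ = a * u * (a : G)⁻¹ * (a * v * (a : G)⁻¹)
        group
      inv_mem' := fun {u} hu => by
        show P _ = Pb _
        have h1 := hmulb u u⁻¹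
        rw [mul_inv_cancel] at h1
        have h2 := hmul ⟨_, hmem a u⟩ ⟨_, hmem a u⁻¹⟩
        rw [show (⟨_, hmem a u⟩ : ↥(VG G p)) * ⟨_, hmem a u⁻¹⟩ = ⟨_, hmem b (1 : ↥(VG G p))⟩ from Subtype.ext (by
          simp [mul_assoc])] at h2
        rw [show Pb 1 = P ⟨_, hmem b (1 : ↥(VG G p))⟩ from rfl] at h1
        rw [← hu] at h1
        exact add_left_cancel (h2.symm.trans h1) }
  suffices hU : (⟨v, hv⟩ : ↥(VG G p)) ∈ U from hU
  haveI : IsMulCommutative ↥(VG G p) := VG_elem.1
  have hgen : ∀ k, e k ∈ U := fun k => by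
    show P _ = Pb _
    rw [hfk]
    funext x
    rw [hequiv, ea]
    simp only [hP, hePair, Pi.add_apply, Pi.single_apply]
    have h1 : ((hinv.toPerm f)⁻¹ x = k) = (x = f k) := by
      rw [Equiv.Perm.inv_def, Equiv.symm_apply_eq]; rfl
    have h2 : ((hinv.toPerm f)⁻¹ x = p0) = (x = p0) := by
      rw [Equiv.Perm.inv_def, Equiv.symm_apply_eq, show (hinv.toPerm f) p0 = f p0 from rfl, hfp]
    simp only [h1, h2]
  have hW : ∀ u : ↥(VG G p), (u : G) ∈ Wc G p E i → u ∈ U := fun u hu => by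
    show P _ = Pb _
    have h1 : (a : G) * u * (a : G)⁻¹ ∈ Wc G p E i :=
      (Subgroup.mem_normalizer_iff.1 (hE.G1_le_normalizer_Wc i a.2) _).1 hu
    show P _ = P _
    simp only [hP]
    rw [(D.kerΨ ⟨_, hmem a u⟩).2 h1, (D.kerΨ ⟨_, hmem b u⟩).2 (conj_mem_Wc_of_normalizes hE hbn hu)]
  open scoped IsMulCommutative in
  set z : ↥(VG G p) := ∏ k ∈ Finset.univ.filter (fun k => k ≠ p0 ∧ P ⟨v, hv⟩ k = 1), e k with hz
  open scoped IsMulCommutative in
  have hzU : z ∈ U := Subgroup.prod_mem _ fun k _ => hgen k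
  have hPz : P z = P ⟨v, hv⟩ := by
    set x := P ⟨v, hv⟩ with hx
    have hsum : ∑ k, x k = 0 := D.even _
    open scoped IsMulCommutative in
    simp only [hz, hP, map_prod, toAdd_prod]
    simp only [hePair]
    funext y
    rw [Finset.sum_apply]
    simp only [Pi.add_apply, Pi.single_apply, Finset.sum_add_distrib, Finset.sum_ite_eq, Finset.mem_filter,
      Finset.mem_univ, true_and]
    rcases eq_or_ne y p0 with rfl | hy
    · simp only [ne_eq, not_true, false_and, if_false, zero_add, if_true]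
      rw [Finset.sum_filter]
      have h3 : ∀ k, (if k ≠ y ∧ x k = 1 then (1 : ZMod 2) else 0) = x k + (if k = y then x k else 0) := fun k => by
        rcases eq_or_ne k y with rfl | hk
        · simp [htwo]
        · rcases hcases (x k) with e' | e' <;> simp [hk, e']
      rw [Finset.sum_congr rfl fun k _ => h3 k, Finset.sum_add_distrib, hsum, zero_add, Finset.sum_ite_eq',
        if_pos (Finset.mem_univ y)]
    · simp only [hy, if_false, Finset.sum_const_zero, add_zero, ne_eq, not_false_iff, true_and]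
      rcases hcases (x y) with e' | e' <;> simp [e']
  have h1 : ((z⁻¹ * ⟨v, hv⟩ : ↥(VG G p)) : G) ∈ Wc G p E i := (D.kerΨ _).1 (by
    rw [map_mul, map_inv, inv_mul_eq_one]
    exact Multiplicative.toAdd.injective hPz)
  have h2 := U.mul_mem hzU (hW _ h1)
  rwa [mul_inv_cancel_left] at h2

end CfsgLib.FFModules.PushUpBlocks
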