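import Cfsg.Agent.Lib.FFModules.PushUpBlocks.Setting

/-!
The components `E_i` of `J(G) C` on `V = Ω₁(Z(O_p(G)))` and the projections to them.
-/

set_option autoImplicit false
set_option linter.unusedSectionVars false

namespace CfsgLib.FFModules.PushUpBlocks

open Cfsg
open scoped commutatorElement IsMulCommutative

variable {G : Type*} [Group G]

/-- A homomorphism on `E` whose kernel is `E ∩ K` extends to `H ≤ E K` with kernel `H ∩ K`. -/
theorem exists_extend {E K H : Subgroup G} {Γ : Type*} [Group Γ] (hEH : E ≤ H)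
    (hn : H ≤ Subgroup.normalizer (K : Set G)) (hdec : ∀ g ∈ H, ∃ e ∈ E, ∃ k ∈ K, g = e * k)
    (ρ : ↥E →* Γ) (hker : ∀ e : ↥E, ρ e = 1 ↔ (e : G) ∈ K) :
    ∃ Φ : ↥H →* Γ, (∀ e : ↥E, Φ (Subgroup.inclusion hEH e) = ρ e) ∧
      (∀ g : ↥H, Φ g = 1 ↔ (g : G) ∈ K) ∧ ∀ g : ↥H, ∃ e : ↥E, Φ g = ρ e ∧ (e : G)⁻¹ * g ∈ K := by
  choose e he k hk hek using hdec
  have hwd : ∀ (g : ↥H) (a : ↥E), (a : G)⁻¹ * g ∈ K → ρ ⟨e g g.2, he g g.2⟩ = ρ a := by
    intro g a ha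
    have h1 : ((a⁻¹ * ⟨e g g.2, he g g.2⟩ : ↥E) : G) ∈ K := by
      have h2 := K.mul_mem ha (K.inv_mem (hk g g.2))
      have e2 : (g : G) * (k g g.2)⁻¹ = e g g.2 := mul_inv_eq_iff_eq_mul.2 (hek g g.2)
      rw [mul_assoc, e2] at h2
      simpa using h2
    have h3 := (hker _).2 h1
    rw [map_mul, map_inv, inv_mul_eq_one] at h3
    exact h3.symm
  have hmem : ∀ g : ↥H, (e g g.2)⁻¹ * (g : G) ∈ K := fun g => by
    have e1 : (e g g.2)⁻¹ * (g : G) = k g g.2 := by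
      conv_lhs => arg 2; rw [hek g g.2]
      simp
    rw [e1]; exact hk g g.2
  refine ⟨MonoidHom.mk' (fun g : ↥H => ρ ⟨e g g.2, he g g.2⟩) ?_, fun a => hwd _ a (by simp), fun g => ?_,
    fun g => ⟨⟨e g g.2, he g g.2⟩, rfl, hmem g⟩⟩
  · intro g g'
    rw [← map_mul]
    refine hwd _ _ ?_
    have h1 : (e g' g'.2)⁻¹ * ((e g g.2)⁻¹ * (g : G)) * e g' g'.2 ∈ K :=
      (Subgroup.mem_normalizer_iff''.1 (hn (hEH (he g' g'.2))) _).1 (hmem g)
    simpa [mul_assoc] using K.mul_mem h1 (hmem g')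
  · show ρ ⟨e g g.2, he g g.2⟩ = 1 ↔ _
    rw [hker]
    refine ⟨fun h1 => ?_, fun h1 => ?_⟩
    · simpa using K.mul_mem h1 (hmem g)
    · simpa using K.mul_mem h1 (K.inv_mem (hmem g))

variable {p : ℕ}

/-- The data of the local C**-theorem. -/
structure Comps [Fact p.Prime] (T : Sylow p G) {r : ℕ} (E : Fin r → Subgroup G) : Prop where
  ce : ∀ i, CG G p ≤ E i
  gen : thompsonSubgroup p G ⊔ (T : Subgroup G) ⊔ CG G p = ⊤
  sup : (⨆ i, E i) = thompsonSubgroup p G ⊔ CG G p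
  comm : ∀ i j, i ≠ j → ⁅E i, E j⁆ ≤ CG G p
  disj : ∀ i, E i ⊓ (⨆ j ∈ {j | j ≠ i}, E j) ≤ CG G p
  conj : ∀ i j, ∃ t ∈ (T : Subgroup G), (E i).map (MulAut.conj t).toMonoidHom = E j
  split : VG G p ⊓ Subgroup.centralizer ((⨆ i, E i : Subgroup G) : Set G) ⊔ (⨆ i, ⁅VG G p, E i⁆) = VG G p
  cross : ∀ i j, i ≠ j → ⁅⁅VG G p, E i⁆, E j⁆ = ⊥
  type : ∀ i, ∃ n : ℕ, 1 ≤ n ∧ ((∃ (F : Type) (_ : Field F) (_ : Fintype F), Fintype.card F = p ^ n ∧
      (∃ _ : ((CG G p).subgroupOf (E i)).Normal,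
        Nonempty (↥(E i) ⧸ (CG G p).subgroupOf (E i) ≃* Matrix.SpecialLinearGroup (Fin 2) F)) ∧
      ActsAsSL2OnSection F ⊤ (E i) ⁅VG G p, E i⁆ (⁅VG G p, E i⁆ ⊓ Subgroup.centralizer (E i : Set G))) ∨
    (p = 2 ∧ (∃ _ : ((CG G p).subgroupOf (E i)).Normal,
        Nonempty (↥(E i) ⧸ (CG G p).subgroupOf (E i) ≃* Equiv.Perm (Fin (2 ^ n + 1)))) ∧
      ActsAsOddPermModuleOnSection (2 ^ n + 1) ⊤ (E i) ⁅VG G p, E i⁆
        (⁅VG G p, E i⁆ ⊓ Subgroup.centralizer (E i : Set G))))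

theorem exists_comps [Finite G] [Fact p.Prime] {T : Sylow p G} {M : Subgroup G} (h : Hyp T)
    (hM : IsTop T M) : ∃ (r : ℕ) (E : Fin r → Subgroup G), Comps T E := by
  obtain ⟨r, E, h1, h2, h3, h4, h5, h6, h7, h8, h9⟩ := Cfsg.Agent.S2981.result h.pmin h.char T
    fun e => hM.coatom.1 (top_le_iff.1 (e.ge.trans (cStarStar_le h hM)))
  exact ⟨r, E, h1, h2, h3, h4, h5, h6, h7, h8, h9⟩

/-- The product of the components. -/
abbrev G1 {r : ℕ} (E : Fin r → Subgroup G) : Subgroup G := ⨆ i, E i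

/-- The kernel of the projection to the `i`-th component. -/
abbrev Kc (G : Type*) [Group G] (p : ℕ) {r : ℕ} (E : Fin r → Subgroup G) (i : Fin r) : Subgroup G :=
  (⨆ j ∈ {j | j ≠ i}, E j) ⊔ CG G p

/-- The centralizer in `V` of the `i`-th component. -/
abbrev Wc (G : Type*) [Group G] (p : ℕ) {r : ℕ} (E : Fin r → Subgroup G) (i : Fin r) : Subgroup G :=
  VG G p ⊓ Subgroup.centralizer (E i : Set G)

variable [Finite G] [Fact p.Prime] {T : Sylow p G} {r : ℕ} {E : Fin r → Subgroup G} (hE : Comps T E)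
include hE

namespace Comps

theorem G1_normal : (G1 E).Normal := by
  rw [G1, hE.sup]
  haveI : (thompsonSubgroup p G).Characteristic := ThompsonJ.thompsonSubgroup_characteristic p G
  exact Subgroup.sup_normal _ _

theorem E_le_normalizer (i j : Fin r) : E j ≤ Subgroup.normalizer (E i : Set G) := by
  rcases eq_or_ne j i with rfl | hji
  · exact Subgroup.le_normalizer
  · intro g hg
    refine Subgroup.mem_normalizer_fintype fun x hx => ?_
    have h1 : ⁅g, x⁆ ∈ E i := hE.ce i (hE.comm j i hji (Subgroup.commutator_mem_commutator hg hx))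
    simpa [commutatorElement_def, mul_assoc] using (E i).mul_mem h1 hx

theorem G1_le_normalizer (i : Fin r) : G1 E ≤ Subgroup.normalizer (E i : Set G) :=
  iSup_le fun j => hE.E_le_normalizer i j

theorem CG_le_G1 (i : Fin r) : CG G p ≤ G1 E := (hE.ce i).trans (le_iSup E i)

theorem Kc_le (i : Fin r) : Kc G p E i ≤ G1 E :=
  sup_le (iSup₂_le fun j _ => le_iSup E j) (hE.CG_le_G1 i)

theorem G1_le_normalizer_Kc (i : Fin r) : G1 E ≤ Subgroup.normalizer (Kc G p E i : Set G) := by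
  intro g hg
  refine Subgroup.mem_normalizer_fintype fun x hx => ?_
  have h1 : Kc G p E i ≤ (Kc G p E i).comap (MulAut.conj g).toMonoidHom := by
    refine sup_le (iSup₂_le fun j hj y hy => ?_) fun y hy => ?_
    · exact Subgroup.mem_sup_left (Subgroup.mem_iSup_of_mem j (Subgroup.mem_iSup_of_mem hj
        ((Subgroup.mem_normalizer_iff.1 (hE.G1_le_normalizer j hg) y).1 hy)))
    · exact Subgroup.mem_sup_right ((inferInstance : (CG G p).Normal).conj_mem y hy g)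
  exact h1 hx

theorem inf_Kc (i : Fin r) : E i ⊓ Kc G p E i ≤ CG G p := by
  rintro x ⟨hxE, hx⟩
  obtain ⟨y, hy, c, hc, rfl⟩ := Subgroup.mem_sup_of_normal_right.1 hx
  have hyE : y ∈ E i := by simpa using (E i).mul_mem hxE ((E i).inv_mem (hE.ce i hc))
  exact mul_mem (hE.disj i ⟨hyE, hy⟩) hc

theorem exists_mul (i : Fin r) : ∀ g ∈ G1 E, ∃ e ∈ E i, ∃ k ∈ Kc G p E i, g = e * k := by
  intro g hg
  have hle : G1 E ≤ E i ⊔ Kc G p E i := iSup_le fun j => by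
    rcases eq_or_ne j i with rfl | hji
    · exact le_sup_left
    · exact le_trans (le_trans (le_iSup₂ (f := fun j (_ : j ∈ {j | j ≠ i}) => E j) j hji) le_sup_left)
        le_sup_right
  have hset := Subgroup.coe_mul_of_left_le_normalizer_right (E i) (Kc G p E i)
    ((le_iSup E i).trans (hE.G1_le_normalizer_Kc i))
  have h1 : g ∈ ((E i ⊔ Kc G p E i : Subgroup G) : Set G) := hle hg
  rw [hset] at h1
  obtain ⟨e, he, k, hk, rfl⟩ := h1
  exact ⟨e, he, k, hk, rfl⟩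

omit hE in
theorem moves_le (i : Fin r) : ⁅VG G p, E i⁆ ≤ VG G p :=
  Subgroup.commutator_le_left _ _

theorem moves_le_Wc {i j : Fin r} (hji : j ≠ i) : ⁅VG G p, E j⁆ ≤ Wc G p E i :=
  le_inf (moves_le j) (Subgroup.commutator_eq_bot_iff_le_centralizer.1 (hE.cross j i hji))

theorem sup_Wc (i : Fin r) : ⁅VG G p, E i⁆ ⊔ Wc G p E i = VG G p := by
  refine le_antisymm (sup_le (moves_le i) inf_le_left) ?_
  conv_lhs => rw [← hE.split]
  refine sup_le (le_trans (inf_le_inf_left _ (Subgroup.centralizer_le (le_iSup E i))) le_sup_right)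
    (iSup_le fun j => ?_)
  rcases eq_or_ne j i with rfl | hji
  · exact le_sup_left
  · exact le_trans (hE.moves_le_Wc hji) le_sup_right

theorem G1_le_normalizer_Wc (i : Fin r) : G1 E ≤ Subgroup.normalizer (Wc G p E i : Set G) := fun g hg =>
  TwoGroupTricks.normalizer_inf_le ⟨by rw [Subgroup.normalizer_eq_top_iff.2 VG_normal]; exact Subgroup.mem_top g,
    TwoGroupTricks.normalizer_le_normalizer_centralizer' _ (hE.G1_le_normalizer i hg)⟩

/-- The kernel of a projection fixes the moved space of its component. -/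
theorem Kc_le_centralizer (i : Fin r) : Kc G p E i ≤ Subgroup.centralizer ((⁅VG G p, E i⁆ : Subgroup G) : Set G) :=
  sup_le (iSup₂_le fun j hj => Subgroup.le_centralizer_iff.1
      (Subgroup.commutator_eq_bot_iff_le_centralizer.1 (hE.cross i j (Ne.symm hj))))
    (Subgroup.centralizer_le (moves_le i))

/-- The projections jointly detect `C`. -/
theorem iInf_Kc {g : G} (hg : g ∈ G1 E) (h : ∀ i, g ∈ Kc G p E i) : g ∈ CG G p := by
  have h1 : VG G p ≤ Subgroup.centralizer ({g} : Set G) := by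
    conv_lhs => rw [← hE.split]
    refine sup_le (fun v hv => ?_) (iSup_le fun i v hv => ?_)
    · exact Subgroup.mem_centralizer_singleton_iff.2 (Subgroup.mem_centralizer_iff.1 hv.2 g hg).symm
    · exact Subgroup.mem_centralizer_singleton_iff.2
        (Subgroup.mem_centralizer_iff.1 (hE.Kc_le_centralizer i (h i)) v hv)
  exact Subgroup.mem_centralizer_iff.2 fun v hv => Subgroup.mem_centralizer_singleton_iff.1 (h1 hv)

end Comps

omit hE in
/-- The action of `G1` on `V / C_V(E_i)` as on a natural module of `SL₂(F)`. -/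
structure SLData (G : Type*) [Group G] (p : ℕ) {r : ℕ} (E : Fin r → Subgroup G) (i : Fin r) (F : Type)
    [Field F] where
  Φ : ↥(G1 E) →* Matrix.SpecialLinearGroup (Fin 2) F
  Ψ : ↥(VG G p) →* Multiplicative (Fin 2 → F)
  surjΦ : ∀ s, ∃ g : ↥(G1 E), (g : G) ∈ E i ∧ Φ g = s
  surjΨ : ∀ x, ∃ v : ↥(VG G p), (v : G) ∈ ⁅VG G p, E i⁆ ∧ Ψ v = x
  kerΦ : ∀ g, Φ g = 1 ↔ (g : G) ∈ Kc G p E i
  kerΨ : ∀ v, Ψ v = 1 ↔ (v : G) ∈ Wc G p E i
  equiv : ∀ (g : ↥(G1 E)) (v w : ↥(VG G p)), (w : G) = (g : G) * v * (g : G)⁻¹ →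
    Multiplicative.toAdd (Ψ w) =
      ((Φ g : Matrix.SpecialLinearGroup (Fin 2) F) : Matrix (Fin 2) (Fin 2) F).mulVec (Multiplicative.toAdd (Ψ v))

omit hE in
/-- The action of `G1` on `V / C_V(E_i)` as on the even permutation module of degree `m`. -/
structure SymData (G : Type*) [Group G] (p : ℕ) {r : ℕ} (E : Fin r → Subgroup G) (i : Fin r) (m : ℕ) where
  Φ : ↥(G1 E) →* Equiv.Perm (Fin m)
  Ψ : ↥(VG G p) →* Multiplicative (Fin m → ZMod 2)
  surjΦ : ∀ s, ∃ g : ↥(G1 E), (g : G) ∈ E i ∧ Φ g = s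
  even : ∀ v, ∑ k, Multiplicative.toAdd (Ψ v) k = 0
  surjΨ : ∀ x : Fin m → ZMod 2, ∑ k, x k = 0 →
    ∃ v : ↥(VG G p), (v : G) ∈ ⁅VG G p, E i⁆ ∧ Multiplicative.toAdd (Ψ v) = x
  kerΦ : ∀ g, Φ g = 1 ↔ (g : G) ∈ Kc G p E i
  kerΨ : ∀ v, Ψ v = 1 ↔ (v : G) ∈ Wc G p E i
  equiv : ∀ (g : ↥(G1 E)) (v w : ↥(VG G p)), (w : G) = (g : G) * v * (g : G)⁻¹ →
    ∀ k, Multiplicative.toAdd (Ψ w) k = Multiplicative.toAdd (Ψ v) ((Φ g)⁻¹ k)

namespace Comps

/-- A surjection with kernel containing `C` of the same index as `C` has kernel `C`. -/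
theorem ker_eq_CG {i : Fin r} {Γ : Type*} [Group Γ] [Finite Γ] (ρ : ↥(E i) →* Γ) (hsurj : Function.Surjective ρ)
    (hn : ((CG G p).subgroupOf (E i)).Normal) (θ : Nonempty (↥(E i) ⧸ (CG G p).subgroupOf (E i) ≃* Γ))
    (htriv : ∀ e : ↥(E i), (e : G) ∈ CG G p → ρ e = 1) (e : ↥(E i)) : ρ e = 1 ↔ (e : G) ∈ Kc G p E i := by
  obtain ⟨θ⟩ := θ
  have h1 : (CG G p).subgroupOf (E i) = ρ.ker := by
    refine Subgroup.eq_of_le_of_card_ge (fun x hx => htriv x hx) (le_of_eq ?_)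
    have h2 := Subgroup.card_mul_index ρ.ker
    have h3 := Subgroup.card_mul_index ((CG G p).subgroupOf (E i))
    rw [Subgroup.index_ker, MonoidHom.range_eq_top.2 hsurj, Subgroup.card_top] at h2
    rw [show ((CG G p).subgroupOf (E i)).index = Nat.card Γ from Nat.card_congr θ.toEquiv] at h3
    exact Nat.eq_of_mul_eq_mul_right Nat.card_pos (h2.trans h3.symm)
  refine ⟨fun he => Subgroup.mem_sup_right (Subgroup.mem_subgroupOf.1 (h1.ge (MonoidHom.mem_ker.2 he))), fun he => ?_⟩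
  exact MonoidHom.mem_ker.1 (h1.le (Subgroup.mem_subgroupOf.2 (hE.inf_Kc i ⟨e.2, he⟩)))

/-- Reduction of equivariance to the component. -/
theorem equiv_aux (i : Fin r) {X : Type*} (act : ↥(E i) → X → X) (Ψ : ↥(VG G p) → X)
    (hU : ∀ (e : ↥(E i)) (u : ↥(VG G p)), (u : G) ∈ ⁅VG G p, E i⁆ →
      ∀ w : ↥(VG G p), (w : G) = (e : G) * u * (e : G)⁻¹ → Ψ w = act e (Ψ u))
    (hW : ∀ v v' : ↥(VG G p), (v : G)⁻¹ * v' ∈ Wc G p E i → Ψ v = Ψ v')
    (g : ↥(G1 E)) (e : ↥(E i)) (he : (e : G)⁻¹ * g ∈ Kc G p E i) (v w : ↥(VG G p))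
    (hw : (w : G) = (g : G) * v * (g : G)⁻¹) : Ψ w = act e (Ψ v) := by
  have hVn : ∀ (x : G), ∀ a ∈ VG G p, x * a * x⁻¹ ∈ VG G p := fun x a ha => VG_normal.conj_mem a ha x
  have hv' : (v : G) ∈ ⁅VG G p, E i⁆ ⊔ Wc G p E i := (hE.sup_Wc i).ge v.2
  haveI : IsMulCommutative ↥(VG G p) := VG_elem.1
  have hcomm : ∀ a ∈ VG G p, ∀ b ∈ VG G p, a * b = b * a := fun a ha b hb =>
    congrArg Subtype.val (mul_comm (⟨a, ha⟩ : ↥(VG G p)) ⟨b, hb⟩)
  have hUW : ⁅VG G p, E i⁆ ≤ Subgroup.normalizer (Wc G p E i : Set G) := fun a ha =>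
    Subgroup.mem_normalizer_fintype fun b hb => by
      rw [hcomm a (moves_le i ha) b hb.1, mul_inv_cancel_right]; exact hb
  rw [← SetLike.mem_coe, Subgroup.coe_mul_of_left_le_normalizer_right _ _ hUW] at hv'
  obtain ⟨u, hu, x, hx, huv⟩ := hv'
  have huV := moves_le i hu
  have e1 : Ψ v = Ψ ⟨u, huV⟩ := (hW ⟨u, huV⟩ v (by
    show u⁻¹ * (v : G) ∈ _
    rw [← huv]; simpa using hx)).symm
  rw [e1, ← hU e ⟨u, huV⟩ hu ⟨_, hVn e u huV⟩ rfl]
  refine (hW ⟨_, hVn e u huV⟩ w ?_).symm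
  show ((e : G) * u * (e : G)⁻¹)⁻¹ * (w : G) ∈ _
  set k := (e : G)⁻¹ * g with hk
  have hge : (g : G) = e * k := by simp [hk]
  have hku : k * u * k⁻¹ = u := by
    rw [← Subgroup.mem_centralizer_iff.1 (hE.Kc_le_centralizer i he) u hu, mul_inv_cancel_right]
  have hxW : (g : G) * x * (g : G)⁻¹ ∈ Wc G p E i :=
    (Subgroup.mem_normalizer_iff.1 (hE.G1_le_normalizer_Wc i g.2) x).1 hx
  have e2 : (w : G) = (e : G) * u * (e : G)⁻¹ * ((g : G) * x * (g : G)⁻¹) := by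
    rw [hw, ← huv]
    show (g : G) * (u * x) * (g : G)⁻¹ = _
    calc (g : G) * (u * x) * (g : G)⁻¹ = (g : G) * u * (g : G)⁻¹ * ((g : G) * x * (g : G)⁻¹) := by group
      _ = (e : G) * (k * u * k⁻¹) * (e : G)⁻¹ * ((g : G) * x * (g : G)⁻¹) := by rw [hge]; group
      _ = _ := by rw [hku]
  rw [e2]
  simpa [mul_assoc] using hxW

theorem exists_data (i : Fin r) : ∃ n : ℕ, 1 ≤ n ∧
    ((∃ (F : Type) (_ : Field F) (_ : Fintype F), Fintype.card F = p ^ n ∧ Nonempty (SLData G p E i F)) ∨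
      (p = 2 ∧ Nonempty (SymData G p E i (2 ^ n + 1)))) := by
  classical
  haveI : IsMulCommutative ↥(VG G p) := VG_elem.1
  have hcomm : ∀ a ∈ VG G p, ∀ b ∈ VG G p, a * b = b * a := fun a ha b hb =>
    congrArg Subtype.val (mul_comm (⟨a, ha⟩ : ↥(VG G p)) ⟨b, hb⟩)
  have hVW : VG G p ≤ Subgroup.normalizer (Wc G p E i : Set G) := fun a ha =>
    Subgroup.mem_normalizer_fintype fun b hb => by
      rw [hcomm a ha b hb.1, mul_inv_cancel_right]; exact hb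
  have hdecV : ∀ v ∈ VG G p, ∃ u ∈ ⁅VG G p, E i⁆, ∃ x ∈ Wc G p E i, v = u * x := by
    intro v hv
    have h1 : v ∈ ((⁅VG G p, E i⁆ ⊔ Wc G p E i : Subgroup G) : Set G) := (hE.sup_Wc i).ge hv
    rw [Subgroup.coe_mul_of_left_le_normalizer_right _ _ ((moves_le i).trans hVW)] at h1
    obtain ⟨u, hu, x, hx, e⟩ := h1
    exact ⟨u, hu, x, hx, e.symm⟩
  obtain ⟨n, hn, ⟨F, hF, hFt, hcard, ⟨hN, θ⟩, hnorm, hle, ρ, ψ, hρ, hψ, hψk, heq⟩ |
    ⟨hp, ⟨hN, θ⟩, hnorm, hle, ρ, ψ, hρ, hev, hψ, hψk, heq⟩⟩ := hE.type i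
  · refine ⟨n, hn, Or.inl ⟨F, hF, hFt, hcard, ?_⟩⟩
    have hρs : Function.Surjective ρ := MonoidHom.range_eq_top.1 hρ
    have hkρ := hE.ker_eq_CG ρ hρs hN θ fun e he => by
      refine Matrix.SpecialLinearGroup.ext _ _ fun a b => ?_
      obtain ⟨u, hu⟩ := hψ (Multiplicative.ofAdd (Pi.single b 1))
      obtain ⟨w, hw, hwe⟩ := heq e u
      have hfix : (e : G) * u * (e : G)⁻¹ = u := by
        rw [← Subgroup.mem_centralizer_iff.1 he u (moves_le i u.2), mul_inv_cancel_right]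
      rw [show w = u from Subtype.ext (hw.trans hfix), hu] at hwe
      have h1 := congrFun hwe a
      simp at h1
      rw [Matrix.SpecialLinearGroup.coe_one]
      simp [Matrix.one_apply, Pi.single_apply] at h1 ⊢
      exact h1.symm
    have hkψ : ∀ u : ↥⁅VG G p, E i⁆, ψ u = 1 ↔ (u : G) ∈ Wc G p E i := fun u => by
      rw [hψk, Subgroup.mem_inf, Subgroup.mem_inf]
      exact ⟨fun h1 => ⟨moves_le i u.2, h1.2⟩, fun h1 => ⟨u.2, h1.2⟩⟩
    obtain ⟨Φ, hΦE, hΦk, hΦr⟩ := exists_extend (le_iSup E i) (hE.G1_le_normalizer_Kc i) (hE.exists_mul i) ρ hkρ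
    obtain ⟨Ψ, hΨU, hΨk, -⟩ := exists_extend (moves_le i) hVW hdecV ψ hkψ
    refine ⟨⟨Φ, Ψ, fun s => ?_, fun x => ?_, hΦk, hΨk, fun g v w hw => ?_⟩⟩
    · obtain ⟨e, rfl⟩ := hρs s
      exact ⟨Subgroup.inclusion (le_iSup E i) e, e.2, hΦE e⟩
    · obtain ⟨u, rfl⟩ := hψ x
      exact ⟨Subgroup.inclusion (moves_le i) u, u.2, hΨU u⟩
    · obtain ⟨e, he, hek⟩ := hΦr g
      refine hE.equiv_aux i (fun e x => ((ρ e : Matrix.SpecialLinearGroup (Fin 2) F) : Matrix (Fin 2) (Fin 2) F).mulVec x)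
        (fun v => Multiplicative.toAdd (Ψ v)) (fun e u hu w hw => ?_) (fun v v' hvv => ?_) g e hek v w hw
        |>.trans (by rw [he])
      · obtain ⟨w', hw', hwe⟩ := heq e ⟨u, hu⟩
        rw [show Ψ u = ψ ⟨u, hu⟩ from hΨU ⟨u, hu⟩]
        rw [show w = Subgroup.inclusion (moves_le i) w' from Subtype.ext (hw.trans hw'.symm), hΨU]
        exact hwe
      · have h1 := (hΨk (v⁻¹ * v')).2 hvv
        rw [map_mul, map_inv, inv_mul_eq_one] at h1
        rw [h1]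
  · refine ⟨n, hn, Or.inr ⟨hp, ?_⟩⟩
    have hρs : Function.Surjective ρ := MonoidHom.range_eq_top.1 hρ
    have hm : 3 ≤ 2 ^ n + 1 := by
      have := Nat.one_lt_two_pow (show n ≠ 0 by omega); omega
    have hkρ := hE.ker_eq_CG ρ hρs hN θ fun e he => by
      rw [← inv_eq_one]
      refine Equiv.ext fun a => ?_
      rw [Equiv.Perm.one_apply]
      by_contra hne
      obtain ⟨c, -, hc⟩ := Finset.exists_mem_notMem_of_card_lt_card
        (t := Finset.univ) (s := ({a, (ρ e)⁻¹ a} : Finset (Fin (2 ^ n + 1))))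
        (lt_of_le_of_lt Finset.card_le_two (by simp; omega))
      simp at hc
      obtain ⟨u, hu⟩ := hψ (Pi.single a 1 + Pi.single c 1) (by
        simp [Finset.sum_add_distrib]; decide)
      obtain ⟨w, hw, hwe⟩ := heq e u
      have hfix : (e : G) * u * (e : G)⁻¹ = u := by
        rw [← Subgroup.mem_centralizer_iff.1 he u (moves_le i u.2), mul_inv_cancel_right]
      rw [show w = u from Subtype.ext (hw.trans hfix), hu] at hwe
      have h1 := hwe a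
      simp [Pi.single_apply, Ne.symm hc.1, Ne.symm hc.2, hne] at h1
      exact hne h1
    have hkψ : ∀ u : ↥⁅VG G p, E i⁆, ψ u = 1 ↔ (u : G) ∈ Wc G p E i := fun u => by
      rw [hψk, Subgroup.mem_inf, Subgroup.mem_inf]
      exact ⟨fun h1 => ⟨moves_le i u.2, h1.2⟩, fun h1 => ⟨u.2, h1.2⟩⟩
    obtain ⟨Φ, hΦE, hΦk, hΦr⟩ := exists_extend (le_iSup E i) (hE.G1_le_normalizer_Kc i) (hE.exists_mul i) ρ hkρ
    obtain ⟨Ψ, hΨU, hΨk, hΨr⟩ := exists_extend (moves_le i) hVW hdecV ψ hkψ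
    refine ⟨⟨Φ, Ψ, fun s => ?_, fun v => ?_, fun x hx => ?_, hΦk, hΨk, fun g v w hw k => ?_⟩⟩
    · obtain ⟨e, rfl⟩ := hρs s
      exact ⟨Subgroup.inclusion (le_iSup E i) e, e.2, hΦE e⟩
    · obtain ⟨u, hu, -⟩ := hΨr v
      rw [hu]; exact hev u
    · obtain ⟨u, rfl⟩ := hψ x hx
      exact ⟨Subgroup.inclusion (moves_le i) u, u.2, congrArg Multiplicative.toAdd (hΨU u)⟩
    · obtain ⟨e, he, hek⟩ := hΦr g
      refine congrFun (hE.equiv_aux i (fun e x => fun k => x ((ρ e)⁻¹ k))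
        (fun v => Multiplicative.toAdd (Ψ v)) (fun e u hu w hw => ?_) (fun v v' hvv => ?_) g e hek v w hw) k
        |>.trans (by rw [he])
      · obtain ⟨w', hw', hwe⟩ := heq e ⟨u, hu⟩
        rw [show Ψ u = ψ ⟨u, hu⟩ from hΨU ⟨u, hu⟩]
        rw [show w = Subgroup.inclusion (moves_le i) w' from Subtype.ext (hw.trans hw'.symm), hΨU]
        exact funext hwe
      · have h1 := (hΨk (v⁻¹ * v')).2 hvv
        rw [map_mul, map_inv, inv_mul_eq_one] at h1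
        rw [h1]

end Comps

end CfsgLib.FFModules.PushUpBlocks
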