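import Cfsg.Agent.Lib.FFModules.PushUpBlocks.Pieces

/-!
What is proved about the block of one component.
-/

set_option autoImplicit false
set_option linter.unusedSectionVars false

namespace CfsgLib.FFModules.PushUpBlocks

open Cfsg
open scoped commutatorElement MatrixGroups

variable {G : Type*} [Group G] {p : ℕ} [Finite G] [Fact p.Prime]

/-- The third clause of the block structure. -/
def BlockClause (p : ℕ) (T Eb : Subgroup G) : Prop :=
  (∃ (F : Type) (_ : Field F) (_ : Fintype F) (m : ℕ), 3 < p ^ m ∧ Fintype.card F = p ^ m ∧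
      Nonempty (↥Eb ⧸ pCore p ↥Eb ≃* Matrix.SpecialLinearGroup (Fin 2) F) ∧
      cStarOf p T ⊓ Eb = Eb ⊓ Subgroup.normalizer ((T ⊓ Eb : Subgroup G) : Set G)) ∨
  (p = 2 ∧ ∃ m : ℕ, Nonempty (↥Eb ⧸ pCore p ↥Eb ≃* ↥(alternatingGroup (Fin (2 * m + 1)))) ∧
      Nonempty (↥(((cStarOf p T ⊓ Eb).subgroupOf Eb).map (QuotientGroup.mk' (pCore p ↥Eb))) ≃*
        ↥(alternatingGroup (Fin (2 * m))))) ∨
  (p = 3 ∧ Nonempty (↥Eb ⧸ pCore p ↥Eb ≃* ↥(commutator (Matrix.SpecialLinearGroup (Fin 2) (ZMod 3)))) ∧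
      ((cStarOf p T ⊓ Eb).subgroupOf Eb).map (QuotientGroup.mk' (pCore p ↥Eb)) =
        Subgroup.center (↥Eb ⧸ pCore p ↥Eb))

/-- The block of the `i`-th component. -/
structure CompBlock (T : Sylow p G) {r : ℕ} (E : Fin r → Subgroup G) (M : Subgroup G) (i : Fin r)
    (Eb : Subgroup G) : Prop where
  block : IsBaumannBlock p (T : Subgroup G) Eb
  le : Eb ≤ E i
  norm : E i ≤ Subgroup.normalizer (Eb : Set G)
  notC : ¬ Eb ≤ CG G p
  notM : ¬ Eb ≤ M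
  good : ∀ e ∈ Eb, (∃ m ∈ M ⊓ G1 E, m⁻¹ * e ∈ Kc G p E i) → e ∈ cStarOf p (T : Subgroup G)
  clause : BlockClause p (T : Subgroup G) Eb
  degree : ∀ m : ℕ, Nonempty (↥Eb ⧸ pCore p ↥Eb ≃* ↥(alternatingGroup (Fin (2 * m + 1)))) →
    ∃ n : ℕ, 2 * m + 1 = 2 ^ n + 1

end CfsgLib.FFModules.PushUpBlocks
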