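import Cfsg.Agent.Lib.FFModules.PushUpBlocks.Permute
import Mathlib.GroupTheory.Perm.Cycle.Type
import Mathlib.GroupTheory.Perm.Cycle.Concrete

/-!
The images of `J(T)` and of `T ∩ G1` in the components.
-/

set_option autoImplicit false
set_option linter.unusedSectionVars false

namespace CfsgLib.FFModules.PushUpBlocks

open Cfsg
open scoped commutatorElement MatrixGroups
open CfsgLib.FFModules.MinimalParabolic (upperSL)

variable {G : Type*} [Group G] {p : ℕ} [Finite G] [Fact p.Prime] {T : Sylow p G} {r : ℕ}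
  {E : Fin r → Subgroup G}

/-- The elements of `J(T)` that are trivial on all components but the `i`-th. -/
def Jc (T : Sylow p G) (E : Fin r → Subgroup G) (i : Fin r) : Subgroup G :=
  thompsonSubgroupOf p (T : Subgroup G) ⊓ ⨅ j ∈ {j | j ≠ i}, Kc G p E j

theorem mem_Jc {i : Fin r} {a : G} :
    a ∈ Jc T E i ↔ a ∈ thompsonSubgroupOf p (T : Subgroup G) ∧ ∀ j, j ≠ i → a ∈ Kc G p E j := by
  simp [Jc, Subgroup.mem_iInf]

theorem Jc_le_T (i : Fin r) : Jc T E i ≤ (T : Subgroup G) :=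
  inf_le_left.trans (ThompsonJ.thompsonSubgroupOf_le p _)

theorem Jc_le_G1 (hE : Comps T E) (i : Fin r) : Jc T E i ≤ G1 E := inf_le_left.trans (thompson_le_G1 hE)

theorem Jc_conj (hE : Comps T E) {i : Fin r} {t a : G} (ht : t ∈ (T : Subgroup G)) (ht1 : t ∈ G1 E)
    (ha : a ∈ Jc T E i) : t * a * t⁻¹ ∈ Jc T E i := by
  obtain ⟨ha1, ha2⟩ := mem_Jc.1 ha
  refine mem_Jc.2 ⟨?_, fun j hj => (Subgroup.mem_normalizer_iff.1 (hE.G1_le_normalizer_Kc j ht1) a).1 (ha2 j hj)⟩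
  exact (Subgroup.mem_normalizer_iff.1
    (ThompsonJ.normalizer_le_normalizer_thompsonSubgroupOf p _ (Subgroup.le_normalizer ht)) a).1 ha1

variable {M : Subgroup G}

/-- A maximal elementary abelian subgroup that is nontrivial on the `i`-th component. -/
theorem exists_maxEA_not_le (h : Hyp T) (hM : IsTop T M) (hE : Comps T E) (i : Fin r) :
    ∃ A, OffFacts T E A ∧ A ≤ thompsonSubgroupOf p (T : Subgroup G) ∧ ThompsonJ.IsMaxEA p (T : Subgroup G) A ∧
      ¬ A ≤ Kc G p E i := by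
  haveI : Nonempty (Fin r) := ⟨i⟩
  by_contra hh
  push Not at hh
  refine thompson_not_le_Kc h hM hE i (ThompsonJ.thompsonSubgroupOf_le_iff.2 fun A hA => ?_)
  exact hh A (offFacts h hM hE hA) (ThompsonJ.le_thompsonSubgroupOf hA) hA

theorem OffFacts.exists_Jc {A : Subgroup G} (hA : OffFacts T E A)
    (hAJ : A ≤ thompsonSubgroupOf p (T : Subgroup G)) (i : Fin r) {a : G} (ha : a ∈ A) :
    ∃ a' ∈ Jc T E i, a⁻¹ * a' ∈ Kc G p E i := by
  obtain ⟨a', ha', h1, h2⟩ := hA.full i a ha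
  exact ⟨a', mem_Jc.2 ⟨hAJ ha', h2⟩, h1⟩

/-- In a linear component `J(T)` covers the unipotent group. -/
theorem imageSL (h : Hyp T) (hM : IsTop T M) (hE : Comps T E) {i : Fin r} {F : Type} [Field F] [Finite F]
    (D : SLData G p E i F)
    (hD : ∀ a : ↥(G1 E), (a : G) ∈ (T : Subgroup G) → Loc.app (D.Φ a) (Loc.e1 F) = Loc.e1 F) (t : F) :
    ∃ a : ↥(G1 E), (a : G) ∈ Jc T E i ∧ D.Φ a = upperSL t := by
  obtain ⟨A, hA, hAJ, hAm, hne⟩ := exists_maxEA_not_le h hM hE i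
  obtain ⟨-, hfull⟩ := D.relIndex_bound hE hA.le fun a ha => hD a (hAm.le ha)
  obtain ⟨a, ha, e⟩ := ((hfull (hA.eq i)).resolve_left hne) t
  obtain ⟨a', ha', h1⟩ := hA.exists_Jc hAJ i ha
  refine ⟨⟨a', Jc_le_G1 hE i ha'⟩, ha', ?_⟩
  have h2 := (D.kerΦ (a⁻¹ * ⟨a', Jc_le_G1 hE i ha'⟩)).2 h1
  rw [map_mul, map_inv, inv_mul_eq_one] at h2
  exact h2.symm.trans e

/-- The shape of the images in a symmetric component. -/
structure SymShape (T : Sylow p G) {i : Fin r} {m : ℕ} (D : SymData G p E i m) (p0 : Fin m)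
    (τ : Equiv.Perm (Fin m)) : Prop where
  fix : τ p0 = p0
  inv : ∀ k, τ (τ k) = k
  ne : ∀ k, k ≠ p0 → τ k ≠ k
  upper : ∀ a : ↥(G1 E), (a : G) ∈ thompsonSubgroupOf p (T : Subgroup G) → ∀ k, D.Φ a k = k ∨ D.Φ a k = τ k
  full : ∀ σ : Equiv.Perm (Fin m), (∀ k, σ k = k ∨ σ k = τ k) →
    ∃ a : ↥(G1 E), (a : G) ∈ Jc T E i ∧ D.Φ a = σ
  fixT : ∀ t : ↥(G1 E), (t : G) ∈ (T : Subgroup G) → D.Φ t p0 = p0
  commT : ∀ t : ↥(G1 E), (t : G) ∈ (T : Subgroup G) → ∀ k, D.Φ t (τ k) = τ (D.Φ t k)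
  trans : ∀ k l, k ≠ p0 → l ≠ p0 → ∃ t : ↥(G1 E), (t : G) ∈ (T : Subgroup G) ∧ D.Φ t k = l

theorem card_relIndex_dvd (hE : Comps T E) :
    ((T : Subgroup G).relIndex (G1 E)) ∣ (T : Subgroup G).index := by
  haveI := hE.G1_normal
  have h1 := relIndex_mul_card (inf_le_right : (T : Subgroup G) ⊓ G1 E ≤ G1 E)
  rw [Subgroup.inf_relIndex_right] at h1
  have h2 := relIndex_mul_card (inf_le_left : (T : Subgroup G) ⊓ G1 E ≤ (T : Subgroup G))
  rw [Subgroup.inf_relIndex_left] at h2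
  have h3 := relIndex_mul_card (le_sup_right : G1 E ≤ (T : Subgroup G) ⊔ G1 E)
  rw [Subgroup.relIndex_sup_right] at h3
  have h4 : (T : Subgroup G).relIndex (G1 E) * Nat.card (T : Subgroup G) =
      Nat.card ↥((T : Subgroup G) ⊔ G1 E) := by
    rw [← h2, ← h3, ← h1]; ring
  have h5 := Subgroup.card_subgroup_dvd_card ((T : Subgroup G) ⊔ G1 E)
  rw [← h4, ← Subgroup.index_mul_card (T : Subgroup G)] at h5
  exact Nat.dvd_of_mul_dvd_mul_right Nat.card_pos h5

theorem exists_symShape (h : Hyp T) (hM : IsTop T M) (hE : Comps T E) (hp : p = 2) {i : Fin r} {n : ℕ}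
    (hn : 1 ≤ n) (D : SymData G p E i (2 ^ n + 1)) : ∃ p0 τ, SymShape T D p0 τ := by
  classical
  subst hp
  have hodd : Odd (2 ^ n + 1) := by simp [parity_simps]; omega
  -- the image of `T` is a Sylow subgroup
  have hTG : IsPGroup 2 ((T : Subgroup G).subgroupOf (G1 E)) := T.2.comap_subtype
  have hidx : ¬ 2 ∣ ((T : Subgroup G).subgroupOf (G1 E)).index := fun h2 =>
    T.not_dvd_index (h2.trans (card_relIndex_dvd hE))
  set P : Sylow 2 (Equiv.Perm (Fin (2 ^ n + 1))) := (hTG.toSylow hidx).mapSurjective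
    (f := D.Φ) (fun s => let ⟨g, _, e⟩ := D.surjΦ s; ⟨g, e⟩) with hP
  have hPmem : ∀ x, x ∈ (P : Subgroup (Equiv.Perm (Fin (2 ^ n + 1)))) ↔
      ∃ t : ↥(G1 E), (t : G) ∈ (T : Subgroup G) ∧ D.Φ t = x := fun x => Iff.rfl
  -- a long cycle
  obtain ⟨σ, hσ⟩ := (Equiv.Perm.exists_with_cycleType_iff (α := Fin (2 ^ n + 1)) (m := {2 ^ n})).2
    ⟨by simp, fun a ha => by
      rw [Multiset.mem_singleton] at ha; rw [ha]; exact Nat.le_self_pow (by omega) 2⟩
  have hσc : σ.IsCycle := by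
    rw [← Equiv.Perm.card_cycleType_eq_one, hσ, Multiset.card_singleton]
  have hσs : σ.support.card = 2 ^ n := by rw [← Equiv.Perm.sum_cycleType, hσ, Multiset.sum_singleton]
  have hσp : IsPGroup 2 (Subgroup.zpowers σ) := IsPGroup.iff_card.2 ⟨n, by
    rw [Nat.card_zpowers, hσc.orderOf, hσs]⟩
  obtain ⟨P', hP'⟩ := hσp.exists_le_sylow
  obtain ⟨g, rfl⟩ := MulAction.exists_smul_eq (Equiv.Perm (Fin (2 ^ n + 1))) P P'
  obtain ⟨c0, hc0, hc0σ⟩ : ∃ c0 ∈ (P : Subgroup (Equiv.Perm (Fin (2 ^ n + 1)))), g * c0 * g⁻¹ = σ := by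
    have h1 := hP' (Subgroup.mem_zpowers σ)
    rw [Sylow.coe_subgroup_smul, Subgroup.mem_smul_pointwise_iff_exists] at h1
    obtain ⟨c0, h2, h3⟩ := h1
    exact ⟨c0, h2, h3⟩
  have hc : c0.IsCycle := by
    have h1 := hσc.conj (g := g⁻¹)
    rw [← hc0σ] at h1
    simpa [mul_assoc] using h1
  have hcs : c0.support.card = 2 ^ n := by
    rw [← hc0σ, Equiv.Perm.card_support_conj] at hσs
    exact hσs
  obtain ⟨p0, hp0⟩ : ∃ p0, c0.supportᶜ = {p0} := Finset.card_eq_one.1 (by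
    rw [Finset.card_compl, hcs, Fintype.card_fin]; omega)
  have hfixc : ∀ k, c0 k = k → k = p0 := fun k hk => by
    have h1 : k ∈ c0.supportᶜ := by simpa using hk
    rw [hp0, Finset.mem_singleton] at h1; exact h1
  obtain ⟨p1, hp1⟩ := (P.isPGroup').nonempty_fixed_point_of_prime_not_dvd_card (Fin (2 ^ n + 1))
    (by rw [Nat.card_eq_fintype_card, Fintype.card_fin]; exact fun h2 => Nat.not_even_iff_odd.2 hodd (even_iff_two_dvd.2 h2))
  have hp1' : ∀ x ∈ (P : Subgroup (Equiv.Perm (Fin (2 ^ n + 1)))), x p1 = p1 := fun x hx => hp1 ⟨x, hx⟩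
  have hp01 : p1 = p0 := hfixc _ (hp1' _ hc0)
  subst hp01
  have htrans : ∀ k l, k ≠ p1 → l ≠ p1 → ∃ t : ↥(G1 E), (t : G) ∈ (T : Subgroup G) ∧ D.Φ t k = l := by
    intro k l hk hl
    obtain ⟨j, hj⟩ := hc.exists_zpow_eq (fun e => hk (hfixc k e)) (fun e => hl (hfixc l e))
    obtain ⟨t, ht, e⟩ := (hPmem _).1 (zpow_mem hc0 j)
    exact ⟨t, ht, by rw [e]; exact hj⟩
  have hfixT : ∀ t : ↥(G1 E), (t : G) ∈ (T : Subgroup G) → D.Φ t p1 = p1 := fun t ht =>
    hp1' _ ((hPmem _).2 ⟨t, ht, rfl⟩)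
  -- partners
  set R : Fin (2 ^ n + 1) → Fin (2 ^ n + 1) → Prop := fun k l =>
    k ≠ l ∧ ∃ a : ↥(G1 E), (a : G) ∈ Jc T E i ∧ D.Φ a = Equiv.swap k l with hR
  have hRs : ∀ {k l}, R k l → R l k := fun {k l} ⟨h1, a, h2, h3⟩ =>
    ⟨h1.symm, a, h2, h3.trans (Equiv.swap_comm k l)⟩
  have hRf : ∀ {k l l'}, R k l → R k l' → l = l' := by
    rintro k l l' ⟨h1, a, ha, ea⟩ ⟨h1', a', ha', ea'⟩
    by_contra hne
    have h3 := Equiv.Perm.isThreeCycle_swap_mul_swap_same h1 h1' hne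
    have h4 : Equiv.swap k l * Equiv.swap k l' ∈ (P : Subgroup (Equiv.Perm (Fin (2 ^ n + 1)))) :=
      mul_mem ((hPmem _).2 ⟨a, Jc_le_T i ha, ea⟩) ((hPmem _).2 ⟨a', Jc_le_T i ha', ea'⟩)
    obtain ⟨e, he⟩ := P.isPGroup' ⟨_, h4⟩
    have h5 : (Equiv.swap k l * Equiv.swap k l') ^ 2 ^ e = 1 := congrArg Subtype.val he
    have h6 := orderOf_dvd_of_pow_eq_one h5
    rw [h3.orderOf] at h6
    exact absurd ((Nat.prime_dvd_prime_iff_eq Nat.prime_three Nat.prime_two).1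
      (Nat.prime_three.dvd_of_dvd_pow h6)) (by norm_num)
  have hRconj : ∀ t : ↥(G1 E), (t : G) ∈ (T : Subgroup G) → ∀ {k l}, R k l → R (D.Φ t k) (D.Φ t l) := by
    rintro t ht k l ⟨h1, a, ha, ea⟩
    refine ⟨fun e => h1 ((D.Φ t).injective e), t * a * t⁻¹, Jc_conj hE ht t.2 ha, ?_⟩
    rw [map_mul, map_mul, map_inv, ea, Equiv.swap_apply_apply]
  have hRA : ∀ A : Subgroup G, ThompsonJ.IsMaxEA 2 (T : Subgroup G) A → ∀ a : ↥(G1 E), (a : G) ∈ A →
      ∀ k, D.Φ a k ≠ k → R k (D.Φ a k) := by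
    intro A hA a ha k hk
    haveI : Nonempty (Fin r) := ⟨i⟩
    have hO := offFacts h hM hE hA
    obtain ⟨hfull, -⟩ := (D.relIndex_bound hE hodd hO.le hO.comm).2 (hO.eq i)
    have ha2 : D.Φ a (D.Φ a k) = k := by
      rw [← Equiv.Perm.mul_apply, ← map_mul,
        show a * a = 1 from Subtype.ext (by
          show (a : G) * a = 1
          rw [← pow_two]; exact (ThompsonJ.isElementaryAbelian_iff.1 hA.elem).2 _ ha), map_one, Equiv.Perm.one_apply]
    obtain ⟨b, hb, eb⟩ := hfull (Equiv.swap k (D.Φ a k)) fun x => by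
      rcases eq_or_ne x k with rfl | hxk
      · exact ⟨a, ha, (Equiv.swap_apply_left _ _).symm⟩
      rcases eq_or_ne x (D.Φ a k) with rfl | hxl
      · exact ⟨a, ha, by rw [ha2, Equiv.swap_apply_right]⟩
      · exact ⟨1, by simp, by rw [map_one, Equiv.swap_apply_of_ne_of_ne hxk hxl, Equiv.Perm.one_apply]⟩
    obtain ⟨b', hb', h1⟩ := hO.exists_Jc (ThompsonJ.le_thompsonSubgroupOf hA) i hb
    refine ⟨hk.symm, ⟨b', Jc_le_G1 hE i hb'⟩, hb', ?_⟩
    have h2 := (D.kerΦ (b⁻¹ * ⟨b', Jc_le_G1 hE i hb'⟩)).2 h1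
    rw [map_mul, map_inv, inv_mul_eq_one] at h2
    exact h2.symm.trans eb
  -- everybody but the fixed point has a partner
  obtain ⟨k₁, l₁, hkl⟩ : ∃ k l, R k l := by
    obtain ⟨A, hA, -, hAm, hne⟩ := exists_maxEA_not_le h hM hE i
    obtain ⟨a, ha, hak⟩ := SetLike.not_le_iff_exists.1 hne
    have h1 : D.Φ ⟨a, hA.le ha⟩ ≠ 1 := fun e => hak ((D.kerΦ _).1 e)
    obtain ⟨k, hk⟩ : ∃ k, D.Φ ⟨a, hA.le ha⟩ k ≠ k := by
      by_contra hh
      push Not at hh
      exact h1 (Equiv.ext fun k => by simp [hh k])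
    exact ⟨k, _, hRA A hAm ⟨a, hA.le ha⟩ ha k hk⟩
  obtain ⟨k₀, hk₀, l₀, hk₀l⟩ : ∃ k, k ≠ p1 ∧ ∃ l, R k l := by
    rcases eq_or_ne k₁ p1 with e | e
    · exact ⟨l₁, fun e' => hkl.1 (e.trans e'.symm), k₁, hRs hkl⟩
    · exact ⟨k₁, e, l₁, hkl⟩
  have hall : ∀ k, k ≠ p1 → ∃ l, R k l := fun k hk => by
    obtain ⟨t, ht, e⟩ := htrans k₀ k hk₀ hk
    exact ⟨D.Φ t l₀, e ▸ hRconj t ht hk₀l⟩
  have hnone : ∀ l, ¬ R p1 l := by
    intro l hl
    have hl1 : l ≠ p1 := hl.1.symm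
    -- the partner would be fixed by `T`
    obtain ⟨t, ht, e⟩ : ∃ t : ↥(G1 E), (t : G) ∈ (T : Subgroup G) ∧ D.Φ t l ≠ l := by
      obtain ⟨u, hu, e⟩ := (hPmem _).1 hc0
      exact ⟨u, hu, fun e' => hl1 (hfixc l (e ▸ e'))⟩
    refine e (hRf ?_ hl)
    have := hRconj t ht hl
    rwa [hfixT t ht] at this
  let τf : Fin (2 ^ n + 1) → Fin (2 ^ n + 1) := fun k => if hk : ∃ l, R k l then hk.choose else k
  have hτR : ∀ {k l}, R k l → τf k = l := fun {k l} hkl => by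
    have hex : ∃ l, R k l := ⟨l, hkl⟩
    simp only [τf, dif_pos hex]
    exact hRf hex.choose_spec hkl
  have hτp : τf p1 = p1 := by simp only [τf]; rw [dif_neg (fun ⟨l, hl⟩ => hnone l hl)]
  have hτ : ∀ k, k ≠ p1 → R k (τf k) := fun k hk => by
    obtain ⟨l, hl⟩ := hall k hk; rw [hτR hl]; exact hl
  have hinv : Function.Involutive τf := fun k => by
    rcases eq_or_ne k p1 with rfl | hk
    · rw [hτp, hτp]
    · exact hτR (hRs (hτ k hk))
  refine ⟨p1, hinv.toPerm τf, hτp, hinv, fun k hk e => (hτ k hk).1 e.symm, ?_, ?_, hfixT, ?_, htrans⟩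
  · -- upper
    intro a ha k
    let U : Subgroup ↥(G1 E) :=
      { carrier := {a | ∀ k, D.Φ a k = k ∨ D.Φ a k = τf k}
        one_mem' := fun k => Or.inl (by simp)
        mul_mem' := fun {a b} ha hb k => by
          rw [map_mul, Equiv.Perm.mul_apply]
          rcases hb k with e | e <;> rw [e]
          · exact ha k
          · rcases ha (τf k) with e' | e' <;> rw [e']
            · exact Or.inr rfl
            · exact Or.inl (hinv k)
        inv_mem' := fun {a} ha k => by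
          rw [map_inv, Equiv.Perm.inv_def]
          rcases ha ((D.Φ a).symm k) with e | e
          · rw [Equiv.apply_symm_apply] at e; exact Or.inl e.symm
          · rw [Equiv.apply_symm_apply] at e
            exact Or.inr (by conv_rhs => rw [e, hinv]) }
    have hle : thompsonSubgroupOf 2 (T : Subgroup G) ≤ U.map (G1 E).subtype := by
      refine ThompsonJ.thompsonSubgroupOf_le_iff.2 fun A hA b hb => ?_
      have hbG : b ∈ G1 E := thompson_le_G1 hE (ThompsonJ.le_thompsonSubgroupOf hA hb)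
      refine ⟨⟨b, hbG⟩, fun k => ?_, rfl⟩
      by_cases hk : D.Φ ⟨b, hbG⟩ k = k
      · exact Or.inl hk
      · exact Or.inr (hτR (hRA A hA ⟨b, hbG⟩ hb k hk)).symm
    obtain ⟨a', ha', e⟩ := hle ha
    rw [← show a' = a from Subtype.ext e]
    exact ha' k
  · -- full
    intro σ
    induction hs : σ.support.card using Nat.strong_induction_on generalizing σ with
    | _ N ih =>
      intro hσ'
      by_cases h1 : σ = 1
      · exact ⟨1, by simp, by rw [map_one, h1]⟩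
      obtain ⟨k, hk⟩ : ∃ k, σ k ≠ k := by
        by_contra hh
        push Not at hh
        exact h1 (Equiv.ext fun k => by simp [hh k])
      have hσk : σ k = τf k := (hσ' k).resolve_left hk
      have hσl : σ (τf k) = k := by
        rcases hσ' (τf k) with e | e
        · exact absurd (σ.injective (e.trans hσk.symm)).symm fun e' => hk (hσk.trans e'.symm)
        · exact e.trans (hinv k)
      have hlt : (Equiv.swap k (σ k) * σ).support.card < N :=
        hs ▸ Equiv.Perm.card_support_swap_mul hk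
      obtain ⟨a, ha, ea⟩ := ih _ hlt _ rfl fun x => by
        rw [Equiv.Perm.mul_apply]
        rcases eq_or_ne x k with rfl | hxk
        · exact Or.inl (Equiv.swap_apply_right _ _)
        rcases eq_or_ne x (τf k) with rfl | hxl
        · rw [hσl, Equiv.swap_apply_left, hσk]; exact Or.inl rfl
        have h2 : σ x ≠ k := fun e => hxl (σ.injective (e.trans hσl.symm))
        have h3 : σ x ≠ σ k := fun e => hxk (σ.injective e)
        rw [Equiv.swap_apply_of_ne_of_ne h2 h3]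
        exact hσ' x
      have hkp : k ≠ p1 := fun e => hk (by rw [hσk, e, hτp])
      obtain ⟨-, b, hb, eb⟩ := hτ k hkp
      refine ⟨b * a, mul_mem hb ha, ?_⟩
      rw [map_mul, ea, eb, hσk, ← mul_assoc, Equiv.swap_mul_self, one_mul]
  · -- commutation
    intro t ht k
    show D.Φ t (τf k) = τf (D.Φ t k)
    rcases eq_or_ne k p1 with rfl | hk
    · rw [hτp, hfixT t ht, hτp]
    · exact (hτR (hRconj t ht (hτ k hk))).symm

end CfsgLib.FFModules.PushUpBlocks
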