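import Cfsg.Agent.Lib.FFModules.PushUpBlocks.Pieces
import Mathlib.LinearAlgebra.Matrix.SpecialLinearGroup
import Cfsg.Agent.Lib.TwoGroupTricks.NaturalModules

/-!
`SL₂` facts for the linear components.
-/

set_option autoImplicit false
set_option linter.unusedSectionVars false

namespace CfsgLib.FFModules.PushUpBlocks.Loc

open Matrix
open scoped MatrixGroups
open CfsgLib.FFModules.MinimalParabolic (upperSL upperSL_mulVec)

variable {F : Type*} [Field F]

local notation "M₂" => Matrix (Fin 2) (Fin 2) F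

theorem sl_perfect [Finite F] (h : 3 < Nat.card F) : _root_.commutator SL(2, F) = ⊤ := by
  classical
  haveI := Fintype.ofFinite F
  obtain ⟨a, ha, hasq⟩ : ∃ a : F, a ≠ 0 ∧ a ^ 2 ≠ 1 := by
    by_contra hcon
    simp only [not_exists, not_and, not_not] at hcon
    have hsub : (Finset.univ : Finset F) ⊆ {0, 1, -1} := fun x _ => by
      by_cases hx : x = 0
      · simp [hx]
      · rcases mul_self_eq_one_iff.1 ((pow_two x) ▸ hcon x hx) with e | e <;> simp [e]
    have := le_trans (Finset.card_le_card hsub) Finset.card_le_three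
    rw [Finset.card_univ, ← Nat.card_eq_fintype_card] at this
    omega
  exact Matrix.SL2.commutator_eq_top ha hasq

theorem upperSL_10 (t : F) : ((upperSL t : SL(2, F)) : M₂) 1 0 = 0 := by simp [upperSL]

theorem mul_10 {a b : SL(2, F)} (ha : (a : M₂) 1 0 = 0) (hb : (b : M₂) 1 0 = 0) :
    ((a * b : SL(2, F)) : M₂) 1 0 = 0 := by
  simp [Matrix.SpecialLinearGroup.coe_mul, Matrix.mul_apply, ha, hb]

theorem inv_10 {a : SL(2, F)} (ha : (a : M₂) 1 0 = 0) : ((a⁻¹ : SL(2, F)) : M₂) 1 0 = 0 := by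
  simp [Matrix.SpecialLinearGroup.coe_inv, Matrix.adjugate_fin_two, ha]

/-- Triangular elements normalize the unipotent group. -/
theorem borel_conj {a : SL(2, F)} (ha : (a : M₂) 1 0 = 0) (t : F) :
    a * upperSL t * a⁻¹ = upperSL (((a : M₂) 0 0) ^ 2 * t) := by
  rw [mul_inv_eq_iff_eq_mul]
  apply Subtype.ext
  have hd := a.2
  rw [Matrix.det_fin_two, ha, mul_zero, sub_zero] at hd
  rw [Matrix.SpecialLinearGroup.coe_mul, Matrix.SpecialLinearGroup.coe_mul]
  ext i j
  fin_cases i <;> fin_cases j <;> simp [upperSL, Matrix.mul_apply, ha]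
  linear_combination (-(((a : M₂) 0 0) * t)) * hd

theorem fix_iff {g : SL(2, F)} : app g (e1 F) = e1 F ↔ ∃ t, g = upperSL t :=
  ⟨exists_of_fix, fun ⟨t, ht⟩ => ht ▸ upperSL_e1 t⟩

/-- An element fixing the line of the unipotent group. -/
theorem borel_of_conj_fix {a : SL(2, F)} (h : app (a * upperSL 1 * a⁻¹) (e1 F) = e1 F) :
    (a : M₂) 1 0 = 0 := by
  have h1 : app (upperSL 1) (app a⁻¹ (e1 F)) = app a⁻¹ (e1 F) := by
    have h2 := congrArg (app a⁻¹) h
    rwa [← app_mul, ← mul_assoc, ← mul_assoc, inv_mul_cancel, one_mul, app_mul] at h2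
  have h3 := (app_upperSL_eq_iff (one_ne_zero)).1 h1
  simpa [app, e1, Matrix.SpecialLinearGroup.coe_inv, Matrix.adjugate_fin_two, Matrix.mulVec, dotProduct] using h3

variable [Finite F] {p : ℕ} [Fact p.Prime] [CharP F p]

/-- A `p`-subgroup over the unipotent group is the unipotent group. -/
theorem fix_of_pgroup {P : Subgroup SL(2, F)} (hP : IsPGroup p P) (hU : ∀ t, upperSL t ∈ P) {x : SL(2, F)}
    (hx : x ∈ P) : app x (e1 F) = e1 F := by
  obtain ⟨h, hh⟩ := exists_fix_conj hP
  have hcard := (upper_facts (X := P.map (MulAut.conj h).toMonoidHom) fun y hy => by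
    obtain ⟨z, hz, rfl⟩ := hy
    exact hh z hz).1
  rw [Subgroup.card_map_of_injective (MulAut.conj h).injective] at hcard
  let f : F → ↥P := fun t => ⟨upperSL t, hU t⟩
  have hf : Function.Injective f := fun a b e => upperSL_injective (congrArg Subtype.val e)
  obtain ⟨t, ht⟩ := ((Nat.bijective_iff_injective_and_card f).2
    ⟨hf, le_antisymm (Nat.card_le_card_of_injective f hf) hcard⟩).2 ⟨x, hx⟩
  rw [← show upperSL t = x from congrArg Subtype.val ht]
  exact upperSL_e1 t

theorem sq_eq_one_of_pow_four [CharP F 2] {g : SL(2, F)} (h : g ^ 4 = 1) : g ^ 2 = 1 := by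
  haveI : Fact (Nat.Prime 2) := ⟨Nat.prime_two⟩
  have hP : IsPGroup 2 (Subgroup.zpowers g) := by
    rintro ⟨_, j, rfl⟩
    refine ⟨2, Subtype.ext ?_⟩
    show (g ^ j) ^ 4 = 1
    rw [← zpow_natCast, ← _root_.zpow_mul, mul_comm, _root_.zpow_mul, zpow_natCast, h, _root_.one_zpow]
  obtain ⟨c, hc⟩ := exists_fix_conj hP
  obtain ⟨t, ht⟩ := exists_of_fix (hc g (Subgroup.mem_zpowers g))
  have h2 : (c * g * c⁻¹) ^ 2 = 1 := by
    rw [ht]
    apply Subtype.ext
    rw [pow_two, Matrix.SpecialLinearGroup.coe_mul, Matrix.SpecialLinearGroup.coe_one]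
    ext i j
    fin_cases i <;> fin_cases j <;> simp [upperSL, Matrix.mul_apply]
    exact CharTwo.add_self_eq_zero t
  rw [conj_pow] at h2
  exact conj_eq_one_iff.1 h2

end CfsgLib.FFModules.PushUpBlocks.Loc

namespace CfsgLib.FFModules.PushUpBlocks.Loc

open Matrix
open scoped MatrixGroups

/-- An even permutation of order four. -/
theorem exists_four {m : ℕ} (hm : 6 ≤ m) :
    ∃ σ : ↥(alternatingGroup (Fin m)), σ ^ 4 = 1 ∧ σ ^ 2 ≠ 1 := by
  let f : Fin 6 ≃ {k : Fin m // (k : ℕ) < 6} :=
    { toFun := fun k => ⟨⟨k, by omega⟩, k.isLt⟩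
      invFun := fun k => ⟨k.1, k.2⟩
      left_inv := fun k => rfl
      right_inv := fun k => rfl }
  let c : Equiv.Perm (Fin 6) :=
    Equiv.swap 0 1 * Equiv.swap 1 2 * Equiv.swap 2 3 * Equiv.swap 4 5
  have h4 : c ^ 4 = 1 := by decide
  have h2 : c ^ 2 ≠ 1 := by decide
  have hs : Equiv.Perm.sign c = 1 := by decide
  refine ⟨⟨c.extendDomain f, ?_⟩, Subtype.ext ?_, fun e => h2 ?_⟩
  · rw [Equiv.Perm.mem_alternatingGroup, Equiv.Perm.sign_extendDomain, hs]
  · show Equiv.Perm.extendDomainHom f c ^ 4 = 1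
    rw [← map_pow, h4, map_one]
  · have e' : Equiv.Perm.extendDomainHom f c ^ 2 = 1 := congrArg Subtype.val e
    rw [← map_pow] at e'
    exact Equiv.Perm.extendDomainHom_injective f (e'.trans (map_one _).symm)

variable {F : Type*} [Field F] [Fintype F]

theorem card_commutator_ne_one : Nat.card ↥(_root_.commutator SL(2, F)) ≠ 1 := by
  intro hc
  obtain ⟨g, hg, hne⟩ := TwoGroupTricks.NaturalModules.exists_moved (F := F)
  rw [Subgroup.eq_bot_of_card_eq _ hc, Subgroup.mem_bot] at hg
  rw [hg, Matrix.SpecialLinearGroup.coe_one, Matrix.one_mulVec] at hne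
  exact hne rfl

/-- A derived group of `SL₂` that is alternating has degree `2ⁿ + 1`. -/
theorem degree_of_linear {p : ℕ} [Fact p.Prime] [CharP F p] {m : ℕ}
    (θ : ↥(_root_.commutator SL(2, F)) ≃* ↥(alternatingGroup (Fin (2 * m + 1)))) :
    ∃ n : ℕ, 2 * m + 1 = 2 ^ n + 1 := by
  classical
  rcases Nat.lt_or_ge m 3 with hm | hm
  · interval_cases m
    · refine absurd ?_ (card_commutator_ne_one (F := F))
      rw [Nat.card_congr θ.toEquiv]
      haveI : Subsingleton (Equiv.Perm (Fin (2 * 0 + 1))) :=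
        ⟨fun a b => Equiv.ext fun i => Subsingleton.elim (α := Fin 1) _ _⟩
      exact Nat.card_unique
    · exact ⟨1, rfl⟩
    · exact ⟨2, rfl⟩
  exfalso
  have hbig : 2520 ≤ Nat.card ↥(alternatingGroup (Fin (2 * m + 1))) := by
    have h1 : 2 * Nat.card ↥(alternatingGroup (Fin (2 * m + 1))) = (2 * m + 1).factorial := by
      haveI : Nontrivial (Fin (2 * m + 1)) := Fin.nontrivial_iff_two_le.2 (by omega)
      rw [Nat.card_eq_fintype_card, two_mul_card_alternatingGroup, Fintype.card_perm, Fintype.card_fin]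
    have h2 : (7 : ℕ).factorial ≤ (2 * m + 1).factorial := Nat.factorial_le (by omega)
    have h3 : (7 : ℕ).factorial = 5040 := rfl
    omega
  rcases Nat.lt_or_ge 3 (Nat.card F) with hF | hF
  · have htop := sl_perfect (F := F) hF
    let θ' : SL(2, F) ≃* ↥(alternatingGroup (Fin (2 * m + 1))) :=
      (Subgroup.topEquiv.symm.trans (MulEquiv.subgroupCongr htop.symm)).trans θ
    by_cases h2 : (2 : F) = 0
    · haveI : CharP F 2 := CharP.charP_iff_prime_eq_zero Nat.prime_two |>.2 (by exact_mod_cast h2)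
      obtain ⟨σ, hσ4, hσ2⟩ := exists_four (m := 2 * m + 1) (by omega)
      refine hσ2 (θ'.symm.injective ?_)
      rw [map_pow, map_one]
      exact sq_eq_one_of_pow_four (by rw [← map_pow, hσ4, map_one])
    · have hc : (-1 : SL(2, F)) ∈ Subgroup.center SL(2, F) :=
        Subgroup.mem_center_iff.2 fun g => by
          apply Subtype.ext
          simp
      have hc' : θ' (-1) ∈ Subgroup.center ↥(alternatingGroup (Fin (2 * m + 1))) :=
        Subgroup.mem_center_iff.2 fun g => by
          obtain ⟨g, rfl⟩ := θ'.surjective g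
          rw [← map_mul, ← map_mul, Subgroup.mem_center_iff.1 hc g]
      rw [alternatingGroup.center_eq_bot (by simp; omega), Subgroup.mem_bot, MulEquiv.map_eq_one_iff] at hc'
      have h3 := congrArg (fun g : SL(2, F) => (g : Matrix (Fin 2) (Fin 2) F) 0 0) hc'
      simp at h3
      exact h2 (by linear_combination -h3)
  · have h1 := Nat.card_congr θ.toEquiv
    have h2 := Subgroup.card_le_card_group (_root_.commutator SL(2, F))
    rw [CfsgLib.SL2.card_SL] at h2
    have h3 : Nat.card F * (Nat.card F ^ 2 - 1) ≤ 24 := by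
      have : 1 < Nat.card F := Finite.one_lt_card
      interval_cases (Nat.card F) <;> norm_num
    omega

/-- For three elements the triangular part of the derived group is its centre. -/
theorem borel_eq_center_three [CharP F 3] (hF : Fintype.card F = 3) (z : ↥(_root_.commutator SL(2, F))) :
    ((z : SL(2, F)) : Matrix (Fin 2) (Fin 2) F) 1 0 = 0 ↔ z ∈ Subgroup.center _ := by
  classical
  let φ := ZMod.ringEquivOfPrime F Nat.prime_three hF
  let e : SL(2, ZMod 3) ≃* SL(2, F) :=
    MulEquiv.ofBijective (Matrix.SpecialLinearGroup.map (φ : ZMod 3 →+* F))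
      ⟨fun a b h => Subtype.ext (Matrix.map_injective φ.injective (congrArg Subtype.val h)),
        fun g => ⟨Matrix.SpecialLinearGroup.map (φ.symm : F →+* ZMod 3) g, Subtype.ext (by
          ext i j
          exact φ.apply_symm_apply _)⟩⟩
  have hR : (_root_.commutator SL(2, ZMod 3)).map e.toMonoidHom = _root_.commutator SL(2, F) := by
    rw [map_commutator_eq, show e.toMonoidHom.range = ⊤ from MonoidHom.range_eq_top.2 e.surjective]
    rfl
  have hg : ∀ g : SL(2, ZMod 3), g ^ 4 = 1 → g ∈ _root_.commutator SL(2, ZMod 3) := by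
    intro g hg
    obtain ⟨a, b, h⟩ := (by decide +kernel : ∀ g : SL(2, ZMod 3), g ^ 4 = 1 →
      ∃ a b : SL(2, ZMod 3), a * b * a⁻¹ * b⁻¹ = g) g hg
    rw [commutator_eq_closure]
    exact Subgroup.subset_closure ⟨a, b, h⟩
  have key : ∀ g : SL(2, ZMod 3), g ^ 4 = 1 →
      ((g : Matrix (Fin 2) (Fin 2) (ZMod 3)) 1 0 = 0 ↔ ∀ h : SL(2, ZMod 3), h ^ 4 = 1 → h * g = g * h) := by
    decide +kernel
  have hR4 : ∀ g ∈ _root_.commutator SL(2, ZMod 3), g ^ 4 = 1 := by
    intro g hg'
    let S : Subgroup SL(2, ZMod 3) :=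
      { carrier := {g | g ^ 4 = 1}
        one_mem' := one_pow 4
        mul_mem' := fun {a b} ha hb => (by decide +kernel : ∀ a b : SL(2, ZMod 3),
          a ^ 4 = 1 → b ^ 4 = 1 → (a * b) ^ 4 = 1) a b ha hb
        inv_mem' := fun {a} ha => show a⁻¹ ^ 4 = 1 by rw [inv_pow, show a ^ 4 = 1 from ha, inv_one] }
    have hle : _root_.commutator SL(2, ZMod 3) ≤ S := by
      rw [commutator_eq_closure, Subgroup.closure_le]
      rintro _ ⟨a, b, rfl⟩
      exact (by decide +kernel : ∀ a b : SL(2, ZMod 3), (a * b * a⁻¹ * b⁻¹) ^ 4 = 1) a b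
    exact hle hg'
  obtain ⟨z, hz⟩ := z
  obtain ⟨g, hgc, rfl⟩ := hR.ge hz
  have h10 : ((e g : SL(2, F)) : Matrix (Fin 2) (Fin 2) F) 1 0 = φ ((g : Matrix (Fin 2) (Fin 2) (ZMod 3)) 1 0) := rfl
  show ((e g : SL(2, F)) : Matrix (Fin 2) (Fin 2) F) 1 0 = 0 ↔ _
  rw [h10, map_eq_zero_iff _ φ.injective, key g (hR4 g hgc), Subgroup.mem_center_iff]
  constructor
  · rintro h ⟨y, hy⟩
    obtain ⟨x, hx, rfl⟩ := hR.ge hy
    refine Subtype.ext ?_
    show e x * e g = e g * e x
    rw [← map_mul, ← map_mul, h x (hR4 x hx)]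
  · intro h x hx
    have h1 := congrArg Subtype.val (h ⟨e x, hR.le ⟨x, hg x hx, rfl⟩⟩)
    have h2 : e x * e g = e g * e x := h1
    rw [← map_mul, ← map_mul] at h2
    exact e.injective h2

/-- The isomorphism of the special linear groups over isomorphic fields. -/
def slCongr {K L : Type*} [CommRing K] [CommRing L] (φ : K ≃+* L) : SL(2, K) ≃* SL(2, L) where
  toFun := Matrix.SpecialLinearGroup.map (φ : K →+* L)
  invFun := Matrix.SpecialLinearGroup.map (φ.symm : L →+* K)
  left_inv g := Subtype.ext (by ext i j; exact φ.symm_apply_apply _)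
  right_inv g := Subtype.ext (by ext i j; exact φ.apply_symm_apply _)
  map_mul' a b := map_mul _ a b

theorem map_commutator_congr {A B : Type*} [Group A] [Group B] (e : A ≃* B) :
    (_root_.commutator A).map e.toMonoidHom = _root_.commutator B := by
  rw [map_commutator_eq, show e.toMonoidHom.range = ⊤ from MonoidHom.range_eq_top.2 e.surjective]
  rfl

/-- Isomorphic groups have isomorphic derived groups. -/
noncomputable def commutatorCongr {A B : Type*} [Group A] [Group B] (e : A ≃* B) :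
    ↥(_root_.commutator A) ≃* ↥(_root_.commutator B) :=
  (Subgroup.equivMapOfInjective _ e.toMonoidHom e.injective).trans (MulEquiv.subgroupCongr (map_commutator_congr e))

theorem center_congr {A B : Type*} [Group A] [Group B] (e : A ≃* B) (a : A) :
    a ∈ Subgroup.center A ↔ e a ∈ Subgroup.center B := by
  simp only [Subgroup.mem_center_iff]
  refine ⟨fun h b => ?_, fun h b => e.injective ?_⟩
  · obtain ⟨b, rfl⟩ := e.surjective b
    rw [← map_mul, ← map_mul, h b]
  · rw [map_mul, map_mul, h (e b)]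

/-- The derived group over two elements. -/
theorem two_facts [CharP F 2] (hF : Fintype.card F = 2) :
    Nat.card ↥(_root_.commutator SL(2, F)) = 3 ∧
      ∀ g ∈ _root_.commutator SL(2, F), ((g : SL(2, F)) : Matrix (Fin 2) (Fin 2) F) 1 0 = 0 → g = 1 := by
  classical
  let φ := ZMod.ringEquivOfPrime F Nat.prime_two hF
  set e := slCongr φ
  have hmem : ∀ g : SL(2, ZMod 2), g ∈ _root_.commutator SL(2, ZMod 2) ↔ g ^ 3 = 1 := by
    intro g
    constructor
    · intro hg
      let S : Subgroup SL(2, ZMod 2) :=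
        { carrier := {g | g ^ 3 = 1}
          one_mem' := one_pow 3
          mul_mem' := fun {a b} ha hb => (by decide +kernel : ∀ a b : SL(2, ZMod 2),
            a ^ 3 = 1 → b ^ 3 = 1 → (a * b) ^ 3 = 1) a b ha hb
          inv_mem' := fun {a} ha => show a⁻¹ ^ 3 = 1 by rw [inv_pow, show a ^ 3 = 1 from ha, inv_one] }
      have hle : _root_.commutator SL(2, ZMod 2) ≤ S := by
        rw [commutator_eq_closure, Subgroup.closure_le]
        rintro _ ⟨a, b, rfl⟩
        exact (by decide +kernel : ∀ a b : SL(2, ZMod 2), (a * b * a⁻¹ * b⁻¹) ^ 3 = 1) a b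
      exact hle hg
    · intro hg
      obtain ⟨a, b, h⟩ := (by decide +kernel : ∀ g : SL(2, ZMod 2), g ^ 3 = 1 →
        ∃ a b : SL(2, ZMod 2), a * b * a⁻¹ * b⁻¹ = g) g hg
      rw [commutator_eq_closure]
      exact Subgroup.subset_closure ⟨a, b, h⟩
  constructor
  · rw [← map_commutator_congr e, Subgroup.card_map_of_injective (f := e.toMonoidHom) e.injective,
      Nat.card_congr (Equiv.subtypeEquivRight hmem), Nat.card_eq_fintype_card]
    decide +kernel
  · intro g hg h10
    rw [← map_commutator_congr e] at hg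
    obtain ⟨x, hx, rfl⟩ := hg
    have h1 : φ ((x : Matrix (Fin 2) (Fin 2) (ZMod 2)) 1 0) = 0 := h10
    rw [map_eq_zero_iff _ φ.injective] at h1
    rw [(by decide +kernel : ∀ x : SL(2, ZMod 2), x ^ 3 = 1 →
      (x : Matrix (Fin 2) (Fin 2) (ZMod 2)) 1 0 = 0 → x = 1) x ((hmem x).1 hx) h1, map_one]

/-- Two groups with one element. -/
def trivEquiv {A B : Type*} [Group A] [Group B] [Subsingleton A] [Subsingleton B] : A ≃* B where
  toFun _ := 1
  invFun _ := 1
  left_inv _ := Subsingleton.elim _ _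
  right_inv _ := Subsingleton.elim _ _
  map_mul' _ _ := Subsingleton.elim _ _

end CfsgLib.FFModules.PushUpBlocks.Loc
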