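import Cfsg.Agent.Lib.FFModules.PushUpBlocks.Export
import Cfsg.Agent.Lib.FFModules.PushUpBlocks.LinearLocal
import Cfsg.Agent.Lib.FFModules.BlockCentralizer.Normalizes

/-!
The block of a linear component.
-/

set_option autoImplicit false
set_option linter.unusedSectionVars false

universe u

namespace CfsgLib.FFModules.PushUpBlocks

open Cfsg
open CfsgLib.PushUp.RankOne (BlockData HasBlockData)
open scoped commutatorElement MatrixGroups
open CfsgLib.FFModules.MinimalParabolic (upperSL)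

/-- An element of order prime to `p` fixing its commutator with `u`, of order `p`, centralises `u`. -/
theorem commute_of_coprime_stab {G : Type*} [Group G] {p : ℕ} {g u : G} (hco : (orderOf g).Coprime p)
    (hgw : g * (g * u * g⁻¹ * u⁻¹) = g * u * g⁻¹ * u⁻¹ * g) (hwp : (g * u * g⁻¹ * u⁻¹) ^ p = 1) :
    g * u = u * g := by
  set w := g * u * g⁻¹ * u⁻¹ with hw
  have hit : ∀ k : ℕ, g ^ k * u * (g ^ k)⁻¹ = w ^ k * u := by
    intro k
    induction k with
    | zero => simp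
    | succ k ih =>
      have h1 : g * w ^ k = w ^ k * g := ((show Commute g w from hgw).pow_right k).eq
      calc g ^ (k + 1) * u * (g ^ (k + 1))⁻¹ = g * (g ^ k * u * (g ^ k)⁻¹) * g⁻¹ := by rw [pow_succ']; group
        _ = g * (w ^ k * u) * g⁻¹ := by rw [ih]
        _ = w ^ k * (g * u * g⁻¹) := by rw [← mul_assoc g, h1]; group
        _ = w ^ k * (w * u) := by rw [hw, inv_mul_cancel_right]
        _ = _ := by rw [pow_succ]; exact (mul_assoc _ _ _).symm
  have h4 := hit (orderOf g)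
  rw [pow_orderOf_eq_one, one_mul, inv_one, mul_one, eq_comm, mul_eq_right] at h4
  have h6 : orderOf w = 1 :=
    Nat.eq_one_of_dvd_coprimes hco (orderOf_dvd_of_pow_eq_one h4) (orderOf_dvd_of_pow_eq_one hwp)
  exact mul_inv_eq_iff_eq_mul.1 (mul_inv_eq_one.1 (hw ▸ orderOf_eq_one_iff.1 h6))

variable {G : Type u} [Group G] {p : ℕ} [Finite G] [Fact p.Prime] {T : Sylow p G} {r : ℕ}
  {E : Fin r → Subgroup G} {M : Subgroup G}

theorem le_sup_dec (h : Hyp T) (hM : IsTop T M) (hE : Comps T E) (i : Fin r) {x : G}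
    (hx : x ∈ E i ⊔ baumannSubgroupOf p (T : Subgroup G)) :
    ∃ e ∈ E i, ∃ b ∈ baumannSubgroupOf p (T : Subgroup G), x = e * b := by
  have hn : baumannSubgroupOf p (T : Subgroup G) ≤ Subgroup.normalizer (E i : Set G) :=
    (baumann_le_G1 h hM hE).trans (hE.G1_le_normalizer i)
  rw [← SetLike.mem_coe, Subgroup.coe_mul_of_right_le_normalizer_left _ _ hn] at hx
  obtain ⟨e, he, b, hb, rfl⟩ := hx
  exact ⟨e, he, b, hb, rfl⟩

/-- A block centralized modulo nothing: `[W, L] ≤ V` when `[V, L]` lies in the module. -/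
theorem block_moves_le_VG {L : Subgroup G} (hL : IsBaumannBlock p (T : Subgroup G) L)
    (hVL : ⁅VG G p, L⁆ ≤ omegaOneCenter p (pCoreOf p L)) (hnotC : ¬ L ≤ CG G p) :
    ⁅omegaOneCenter p (pCoreOf p L), L⁆ ≤ VG G p := by
  set W := omegaOneCenter p (pCoreOf p L)
  set Z := W ⊓ Subgroup.centralizer (L : Set G)
  obtain ⟨hEW, hle, hirr, -⟩ := TwoGroupTricks.irreducibleSection_of_block hL
  have hVLV : ⁅VG G p, L⁆ ≤ VG G p := Subgroup.commutator_le_left _ _
  -- `[V, L]` is not centralized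
  have hnot : ¬ ⁅VG G p, L⁆ ≤ Subgroup.centralizer (L : Set G) := by
    intro hle'
    refine hnotC ?_
    rw [← hL.1, pResidualOf, pResidual, MonoidHom.map_closure, Subgroup.closure_le]
    rintro _ ⟨g, hg, rfl⟩
    refine Subgroup.mem_centralizer_iff.2 fun v hv => ?_
    have hw : (g : G) * v * (g : G)⁻¹ * v⁻¹ ∈ ⁅VG G p, L⁆ := by
      have := Subgroup.commutator_mem_commutator hv g.2
      have e : (g : G) * v * (g : G)⁻¹ * v⁻¹ = (⁅v, (g : G)⁆)⁻¹ := by
        rw [commutatorElement_inv, commutatorElement_def]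
      rw [e]; exact inv_mem this
    refine (commute_of_coprime_stab (p := p) ?_ (Subgroup.mem_centralizer_iff.1 (hle' hw) g g.2) ?_).symm
    · rw [Subgroup.orderOf_coe]; exact hg
    · exact (ThompsonJ.isElementaryAbelian_iff.1 (VG_elem (G := G) (p := p))).2 _ (hVLV hw)
  have hn' : L ≤ Subgroup.normalizer ((⁅VG G p, L⁆ ⊔ Z : Subgroup G) : Set G) := fun e he => by
    refine Subgroup.mem_normalizer_fintype fun z hz => ?_
    have h1 : ⁅VG G p, L⁆ ≤ (⁅VG G p, L⁆).comap (MulAut.conj e).toMonoidHom := by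
      rw [Subgroup.commutator_le]
      intro v hv l hl
      show (MulAut.conj e) ⁅v, l⁆ ∈ ⁅VG G p, L⁆
      rw [map_commutatorElement]
      exact Subgroup.commutator_mem_commutator (VG_normal.conj_mem v hv e) (mul_mem (mul_mem he hl) (inv_mem he))
    have h2 : Z ≤ Z.comap (MulAut.conj e).toMonoidHom := fun z hz => by
      have h3 : e * z * e⁻¹ = z := by
        rw [Subgroup.mem_centralizer_iff.1 hz.2 e he, mul_inv_cancel_right]
      show e * z * e⁻¹ ∈ Z
      rwa [h3]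
    exact (sup_le (h1.trans (Subgroup.comap_mono le_sup_left)) (h2.trans (Subgroup.comap_mono le_sup_right))) hz
  have hU : ⁅VG G p, L⁆ ⊔ Z = W :=
    (hirr _ le_sup_right (sup_le hVL inf_le_left) hn').resolve_left fun e => hnot ((le_sup_left.trans e.le).trans inf_le_right)
  rw [Subgroup.commutator_le]
  intro w hw e he
  rw [← hU] at hw
  have hn : ⁅VG G p, L⁆ ≤ Subgroup.normalizer (Z : Set G) := fun y hy => by
    refine Subgroup.mem_normalizer_fintype fun z hz => ?_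
    have hyz : z * y = y * z := (TwoGroupTricks.omegaOneCenter_le _ (hVL hy)).2 z
      (TwoGroupTricks.omegaOneCenter_le _ hz.1).1
    rw [← hyz, mul_inv_cancel_right]; exact hz
  rw [← SetLike.mem_coe, Subgroup.coe_mul_of_left_le_normalizer_right _ _ hn] at hw
  obtain ⟨y, hy, z, hz, rfl⟩ := hw
  have hze : z * e = e * z := (Subgroup.mem_centralizer_iff.1 hz.2 e he).symm
  have e1 : ⁅y * z, e⁆ = ⁅y, e⁆ := by
    rw [commutatorElement_def, commutatorElement_def, mul_assoc y z e, hze]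
    group
  rw [e1]
  exact hVLV (Subgroup.commutator_mem_commutator (hVLV hy) he)

variable {i : Fin r} {F : Type} [Field F] [Fintype F] [CharP F p]

/-- Triangular elements of a component lie in `C*(G,T)`. -/
theorem SLData.mem_cStar_of_borel (h : Hyp T) (hM : IsTop T M) (hE : Comps T E) (D : SLData G p E i F)
    (hD : ∀ a : ↥(G1 E), (a : G) ∈ (T : Subgroup G) → Loc.app (D.Φ a) (Loc.e1 F) = Loc.e1 F)
    {e : ↥(G1 E)} (he : (e : G) ∈ E i) (hb : ((D.Φ e : SL(2, F)) : Matrix (Fin 2) (Fin 2) F) 1 0 = 0) :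
    (e : G) ∈ cStarOf p (T : Subgroup G) := by
  refine mem_cStar_of_normalizes h hM fun a ha => ?_
  have haG : a ∈ G1 E := thompson_le_G1 hE ha
  set a' : ↥(G1 E) := ⟨a, haG⟩
  obtain ⟨t, ht⟩ := Loc.exists_of_fix (hD a' (thompson_le_T ha))
  obtain ⟨f, hf, hfΦ⟩ := imageSL h hM hE D hD (((D.Φ e : Matrix (Fin 2) (Fin 2) F) 0 0) ^ 2 * t - t)
  have hc : (e : G) * a * (e : G)⁻¹ * a⁻¹ ∈ E i := by
    have h1 := (Subgroup.mem_normalizer_iff.1 (hE.G1_le_normalizer i haG) _).1 (inv_mem he)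
    simpa [mul_assoc] using mul_mem he h1
  have hk : (f : G)⁻¹ * ((e : G) * a * (e : G)⁻¹ * a⁻¹) ∈ Kc G p E i := by
    refine (D.kerΦ (f⁻¹ * (e * a' * e⁻¹ * a'⁻¹))).1 ?_
    rw [map_mul, map_inv, inv_mul_eq_one, hfΦ]
    simp only [map_mul, map_inv, ht, Loc.borel_conj hb]
    apply Subtype.ext
    simp only [Matrix.SpecialLinearGroup.coe_mul, Matrix.SpecialLinearGroup.coe_inv]
    ext k l
    fin_cases k <;> fin_cases l <;> simp [upperSL, Matrix.mul_apply, Matrix.adjugate_fin_two]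
    ring
  have hcC := hE.inf_Kc i (Subgroup.mem_inf.2 ⟨mul_mem (inv_mem (Jc_le_E hE i hf)) hc, hk⟩)
  have h2 : (e : G) * a * (e : G)⁻¹ = (f : G) * ((f : G)⁻¹ * ((e : G) * a * (e : G)⁻¹ * a⁻¹)) * a := by group
  rw [h2]
  exact mul_mem (mul_mem (Subgroup.mem_sup_left (mem_Jc.1 hf).1) (Subgroup.mem_sup_right hcC))
    (Subgroup.mem_sup_left ha)

/-- The image of `M ∩ G₁` is triangular. -/
theorem SLData.borel_of_mem (h : Hyp T) (hM : IsTop T M) (hE : Comps T E) (D : SLData G p E i F)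
    (hD : ∀ a : ↥(G1 E), (a : G) ∈ (T : Subgroup G) → Loc.app (D.Φ a) (Loc.e1 F) = Loc.e1 F)
    {g : ↥(G1 E)} (hg : (g : G) ∈ M) : ((D.Φ g : SL(2, F)) : Matrix (Fin 2) (Fin 2) F) 1 0 = 0 := by
  rcases Loc.upper_dichotomy (H := (M.subgroupOf (G1 E)).map D.Φ) (fun t => by
    obtain ⟨a, ha, ea⟩ := imageSL h hM hE D hD t
    exact ⟨a, hM.le (Jc_le_T i ha), ea⟩) with h1 | h1
  · exact h1 _ ⟨g, hg, rfl⟩
  · refine absurd (fun x hx => ?_) (not_full_image h hM hE i)
    obtain ⟨m, hm, e⟩ := h1.ge (Subgroup.mem_top (D.Φ ⟨x, (le_iSup E i) hx⟩))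
    exact ⟨m, Subgroup.mem_inf.2 ⟨hm, m.2⟩, (D.kerΦ (m⁻¹ * ⟨x, (le_iSup E i) hx⟩)).1
      (by rw [map_mul, map_inv, e, inv_mul_cancel])⟩

set_option maxHeartbeats 2000000 in
/-- The block of a linear component. -/
theorem SLData.exists_block (h : Hyp T) (hM : IsTop T M) (hE : Comps T E) (hexp : HasBlockData.{u})
    (D : SLData G p E i F)
    (hD : ∀ a : ↥(G1 E), (a : G) ∈ (T : Subgroup G) → Loc.app (D.Φ a) (Loc.e1 F) = Loc.e1 F)
    {n : ℕ} (hn : 1 ≤ n) (hF : Fintype.card F = p ^ n) : ∃ Eb, CompBlock T E M i Eb := by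
  classical
  set B := baumannSubgroupOf p (T : Subgroup G) with hB
  have hBG1 := baumann_le_G1 h hM hE
  -- a minimal subgroup
  obtain ⟨X, ⟨hBX, hXle, hXM⟩, -, hminX⟩ := exists_minimal
    (P := fun Y : Subgroup G => B ≤ Y ∧ Y ≤ G0 T ⊓ (E i ⊔ B) ∧ ¬ Y ≤ M) (X₀ := G0 T ⊓ (E i ⊔ B))
    ⟨le_inf baumann_le_G0 le_sup_right, le_rfl, fun hle => E_not_le h hM hE i fun e he => by
      obtain ⟨w, hw, hc⟩ := exists_G0_mem h hM hE he
      have h1 : w ∈ M := hle (Subgroup.mem_inf.2 ⟨hw.1, Subgroup.mem_sup_left hw.2⟩)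
      simpa using mul_mem h1 (inv_mem (CG_le h hM hc))⟩
  have hX0 : X ≤ G0 T := hXle.trans inf_le_left
  have hXG1 : X ≤ G1 E := hX0.trans (G0_le_G1 h hM hE)
  have hdec : ∀ x ∈ X, ∃ e ∈ E i, e ∈ X ∧ ∃ b ∈ B, x = e * b := fun x hx => by
    obtain ⟨e, he, b, hb, rfl⟩ := le_sup_dec h hM hE i (hXle hx).2
    refine ⟨e, he, ?_, b, hb, rfl⟩
    simpa using mul_mem hx (inv_mem (hBX hb))
  set φ : ↥X →* SL(2, F) := D.Φ.comp (Subgroup.inclusion hXG1) with hφ
  have hφB : ∀ x : ↥X, (x : G) ∈ B → ∃ t, φ x = upperSL t := fun x hx =>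
    Loc.exists_of_fix (hD _ (baumann_le hx))
  have hφU : ∀ t, ∃ a : ↥X, (a : G) ∈ Jc T E i ∧ φ a = upperSL t := fun t => by
    obtain ⟨a, ha, ea⟩ := imageSL h hM hE D hD t
    exact ⟨⟨a, hBX (Jc_le_baumann i ha)⟩, ha, ea⟩
  have hφs : Function.Surjective φ := by
    rcases Loc.upper_dichotomy (H := φ.range) (fun t => let ⟨a, _, e⟩ := hφU t; ⟨a, e⟩) with h1 | h1
    · refine absurd (fun x hx => ?_) hXM
      obtain ⟨e, he, heX, b, hb, rfl⟩ := hdec x hx
      refine mul_mem (cStar_le h hM (D.mem_cStar_of_borel h hM hE hD (e := ⟨e, hXG1 heX⟩) he ?_))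
        (hM.le (baumann_le hb))
      exact h1 _ ⟨⟨e, heX⟩, rfl⟩
    · exact MonoidHom.range_eq_top.1 h1
  have hsyl : ∀ P : Subgroup G, IsPGroup p P → B ≤ P → P ≤ X → P ≤ B ⊔ CG G p := by
    intro P hP hBP hPX x hx
    obtain ⟨e, he, heX, b, hb, rfl⟩ := hdec x (hPX hx)
    have heP : e ∈ P := by simpa using mul_mem hx (inv_mem (hBP hb))
    have hfix := Loc.fix_of_pgroup (P := (P.subgroupOf X).map φ)
      ((hP.comap_of_injective _ X.subtype_injective).map φ)
      (fun t => let ⟨a, ha, ea⟩ := hφU t; ⟨a, hBP (Jc_le_baumann i ha), ea⟩)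
      (x := φ ⟨e, heX⟩) ⟨⟨e, heX⟩, heP, rfl⟩
    obtain ⟨t, ht⟩ := Loc.exists_of_fix hfix
    obtain ⟨a, ha, ea⟩ := hφU t
    have hk : (a : G)⁻¹ * e ∈ CG G p := hE.inf_Kc i (Subgroup.mem_inf.2
      ⟨mul_mem (inv_mem (Jc_le_E hE i ha)) he, (D.kerΦ (Subgroup.inclusion hXG1 (a⁻¹ * (⟨e, heX⟩ : ↥X)))).1
        (show φ (a⁻¹ * (⟨e, heX⟩ : ↥X)) = 1 by rw [map_mul, map_inv, ea, ← ht, inv_mul_cancel])⟩)
    have h2 : e ∈ B ⊔ CG G p := by
      have := mul_mem (Subgroup.mem_sup_left (T := CG G p) (Jc_le_baumann (E := E) i ha)) (Subgroup.mem_sup_right hk)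
      simpa using this
    exact mul_mem h2 (Subgroup.mem_sup_left hb)
  obtain ⟨d, hQXB, hQ0X, hXsup, hLM, ⟨θX⟩⟩ := piece_data h hM hE hexp hBX hX0 hXM
    (fun Y hBY hYX hne => by_contra fun hYM => hne (hminX Y ⟨hBY, hYX.trans hXle, hYM⟩ hYX)) hsyl hn hF
    ((QuotientGroup.mk' (Subgroup.center SL(2, F))).comp φ)
    ((QuotientGroup.mk'_surjective _).comp hφs) (MulEquiv.refl _)
  -- the kernel
  have hker : φ.ker = pCore p ↥X := by
    have hle : pCore p ↥X ≤ φ.ker := by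
      intro x hx
      have hfix : ∀ y ∈ pCore p ↥X, ∃ t, φ y = upperSL t := fun y hy => hφB y (hQXB ⟨y, hy, rfl⟩)
      obtain ⟨t, ht⟩ := hfix x hx
      obtain ⟨w, hw⟩ := hφs Loc.weyl
      obtain ⟨s, hs⟩ := hfix _ ((inferInstance : (pCore p ↥X).Normal).conj_mem x hx w)
      rw [map_mul, map_mul, map_inv, hw, ht, Loc.weyl_conj] at hs
      have h10 := congrArg (fun g : SL(2, F) => (g : Matrix (Fin 2) (Fin 2) F) 1 0) hs
      simp [upperSL, CfsgLib.SL2Gen.lowS] at h10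
      rw [MonoidHom.mem_ker, ht, h10]
      apply Subtype.ext
      ext a b
      fin_cases a <;> fin_cases b <;> simp [upperSL]
    refine (Subgroup.eq_of_le_of_card_ge hle (le_of_eq ?_)).symm
    have h2 := Subgroup.card_mul_index φ.ker
    have h3 := Subgroup.card_mul_index (pCore p ↥X)
    rw [Subgroup.index_ker, MonoidHom.range_eq_top.2 hφs, Subgroup.card_top] at h2
    rw [show (pCore p ↥X).index = Nat.card SL(2, F) from Nat.card_congr θX.toEquiv] at h3
    exact Nat.eq_of_mul_eq_mul_right Nat.card_pos (h2.trans h3.symm)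
  have hker' : ∀ x : ↥X, φ x = 1 ↔ (x : G) ∈ pCoreOf p X := fun x => by
    rw [← MonoidHom.mem_ker, hker]
    exact (Subgroup.mem_map_iff_mem X.subtype_injective).symm
  have hQC : ∀ x : G, x ∈ pCoreOf p X → x ∈ E i → x ∈ CG G p := fun x hx he => by
    have hxX : x ∈ X := Subgroup.map_subtype_le _ hx
    exact hE.inf_Kc i (Subgroup.mem_inf.2 ⟨he, (D.kerΦ ⟨x, hXG1 hxX⟩).1 ((hker' ⟨x, hxX⟩).2 hx)⟩)
  -- the block
  set L := pResidualOf p X with hL
  have hLX : L ≤ X := Subgroup.map_subtype_le _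
  have hXN : X ≤ Subgroup.normalizer (E i : Set G) := hXG1.trans (hE.G1_le_normalizer i)
  have hLE : L ≤ E i := by
    haveI : ((E i).subgroupOf X).Normal := ⟨fun x hx g =>
      (Subgroup.mem_normalizer_iff.1 (hXN g.2) _).1 hx⟩
    have hq : IsPGroup p (↥X ⧸ (E i).subgroupOf X) := by
      intro q
      obtain ⟨x, rfl⟩ := QuotientGroup.mk_surjective q
      obtain ⟨e, he, heX, b, hb, e'⟩ := hdec x x.2
      obtain ⟨k, hk⟩ := T.2 ⟨b, baumann_le hb⟩
      refine ⟨k, ?_⟩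
      have h1 : (QuotientGroup.mk x : ↥X ⧸ (E i).subgroupOf X) = QuotientGroup.mk ⟨b, hBX hb⟩ := by
        rw [show x = (⟨e, heX⟩ : ↥X) * ⟨b, hBX hb⟩ from Subtype.ext e', QuotientGroup.mk_mul,
          (QuotientGroup.eq_one_iff _).2 (show (⟨e, heX⟩ : ↥X) ∈ (E i).subgroupOf X from he), one_mul]
      rw [h1, ← QuotientGroup.mk_pow,
        show (⟨b, hBX hb⟩ : ↥X) ^ p ^ k = 1 from Subtype.ext (congrArg Subtype.val hk :)]
      rfl
    rintro _ ⟨x, hx, rfl⟩
    exact CfsgLib.Transfer.pResidual_le_of_isPGroup hq hx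
  have hXNL : X ≤ Subgroup.normalizer (L : Set G) :=
    Subgroup.le_normalizer.trans ((haveI := CfsgLib.Transfer.pResidual_characteristic (G := ↥X) (p := p)
      Cores.normalizer_le_normalizer_map_subtype X (pResidual p ↥X)))
  set φL : ↥L →* SL(2, F) := φ.comp (Subgroup.inclusion hLX) with hφL
  have hLker : ∀ x : ↥L, φL x = 1 ↔ x ∈ pCore p ↥L := fun x => by
    rw [hφL, MonoidHom.comp_apply, hker', ← Subgroup.mem_map_iff_mem L.subtype_injective]
    show _ ↔ (x : G) ∈ pCoreOf p L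
    rw [d.core]
    exact ⟨fun hx => ⟨x.2, hx⟩, fun hx => hx.2⟩
  -- the image is the derived group
  have hR : φL.range = _root_.commutator SL(2, F) := by
    have hle : _root_.commutator SL(2, F) ≤ φL.range := by
      haveI : φL.range.Normal := ⟨fun y hy s => by
        obtain ⟨x, rfl⟩ := hy
        obtain ⟨g, rfl⟩ := hφs s
        refine ⟨⟨_, (Subgroup.mem_normalizer_iff.1 (hXNL g.2) x).1 x.2⟩, ?_⟩
        show φ _ = φ g * φ _ * (φ g)⁻¹
        rw [← map_inv, ← map_mul, ← map_mul]; rfl⟩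
      have hq : ∀ s : SL(2, F), ∃ t, ∃ r ∈ φL.range, s = r * upperSL t := by
        intro s
        obtain ⟨x, rfl⟩ := hφs s
        have hx' : (x : G) ∈ ((L ⊔ B : Subgroup G) : Set G) := hXsup x.2
        rw [Subgroup.coe_mul_of_right_le_normalizer_left _ _ (hBX.trans hXNL)] at hx'
        obtain ⟨l, hl, b, hb, e⟩ := hx'
        obtain ⟨t, ht⟩ := hφB ⟨b, hBX hb⟩ hb
        exact ⟨t, φ ⟨l, hLX hl⟩, ⟨⟨l, hl⟩, rfl⟩, by rw [← ht, ← map_mul]; exact congrArg φ (Subtype.ext e.symm)⟩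
      rw [commutator_eq_closure, Subgroup.closure_le]
      rintro _ ⟨a, b, rfl⟩
      rw [SetLike.mem_coe, ← QuotientGroup.eq_one_iff, commutatorElement_def]
      simp only [QuotientGroup.mk_mul, QuotientGroup.mk_inv]
      obtain ⟨t, r₁, hr₁, rfl⟩ := hq a
      obtain ⟨s, r₂, hr₂, rfl⟩ := hq b
      rw [QuotientGroup.mk_mul, QuotientGroup.mk_mul, (QuotientGroup.eq_one_iff _).2 hr₁,
        (QuotientGroup.eq_one_iff _).2 hr₂, one_mul, one_mul]
      have hts : upperSL t * upperSL s = upperSL s * upperSL t := by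
        apply Subtype.ext
        rw [Matrix.SpecialLinearGroup.coe_mul, Matrix.SpecialLinearGroup.coe_mul]
        ext a b
        fin_cases a <;> fin_cases b <;> simp [upperSL, Matrix.mul_apply, add_comm]
      rw [← QuotientGroup.mk_inv, ← QuotientGroup.mk_inv, ← QuotientGroup.mk_mul, ← QuotientGroup.mk_mul,
        ← QuotientGroup.mk_mul, hts]
      simp
    refine (Subgroup.eq_of_le_of_card_ge hle (le_of_eq ?_)).symm
    obtain ⟨θ⟩ := d.quot
    rw [← Nat.card_congr θ.toEquiv, ← Nat.card_congr (QuotientGroup.quotientKerEquivRange φL).toEquiv,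
      show φL.ker = pCore p ↥L from Subgroup.ext fun x => hLker x]
  have hblock : IsBaumannBlock p (T : Subgroup G) L := by
    refine ⟨d.res, d.comm, d.coreComm, fun e => hLM ?_, Or.inl ⟨F, inferInstance, inferInstance, n, hF, d.quot, d.natural, ?_⟩⟩
    · exact (Subgroup.commutator_eq_bot_iff_le_centralizer.1 e).trans (centralizer_ZT_le h hM)
    · rcases d.shape with ⟨h1, -⟩ | h1
      · exact Or.inl h1
      · exact Or.inr h1
  have hnotC : ¬ L ≤ CG G p := fun hle => hLM (hle.trans (CG_le h hM))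
  have hVL : ⁅VG G p, L⁆ ≤ omegaOneCenter p (pCoreOf p L) := by
    have hVX : VG G p ≤ pCoreOf p X :=
      le_trans (le_inf (VG_le.trans inf_le_left) (VG_le_baumann h hM hE)) hQ0X
    have hle : ⁅VG G p, L⁆ ≤ L ⊓ pCoreOf p X := le_inf
      (by rw [Subgroup.commutator_comm]
          exact CoprimeAction.commutator_le_left ((hVX.trans (Subgroup.map_subtype_le _)).trans hXNL))
      ((Subgroup.commutator_le_left _ _).trans hVX)
    rw [← d.core] at hle
    intro z hz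
    refine ThompsonJ.mem_omegaOne ⟨hle hz, Subgroup.mem_centralizer_iff.2 fun q hq => ?_⟩
      ((ThompsonJ.isElementaryAbelian_iff.1 (VG_elem (G := G) (p := p))).2 z (Subgroup.commutator_le_left _ _ hz))
    have hq' := d.core.le hq
    exact (Subgroup.mem_centralizer_iff.1 (hQC q hq'.2 (hLE hq'.1)) z (Subgroup.commutator_le_left _ _ hz)).symm
  have hCN : CG G p ≤ Subgroup.normalizer (L : Set G) :=
    (Subgroup.centralizer_le (block_moves_le_VG hblock hVL hnotC)).trans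
      (BlockCentralizer.centralizer_le_normalizer h.char T hblock)
  have hEN : E i ≤ Subgroup.normalizer (L : Set G) := by
    intro e he
    obtain ⟨x, hx⟩ := hφs (D.Φ ⟨e, (le_iSup E i) he⟩)
    obtain ⟨e', he', he'X, b, hb, ex⟩ := hdec x x.2
    obtain ⟨t, ht⟩ := hφB ⟨b, hBX hb⟩ hb
    obtain ⟨a, ha, ea⟩ := hφU t
    set y : ↥X := ⟨e', he'X⟩ * a
    have hy : φ y = D.Φ ⟨e, (le_iSup E i) he⟩ := by
      rw [← hx, map_mul, ea, ← ht, ← map_mul]; exact congrArg φ (Subtype.ext ex.symm)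
    have hc : (y : G)⁻¹ * e ∈ CG G p := hE.inf_Kc i (Subgroup.mem_inf.2
      ⟨mul_mem (inv_mem (mul_mem he' (Jc_le_E hE i ha))) he,
        (D.kerΦ ((Subgroup.inclusion hXG1 y)⁻¹ * (⟨e, (le_iSup E i) he⟩ : ↥(G1 E)))).1 (by
          rw [map_mul, map_inv, show D.Φ (Subgroup.inclusion hXG1 y) = φ y from rfl, hy, inv_mul_cancel])⟩)
    have := mul_mem (hXNL y.2) (hCN hc)
    simpa using this
  have hcS : ∀ x : ↥L, ((x : G) ∈ cStarOf p (T : Subgroup G)) ↔
      ((φL x : SL(2, F)) : Matrix (Fin 2) (Fin 2) F) 1 0 = 0 := fun x =>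
    ⟨fun hx => D.borel_of_mem h hM hE hD (g := ⟨x, hXG1 (hLX x.2)⟩) (cStar_le h hM hx),
      fun hx => D.mem_cStar_of_borel h hM hE hD (e := ⟨x, hXG1 (hLX x.2)⟩) (hLE x.2) hx⟩
  -- the equivalence with the derived group
  let θL : ↥L ⧸ pCore p ↥L ≃* ↥(_root_.commutator SL(2, F)) :=
    (QuotientGroup.quotientMulEquivOfEq (Subgroup.ext fun x => (hLker x).symm : pCore p ↥L = φL.ker)).trans
      ((QuotientGroup.quotientKerEquivRange φL).trans (MulEquiv.subgroupCongr hR))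
  have hθL : ∀ x : ↥L, ((θL (QuotientGroup.mk x)) : SL(2, F)) = φL x := fun x => rfl
  refine ⟨L, hblock, hLE, hEN, hnotC, hLM, fun e he ⟨m, hm, hk⟩ => ?_, ?_, fun m ⟨θ⟩ => ?_⟩
  · -- good
    refine (hcS ⟨e, he⟩).2 ?_
    have h1 := (D.kerΦ ((⟨m, hm.2⟩ : ↥(G1 E))⁻¹ * (⟨e, hXG1 (hLX he)⟩ : ↥(G1 E)))).2 hk
    rw [map_mul, map_inv, inv_mul_eq_one] at h1
    show ((D.Φ ⟨e, hXG1 (hLX he)⟩ : SL(2, F)) : Matrix (Fin 2) (Fin 2) F) 1 0 = 0
    rw [← h1]
    exact D.borel_of_mem h hM hE hD (g := ⟨m, hm.2⟩) hm.1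
  · -- the clause
    have hp2 : 2 ≤ p := (Fact.out : p.Prime).two_le
    rcases Nat.lt_or_ge 3 (p ^ n) with hq | hq
    · have hq' : 3 < Nat.card F := by rw [Nat.card_eq_fintype_card, hF]; exact hq
      have htop := Loc.sl_perfect (F := F) hq'
      refine Or.inl ⟨F, inferInstance, inferInstance, n, hq, hF,
        ⟨θL.trans ((MulEquiv.subgroupCongr htop).trans Subgroup.topEquiv)⟩, ?_⟩
      have hTL : ∀ x : ↥L, (x : G) ∈ (T : Subgroup G) ↔ Loc.app (φL x) (Loc.e1 F) = Loc.e1 F := fun x => by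
        refine ⟨fun hx => hD _ hx, fun hx => ?_⟩
        obtain ⟨t, ht⟩ := Loc.exists_of_fix hx
        obtain ⟨a, ha, ea⟩ := hφU t
        have h1 := hQXB ((hker' (a⁻¹ * ⟨x, hLX x.2⟩)).1 (by
          rw [map_mul, map_inv, ea, ← ht]; exact inv_mul_cancel _))
        have := mul_mem (Jc_le_T i ha) (baumann_le h1)
        simpa using this
      ext x
      simp only [Subgroup.mem_inf]
      refine ⟨fun ⟨hx, hxL⟩ => ⟨hxL, Subgroup.mem_normalizer_fintype fun y hy => ?_⟩, fun ⟨hxL, hx⟩ => ⟨?_, hxL⟩⟩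
      · obtain ⟨hyT, hyL⟩ := Subgroup.mem_inf.1 hy
        have hxy : x * y * x⁻¹ ∈ L := mul_mem (mul_mem hxL hyL) (inv_mem hxL)
        refine Subgroup.mem_inf.2 ⟨(hTL ⟨_, hxy⟩).2 (Loc.fix_iff.2 ?_), hxy⟩
        obtain ⟨t, ht⟩ := Loc.exists_of_fix ((hTL ⟨y, hyL⟩).1 hyT)
        refine ⟨((φL ⟨x, hxL⟩ : SL(2, F)) : Matrix (Fin 2) (Fin 2) F) 0 0 ^ 2 * t, ?_⟩
        rw [show (⟨_, hxy⟩ : ↥L) = ⟨x, hxL⟩ * ⟨y, hyL⟩ * ⟨x, hxL⟩⁻¹ from rfl, map_mul, map_mul, map_inv, ht]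
        exact Loc.borel_conj ((hcS ⟨x, hxL⟩).1 hx) t
      · refine (hcS ⟨x, hxL⟩).2 (Loc.borel_of_conj_fix ?_)
        obtain ⟨u, hu⟩ : ∃ u : ↥L, φL u = upperSL 1 := by
          have : upperSL 1 ∈ φL.range := by rw [hR, htop]; exact Subgroup.mem_top _
          exact this
        have huT : (u : G) ∈ (T : Subgroup G) := (hTL u).2 (hu ▸ Loc.upperSL_e1 1)
        have h1 : x * u * x⁻¹ ∈ (T : Subgroup G) ⊓ L :=
          (Subgroup.mem_normalizer_iff.1 hx u).1 (Subgroup.mem_inf.2 ⟨huT, u.2⟩)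
        have h2 := (hTL (⟨x, hxL⟩ * u * ⟨x, hxL⟩⁻¹)).1 (Subgroup.mem_inf.1 h1).1
        rwa [map_mul, map_mul, map_inv, hu] at h2
    · have hn1 : n = 1 := by
        by_contra hne
        have h2 : p ^ 2 ≤ p ^ n := Nat.pow_le_pow_right (by omega) (by omega)
        have h4 : 2 ^ 2 ≤ p ^ 2 := Nat.pow_le_pow_left hp2 2
        omega
      subst hn1
      rw [pow_one] at hF hq
      obtain rfl | rfl : p = 2 ∨ p = 3 := by omega
      · obtain ⟨hc3, hb1⟩ := Loc.two_facts (F := F) hF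
        refine Or.inr (Or.inl ⟨rfl, 1, ⟨θL.trans ?_⟩, ?_⟩)
        · haveI : Fact (Nat.Prime 3) := ⟨Nat.prime_three⟩
          exact mulEquivOfPrimeCardEq (p := 3) hc3 (by rw [Nat.card_eq_fintype_card]; decide)
        · haveI : Subsingleton ↥(alternatingGroup (Fin (2 * 1))) := by
            rw [← Finite.card_le_one_iff_subsingleton, Nat.card_eq_fintype_card]
            decide
          haveI : Subsingleton ↥(((cStarOf 2 (T : Subgroup G) ⊓ L).subgroupOf L).map
              (QuotientGroup.mk' (pCore 2 ↥L))) := by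
            refine ⟨fun a b => Subtype.ext ?_⟩
            have h1 : ∀ q ∈ ((cStarOf 2 (T : Subgroup G) ⊓ L).subgroupOf L).map
                (QuotientGroup.mk' (pCore 2 ↥L)), q = 1 := by
              rintro _ ⟨x, hx, rfl⟩
              exact (QuotientGroup.eq_one_iff _).2 ((hLker x).1
                (hb1 _ (hR.le ⟨x, rfl⟩) ((hcS x).1 (Subgroup.mem_inf.1 hx).1)))
            rw [h1 _ a.2, h1 _ b.2]
          exact ⟨Loc.trivEquiv⟩
      · let σ := ZMod.ringEquivOfPrime F Nat.prime_three hF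
        refine Or.inr (Or.inr ⟨rfl, ⟨θL.trans (Loc.commutatorCongr (Loc.slCongr σ.symm))⟩, ?_⟩)
        have hiff : ∀ x : ↥L, (x : G) ∈ cStarOf 3 (T : Subgroup G) ↔
            (QuotientGroup.mk x : ↥L ⧸ pCore 3 ↥L) ∈ Subgroup.center _ := fun x => by
          rw [hcS, ← hθL, Loc.borel_eq_center_three hF, ← Loc.center_congr θL]
        apply Subgroup.ext
        intro q
        refine ⟨fun hq => ?_, fun hq => ?_⟩
        · obtain ⟨y, hy, rfl⟩ := hq
          exact (hiff y).1 (Subgroup.mem_inf.1 hy).1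
        · obtain ⟨x, rfl⟩ := QuotientGroup.mk_surjective q
          exact ⟨x, Subgroup.mem_inf.2 ⟨(hiff x).2 hq, x.2⟩, rfl⟩
  · exact Loc.degree_of_linear (p := p) ((θL.symm.trans θ))

end CfsgLib.FFModules.PushUpBlocks
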