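import Cfsg.Agent.Lib.FFModules.MinimalParabolic.ElabSL2
import Cfsg.Agent.Lib.FFModules.MinimalParabolic.ElabSym

/-!
`p`-subgroups of `SL₂(F)` on the natural module, elementary abelian two-subgroups of the symmetric group of odd
degree on the even module.
-/

set_option autoImplicit false
set_option linter.unusedSectionVars false

namespace CfsgLib.FFModules.PushUpBlocks.Loc

open Matrix
open scoped MatrixGroups
open CfsgLib.FFModules.MinimalParabolic (upperSL upperSL_mulVec exists_upper)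

variable {F : Type*} [Field F]

/-- The natural action. -/
abbrev app (g : SL(2, F)) (v : Fin 2 → F) : Fin 2 → F := (g : Matrix (Fin 2) (Fin 2) F).mulVec v

theorem app_mul (g h : SL(2, F)) (v : Fin 2 → F) : app (g * h) v = app g (app h v) := by
  rw [app, Matrix.SpecialLinearGroup.coe_mul, ← Matrix.mulVec_mulVec]

theorem app_one (v : Fin 2 → F) : app (1 : SL(2, F)) v = v := Matrix.one_mulVec v

theorem app_inv_app (g : SL(2, F)) (v : Fin 2 → F) : app g⁻¹ (app g v) = v := by
  rw [← app_mul, inv_mul_cancel, app_one]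

theorem app_app_inv (g : SL(2, F)) (v : Fin 2 → F) : app g (app g⁻¹ v) = v := by
  rw [← app_mul, mul_inv_cancel, app_one]

/-- The first basis vector. -/
abbrev e1 (F : Type*) [Field F] : Fin 2 → F := ![1, 0]

theorem upperSL_e1 (t : F) : app (upperSL t) (e1 F) = e1 F := by
  rw [app, upperSL_mulVec]; simp [e1]

theorem exists_of_fix {g : SL(2, F)} (hg : app g (e1 F) = e1 F) : ∃ t, g = upperSL t := by
  have h0 : g 0 0 = 1 := by simpa [app, e1, Matrix.mulVec, dotProduct] using congrFun hg 0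
  have h1 : g 1 0 = 0 := by simpa [app, e1, Matrix.mulVec, dotProduct] using congrFun hg 1
  have hd := g.2
  rw [Matrix.det_fin_two, h0, h1, one_mul, mul_zero, sub_zero] at hd
  refine ⟨g 0 1, Matrix.SpecialLinearGroup.ext _ _ fun i j => ?_⟩
  fin_cases i <;> fin_cases j <;> simp [upperSL, h0, h1, hd]

theorem upperSL_injective : Function.Injective (upperSL : F → SL(2, F)) := fun a b e => by
  simpa [upperSL] using congrFun (congrFun (congrArg Subtype.val e) 0) 1

theorem app_upperSL_eq_iff {t : F} {u : Fin 2 → F} (ht : t ≠ 0) : app (upperSL t) u = u ↔ u 1 = 0 := by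
  rw [app, upperSL_mulVec]
  refine ⟨fun h => ?_, fun h => funext fun i => by fin_cases i <;> simp [h]⟩
  have h1 := congrFun h 0
  simpa [ht] using h1

theorem exists_fix_conj [Finite F] {p : ℕ} [Fact p.Prime] [CharP F p] {P : Subgroup SL(2, F)}
    (hP : IsPGroup p P) : ∃ h : SL(2, F), ∀ x ∈ P, app (h * x * h⁻¹) (e1 F) = e1 F := by
  haveI := Fintype.ofFinite F
  letI : MulAction ↥P (Fin 2 → F) :=
    { smul := fun x v => app (x : SL(2, F)) v
      one_smul := fun v => app_one v
      mul_smul := fun x y v => app_mul _ _ v }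
  obtain ⟨w, hw, hw0⟩ := hP.exists_fixed_point_of_prime_dvd_card_of_fixed_point (Fin 2 → F)
    (by
      obtain ⟨n, -, hn⟩ := FiniteField.card F p
      rw [Nat.card_eq_fintype_card, Fintype.card_fun, hn, Fintype.card_fin, ← pow_mul]
      exact dvd_pow_self p (by have := n.pos; omega))
    (a := (0 : Fin 2 → F)) (fun x => show app (x : SL(2, F)) 0 = 0 from Matrix.mulVec_zero _)
  obtain ⟨h, hh⟩ := exists_upper w (Ne.symm hw0)
  have hh' : app h w = e1 F := hh
  refine ⟨h, fun x hx => ?_⟩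
  have h1 : app x w = w := hw ⟨x, hx⟩
  rw [app_mul, app_mul, show app h⁻¹ (e1 F) = w by rw [← hh', app_inv_app], h1, hh']

/-- Subgroups of the upper unitriangular group. -/
theorem upper_facts [Finite F] {X : Subgroup SL(2, F)} (hX : ∀ x ∈ X, app x (e1 F) = e1 F) :
    Nat.card X ≤ Nat.card F ∧
      (X ≠ ⊥ → ∀ u : Fin 2 → F, (∀ x ∈ X, app x u = u) ↔ u 1 = 0) ∧
      (Nat.card F ≤ Nat.card X → ∀ t, upperSL t ∈ X) := by
  choose t ht using fun x : ↥X => exists_of_fix (hX x x.2)
  have hinj : Function.Injective t := fun a b e => Subtype.ext (by rw [ht a, ht b, e])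
  refine ⟨Nat.card_le_card_of_injective t hinj, fun hne u => ⟨fun hu => ?_, fun hu x hx => ?_⟩, fun hc s => ?_⟩
  · obtain ⟨x, hx, hx1⟩ := (Subgroup.bot_or_exists_ne_one X).resolve_left hne
    refine (app_upperSL_eq_iff (t := t ⟨x, hx⟩) fun e => hx1 ?_).1 (ht ⟨x, hx⟩ ▸ hu x hx)
    refine (ht ⟨x, hx⟩).trans ?_
    rw [e]
    refine Matrix.SpecialLinearGroup.ext _ _ fun i j => ?_
    fin_cases i <;> fin_cases j <;> simp [upperSL]
  · obtain ⟨a, rfl⟩ : ∃ a, x = upperSL a := ⟨_, ht ⟨x, hx⟩⟩
    rw [app, upperSL_mulVec]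
    funext i; fin_cases i <;> simp [hu]
  · haveI := Fintype.ofFinite F
    have hb := (Nat.bijective_iff_injective_and_card t).2 ⟨hinj, le_antisymm (Nat.card_le_card_of_injective t hinj) hc⟩
    obtain ⟨x, hx⟩ := hb.2 s
    exact hx ▸ ht x ▸ x.2

/-- The even vectors. -/
theorem card_even {m : ℕ} (hodd : Odd m) :
    Nat.card {v : Fin m → ZMod 2 // ∑ i, v i = 0} * 2 = 2 ^ m := by
  have h4 : ∀ c : ZMod 2, m • c = c := fun c => by
    obtain ⟨r, hr⟩ := hodd
    rw [hr, add_smul, one_smul, mul_smul, two_smul, CharTwo.add_self_eq_zero, zero_add]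
  let g : (Fin m → ZMod 2) ≃ {v : Fin m → ZMod 2 // ∑ i, v i = 0} × ZMod 2 :=
    { toFun := fun w => (⟨fun i => w i + ∑ j, w j, by
        rw [Finset.sum_add_distrib, Finset.sum_const, Finset.card_univ, Fintype.card_fin, h4,
          CharTwo.add_self_eq_zero]⟩, ∑ j, w j)
      invFun := fun z i => z.1.1 i + z.2
      left_inv := fun w => funext fun i => by
        show w i + _ + _ = w i
        rw [add_assoc, CharTwo.add_self_eq_zero, add_zero]
      right_inv := fun z => by
        have h1 : ∑ j, (z.1.1 j + z.2) = z.2 := by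
          rw [Finset.sum_add_distrib, z.1.2, zero_add, Finset.sum_const, Finset.card_univ, Fintype.card_fin, h4]
        refine Prod.ext (Subtype.ext (funext fun i => ?_)) h1
        show z.1.1 i + z.2 + _ = z.1.1 i
        rw [h1, add_assoc, CharTwo.add_self_eq_zero, add_zero] }
  have := Nat.card_congr g
  rw [Nat.card_prod, Nat.card_zmod, Nat.card_fun, Nat.card_zmod, Nat.card_fin] at this
  exact this.symm

/-- The fixed even vectors of a group of permutations. -/
abbrev fixEven {m : ℕ} (X : Subgroup (Equiv.Perm (Fin m))) : Type :=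
  {v : Fin m → ZMod 2 // ∑ i, v i = 0 ∧ ∀ x ∈ X, ∀ k, v (x⁻¹ k) = v k}

/-- The bound for abelian groups of permutations and the case of equality. -/
theorem perm_bound {m : ℕ} (hodd : Odd m) (X : Subgroup (Equiv.Perm (Fin m)))
    (hcomm : ∀ x ∈ X, ∀ y ∈ X, x * y = y * x) :
    Nat.card X * (Nat.card (fixEven X) * 2) ≤ 2 ^ m ∧
      (2 ^ m ≤ Nat.card X * (Nat.card (fixEven X) * 2) →
        (∀ σ : Equiv.Perm (Fin m), (∀ i, ∃ x ∈ X, x i = σ i) → σ ∈ X) ∧
          ∀ i, ∀ x ∈ X, ∀ y ∈ X, x i ≠ i → y i ≠ i → x i = y i) := by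
  classical
  set Ω := MulAction.orbitRel.Quotient ↥X (Fin m)
  haveI : Fintype Ω := Fintype.ofFinite Ω
  have hact : ∀ (x : ↥X) (i : Fin m), x • i = (x : Equiv.Perm (Fin m)) i := fun _ _ => rfl
  have hrep : ∀ i : Fin m, ∃ y : ↥X, y • (Quotient.out (Quotient.mk'' i : Ω)) = i := fun i => by
    have h1 : MulAction.orbitRel ↥X (Fin m) (Quotient.out (Quotient.mk'' i : Ω)) i :=
      Quotient.exact' (Quotient.out_eq' _)
    obtain ⟨y, hy⟩ := MulAction.orbitRel_apply.1 h1
    exact ⟨y⁻¹, by rw [← hy, inv_smul_smul]⟩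
  have hC : Nat.card (fixEven X) * 2 ≤ 2 ^ Fintype.card Ω := by
    have hcst : ∀ (v : fixEven X) (i : Fin m), v.1 i = v.1 (Quotient.out (Quotient.mk'' i : Ω)) := by
      intro v i
      obtain ⟨y, hy⟩ := hrep i
      have h1 := v.2.2 y y.2 i
      rw [← h1]
      refine congrArg v.1 ?_
      rw [Equiv.Perm.inv_def, Equiv.symm_apply_eq, ← hact, hy]
    have h4 : ∀ c : ZMod 2, m • c = c := fun c => by
      obtain ⟨r, hr⟩ := hodd
      rw [hr, add_smul, one_smul, mul_smul, two_smul, CharTwo.add_self_eq_zero, zero_add]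
    let f : fixEven X × ZMod 2 → (Ω → ZMod 2) := fun z O => z.1.1 (Quotient.out O) + z.2
    have hf : Function.Injective f := by
      rintro ⟨v, c⟩ ⟨w, d⟩ e
      have h1 : ∀ i, v.1 i + c = w.1 i + d := fun i => by rw [hcst v i, hcst w i]; exact congrFun e _
      have h2 := Finset.sum_congr (rfl : (Finset.univ : Finset (Fin m)) = _) fun i _ => h1 i
      rw [Finset.sum_add_distrib, Finset.sum_add_distrib, v.2.1, w.2.1, zero_add, zero_add, Finset.sum_const,
        Finset.sum_const, Finset.card_univ, Fintype.card_fin, h4, h4] at h2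
      subst h2
      exact Prod.ext (Subtype.ext (funext fun i => add_right_cancel (h1 i))) rfl
    have := Nat.card_le_card_of_injective f hf
    rwa [Nat.card_prod, Nat.card_zmod, Nat.card_fun, Nat.card_zmod, Nat.card_eq_fintype_card (α := Ω)] at this
  let ev : ↥X → ∀ O : Ω, MulAction.orbit ↥X (Quotient.out O) := fun x O => ⟨x • Quotient.out O, x, rfl⟩
  have hev : ∀ a b : ↥X, ev a = ev b → ∀ i, a • i = b • i := fun a b e i => by
    obtain ⟨y, hy⟩ := hrep i
    have h1 := congrArg Subtype.val (congrFun e (Quotient.mk'' i))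
    simp only [ev] at h1
    have ha : a * y = y * a := Subtype.ext (hcomm _ a.2 _ y.2)
    have hb : b * y = y * b := Subtype.ext (hcomm _ b.2 _ y.2)
    rw [← hy, smul_smul, smul_smul, ha, hb, mul_smul, mul_smul, h1]
  have hevinj : Function.Injective ev := fun a b e => Subtype.ext (Equiv.ext fun i => hev a b e i)
  set a : Ω → ℕ := fun O => Nat.card (MulAction.orbit ↥X (Quotient.out O)) with ha
  have hX : Nat.card X ≤ ∏ O : Ω, a O := by
    rw [ha, ← Nat.card_pi]; exact Nat.card_le_card_of_injective ev hevinj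
  have ha1 : ∀ O, 1 ≤ a O := fun O => by
    haveI : Nonempty (MulAction.orbit ↥X (Quotient.out O)) := ⟨⟨_, MulAction.mem_orbit_self _⟩⟩
    exact Nat.card_pos
  have hsum : ∑ O : Ω, a O = m := by
    rw [ha, ← Nat.card_sigma, ← Nat.card_congr (MulAction.selfEquivSigmaOrbits ↥X (Fin m)), Nat.card_fin]
  have h2 : ∀ O, a O * 2 ≤ 2 ^ a O := fun O => MinimalParabolic.two_mul_le_two_pow' _ (ha1 O)
  have hmid : (∏ O : Ω, a O) * 2 ^ Fintype.card Ω = ∏ O : Ω, a O * 2 := by
    rw [Finset.prod_mul_distrib, Finset.prod_const, Finset.card_univ]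
  have htop : ∏ O : Ω, 2 ^ a O = 2 ^ m := by rw [Finset.prod_pow_eq_pow_sum, hsum]
  have hlast : ∏ O : Ω, a O * 2 ≤ 2 ^ m := htop ▸ Finset.prod_le_prod' fun O _ => h2 O
  refine ⟨((Nat.mul_le_mul hX hC).trans hmid.le).trans hlast, fun hge => ?_⟩
  have hbij : Nat.card X = ∏ O : Ω, a O := by
    refine le_antisymm hX (Nat.le_of_mul_le_mul_right ?_ (show 0 < 2 ^ Fintype.card Ω by positivity))
    rw [hmid]
    exact (hlast.trans hge).trans (Nat.mul_le_mul_left _ hC)
  have hsmall : ∀ O, a O ≤ 2 := fun O => by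
    by_contra h3
    push Not at h3
    have hlt : ∏ O : Ω, a O * 2 < ∏ O : Ω, 2 ^ a O := by
      refine Finset.prod_lt_prod (fun O' _ => by have := ha1 O'; positivity) (fun O' _ => h2 O')
        ⟨O, Finset.mem_univ _, ?_⟩
      obtain ⟨k, hk⟩ : ∃ k, a O = k + 3 := ⟨a O - 3, by omega⟩
      rw [hk]
      have := Nat.lt_two_pow_self (n := k)
      rw [pow_add]; omega
    rw [htop] at hlt
    have := (hge.trans (Nat.mul_le_mul hX hC)).trans hmid.le
    omega
  refine ⟨fun σ hσ => ?_, fun i x hx y hy hxi hyi => ?_⟩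
  · have hbj : Function.Bijective ev := (Nat.bijective_iff_injective_and_card ev).2
      ⟨hevinj, by rw [Nat.card_pi]; exact hbij⟩
    obtain ⟨x, hx⟩ := hbj.2 fun O => ⟨σ (Quotient.out O), by
      obtain ⟨y, hy, e⟩ := hσ (Quotient.out O)
      exact ⟨⟨y, hy⟩, e⟩⟩
    convert x.2 using 1
    refine Equiv.ext fun i => ?_
    have hxO : ∀ O : Ω, (x : Equiv.Perm (Fin m)) (Quotient.out O) = σ (Quotient.out O) := fun O =>
      congrArg Subtype.val (congrFun hx O)
    set j := Quotient.out (Quotient.mk'' i : Ω) with hj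
    rcases eq_or_ne j i with hji | hji
    · rw [← hji, hxO]
    -- the orbit is `{j, i}`
    have hcard := hsmall (Quotient.mk'' i : Ω)
    simp only [ha] at hcard
    rw [← hj] at hcard
    have hmem : ∀ k, (∃ z : ↥X, z • j = k) → k = j ∨ k = i := fun k hk => by
      by_contra hh
      push Not at hh
      obtain ⟨y, hy⟩ := hrep i
      let g : Fin 3 → MulAction.orbit ↥X j := ![⟨j, MulAction.mem_orbit_self _⟩, ⟨i, ⟨y, hy⟩⟩, ⟨k, hk⟩]
      have hg : Function.Injective g := by
        intro u v e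
        have e' := congrArg Subtype.val e
        fin_cases u <;> fin_cases v <;> simp [g] at e' <;> first
          | rfl | exact absurd e' hji | exact absurd e'.symm hji | exact absurd e'.symm hh.1
          | exact absurd e' hh.1 | exact absurd e'.symm hh.2 | exact absurd e' hh.2
      have := Nat.card_le_card_of_injective g hg
      rw [Nat.card_fin] at this
      omega
    obtain ⟨y, hy⟩ := hrep i
    rw [← hj] at hy
    have hσj := hxO (Quotient.mk'' i : Ω)
    rw [← hj] at hσj
    obtain ⟨z, hz, ez⟩ := hσ i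
    have hσi : σ i = j ∨ σ i = i := hmem _ ⟨⟨z, hz⟩ * y, by rw [mul_smul, hy]; exact ez⟩
    have hxi : (x : Equiv.Perm (Fin m)) i = j ∨ (x : Equiv.Perm (Fin m)) i = i :=
      hmem _ ⟨x * y, by rw [mul_smul, hy]; rfl⟩
    have hσj' : σ j = j ∨ σ j = i := hmem _ ⟨x, hσj⟩
    have hne1 : σ i ≠ σ j := fun e => hji (σ.injective e).symm
    have hne2 : (x : Equiv.Perm (Fin m)) i ≠ (x : Equiv.Perm (Fin m)) j := fun e =>
      hji ((x : Equiv.Perm (Fin m)).injective e).symm
    rw [hσj] at hne2
    rcases hσi with e1 | e1 <;> rcases hxi with e2 | e2 <;> rcases hσj' with e3 | e3 <;>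
      rw [e1] at hne1 ⊢ <;> rw [e2] at hne2 ⊢ <;> rw [e3] at hne1 hne2 <;>
      first | rfl | exact absurd rfl hne1 | exact absurd rfl hne2
  · obtain ⟨w, hw⟩ := hrep i
    set O : Ω := Quotient.mk'' i
    by_contra hne
    have hcard := hsmall O
    simp only [ha] at hcard
    let g : Fin 3 → MulAction.orbit ↥X (Quotient.out O) := ![⟨i, ⟨w, hw⟩⟩,
      ⟨x i, ⟨⟨x, hx⟩ * w, show (⟨x, hx⟩ * w : ↥X) • _ = _ by rw [mul_smul, hw]; rfl⟩⟩,
      ⟨y i, ⟨⟨y, hy⟩ * w, show (⟨y, hy⟩ * w : ↥X) • _ = _ by rw [mul_smul, hw]; rfl⟩⟩]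
    have hg : Function.Injective g := by
      intro u v e
      have e' := congrArg Subtype.val e
      fin_cases u <;> fin_cases v <;> simp [g] at e' <;> first
        | rfl | exact absurd e' hne | exact absurd e'.symm hne | exact absurd e' hxi
        | exact absurd e'.symm hxi | exact absurd e' hyi | exact absurd e'.symm hyi
    have := Nat.card_le_card_of_injective g hg
    rw [Nat.card_fin] at this
    omega

end CfsgLib.FFModules.PushUpBlocks.Loc
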