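import Cfsg.Agent.Lib.FFModules.PushUpBlocks.Sym
import Cfsg.Agent.Lib.PushUp.RankOne.BlockData
import Cfsg.Agent.Lib.FFModules.BlockNormal.Main
import Cfsg.Agent.Lib.FFModules.BlockNormal.Transport
import Cfsg.Agent.S2986

/-!
Pushing up in `p`-minimal groups: the block structure.
-/

set_option autoImplicit false
set_option linter.unusedSectionVars false

universe u

namespace CfsgLib.FFModules.PushUpBlocks

open Cfsg
open CfsgLib.PushUp.RankOne (BlockData HasBlockData)
open scoped commutatorElement MatrixGroups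

variable {G : Type u} [Group G] {p : ℕ} [Finite G] [Fact p.Prime] {T : Sylow p G} {r : ℕ}
  {E : Fin r → Subgroup G} {M : Subgroup G}

/-- Every component has a block. -/
theorem exists_compBlock (h : Hyp T) (hM : IsTop T M) (hE : Comps T E) (i : Fin r) :
    ∃ Eb, CompBlock T E M i Eb := by
  obtain ⟨n, hn, ⟨F, hF, hFt, hcard, ⟨D₀⟩⟩ | ⟨hp, ⟨D⟩⟩⟩ := hE.exists_data i
  · haveI : CharP F p := by
      obtain ⟨c, hc⟩ := CharP.exists F
      obtain ⟨m, hcp, hm⟩ := FiniteField.card F c
      have h1 : c ∣ p := hcp.dvd_of_dvd_pow (hcard ▸ hm ▸ dvd_pow_self c m.pos.ne')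
      rwa [(Nat.prime_dvd_prime_iff_eq hcp Fact.out).1 h1] at hc
    obtain ⟨D, hD⟩ := D₀.exists_normalised hE
    exact D.exists_block h hM hE CfsgLib.PushUp.RankOne.hasBlockData hD hn hcard
  · subst hp
    obtain ⟨p0, τ, hS⟩ := exists_symShape h hM hE rfl hn D
    exact hS.exists_block h hM hE CfsgLib.PushUp.RankOne.hasBlockData hn

namespace CompBlock

variable {i : Fin r} {Eb : Subgroup G}

theorem isSubnormal (hE : Comps T E) (hb : CompBlock T E M i Eb) : Eb.IsSubnormal := by
  haveI := hE.G1_normal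
  refine Subgroup.IsSubnormal.step Eb (E i) hb.le ?_ (Subgroup.normal_subgroupOf_of_le_normalizer hb.norm)
  exact Subgroup.IsSubnormal.step (E i) (G1 E) (le_iSup E i) (Subgroup.Normal.isSubnormal inferInstance)
    (Subgroup.normal_subgroupOf_of_le_normalizer (hE.G1_le_normalizer i))

theorem moves_le (hE : Comps T E) (hb : CompBlock T E M i Eb) : ⁅VG G p, Eb⁆ ≤ Eb := by
  have hVE : VG G p ≤ E i := (VG_le.trans inf_le_left).trans (pCore_le_CG.trans (hE.ce i))
  rw [Subgroup.commutator_comm]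
  exact CoprimeAction.commutator_le_left (hVE.trans hb.norm)

/-- An element centralizing the block fixes the moved space of the component. -/
theorem fixes_moves (hE : Comps T E) (hb : CompBlock T E M i Eb) {f : G}
    (hf : ∀ e ∈ Eb, f * e = e * f) : ∀ v ∈ ⁅VG G p, E i⁆, f * v = v * f := by
  set P := ⁅VG G p, Eb⁆ with hP
  have hPV : P ≤ VG G p := Subgroup.commutator_le_left _ _
  have hPn : E i ≤ Subgroup.normalizer (P : Set G) := fun e he =>
    TwoGroupTricks.normalizer_le_normalizer_commutator_left (hb.norm he)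
      (by rw [Subgroup.normalizer_eq_top_iff.2 VG_normal]; exact Subgroup.mem_top e)
  have hle : ⁅VG G p, E i⁆ ≤ P := by
    rcases hE.le_Wc_or i hPV hPn with h1 | h1
    · exfalso
      refine hb.notC fun g hg => hE.inf_Kc i (Subgroup.mem_inf.2 ⟨hb.le hg,
        hE.mem_Kc (le_iSup E i (hb.le hg)) fun v hv => ?_⟩)
      have h2 := inv_mem (h1 (Subgroup.commutator_mem_commutator (Comps.moves_le i hv) hg))
      rw [commutatorElement_inv, commutatorElement_def] at h2
      exact h2
    · rw [Subgroup.commutator_le]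
      intro v hv e he
      have hv' : v ∈ ((P ⊔ Wc G p E i : Subgroup G) : Set G) := h1.ge hv
      rw [Subgroup.coe_mul_of_left_le_normalizer_right _ _ (fun a ha => Subgroup.mem_normalizer_fintype fun b hb' => by
        rw [Subgroup.mem_centralizer_iff.1 ((ThompsonJ.isElementaryAbelian_iff.1 (VG_elem (G := G) (p := p))).1
          hb'.1) a (hPV ha), mul_inv_cancel_right]
        exact hb')] at hv'
      obtain ⟨a, ha, w, hw, rfl⟩ := hv'
      have hwe : w * e = e * w := (Subgroup.mem_centralizer_iff.1 hw.2 e he).symm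
      have e1 : ⁅a * w, e⁆ = a * (e * a⁻¹ * e⁻¹) := by
        rw [commutatorElement_def, mul_assoc a w e, hwe]; group
      show ⁅a * w, e⁆ ∈ P
      rw [e1]
      exact mul_mem ha ((Subgroup.mem_normalizer_iff.1 (hPn he) _).1 (inv_mem ha))
  exact fun v hv => hf v (hb.moves_le hE (hle hv))

end CompBlock

/-- The blocks of a `p`-minimal pushing up group. -/
theorem exists_blocks (h : Hyp T) : ∃ 𝓑 : Set (Subgroup G),
    HasBaumannBlockStructure p (T : Subgroup G) 𝓑 ∧
      (∀ Eb ∈ 𝓑, ∀ m : ℕ, Nonempty (↥Eb ⧸ pCore p ↥Eb ≃* ↥(alternatingGroup (Fin (2 * m + 1)))) →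
        ∃ n : ℕ, 2 * m + 1 = 2 ^ n + 1) ∧
      cStarOf p (T : Subgroup G) = (cStarOf p (T : Subgroup G) ⊓ sSup 𝓑) ⊔ (T : Subgroup G) := by
  classical
  obtain ⟨M, hM⟩ := h.exists_top
  obtain ⟨r, E, hE⟩ := exists_comps h hM
  haveI hne := nonempty_comps h hM hE
  haveI := hE.G1_normal
  choose Eb hb using exists_compBlock h hM hE
  have hsub : ∀ i, (Eb i).IsSubnormal := fun i => (hb i).isSubnormal hE
  have hfacts : ∀ i, _ := fun i => CfsgLib.Replacement.Block.facts_of_block h.char T (hb i).block (hsub i)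
  -- different components
  have hnle : ∀ i j, i ≠ j → ¬ Eb i ≤ E j := fun i j hij hle => (hb i).notC fun x hx =>
    hE.disj i (Subgroup.mem_inf.2 ⟨(hb i).le hx,
      Subgroup.mem_iSup_of_mem j (Subgroup.mem_iSup_of_mem (Ne.symm hij) (hle hx))⟩)
  have hcomm : ∀ i j, i ≠ j → ⁅Eb i, Eb j⁆ = ⊥ := fun i j hij =>
    (CfsgLib.Replacement.Block.eq_or_commute_blocks h.char (hfacts i) (hfacts j)).resolve_left
      fun e => hnle i j hij (e.le.trans (hb j).le)
  -- conjugation
  have hconj : ∀ i g, ∃ j, (Eb i).map (MulAut.conj g).toMonoidHom = Eb j := by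
    intro i g
    obtain ⟨j, hj⟩ := hE.exists_conj_eq g i
    refine ⟨j, ?_⟩
    set F := (Eb i).map (MulAut.conj g).toMonoidHom with hF
    have hFE : F ≤ E j := hj ▸ Subgroup.map_mono (hb i).le
    have hblk : IsBaumannBlock p ((g • T : Sylow p G) : Subgroup G) F :=
      BlockNormal.isBaumannBlock_map (MulAut.conj g) (hb i).block
    have hFs : F.IsSubnormal := (hsub i).map (MulAut.conj g).surjective
    refine (CfsgLib.Replacement.Block.eq_or_commute_blocks h.char
      (CfsgLib.Replacement.Block.facts_of_block h.char (g • T) hblk hFs) (hfacts j)).resolve_right fun hc => ?_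
    -- `F` would centralize `V`
    refine (hb i).notC ?_
    have hFC : F ≤ CG G p := by
      intro f hf
      have hfix := (hb j).fixes_moves hE fun e he =>
        (Subgroup.mem_centralizer_iff.1 (Subgroup.commutator_eq_bot_iff_le_centralizer.1 hc hf) e he).symm
      refine hE.inf_Kc j (Subgroup.mem_inf.2 ⟨hFE hf, hE.mem_Kc (le_iSup E j (hFE hf)) fun v hv => ?_⟩)
      rw [hfix v hv, mul_inv_cancel_right, mul_inv_cancel]
      exact one_mem _
    intro x hx
    have h1 := (inferInstance : (CG G p).Normal).conj_mem _ (hFC ⟨x, hx, rfl⟩) g⁻¹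
    simpa [mul_assoc] using h1
  set P := ⨆ i, Eb i with hP
  have hsS : sSup (Set.range Eb) = P := sSup_range
  haveI hPn : P.Normal := by
    refine ⟨fun x hx g => ?_⟩
    have h1 : P ≤ P.comap (MulAut.conj g).toMonoidHom := iSup_le fun i => by
      obtain ⟨j, hj⟩ := hconj i g
      exact Subgroup.map_le_iff_le_comap.1 (hj.le.trans (le_iSup Eb j))
    exact h1 hx
  have hPT : (T : Subgroup G) ⊔ P = ⊤ := hM.eq_top_of_not_le le_sup_left fun hle =>
    (hb hne.some).notM (((le_iSup Eb hne.some).trans le_sup_right).trans hle)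
  have hTC := T_le_cStar h hM
  have hPG : P ≤ G1 E := iSup_le fun i => (hb i).le.trans (le_iSup E i)
  -- `C* ∩ P` is generated by its intersections with the blocks
  have hgen : cStarOf p (T : Subgroup G) ⊓ P ≤ ⨆ i, cStarOf p (T : Subgroup G) ⊓ Eb i := by
    suffices hs : ∀ s : Finset (Fin r), ∀ x ∈ ⨆ i ∈ s, Eb i, x ∈ M →
        x ∈ ⨆ i, cStarOf p (T : Subgroup G) ⊓ Eb i by
      rintro x ⟨hxC, hxP⟩
      refine hs Finset.univ x ?_ (cStar_le h hM hxC)
      rw [show (⨆ i ∈ Finset.univ, Eb i) = P by simp [hP]]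
      exact hxP
    intro s
    induction s using Finset.induction_on with
    | empty => intro x hx _; simp at hx; simp [hx]
    | insert a s ha ih =>
      intro x hx hxM
      rw [Finset.iSup_insert] at hx
      have hn : (⨆ i ∈ s, Eb i) ≤ Subgroup.normalizer (Eb a : Set G) := iSup₂_le fun i hi =>
        (Subgroup.commutator_eq_bot_iff_le_centralizer.1 (hcomm i a (fun e => ha (e ▸ hi)))).trans
          (Subgroup.centralizer_le_normalizer _)
      have hx' : x ∈ ((Eb a ⊔ ⨆ i ∈ s, Eb i : Subgroup G) : Set G) := hx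
      rw [Subgroup.coe_mul_of_right_le_normalizer_left _ _ hn] at hx'
      obtain ⟨e, he, y, hy, rfl⟩ := hx'
      have hyK : y ∈ Kc G p E a := by
        have hle : (⨆ i ∈ s, Eb i) ≤ Kc G p E a := iSup₂_le fun i hi z hz =>
          Comps.mem_Kc_of_E (i := i) (j := a) (fun (e : a = i) => ha (e ▸ hi)) ((hb i).le hz)
        exact hle hy
      have hec : e ∈ cStarOf p (T : Subgroup G) := (hb a).good e he ⟨e * y, Subgroup.mem_inf.2 ⟨hxM,
        mul_mem (le_iSup E a ((hb a).le he)) (hE.Kc_le a hyK)⟩, by simpa [mul_assoc] using inv_mem hyK⟩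
      refine mul_mem (Subgroup.mem_iSup_of_mem a (Subgroup.mem_inf.2 ⟨hec, he⟩)) (ih y hy ?_)
      have := mul_mem (inv_mem (cStar_le h hM hec)) hxM
      simpa using this
  refine ⟨Set.range Eb, ⟨?_, ?_, ?_, ?_, ?_, ?_, ?_⟩, ?_, ?_⟩
  · rintro _ ⟨i, rfl⟩; exact (hb i).block
  · rintro _ ⟨i, rfl⟩ g
    obtain ⟨j, hj⟩ := hconj i g
    exact ⟨j, hj.symm⟩
  · rintro _ ⟨i, rfl⟩ _ ⟨j, rfl⟩ hne'
    exact hcomm i j fun e => hne' (e ▸ rfl)
  · rw [hsS]
    exact top_le_iff.1 (hPT.ge.trans (sup_le_sup_right hTC _))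
  · intro F hF hFC
    by_contra hno
    push Not at hno
    have hc : ∀ i, ⁅F, Eb i⁆ = ⊥ := fun i =>
      (BlockNormal.le_or_commute h.char (hb i).block (hsub i) hF).resolve_left (hno _ ⟨i, rfl⟩)
    refine hFC fun f hf => mem_cStar_of_normalizes h hM fun a ha => ?_
    have hfc : ∀ i, ∀ e ∈ Eb i, f * e = e * f := fun i e he =>
      (Subgroup.mem_centralizer_iff.1 (Subgroup.commutator_eq_bot_iff_le_centralizer.1 (hc i) hf) e he).symm
    have haG : a ∈ G1 E := thompson_le_G1 hE ha
    have hxG : f * a * f⁻¹ * a⁻¹ ∈ G1 E := mul_mem (hE.G1_normal.conj_mem a haG f) (inv_mem haG)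
    have hxC : f * a * f⁻¹ * a⁻¹ ∈ CG G p := hE.iInf_Kc hxG fun i => hE.mem_Kc hxG fun v hv => by
      have hfix := (hb i).fixes_moves hE (hfc i)
      set u := a⁻¹ * v * a with hu
      have hu' : u ∈ ⁅VG G p, E i⁆ := by
        simpa using hE.G1_le_normalizer_moves (inv_mem haG) hv
      have h1 : f⁻¹ * u * f = u := by rw [mul_assoc, ← hfix u hu', inv_mul_cancel_left]
      have h2 : f * v * f⁻¹ = v := by rw [hfix v hv, mul_inv_cancel_right]
      have e1 : f * a * f⁻¹ * a⁻¹ * v * (f * a * f⁻¹ * a⁻¹)⁻¹ = v := by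
        calc f * a * f⁻¹ * a⁻¹ * v * (f * a * f⁻¹ * a⁻¹)⁻¹ = f * a * (f⁻¹ * u * f) * a⁻¹ * f⁻¹ := by
              rw [hu]; group
          _ = f * v * f⁻¹ := by rw [h1, hu]; group
          _ = v := h2
      rw [e1, mul_inv_cancel]; exact one_mem _
    have := mul_mem (Subgroup.mem_sup_right (S := thompsonSubgroupOf p (T : Subgroup G)) hxC)
      (Subgroup.mem_sup_left (T := CG G p) ha)
    simpa using this
  · rw [hsS, iSup_range]
    exact le_antisymm hgen (iSup_le fun i => inf_le_inf_left _ (le_iSup Eb i))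
  · rintro _ ⟨i, rfl⟩; exact (hb i).clause
  · rintro _ ⟨i, rfl⟩; exact (hb i).degree
  · rw [hsS]
    refine le_antisymm (fun x hx => ?_) (sup_le inf_le_left hTC)
    obtain ⟨t, ht, y, hy, rfl⟩ := Subgroup.mem_sup_of_normal_right.1 (hPT.ge (Subgroup.mem_top x))
    refine mul_mem (Subgroup.mem_sup_right ht) (Subgroup.mem_sup_left (Subgroup.mem_inf.2 ⟨?_, hy⟩))
    simpa using mul_mem (inv_mem (hTC ht)) hx

end CfsgLib.FFModules.PushUpBlocks
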