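import Cfsg.Agent.Lib.FFModules.PushUpBlocks.Components
import Cfsg.Agent.Lib.FFModules.PushUpBlocks.Local
import Cfsg.Agent.Lib.ThompsonJ.Basic

/-!
The elementary abelian subgroups of largest order of `T` act on every component with equality in the offender bound.
-/

set_option autoImplicit false
set_option linter.unusedSectionVars false

namespace CfsgLib.FFModules.PushUpBlocks

open Cfsg
open scoped commutatorElement MatrixGroups IsMulCommutative
open CfsgLib.FFModules.MinimalParabolic (upperSL)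

variable {G : Type*} [Group G]

/-- The index of the kernel of a homomorphism in a subgroup is the order of the image. -/
theorem relIndex_eq_card_map {H K A : Subgroup G} {Γ : Type*} [Group Γ] (f : ↥H →* Γ)
    (hker : ∀ h, f h = 1 ↔ (h : G) ∈ K) (hA : A ≤ H) :
    K.relIndex A = Nat.card ((A.subgroupOf H).map f) := by
  have h1 : K.subgroupOf A = (f.comp (Subgroup.inclusion hA)).ker := by
    ext a
    exact (hker (Subgroup.inclusion hA a)).symm
  have h2 : (f.comp (Subgroup.inclusion hA)).range = (A.subgroupOf H).map f := by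
    ext x
    simp only [MonoidHom.mem_range, Subgroup.mem_map, Subgroup.mem_subgroupOf, MonoidHom.comp_apply]
    exact ⟨fun ⟨a, ha⟩ => ⟨_, a.2, ha⟩, fun ⟨y, hy, e⟩ => ⟨⟨y, hy⟩, e⟩⟩
  rw [Subgroup.relIndex, h1, Subgroup.index_ker, h2]

theorem relIndex_mul_card {H K : Subgroup G} (h : H ≤ K) : H.relIndex K * Nat.card H = Nat.card K := by
  rw [← Subgroup.relIndex_bot_left, ← Subgroup.relIndex_bot_left, mul_comm,
    Subgroup.relIndex_mul_relIndex _ _ _ bot_le h]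

variable {p : ℕ} [Finite G] [Fact p.Prime] {T : Sylow p G} {r : ℕ} {E : Fin r → Subgroup G}

/-- The elements of `V` fixed by `A` modulo `C_V(E_i)`. -/
def Fi (p : ℕ) [Fact p.Prime] (E : Fin r → Subgroup G) (A : Subgroup G) (i : Fin r) : Subgroup G where
  carrier := {v | v ∈ VG G p ∧ ∀ a ∈ A, a * v * a⁻¹ * v⁻¹ ∈ Wc G p E i}
  one_mem' := ⟨one_mem _, fun a _ => by simp⟩
  mul_mem' := by
    rintro v w ⟨hv, hv'⟩ ⟨hw, hw'⟩
    refine ⟨mul_mem hv hw, fun a ha => ?_⟩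
    haveI : IsMulCommutative ↥(VG G p) := VG_elem.1
    have hcomm : ∀ x ∈ VG G p, ∀ y ∈ VG G p, x * y = y * x := fun x hx y hy =>
      congrArg Subtype.val (mul_comm (⟨x, hx⟩ : ↥(VG G p)) ⟨y, hy⟩)
    have h1 : a * (v * w) * a⁻¹ * (v * w)⁻¹ = (a * v * a⁻¹ * v⁻¹) * (v * (a * w * a⁻¹ * w⁻¹) * v⁻¹) := by
      group
    rw [h1, hcomm v hv _ (hw' a ha).1, mul_inv_cancel_right]
    exact mul_mem (hv' a ha) (hw' a ha)
  inv_mem' := by
    rintro v ⟨hv, hv'⟩
    refine ⟨inv_mem hv, fun a ha => ?_⟩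
    haveI : IsMulCommutative ↥(VG G p) := VG_elem.1
    have hcomm : ∀ x ∈ VG G p, ∀ y ∈ VG G p, x * y = y * x := fun x hx y hy =>
      congrArg Subtype.val (mul_comm (⟨x, hx⟩ : ↥(VG G p)) ⟨y, hy⟩)
    have h1 : a * v⁻¹ * a⁻¹ * v⁻¹⁻¹ = v⁻¹ * (a * v * a⁻¹ * v⁻¹)⁻¹ * v := by group
    rw [h1, hcomm _ (inv_mem hv) _ (inv_mem (hv' a ha).1), inv_mul_cancel_right]
    exact inv_mem (hv' a ha)

theorem Fi_le (A : Subgroup G) (i : Fin r) : Fi p E A i ≤ VG G p := fun _ hv => hv.1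

theorem Wc_le_Fi (hE : Comps T E) {A : Subgroup G} (hA : A ≤ G1 E) (i : Fin r) :
    Wc G p E i ≤ Fi p E A i := fun w hw => ⟨hw.1, fun a ha =>
  mul_mem ((Subgroup.mem_normalizer_iff.1 (hE.G1_le_normalizer_Wc i (hA ha)) w).1 hw) (inv_mem hw)⟩

/-- Membership in `Fi` through an equivariant map. -/
theorem mem_Fi_iff {Γ Y : Type*} [Group Γ] [Group Y] {i : Fin r} (Φ : ↥(G1 E) →* Γ) (Ψ : ↥(VG G p) →* Y)
    (act : Γ → Y → Y) (hkerΨ : ∀ v, Ψ v = 1 ↔ (v : G) ∈ Wc G p E i)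
    (hequiv : ∀ (g : ↥(G1 E)) (v w : ↥(VG G p)), (w : G) = (g : G) * v * (g : G)⁻¹ → Ψ w = act (Φ g) (Ψ v))
    {A : Subgroup G} (hA : A ≤ G1 E) (v : ↥(VG G p)) :
    (v : G) ∈ Fi p E A i ↔ ∀ x ∈ (A.subgroupOf (G1 E)).map Φ, act x (Ψ v) = Ψ v := by
  constructor
  · rintro hv _ ⟨a, ha, rfl⟩
    have hw : (a : G) * v * (a : G)⁻¹ ∈ VG G p := VG_normal.conj_mem _ v.2 _
    rw [← hequiv a v ⟨_, hw⟩ rfl, ← mul_inv_eq_one, ← map_inv, ← map_mul, hkerΨ]
    exact hv.2 a ha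
  · intro h
    refine ⟨v.2, fun a ha => ?_⟩
    have hw : a * v * a⁻¹ ∈ VG G p := VG_normal.conj_mem _ v.2 _
    have h1 := h _ ⟨⟨a, hA ha⟩, ha, rfl⟩
    rw [← hequiv ⟨a, hA ha⟩ v ⟨_, hw⟩ rfl, ← mul_inv_eq_one, ← map_inv, ← map_mul, hkerΨ] at h1
    exact h1

theorem SLData.relIndex_bound (hE : Comps T E) {i : Fin r} {F : Type} [Field F] [Finite F] (D : SLData G p E i F)
    {A : Subgroup G} (hA : A ≤ G1 E)
    (hfix : ∀ a : ↥(G1 E), (a : G) ∈ A → Loc.app (D.Φ a) (Loc.e1 F) = Loc.e1 F) :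
    (Kc G p E i).relIndex A ≤ (Fi p E A i).relIndex (VG G p) ∧
      ((Fi p E A i).relIndex (VG G p) ≤ (Kc G p E i).relIndex A →
        A ≤ Kc G p E i ∨ ∀ t : F, ∃ a : ↥(G1 E), (a : G) ∈ A ∧ D.Φ a = upperSL t) := by
  haveI := Fintype.ofFinite F
  set X := (A.subgroupOf (G1 E)).map D.Φ with hX
  have hK : (Kc G p E i).relIndex A = Nat.card X := relIndex_eq_card_map D.Φ D.kerΦ hA
  obtain ⟨hle, hfixset, hfull⟩ := Loc.upper_facts (X := X) (by
    rintro _ ⟨a, ha, rfl⟩; exact hfix a ha)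
  have hpos : 0 < (Fi p E A i).relIndex (VG G p) :=
    Nat.pos_of_ne_zero Subgroup.index_ne_zero_of_finite
  by_cases hbot : X = ⊥
  · have hAK : A ≤ Kc G p E i := fun a ha => (D.kerΦ ⟨a, hA ha⟩).1
      (Subgroup.mem_bot.1 (hbot ▸ Subgroup.mem_map_of_mem D.Φ (show (⟨a, hA ha⟩ : ↥(G1 E)) ∈ A.subgroupOf (G1 E) from ha)))
    rw [hK, hbot, Subgroup.card_bot]
    exact ⟨hpos, fun _ => Or.inl hAK⟩
  -- the index of the fixed points is `q`
  set S := ((Fi p E A i).subgroupOf (VG G p)).map D.Ψ with hS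
  have hmem : ∀ v : ↥(VG G p), (v : G) ∈ Fi p E A i ↔ Multiplicative.toAdd (D.Ψ v) 1 = 0 := fun v => by
    rw [mem_Fi_iff D.Φ D.Ψ (fun s y => Multiplicative.ofAdd (Loc.app s (Multiplicative.toAdd y))) D.kerΨ
      (fun g v w hw => Multiplicative.toAdd.injective (D.equiv g v w hw)) hA v, ← hfixset hbot]
    exact ⟨fun h x hx => congrArg Multiplicative.toAdd (h x hx), fun h x hx => by
      show Multiplicative.ofAdd (Loc.app x _) = _
      rw [h x hx]; rfl⟩
  have hcS : Nat.card S = Nat.card F := by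
    refine Nat.card_congr (Equiv.ofBijective (fun y : ↥S => Multiplicative.toAdd (y : Multiplicative (Fin 2 → F)) 0) ⟨?_, ?_⟩)
    · rintro ⟨_, v, hv, rfl⟩ ⟨_, w, hw, rfl⟩ e
      refine Subtype.ext (Multiplicative.toAdd.injective (funext fun k => ?_))
      fin_cases k
      · exact e
      · exact ((hmem v).1 hv).trans ((hmem w).1 hw).symm
    · intro x
      obtain ⟨v, -, hv⟩ := D.surjΨ (Multiplicative.ofAdd ![x, 0])
      refine ⟨⟨D.Ψ v, v, (hmem v).2 (by rw [hv]; rfl), rfl⟩, ?_⟩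
      show Multiplicative.toAdd (D.Ψ v) 0 = x
      rw [hv]; rfl
  have hF : (Fi p E A i).relIndex (VG G p) = Nat.card F := by
    have h1 := Subgroup.relIndex_mul_relIndex _ _ _ (Wc_le_Fi hE hA i) (Fi_le (p := p) A i)
    rw [relIndex_eq_card_map D.Ψ D.kerΨ le_rfl, relIndex_eq_card_map D.Ψ D.kerΨ (Fi_le (p := p) A i), ← hS,
      hcS, Subgroup.subgroupOf_self, ← MonoidHom.range_eq_map,
      MonoidHom.range_eq_top.2 fun y => let ⟨v, _, hv⟩ := D.surjΨ y; ⟨v, hv⟩, Subgroup.card_top,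
      Nat.card_congr Multiplicative.toAdd, Nat.card_fun, Nat.card_eq_fintype_card (α := Fin 2), Fintype.card_fin,
      sq] at h1
    exact Nat.eq_of_mul_eq_mul_left Nat.card_pos h1
  rw [hF, hK]
  refine ⟨hle, fun h => Or.inr fun t => ?_⟩
  obtain ⟨a, ha, e⟩ := hfull h t
  exact ⟨a, ha, e⟩

theorem SymData.relIndex_bound (hE : Comps T E) {i : Fin r} {m : ℕ} (hodd : Odd m) (D : SymData G p E i m)
    {A : Subgroup G} (hA : A ≤ G1 E) (hAc : ∀ a ∈ A, ∀ b ∈ A, a * b = b * a) :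
    (Kc G p E i).relIndex A ≤ (Fi p E A i).relIndex (VG G p) ∧
      ((Fi p E A i).relIndex (VG G p) ≤ (Kc G p E i).relIndex A →
        (∀ σ : Equiv.Perm (Fin m), (∀ k, ∃ a : ↥(G1 E), (a : G) ∈ A ∧ D.Φ a k = σ k) →
            ∃ a : ↥(G1 E), (a : G) ∈ A ∧ D.Φ a = σ) ∧
          ∀ k, ∀ a b : ↥(G1 E), (a : G) ∈ A → (b : G) ∈ A → D.Φ a k ≠ k → D.Φ b k ≠ k → D.Φ a k = D.Φ b k) := by
  set X := (A.subgroupOf (G1 E)).map D.Φ with hX
  have hK : (Kc G p E i).relIndex A = Nat.card X := relIndex_eq_card_map D.Φ D.kerΦ hA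
  obtain ⟨hle, heq⟩ := Loc.perm_bound hodd X (by
    rintro _ ⟨a, ha, rfl⟩ _ ⟨b, hb, rfl⟩
    rw [← map_mul, ← map_mul, show a * b = b * a from Subtype.ext (hAc _ ha _ hb)])
  set S := ((Fi p E A i).subgroupOf (VG G p)).map D.Ψ with hS
  have hmem : ∀ v : ↥(VG G p), (v : G) ∈ Fi p E A i ↔
      ∀ x ∈ X, ∀ k, Multiplicative.toAdd (D.Ψ v) (x⁻¹ k) = Multiplicative.toAdd (D.Ψ v) k := fun v => by
    rw [mem_Fi_iff D.Φ D.Ψ (fun s y => Multiplicative.ofAdd fun k => Multiplicative.toAdd y (s⁻¹ k)) D.kerΨ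
      (fun g v w hw => Multiplicative.toAdd.injective (funext (D.equiv g v w hw))) hA v]
    exact ⟨fun h x hx k => congrFun (congrArg Multiplicative.toAdd (h x hx)) k,
      fun h x hx => Multiplicative.toAdd.injective (funext (h x hx))⟩
  have hcS : Nat.card S = Nat.card (Loc.fixEven X) := by
    refine Nat.card_congr (Equiv.ofBijective (fun y : ↥S => (⟨Multiplicative.toAdd (y : Multiplicative (Fin m → ZMod 2)),
      by obtain ⟨v, -, e⟩ := y.2; rw [← e]; exact D.even v,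
      by obtain ⟨v, hv, e⟩ := y.2; rw [← e]; exact (hmem v).1 hv⟩ : Loc.fixEven X)) ⟨?_, ?_⟩)
    · intro a b e
      exact Subtype.ext (Multiplicative.toAdd.injective (Subtype.ext_iff.1 e :))
    · intro w
      obtain ⟨v, -, hv⟩ := D.surjΨ w.1 w.2.1
      refine ⟨⟨D.Ψ v, v, (hmem v).2 (by rw [hv]; exact w.2.2), rfl⟩, Subtype.ext hv⟩
  have hcR : Nat.card D.Ψ.range * 2 = 2 ^ m := by
    rw [← Loc.card_even hodd]
    congr 1
    refine Nat.card_congr (Equiv.ofBijective (fun y : ↥D.Ψ.range =>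
      (⟨Multiplicative.toAdd (y : Multiplicative (Fin m → ZMod 2)),
        by obtain ⟨v, e⟩ := y.2; rw [← e]; exact D.even v⟩ : {v : Fin m → ZMod 2 // ∑ k, v k = 0})) ⟨?_, ?_⟩)
    · intro a b e
      exact Subtype.ext (Multiplicative.toAdd.injective (Subtype.ext_iff.1 e :))
    · intro w
      obtain ⟨v, -, hv⟩ := D.surjΨ w.1 w.2
      exact ⟨⟨D.Ψ v, v, rfl⟩, Subtype.ext hv⟩
  have h1 := Subgroup.relIndex_mul_relIndex _ _ _ (Wc_le_Fi hE hA i) (Fi_le (p := p) A i)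
  rw [relIndex_eq_card_map D.Ψ D.kerΨ le_rfl, relIndex_eq_card_map D.Ψ D.kerΨ (Fi_le (p := p) A i), ← hS,
    hcS, Subgroup.subgroupOf_self, ← MonoidHom.range_eq_map] at h1
  rw [← hcR, ← h1] at hle heq
  set f := Nat.card (Loc.fixEven X) with hf
  have hfpos : 0 < f := hcS ▸ Nat.card_pos
  rw [hK]
  refine ⟨?_, fun h => ?_⟩
  · have h2 : Nat.card X * (f * 2) ≤ (Fi p E A i).relIndex (VG G p) * (f * 2) := hle.trans (le_of_eq (by ring))
    exact Nat.le_of_mul_le_mul_right h2 (by omega)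
  · obtain ⟨h2, h3⟩ := heq ((le_of_eq (by ring)).trans (Nat.mul_le_mul_right (f * 2) h))
    refine ⟨fun σ hσ => ?_, fun k a b ha hb hak hbk => h3 k _ ⟨a, ha, rfl⟩ _ ⟨b, hb, rfl⟩ hak hbk⟩
    obtain ⟨a, ha, e⟩ := h2 σ fun k => by
      obtain ⟨a, ha, e⟩ := hσ k
      exact ⟨_, ⟨a, ha, rfl⟩, e⟩
    exact ⟨a, ha, e⟩

/-- All the components are in coordinates adapted to `T`. -/
theorem SLData.exists_normalised (hE : Comps T E) {i : Fin r} {F : Type} [Field F] [Finite F] [CharP F p]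
    (D : SLData G p E i F) : ∃ D' : SLData G p E i F,
      ∀ a : ↥(G1 E), (a : G) ∈ (T : Subgroup G) → Loc.app (D'.Φ a) (Loc.e1 F) = Loc.e1 F := by
  haveI := Fintype.ofFinite F
  set P := ((T : Subgroup G).subgroupOf (G1 E)).map D.Φ
  have hP : IsPGroup p P := (T.2.comap_subtype).map _
  obtain ⟨h, hh⟩ := Loc.exists_fix_conj hP
  let act : Multiplicative (Fin 2 → F) →* Multiplicative (Fin 2 → F) :=
    { toFun := fun y => Multiplicative.ofAdd (Loc.app h (Multiplicative.toAdd y))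
      map_one' := by simp [Loc.app]
      map_mul' := fun a b => by
        show _ = Multiplicative.ofAdd (_ + _)
        rw [toAdd_mul]; exact congrArg _ (Matrix.mulVec_add _ _ _) }
  refine ⟨⟨(MulAut.conj h).toMonoidHom.comp D.Φ, act.comp D.Ψ, fun s => ?_, fun x => ?_, fun g => ?_,
    fun v => ?_, fun g v w hw => ?_⟩, fun a ha => hh _ ⟨a, ha, rfl⟩⟩
  · obtain ⟨g, hg, e⟩ := D.surjΦ (h⁻¹ * s * h)
    exact ⟨g, hg, by simp [e, mul_assoc]⟩
  · obtain ⟨v, hv, e⟩ := D.surjΨ (Multiplicative.ofAdd (Loc.app h⁻¹ (Multiplicative.toAdd x)))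
    refine ⟨v, hv, ?_⟩
    show Multiplicative.ofAdd (Loc.app h (Multiplicative.toAdd (D.Ψ v))) = x
    rw [e, toAdd_ofAdd, Loc.app_app_inv]; rfl
  · rw [← D.kerΦ g]
    show MulAut.conj h (D.Φ g) = 1 ↔ _
    exact map_eq_one_iff _ (MulAut.conj h).injective
  · rw [← D.kerΨ v]
    show Multiplicative.ofAdd (Loc.app h (Multiplicative.toAdd (D.Ψ v))) = 1 ↔ _
    refine ⟨fun e => ?_, fun e => by rw [e]; simp [Loc.app]⟩
    have e1 := congrArg (fun y => Loc.app h⁻¹ (Multiplicative.toAdd y)) e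
    simp only [toAdd_ofAdd, Loc.app_inv_app] at e1
    exact Multiplicative.toAdd.injective (e1.trans (Matrix.mulVec_zero _))
  · show Loc.app h (Multiplicative.toAdd (D.Ψ w)) = Loc.app (h * D.Φ g * h⁻¹) (Loc.app h (Multiplicative.toAdd (D.Ψ v)))
    rw [D.equiv g v w hw, Loc.app_mul, Loc.app_mul, Loc.app_inv_app]

/-- The bound on every component. -/
theorem Comps.relIndex_le (hE : Comps T E) {A : Subgroup G} (hA : A ≤ G1 E) (hAT : A ≤ (T : Subgroup G))
    (hAc : ∀ a ∈ A, ∀ b ∈ A, a * b = b * a) (i : Fin r) :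
    (Kc G p E i).relIndex A ≤ (Fi p E A i).relIndex (VG G p) := by
  obtain ⟨n, hn, ⟨F, hF, hFt, hcard, ⟨D⟩⟩ | ⟨-, ⟨D⟩⟩⟩ := hE.exists_data i
  · haveI : CharP F p := by
      obtain ⟨c, hc⟩ := CharP.exists F
      obtain ⟨m, hcp, hm⟩ := FiniteField.card F c
      have h1 : c ∣ p := hcp.dvd_of_dvd_pow (hcard ▸ hm ▸ dvd_pow_self c m.pos.ne')
      rwa [(Nat.prime_dvd_prime_iff_eq hcp Fact.out).1 h1] at hc
    obtain ⟨D', hD'⟩ := D.exists_normalised hE
    exact (D'.relIndex_bound hE hA fun a ha => hD' a (hAT ha)).1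
  · exact (D.relIndex_bound hE (by simp [parity_simps]; omega) hA hAc).1

/-- The product over the components. -/
theorem Comps.relIndex_Fi (hE : Comps T E) {A : Subgroup G} (hA : A ≤ G1 E) :
    ∏ i, (Fi p E A i).relIndex (VG G p) ≤ (⨅ i, Fi p E A i).relIndex (VG G p) := by
  classical
  haveI : IsMulCommutative ↥(VG G p) := VG_elem.1
  set f : Fin r → Subgroup ↥(VG G p) := fun i => (Fi p E A i).subgroupOf (VG G p) with hf
  have hsurj : Function.Surjective (Subgroup.quotientiInfEmbedding f) := by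
    intro y
    have hu : ∀ i, ∃ u : ↥(VG G p), (u : G) ∈ ⁅VG G p, E i⁆ ∧ (QuotientGroup.mk u : _ ⧸ f i) = y i := by
      intro i
      obtain ⟨v, hv⟩ := QuotientGroup.mk_surjective (y i)
      have h1 : (v : G) ∈ ((⁅VG G p, E i⁆ ⊔ Wc G p E i : Subgroup G) : Set G) := (hE.sup_Wc i).ge v.2
      rw [Subgroup.coe_mul_of_left_le_normalizer_right _ _ (fun a ha => Subgroup.mem_normalizer_fintype fun b hb => by
        rw [show a * b = b * a from congrArg Subtype.val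
          (mul_comm (⟨a, Comps.moves_le i ha⟩ : ↥(VG G p)) ⟨b, hb.1⟩), mul_inv_cancel_right]
        exact hb)] at h1
      obtain ⟨u, hu, w, hw, e⟩ := h1
      refine ⟨⟨u, Comps.moves_le i hu⟩, hu, ?_⟩
      rw [← hv, QuotientGroup.eq]
      show u⁻¹ * (v : G) ∈ Fi p E A i
      rw [← e]; simpa using Wc_le_Fi hE hA i hw
    choose u hu hy using hu
    refine ⟨QuotientGroup.mk (∏ j, u j), funext fun i => ?_⟩
    rw [Subgroup.quotientiInfEmbedding_apply_mk, ← hy i, QuotientGroup.eq,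
      ← Finset.mul_prod_erase Finset.univ u (Finset.mem_univ i), mul_inv_rev, mul_assoc, inv_mul_cancel, mul_one,
      inv_mem_iff]
    exact Subgroup.prod_mem _ fun j hj => Wc_le_Fi hE hA i (hE.moves_le_Wc (Finset.ne_of_mem_erase hj) (hu j))
  have h1 := Nat.card_le_card_of_surjective _ hsurj
  rw [Nat.card_pi] at h1
  refine le_trans (le_of_eq ?_) (le_trans h1 (le_of_eq ?_))
  · exact Finset.prod_congr rfl fun i _ => rfl
  · show (⨅ i, f i).index = _
    rw [Subgroup.relIndex]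
    congr 1
    ext v
    simp [hf, Subgroup.mem_iInf, Subgroup.mem_subgroupOf]

variable {M : Subgroup G}

theorem thompson_le_G1 (hE : Comps T E) : thompsonSubgroupOf p (T : Subgroup G) ≤ G1 E :=
  (ThompsonJ.thompsonSubgroupOf_sylow_le T).trans (le_sup_left.trans hE.sup.ge)

/-- What equality in the offender bound gives for a maximal elementary abelian subgroup. -/
structure OffFacts (T : Sylow p G) (E : Fin r → Subgroup G) (A : Subgroup G) : Prop where
  le : A ≤ G1 E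
  comm : ∀ a ∈ A, ∀ b ∈ A, a * b = b * a
  infV : A ⊓ VG G p = VG G p ⊓ Subgroup.centralizer (A : Set G)
  iInf : (⨅ i, Fi p E A i) ⊓ VG G p = A ⊓ VG G p
  maxEA : ThompsonJ.IsMaxEA p (T : Subgroup G) (A ⊓ pCore p G ⊔ VG G p)
  index : (A ⊓ VG G p).relIndex (VG G p) = (pCore p G).relIndex A
  eq : ∀ i, (Fi p E A i).relIndex (VG G p) ≤ (Kc G p E i).relIndex A
  full : ∀ i, ∀ a ∈ A, ∃ a' ∈ A, a⁻¹ * a' ∈ Kc G p E i ∧ ∀ j, j ≠ i → a' ∈ Kc G p E j

theorem offFacts (h : Hyp T) (hM : IsTop T M) (hE : Comps T E) [Nonempty (Fin r)] {A : Subgroup G}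
    (hA : ThompsonJ.IsMaxEA p (T : Subgroup G) A) : OffFacts T E A := by
  classical
  have hA1 : A ≤ G1 E := (ThompsonJ.le_thompsonSubgroupOf hA).trans (thompson_le_G1 hE)
  have hAc : ∀ a ∈ A, ∀ b ∈ A, a * b = b * a := fun a ha b hb =>
    (ThompsonJ.isElementaryAbelian_le_centralizer hA.elem ha b hb).symm
  set V := VG G p
  set Q := pCore p G
  have hQT : Q ≤ (T : Subgroup G) := CfsgLib.FFModules.pCore_le_sylow T
  have hVQ : V ≤ Q := VG_le.trans inf_le_left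
  have hAQ : A ⊓ Q = A ⊓ CG G p := by
    refine le_antisymm (inf_le_inf_left _ pCore_le_CG) (le_inf inf_le_left ?_)
    exact (inf_le_inf_right _ hA.le).trans (inf_CG_eq h hM).le
  set A0 := A ⊓ Q ⊔ V
  have hA0e : IsElementaryAbelian p A0 := ThompsonJ.isElementaryAbelian_sup
    (ThompsonJ.isElementaryAbelian_mono hA.elem inf_le_left) VG_elem
    (inf_le_right.trans pCore_le_CG)
  have hA0T : A0 ≤ (T : Subgroup G) := sup_le (inf_le_left.trans hA.le) (hVQ.trans hQT)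
  have hcard0 : Nat.card A0 = Nat.card ↥(A ⊓ Q : Subgroup G) * (A ⊓ V).relIndex V := by
    haveI : V.Normal := VG_normal
    have h1 := relIndex_mul_card (le_sup_right : V ≤ A0)
    rw [show V.relIndex A0 = V.relIndex (A ⊓ Q) from Subgroup.relIndex_sup_right _ _] at h1
    have e : A ⊓ Q ⊓ V = A ⊓ V := by rw [inf_assoc, inf_eq_right.2 hVQ]
    have h2 := relIndex_mul_card (inf_le_left : A ⊓ Q ⊓ V ≤ A ⊓ Q)
    rw [Subgroup.inf_relIndex_left, e] at h2
    rw [← h1, ← h2, ← relIndex_mul_card (inf_le_right : A ⊓ V ≤ V)]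
    ring
  have hcardA : Nat.card A = Nat.card ↥(A ⊓ Q : Subgroup G) * Q.relIndex A := by
    rw [← relIndex_mul_card (inf_le_left : A ⊓ Q ≤ A), Subgroup.inf_relIndex_left, mul_comm]
  have hmax := hA.card_le A0 hA0T hA0e
  rw [hcard0, hcardA] at hmax
  have hle1 : (A ⊓ V).relIndex V ≤ Q.relIndex A := Nat.le_of_mul_le_mul_left hmax Nat.card_pos
  have hAV : A ⊓ V ≤ V ⊓ Subgroup.centralizer (A : Set G) :=
    le_inf inf_le_right (inf_le_left.trans (ThompsonJ.isElementaryAbelian_le_centralizer hA.elem))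
  have hCF : V ⊓ Subgroup.centralizer (A : Set G) ≤ (⨅ i, Fi p E A i) ⊓ V := le_inf (le_iInf fun i v hv =>
    ⟨hv.1, fun a ha => by
      rw [Subgroup.mem_centralizer_iff.1 hv.2 a ha, mul_inv_cancel_right, mul_inv_cancel]; exact one_mem _⟩) inf_le_left
  have hQK : Q.relIndex A = (⨅ i, Kc G p E i).relIndex A := by
    rw [← Subgroup.inf_relIndex_left (H := A), hAQ]
    refine le_antisymm ?_ ?_ |>.symm
    · refine Subgroup.relIndex_le_of_le_left ?_ (fun e => ?_)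
      · exact inf_le_right.trans (le_iInf fun i => le_sup_right)
      · exact Subgroup.index_ne_zero_of_finite e
    · rw [← Subgroup.inf_relIndex_left (H := A) (K := ⨅ i, Kc G p E i)]
      refine Subgroup.relIndex_le_of_le_left (fun a ha => Subgroup.mem_inf.2 ⟨ha.1,
        hE.iInf_Kc (hA1 ha.1) (Subgroup.mem_iInf.1 ha.2)⟩) (fun e => ?_)
      exact Subgroup.index_ne_zero_of_finite e
  have hK : Q.relIndex A ≤ ∏ i, (Kc G p E i).relIndex A := hQK ▸ Subgroup.relIndex_iInf_le _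
  have hi : ∀ i ∈ Finset.univ, (Kc G p E i).relIndex A ≤ (Fi p E A i).relIndex V := fun i _ =>
    hE.relIndex_le hA1 hA.le hAc i
  have hF : ∏ i, (Fi p E A i).relIndex V ≤ ((⨅ i, Fi p E A i) ⊓ V).relIndex V := by
    rw [Subgroup.inf_relIndex_right]; exact hE.relIndex_Fi hA1
  have hne : ∀ {H : Subgroup G}, H.relIndex V ≠ 0 := fun {_} => Subgroup.index_ne_zero_of_finite
  have h4 : ((⨅ i, Fi p E A i) ⊓ V).relIndex V ≤ (V ⊓ Subgroup.centralizer (A : Set G)).relIndex V :=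
    Subgroup.relIndex_le_of_le_left hCF hne
  have h5 : (V ⊓ Subgroup.centralizer (A : Set G)).relIndex V ≤ (A ⊓ V).relIndex V :=
    Subgroup.relIndex_le_of_le_left hAV hne
  have hprod : ∏ i, (Kc G p E i).relIndex A ≤ ∏ i, (Fi p E A i).relIndex V := Finset.prod_le_prod' hi
  have heqAV : (A ⊓ V).relIndex V = Q.relIndex A := by omega
  have heqF : ((⨅ i, Fi p E A i) ⊓ V).relIndex V = (A ⊓ V).relIndex V := by omega
  have hiInf : (⨅ i, Fi p E A i) ⊓ V = A ⊓ V := by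
    refine (Subgroup.eq_of_le_of_card_ge (hAV.trans hCF) ?_).symm
    have h6 := relIndex_mul_card (inf_le_right : (⨅ i, Fi p E A i) ⊓ V ≤ V)
    rw [← relIndex_mul_card (inf_le_right : A ⊓ V ≤ V), heqF] at h6
    exact (Nat.eq_of_mul_eq_mul_left (Nat.pos_of_ne_zero hne) h6).le
  refine ⟨hA1, hAc, le_antisymm hAV (hCF.trans hiInf.le), hiInf, ⟨hA0T, hA0e, fun B hB hBe => ?_⟩, heqAV,
    fun i => ?_, fun i a ha => ?_⟩
  · rw [hcard0, heqAV, ← hcardA]; exact hA.card_le B hB hBe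
  · by_contra hlt
    push Not at hlt
    have : ∏ i, (Kc G p E i).relIndex A < ∏ i, (Fi p E A i).relIndex V :=
      Finset.prod_lt_prod (fun j _ => Nat.pos_of_ne_zero Subgroup.index_ne_zero_of_finite) hi
        ⟨i, Finset.mem_univ _, hlt⟩
    omega
  · set f : Fin r → Subgroup ↥A := fun j => (Kc G p E j).subgroupOf A with hf
    have hcard : Nat.card (∀ j, ↥A ⧸ f j) ≤ Nat.card (↥A ⧸ ⨅ j, f j) := by
      rw [Nat.card_pi]
      show ∏ j, (Kc G p E j).relIndex A ≤ (⨅ j, f j).index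
      refine le_trans (by omega : _ ≤ Q.relIndex A) (le_of_eq ?_)
      rw [hQK, Subgroup.relIndex]
      congr 1
      ext v
      simp [hf, Subgroup.mem_iInf, Subgroup.mem_subgroupOf]
    have hsurj : Function.Surjective (Subgroup.quotientiInfEmbedding f) :=
      ((Nat.bijective_iff_injective_and_card _).2 ⟨(Subgroup.quotientiInfEmbedding f).injective,
        le_antisymm (Nat.card_le_card_of_injective _ (Subgroup.quotientiInfEmbedding f).injective) hcard⟩).2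
    obtain ⟨x, hx⟩ := hsurj fun j => if j = i then QuotientGroup.mk ⟨a, ha⟩ else QuotientGroup.mk 1
    obtain ⟨a', rfl⟩ := QuotientGroup.mk_surjective x
    refine ⟨a', a'.2, ?_, fun j hj => ?_⟩
    · have h7 := congrFun hx i
      rw [Subgroup.quotientiInfEmbedding_apply_mk, if_pos rfl, eq_comm, QuotientGroup.eq] at h7
      exact h7
    · have h7 := congrFun hx j
      rw [Subgroup.quotientiInfEmbedding_apply_mk, if_neg hj, eq_comm, QuotientGroup.eq] at h7
      simpa [hf, Subgroup.mem_subgroupOf] using h7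

end CfsgLib.FFModules.PushUpBlocks
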