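import Cfsg.Agent.Lib.FFModules.PushUpBlocks.Offender

/-!
Conjugation permutes the components; `J(T)` acts on every component.
-/

set_option autoImplicit false
set_option linter.unusedSectionVars false

namespace CfsgLib.FFModules.PushUpBlocks

open Cfsg
open scoped commutatorElement MatrixGroups IsMulCommutative
open CfsgLib.FFModules.MinimalParabolic (upperSL exists_upper)

variable {G : Type*} [Group G]

namespace Loc

variable {F : Type*} [Field F]

/-- A nonzero vector is moved to every other one. -/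
theorem exists_app_eq {v w : Fin 2 → F} (hv : v ≠ 0) (hw : w ≠ 0) : ∃ s : SL(2, F), app s v = w := by
  obtain ⟨a, ha⟩ := exists_upper v hv
  obtain ⟨b, hb⟩ := exists_upper w hw
  refine ⟨b⁻¹ * a, ?_⟩
  rw [app_mul, show app a v = ![1, 0] from ha, ← show app b w = ![1, 0] from hb, app_inv_app]

/-- The smallest invariant set of even vectors closed under sums. -/
theorem even_span {m : ℕ} (hodd : Odd m) (S : Set (Fin m → ZMod 2)) (h0 : (0 : Fin m → ZMod 2) ∈ S)
    (hadd : ∀ a ∈ S, ∀ b ∈ S, a + b ∈ S) (hperm : ∀ a ∈ S, ∀ σ : Equiv.Perm (Fin m), (fun k => a (σ⁻¹ k)) ∈ S)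
    {v : Fin m → ZMod 2} (hv : v ∈ S) (hsum : ∑ k, v k = 0) (hne : v ≠ 0) :
    ∀ x : Fin m → ZMod 2, ∑ k, x k = 0 → x ∈ S := by
  classical
  have hcases : ∀ c : ZMod 2, c = 0 ∨ c = 1 := by decide
  -- `v` is not constant
  obtain ⟨a, b, hab⟩ : ∃ a b, v a ≠ v b := by
    by_contra hh
    push Not at hh
    obtain ⟨a, ha⟩ := Function.ne_iff.1 hne
    rw [Finset.sum_congr rfl fun k _ => hh k a, Finset.sum_const, Finset.card_univ, Fintype.card_fin] at hsum
    rcases hcases (v a) with e | e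
    · exact ha e
    · rw [e, nsmul_one, ZMod.natCast_eq_zero_iff_even] at hsum
      exact Nat.not_even_iff_odd.2 hodd hsum
  have hab' : a ≠ b := fun e => hab (e ▸ rfl)
  have hpair : ∀ c d, c ≠ d → (Pi.single c 1 + Pi.single d 1 : Fin m → ZMod 2) ∈ S := by
    have h1 : (Pi.single a 1 + Pi.single b 1 : Fin m → ZMod 2) ∈ S := by
      convert hadd _ hv _ (hperm _ hv (Equiv.swap a b)) using 1
      funext k
      simp only [Pi.add_apply, Equiv.swap_inv]
      rcases eq_or_ne k a with rfl | hka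
      · rw [Equiv.swap_apply_left]
        rcases hcases (v k) with e | e <;> rcases hcases (v b) with e' | e' <;>
          simp_all [Pi.single_apply]
      rcases eq_or_ne k b with rfl | hkb
      · rw [Equiv.swap_apply_right]
        rcases hcases (v k) with e | e <;> rcases hcases (v a) with e' | e' <;>
          simp_all [Pi.single_apply]
      rw [Equiv.swap_apply_of_ne_of_ne hka hkb, CharTwo.add_self_eq_zero]
      simp [hka, hkb]
    intro c d hcd
    obtain ⟨σ, hσa, hσb⟩ : ∃ σ : Equiv.Perm (Fin m), σ a = c ∧ σ b = d := by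
      refine ⟨Equiv.swap (Equiv.swap a c b) d * Equiv.swap a c, ?_, by simp⟩
      rw [Equiv.Perm.mul_apply, Equiv.swap_apply_left, Equiv.swap_apply_of_ne_of_ne _ hcd]
      intro e
      exact hab' ((Equiv.swap a c).injective (e ▸ Equiv.swap_apply_left a c))
    convert hperm _ h1 σ using 1
    funext k
    simp [Pi.single_apply, ← hσa, ← hσb, Equiv.symm_apply_eq]
  intro x hx
  suffices h : ∀ (s : Finset (Fin m)) (x : Fin m → ZMod 2), ∑ k, x k = 0 → (∀ k ∉ s, x k = 0) → x ∈ S from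
    h Finset.univ x hx fun k hk => absurd (Finset.mem_univ k) hk
  intro s
  induction s using Finset.strongInduction with
  | H s ih =>
    intro x hx hs
    by_cases hx0 : x = 0
    · exact hx0 ▸ h0
    obtain ⟨c, hc⟩ := Function.ne_iff.1 hx0
    have hcs : c ∈ s := by_contra fun h => hc (hs c h)
    obtain ⟨d, hdc, hd⟩ : ∃ d, d ≠ c ∧ x d ≠ 0 := by
      by_contra hh
      push Not at hh
      rw [Finset.sum_eq_single_of_mem c (Finset.mem_univ _) fun k _ hk => hh k hk] at hx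
      exact hc hx
    have hdsum : ∑ k, (x + (Pi.single c 1 + Pi.single d 1) : Fin m → ZMod 2) k = 0 := by
      simp [Finset.sum_add_distrib, hx, CharTwo.add_self_eq_zero]
    have h2 := ih (s.erase c) (Finset.erase_ssubset hcs) _ hdsum fun k hk => by
      rcases eq_or_ne k c with rfl | hkc
      · simp [Pi.single_apply, Ne.symm hdc, (hcases (x k)).resolve_left hc]; exact CharTwo.add_self_eq_zero 1
      rcases eq_or_ne k d with rfl | hkd
      · simp [Pi.single_apply, hkc, (hcases (x k)).resolve_left hd]; exact CharTwo.add_self_eq_zero 1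
      have : k ∉ s := fun h => hk (Finset.mem_erase.2 ⟨hkc, h⟩)
      simp [Pi.single_apply, hkc, hkd, hs k this]
    have h3 := hadd _ h2 _ (hpair c d hdc.symm)
    convert h3 using 1
    funext k
    simp [add_assoc, CharTwo.add_self_eq_zero]

end Loc

variable {p : ℕ} [Finite G] [Fact p.Prime] {T : Sylow p G} {r : ℕ} {E : Fin r → Subgroup G}

/-- Elements of `G1` acting trivially on a component are in the kernel of its projection. -/
theorem Comps.mem_Kc (hE : Comps T E) {i : Fin r} {g : G} (hg : g ∈ G1 E)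
    (h : ∀ v ∈ ⁅VG G p, E i⁆, g * v * g⁻¹ * v⁻¹ ∈ Wc G p E i) : g ∈ Kc G p E i := by
  have hWn : ∀ {Y : Type} [Group Y] (Ψ : ↥(VG G p) →* Y), (∀ v, Ψ v = 1 ↔ (v : G) ∈ Wc G p E i) →
      ∀ v : ↥(VG G p), (v : G) ∈ ⁅VG G p, E i⁆ →
        ∀ w : ↥(VG G p), (w : G) = g * v * g⁻¹ → Ψ w = Ψ v := fun Ψ hΨ v hv w hw => by
    rw [← mul_inv_eq_one, ← map_inv, ← map_mul, hΨ]
    show (w : G) * (v : G)⁻¹ ∈ _
    rw [hw]; exact h v hv
  obtain ⟨n, hn, ⟨F, hF, hFt, hcard, ⟨D⟩⟩ | ⟨-, ⟨D⟩⟩⟩ := hE.exists_data i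
  · refine (D.kerΦ ⟨g, hg⟩).1 (Matrix.SpecialLinearGroup.ext _ _ fun a b => ?_)
    obtain ⟨v, hv, hΨ⟩ := D.surjΨ (Multiplicative.ofAdd (Pi.single b 1))
    have h1 := congrFun (D.equiv ⟨g, hg⟩ v ⟨_, VG_normal.conj_mem _ v.2 g⟩ rfl) a
    rw [hWn D.Ψ D.kerΨ v hv _ rfl, hΨ] at h1
    simp at h1
    rw [Matrix.SpecialLinearGroup.coe_one]
    simp [Matrix.one_apply, Pi.single_apply] at h1 ⊢
    exact h1.symm
  · refine (D.kerΦ ⟨g, hg⟩).1 ?_
    rw [← inv_eq_one]
    refine Equiv.ext fun a => ?_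
    rw [Equiv.Perm.one_apply]
    by_contra hne
    have hm : 3 ≤ 2 ^ n + 1 := by
      have := Nat.one_lt_two_pow (show n ≠ 0 by omega); omega
    obtain ⟨c, -, hc⟩ := Finset.exists_mem_notMem_of_card_lt_card
      (t := Finset.univ) (s := ({a, (D.Φ ⟨g, hg⟩)⁻¹ a} : Finset (Fin (2 ^ n + 1))))
      (lt_of_le_of_lt Finset.card_le_two (by simp; omega))
    simp at hc
    obtain ⟨v, hv, hΨ⟩ := D.surjΨ (Pi.single a 1 + Pi.single c 1) (by
      simp [Finset.sum_add_distrib]; decide)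
    have h1 := D.equiv ⟨g, hg⟩ v ⟨_, VG_normal.conj_mem _ v.2 g⟩ rfl a
    rw [hWn D.Ψ D.kerΨ v hv _ rfl, hΨ] at h1
    simp [Pi.single_apply, Ne.symm hc.1, Ne.symm hc.2, hne] at h1
    exact hne h1

/-- An invariant subgroup of `V` lies in `C_V(E_i)` or covers `V / C_V(E_i)`. -/
theorem Comps.le_Wc_or (hE : Comps T E) (i : Fin r) {P : Subgroup G} (hP : P ≤ VG G p)
    (hinv : E i ≤ Subgroup.normalizer (P : Set G)) : P ≤ Wc G p E i ∨ P ⊔ Wc G p E i = VG G p := by
  by_cases hle : P ≤ Wc G p E i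
  · exact Or.inl hle
  obtain ⟨v, hvP, hvW⟩ := SetLike.not_le_iff_exists.1 hle
  refine Or.inr (le_antisymm (sup_le hP inf_le_left) fun x hx => ?_)
  suffices h : ∃ y : ↥(VG G p), (y : G) ∈ P ∧ (y : G)⁻¹ * x ∈ Wc G p E i by
    obtain ⟨y, hy, hyx⟩ := h
    have := Subgroup.mul_mem_sup hy hyx
    rwa [mul_inv_cancel_left] at this
  obtain ⟨n, hn, ⟨F, hF, hFt, hcard, ⟨D⟩⟩ | ⟨-, ⟨D⟩⟩⟩ := hE.exists_data i
  · have hv0 : Multiplicative.toAdd (D.Ψ ⟨v, hP hvP⟩) ≠ 0 := fun e =>
      hvW ((D.kerΨ ⟨v, hP hvP⟩).1 (Multiplicative.toAdd.injective e))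
    by_cases hx0 : D.Ψ ⟨x, hx⟩ = 1
    · exact ⟨1, one_mem _, by simpa using (D.kerΨ _).1 hx0⟩
    obtain ⟨s, hs⟩ := Loc.exists_app_eq (w := Multiplicative.toAdd (D.Ψ ⟨x, hx⟩)) hv0
      fun e => hx0 (Multiplicative.toAdd.injective e)
    obtain ⟨g, hg, rfl⟩ := D.surjΦ s
    have hy : (g : G) * v * (g : G)⁻¹ ∈ P := (Subgroup.mem_normalizer_iff.1 (hinv hg) v).1 hvP
    refine ⟨⟨_, hP hy⟩, hy, (D.kerΨ (⟨_, hP hy⟩⁻¹ * ⟨x, hx⟩)).1 ?_⟩
    rw [map_mul, map_inv, inv_mul_eq_one]
    exact Multiplicative.toAdd.injective ((D.equiv g ⟨v, hP hvP⟩ ⟨_, hP hy⟩ rfl).trans hs)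
  · set S : Set (Fin (2 ^ n + 1) → ZMod 2) :=
      {z | ∃ y : ↥(VG G p), (y : G) ∈ P ∧ Multiplicative.toAdd (D.Ψ y) = z} with hS
    have hmem := Loc.even_span (by simp [parity_simps]; omega) S ⟨1, one_mem _, by simp⟩
      (by
        rintro _ ⟨a, ha, rfl⟩ _ ⟨b, hb, rfl⟩
        exact ⟨a * b, mul_mem ha hb, by simp⟩)
      (by
        rintro _ ⟨a, ha, rfl⟩ σ
        obtain ⟨g, hg, rfl⟩ := D.surjΦ σ
        have hy : (g : G) * a * (g : G)⁻¹ ∈ P := (Subgroup.mem_normalizer_iff.1 (hinv hg) a).1 ha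
        exact ⟨⟨_, hP hy⟩, hy, funext (D.equiv g a ⟨_, hP hy⟩ rfl)⟩)
      (show Multiplicative.toAdd (D.Ψ ⟨v, hP hvP⟩) ∈ S from ⟨⟨v, hP hvP⟩, hvP, rfl⟩) (D.even _)
      (fun e => hvW ((D.kerΨ ⟨v, hP hvP⟩).1 (Multiplicative.toAdd.injective e))) _ (D.even ⟨x, hx⟩)
    obtain ⟨y, hy, e⟩ := hmem
    refine ⟨y, hy, (D.kerΨ (y⁻¹ * ⟨x, hx⟩)).1 ?_⟩
    rw [map_mul, map_inv, inv_mul_eq_one]
    exact Multiplicative.toAdd.injective e

/-- The moved space of a component is not centralized by it. -/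
theorem Comps.moves_not_le_Wc (hE : Comps T E) (i : Fin r) : ¬ ⁅VG G p, E i⁆ ≤ Wc G p E i := by
  intro hle
  obtain ⟨n, hn, ⟨F, hF, hFt, hcard, ⟨D⟩⟩ | ⟨-, ⟨D⟩⟩⟩ := hE.exists_data i
  · obtain ⟨v, hv, e⟩ := D.surjΨ (Multiplicative.ofAdd ![1, 0])
    rw [(D.kerΨ v).2 (hle hv)] at e
    simpa using congrFun (congrArg Multiplicative.toAdd e) 0
  · have hm : 1 < 2 ^ n + 1 := by have := Nat.one_lt_two_pow (show n ≠ 0 by omega); omega
    obtain ⟨v, hv, e⟩ := D.surjΨ (Pi.single ⟨0, by omega⟩ 1 + Pi.single ⟨1, hm⟩ 1)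
      (by simp [Finset.sum_add_distrib]; decide)
    rw [(D.kerΨ v).2 (hle hv)] at e
    have := congrFun e ⟨0, by omega⟩
    simp [Pi.single_apply, Fin.ext_iff] at this

theorem Comps.E_inj (hE : Comps T E) {i j : Fin r} (h : E i = E j) : i = j := by
  by_contra hne
  refine hE.moves_not_le_Wc i ?_
  rw [h]
  exact hE.moves_le_Wc (Ne.symm hne)

/-- Conjugation permutes the components. -/
theorem Comps.exists_conj_eq (hE : Comps T E) (g : G) (i : Fin r) :
    ∃ j, (E i).map (MulAut.conj g).toMonoidHom = E j := by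
  haveI : (G1 E).Normal := hE.G1_normal
  have hVn : (VG G p).map (MulAut.conj g).toMonoidHom = VG G p := by
    refine Subgroup.eq_of_le_of_card_ge ?_ (Subgroup.card_map_of_injective (MulAut.conj g).injective).ge
    rintro _ ⟨v, hv, rfl⟩; exact VG_normal.conj_mem v hv g
  have hCn : (CG G p).map (MulAut.conj g).toMonoidHom = CG G p := by
    refine Subgroup.eq_of_le_of_card_ge ?_ (Subgroup.card_map_of_injective (MulAut.conj g).injective).ge
    rintro _ ⟨v, hv, rfl⟩; exact (inferInstance : (CG G p).Normal).conj_mem v hv g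
  set D := (E i).map (MulAut.conj g).toMonoidHom with hD
  have hDG : D ≤ G1 E := by
    rintro _ ⟨x, hx, rfl⟩; exact hE.G1_normal.conj_mem x (le_iSup E i hx) g
  have hDn : G1 E ≤ Subgroup.normalizer (D : Set G) := by
    intro x hx
    refine Subgroup.mem_normalizer_fintype ?_
    rintro _ ⟨y, hy, rfl⟩
    have hx' : g⁻¹ * x * g ∈ G1 E := by simpa using hE.G1_normal.conj_mem x hx g⁻¹
    exact ⟨_, (Subgroup.mem_normalizer_iff.1 (hE.G1_le_normalizer i hx') y).1 hy, by simp [mul_assoc]⟩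
  set U := ⁅VG G p, D⁆ with hU
  have hUV : U ≤ VG G p := Subgroup.commutator_le_left _ _
  have hU' : U = (⁅VG G p, E i⁆).map (MulAut.conj g).toMonoidHom := by
    rw [Subgroup.map_commutator, hVn]
  have hUn : G1 E ≤ Subgroup.normalizer (U : Set G) := by
    intro x hx
    refine Subgroup.mem_normalizer_fintype fun y hy => ?_
    have h1 : U ≤ U.comap (MulAut.conj x).toMonoidHom := by
      rw [hU, Subgroup.commutator_le]
      intro v hv d hd
      show x * ⁅v, d⁆ * x⁻¹ ∈ ⁅VG G p, D⁆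
      rw [show x * ⁅v, d⁆ * x⁻¹ = ⁅x * v * x⁻¹, x * d * x⁻¹⁆ by simp [commutatorElement_def, mul_assoc]]
      exact Subgroup.commutator_mem_commutator (VG_normal.conj_mem v hv x)
        ((Subgroup.mem_normalizer_iff.1 (hDn hx) d).1 hd)
    exact h1 hy
  -- some component is not centralized
  obtain ⟨j, hj⟩ : ∃ j, ¬ D ≤ Kc G p E j := by
    by_contra hh
    push Not at hh
    have hDC : D ≤ CG G p := fun x hx => hE.iInf_Kc (hDG hx) fun k => hh k hx
    refine hE.moves_not_le_Wc i ?_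
    have hEC : E i ≤ CG G p := by
      rw [hD, ← hCn, Subgroup.map_le_map_iff_of_injective (MulAut.conj g).injective] at hDC
      exact hDC
    refine le_trans (Subgroup.commutator_mono le_rfl hEC) (le_of_eq_of_le ?_ bot_le)
    exact Subgroup.commutator_eq_bot_iff_le_centralizer.2 (Subgroup.le_centralizer_iff.1 le_rfl)
  -- the moved space covers
  have hcov : ∀ k, ¬ D ≤ Kc G p E k → U ⊔ Wc G p E k = VG G p := fun k hk => by
    refine (hE.le_Wc_or k hUV ((le_iSup E k).trans hUn)).resolve_left fun hle => hk fun d hd => ?_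
    refine hE.mem_Kc (hDG hd) fun v hv => ?_
    have h1 : ⁅v, d⁆ ∈ Wc G p E k := hle (Subgroup.commutator_mem_commutator (Comps.moves_le k hv) hd)
    have h2 := inv_mem h1
    rw [commutatorElement_inv] at h2
    exact h2
  refine ⟨j, ?_⟩
  have honly : ∀ k, k ≠ j → D ≤ Kc G p E k := by
    intro k hkj
    by_contra hk
    set Z' := (Wc G p E i).map (MulAut.conj g).toMonoidHom with hZ'
    have hZc : D ≤ Subgroup.centralizer (Z' : Set G) := by
      rintro _ ⟨x, hx, rfl⟩
      refine Subgroup.mem_centralizer_iff.2 ?_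
      rintro _ ⟨z, hz, rfl⟩
      rw [← map_mul, ← map_mul, (Subgroup.mem_centralizer_iff.1 hz.2 x hx).symm]
    set P := U ⊓ Wc G p E k with hP
    have hPn : G1 E ≤ Subgroup.normalizer (P : Set G) := fun x hx =>
      TwoGroupTricks.normalizer_inf_le ⟨hUn hx, hE.G1_le_normalizer_Wc k hx⟩
    have hPV : P ≤ VG G p := inf_le_left.trans hUV
    have hPZ : P ≤ Z' := by
      set P' := P.comap (MulAut.conj g).toMonoidHom with hP'
      have hmap : P'.map (MulAut.conj g).toMonoidHom = P :=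
        Subgroup.map_comap_eq_self_of_surjective (MulAut.conj g).surjective P
      have hP'V : P' ≤ VG G p := by
        rw [← Subgroup.map_le_map_iff_of_injective (f := (MulAut.conj g).toMonoidHom) (MulAut.conj g).injective,
          hmap, hVn]
        exact hPV
      rcases hE.le_Wc_or i hP'V (fun x hx => by
        refine Subgroup.mem_normalizer_fintype fun y hy => ?_
        have hx' : g * x * g⁻¹ ∈ D := ⟨x, hx, rfl⟩
        have := (Subgroup.mem_normalizer_iff.1 (hPn (hDG hx')) _).1 hy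
        show g * (x * y * x⁻¹) * g⁻¹ ∈ P
        simpa [mul_assoc] using this) with h0 | h0
      · rw [← hmap]; exact Subgroup.map_mono h0
      · exfalso
        have hV : P ⊔ Z' = VG G p := by rw [← hmap, hZ', ← Subgroup.map_sup, h0, hVn]
        have hUP : U ≤ P := by
          rw [hU, Subgroup.commutator_le]
          intro v hv d hd
          rw [← hV, ← SetLike.mem_coe, Subgroup.coe_mul_of_left_le_normalizer_right _ _ (fun a ha =>
            Subgroup.mem_normalizer_fintype fun b hb => by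
              haveI : IsMulCommutative ↥(VG G p) := VG_elem.1
              have hbV : b ∈ VG G p := hVn.le (Subgroup.map_mono inf_le_left hb)
              rw [show a * b = b * a from congrArg Subtype.val
                (mul_comm (⟨a, hPV ha⟩ : ↥(VG G p)) ⟨b, hbV⟩), mul_inv_cancel_right]
              exact hb)] at hv
          obtain ⟨a, ha, z, hz, rfl⟩ := hv
          have hzd : z * d = d * z := Subgroup.mem_centralizer_iff.1 (hZc hd) z hz
          have h1 : d * a⁻¹ * d⁻¹ ∈ P := (Subgroup.mem_normalizer_iff.1 (hPn (hDG hd)) _).1 (inv_mem ha)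
          have e : ⁅a * z, d⁆ = a * (d * a⁻¹ * d⁻¹) := by
            rw [commutatorElement_def]
            calc a * z * d * (a * z)⁻¹ * d⁻¹ = a * (z * d) * z⁻¹ * a⁻¹ * d⁻¹ := by group
              _ = a * (d * z) * z⁻¹ * a⁻¹ * d⁻¹ := by rw [hzd]
              _ = _ := by group
          rw [e]; exact mul_mem ha h1
        refine hE.moves_not_le_Wc k ?_
        rw [show Wc G p E k = U ⊔ Wc G p E k from (sup_eq_right.2 (hUP.trans inf_le_right)).symm, hcov k hk]
        exact Comps.moves_le k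
    refine hj fun d hd => hE.mem_Kc (hDG hd) fun v hv => ?_
    have hvZ : v ∈ Z' := by
      refine (Subgroup.commutator_le.2 fun w hw e he => ?_ : ⁅VG G p, E j⁆ ≤ Z') hv
      have hw' : w ∈ ((U ⊔ Wc G p E j : Subgroup G) : Set G) := (hcov j hj).ge hw
      rw [Subgroup.coe_mul_of_left_le_normalizer_right _ _ (fun a ha => Subgroup.mem_normalizer_fintype fun b hb => by
        haveI : IsMulCommutative ↥(VG G p) := VG_elem.1
        rw [show a * b = b * a from congrArg Subtype.val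
          (mul_comm (⟨a, hUV ha⟩ : ↥(VG G p)) ⟨b, hb.1⟩), mul_inv_cancel_right]
        exact hb)] at hw'
      obtain ⟨u, hu, z, hz, rfl⟩ := hw'
      have hze : e * z = z * e := Subgroup.mem_centralizer_iff.1 hz.2 e he
      have e1 : ⁅u * z, e⁆ = ⁅u, e⁆ := by
        rw [commutatorElement_def, commutatorElement_def]
        calc u * z * e * (u * z)⁻¹ * e⁻¹ = u * (z * e) * z⁻¹ * u⁻¹ * e⁻¹ := by group
          _ = u * (e * z) * z⁻¹ * u⁻¹ * e⁻¹ := by rw [hze]
          _ = _ := by group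
      rw [e1]
      refine hPZ ⟨?_, hE.moves_le_Wc (Ne.symm hkj) (Subgroup.commutator_mem_commutator (hUV hu) he)⟩
      rw [show ⁅u, e⁆ = u * (e * u⁻¹ * e⁻¹) by simp [commutatorElement_def, mul_assoc]]
      exact mul_mem hu ((Subgroup.mem_normalizer_iff.1 (hUn (le_iSup E j he)) _).1 (inv_mem hu))
    rw [← Subgroup.mem_centralizer_iff.1 (hZc hd) v hvZ, mul_inv_cancel_right, mul_inv_cancel]
    exact one_mem _
  have hle : D ≤ E j := fun d hd => by
    obtain ⟨e, he, k, hk, rfl⟩ := hE.exists_mul j d (hDG hd)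
    refine mul_mem he (hE.ce j (hE.iInf_Kc (hE.Kc_le j hk) fun l => ?_))
    rcases eq_or_ne l j with rfl | hlj
    · exact hk
    · have heK : e ∈ Kc G p E l :=
        Subgroup.mem_sup_left (Subgroup.mem_iSup_of_mem j (Subgroup.mem_iSup_of_mem (Ne.symm hlj) he))
      simpa using mul_mem (inv_mem heK) (honly l hlj hd)
  refine Subgroup.eq_of_le_of_card_ge hle ?_
  obtain ⟨t, -, ht⟩ := hE.conj i j
  rw [← ht, Subgroup.card_map_of_injective (MulAut.conj t).injective, hD,
    Subgroup.card_map_of_injective (MulAut.conj g).injective]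

/-- `J(T)` is nontrivial on every component. -/
theorem thompson_not_le_Kc {M : Subgroup G} (h : Hyp T) (hM : IsTop T M) (hE : Comps T E) (i : Fin r) :
    ¬ thompsonSubgroupOf p (T : Subgroup G) ≤ Kc G p E i := by
  intro hle
  refine thompson_not_le_CG h hM fun a ha => hE.iInf_Kc (thompson_le_G1 hE ha) fun j => ?_
  obtain ⟨t, ht, e⟩ := hE.conj i j
  refine hE.mem_Kc (thompson_le_G1 hE ha) fun v hv => ?_
  rw [← e] at hv
  have hV : (VG G p).map (MulAut.conj t).toMonoidHom = VG G p := by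
    refine Subgroup.eq_of_le_of_card_ge ?_ (Subgroup.card_map_of_injective (MulAut.conj t).injective).ge
    rintro _ ⟨v, hv, rfl⟩; exact VG_normal.conj_mem v hv t
  rw [← hV, ← Subgroup.map_commutator] at hv
  obtain ⟨u, hu, rfl⟩ := hv
  have hn : t ∈ Subgroup.normalizer (thompsonSubgroupOf p (T : Subgroup G) : Set G) :=
    ThompsonJ.normalizer_le_normalizer_thompsonSubgroupOf p _ (Subgroup.le_normalizer ht)
  have ha' := hle ((Subgroup.mem_normalizer_iff''.1 hn a).1 ha)
  have h1 := Subgroup.mem_centralizer_iff.1 (hE.Kc_le_centralizer i ha') u hu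
  show a * (t * u * t⁻¹) * a⁻¹ * (t * u * t⁻¹)⁻¹ ∈ _
  have h2 : a * (t * u * t⁻¹) * a⁻¹ * (t * u * t⁻¹)⁻¹ = 1 := by
    calc a * (t * u * t⁻¹) * a⁻¹ * (t * u * t⁻¹)⁻¹ = t * ((t⁻¹ * a * t) * u) * (t⁻¹ * a * t)⁻¹ * u⁻¹ * t⁻¹ := by group
      _ = t * (u * (t⁻¹ * a * t)) * (t⁻¹ * a * t)⁻¹ * u⁻¹ * t⁻¹ := by rw [h1]
      _ = 1 := by group
  rw [h2]; exact one_mem _

end CfsgLib.FFModules.PushUpBlocks
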