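import Cfsg.Agent.Lib.PushUp.RankOne.BlockDataDef
import Cfsg.Agent.Lib.PGroups.Frattini
import Cfsg.Agent.Lib.Cores.PCore
import Cfsg.Agent.Lib.FFModules.MinimalParabolic.LocalFacts

/-!
Reading the data of a rank one block in an overgroup.
-/

set_option autoImplicit false

namespace CfsgLib.FFModules.PushUpBlocks

open Cfsg
open CfsgLib.PushUp.RankOne (BlockData)
open scoped commutatorElement MatrixGroups

variable {G H : Type*} [Group G] [Group H] {p : ℕ} {f : G →* H} (hf : Function.Injective f)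
include hf

theorem map_omegaOneCenter_of_injective (X : Subgroup G) :
    (omegaOneCenter p X).map f = omegaOneCenter p (X.map f) := by
  rw [omegaOneCenter, omegaOneCenter, ThompsonJ.map_omegaOne hf, ThompsonJ.map_inf_centralizer hf]

theorem map_pCoreOf_of_injective (X : Subgroup G) : (pCoreOf p X).map f = pCoreOf p (X.map f) := by
  rw [pCoreOf, pCoreOf, ← Cores.map_pCore_equiv (X.equivMapOfInjective f hf), Subgroup.map_map,
    Subgroup.map_map]
  rfl

theorem map_pResidualOf_of_injective (X : Subgroup G) : (pResidualOf p X).map f = pResidualOf p (X.map f) := by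
  set e := X.equivMapOfInjective f hf
  have h : (pResidual p X).map e.toMonoidHom = pResidual p (X.map f) := by
    rw [pResidual, pResidual, MonoidHom.map_closure]
    congr 1
    ext y
    obtain ⟨x, rfl⟩ := e.surjective y
    show _ ↔ Nat.Coprime (orderOf (e x)) p
    rw [MulEquiv.orderOf_eq]
    exact ⟨fun ⟨x', hx', hxx⟩ => e.injective hxx ▸ hx', fun hx => ⟨x, hx, rfl⟩⟩
  rw [pResidualOf, pResidualOf, ← h, Subgroup.map_map, Subgroup.map_map]
  rfl

theorem map_inf_centralizer_of_injective (W X : Subgroup G) :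
    (W ⊓ Subgroup.centralizer (X : Set G)).map f = W.map f ⊓ Subgroup.centralizer (X.map f : Set H) := by
  ext y
  constructor
  · rintro ⟨w, hw, rfl⟩
    refine ⟨⟨w, hw.1, rfl⟩, Subgroup.mem_centralizer_iff.2 ?_⟩
    rintro _ ⟨x, hx, rfl⟩
    rw [← map_mul, ← map_mul, Subgroup.mem_centralizer_iff.1 hw.2 x hx]
  · rintro ⟨⟨w, hw, rfl⟩, hc⟩
    refine ⟨w, ⟨hw, Subgroup.mem_centralizer_iff.2 fun x hx => hf ?_⟩, rfl⟩
    rw [map_mul, map_mul]
    exact Subgroup.mem_centralizer_iff.1 hc _ ⟨x, hx, rfl⟩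

theorem actsAsSL2_map_of_injective {F : Type*} [Field F] {R : Subgroup SL(2, F)} {E U U₀ : Subgroup G}
    (h : ActsAsSL2OnSection F R E U U₀) :
    ActsAsSL2OnSection F R (E.map f) (U.map f) (U₀.map f) := by
  obtain ⟨hn, hle, ρ, ψ, hR, hs, hk, hc⟩ := h
  set eE := E.equivMapOfInjective f hf
  set eU := U.equivMapOfInjective f hf
  refine ⟨(Subgroup.map_mono hn).trans (Subgroup.le_normalizer_map _), Subgroup.map_mono hle,
    ρ.comp eE.symm.toMonoidHom, ψ.comp eU.symm.toMonoidHom, ?_, hs.comp eU.symm.surjective,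
    fun u => ?_, fun e u => ?_⟩
  · rw [MonoidHom.range_comp, MonoidHom.range_eq_top.2 eE.symm.surjective, ← MonoidHom.range_eq_map, hR]
  · obtain ⟨v, rfl⟩ := eU.surjective u
    show ψ (eU.symm (eU v)) = 1 ↔ f v ∈ U₀.map f
    rw [MulEquiv.symm_apply_apply, hk, Subgroup.mem_map_iff_mem hf]
  · obtain ⟨e, rfl⟩ := eE.surjective e
    obtain ⟨u, rfl⟩ := eU.surjective u
    obtain ⟨w, hw, hψ⟩ := hc e u
    refine ⟨eU w, ?_, ?_⟩
    · show f w = f e * f u * (f e)⁻¹
      rw [hw, map_mul, map_mul, map_inv]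
    · show Multiplicative.toAdd (ψ (eU.symm (eU w))) = _
      rw [MulEquiv.symm_apply_apply, hψ]
      show _ = ((ρ (eE.symm (eE e)) : SL(2, F)) : Matrix (Fin 2) (Fin 2) F).mulVec
        (Multiplicative.toAdd (ψ (eU.symm (eU u))))
      rw [MulEquiv.symm_apply_apply, MulEquiv.symm_apply_apply]

/-- The data of a block read in a bigger group. -/
theorem BlockData.map [Finite G] [Fact p.Prime] {n : ℕ} {S Q L : Subgroup G} {F : Type} [Field F]
    (d : BlockData p n S Q L F) : BlockData p n (S.map f) (Q.map f) (L.map f) F := by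
  have hW : (omegaOneCenter p (pCoreOf p L)).map f = omegaOneCenter p (pCoreOf p (L.map f)) := by
    rw [map_omegaOneCenter_of_injective hf, map_pCoreOf_of_injective hf]
  have hZ : (omegaOneCenter p (pCoreOf p L) ⊓ Subgroup.centralizer (L : Set G)).map f =
      omegaOneCenter p (pCoreOf p (L.map f)) ⊓ Subgroup.centralizer (L.map f : Set H) := by
    rw [map_inf_centralizer_of_injective hf, hW]
  have hC : (L ⊓ Subgroup.centralizer (L : Set G)).map f =
      L.map f ⊓ Subgroup.centralizer (L.map f : Set H) := map_inf_centralizer_of_injective hf L L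
  obtain ⟨φ⟩ := d.quot
  set eL := L.equivMapOfInjective f hf
  let eQ : L ⧸ pCore p L ≃* (L.map f : Subgroup H) ⧸ pCore p (L.map f : Subgroup H) :=
    QuotientGroup.congr _ _ eL (Cores.map_pCore_equiv eL)
  refine ⟨by rw [← map_pResidualOf_of_injective hf, d.res], by rw [← Subgroup.map_commutator, d.comm],
    by rw [← map_pCoreOf_of_injective hf, d.core, Subgroup.map_inf _ _ _ hf],
    by rw [← map_pCoreOf_of_injective hf, ← Subgroup.map_commutator, d.coreComm],
    ⟨eQ.symm.trans φ⟩, by rw [← hZ, ← hW]; exact actsAsSL2_map_of_injective hf d.natural, ?_⟩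
  rcases d.shape with ⟨hd, u, hu, huQ, hup, hua⟩ | ⟨hp, ha, hQQ, hΦ, hEC, hcard, hnq⟩
  · refine Or.inl ⟨by rw [← hW, ← map_pCoreOf_of_injective hf, ← hd], f u, Subgroup.mem_map_of_mem f hu,
      fun hc => huQ ((Subgroup.mem_map_iff_mem hf).1 hc), by rw [← map_pow, hup, map_one], ?_⟩
    rintro _ ⟨a, ha, rfl⟩
    rw [← map_commutatorElement, ← map_pCoreOf_of_injective hf]
    exact Subgroup.mem_map_of_mem f (hua a ha)
  · refine Or.inr ⟨hp, ?_, ?_, ?_, ?_, ?_, ?_⟩
    · rw [← hW, ← map_pCoreOf_of_injective hf]; exact actsAsSL2_map_of_injective hf ha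
    · rw [← hZ, ← map_pCoreOf_of_injective hf, ← Subgroup.map_commutator, hQQ]
    · rw [← hZ, ← map_pCoreOf_of_injective hf, ← hΦ, ← PGroups.map_frattini_eq
        (((Cores.isPGroup_pCore p L).map L.subtype : IsPGroup p (pCoreOf p L)))
        ((pCoreOf p L).equivMapOfInjective f hf).toMonoidHom
        ((pCoreOf p L).equivMapOfInjective f hf).surjective]
      refine (Subgroup.map_map _ _ _).trans (Eq.trans ?_ (Subgroup.map_map _ _ _).symm)
      rfl
    · rw [← hC, ← hZ, hEC]
    · rw [← hC, Subgroup.card_map_of_injective hf, hcard]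
    · rintro _ ⟨b, hb, rfl⟩ hbW hle
      refine hnq b hb (fun hc => hbW ?_) ?_
      · rw [← hW]
        refine Subgroup.mem_centralizer_iff.2 ?_
        rintro _ ⟨w, hw, rfl⟩
        rw [← map_mul, ← map_mul, Subgroup.mem_centralizer_iff.1 hc w hw]
      · rw [← map_pCoreOf_of_injective hf, ← hC, ← MonoidHom.map_zpowers,
          ← Subgroup.map_commutator, ← Subgroup.map_commutator,
          Subgroup.map_le_map_iff_of_injective hf] at hle
        exact hle

end CfsgLib.FFModules.PushUpBlocks
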