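import Cfsg.Agent.Lib.FFModules.PushUpBlocks.Baumann
import Cfsg.Agent.Lib.FFModules.PushUpBlocks.Transfer
import Cfsg.Agent.Lib.CoprimeAction.Basic
import Cfsg.Agent.Lib.Transfer.Residual
import Cfsg.Agent.Lib.NormalPComplement.Frobenius
import Cfsg.Agent.S2764

/-!
The minimal subgroups over `B(T)` outside `M`.
-/

set_option autoImplicit false
set_option linter.unusedSectionVars false

universe u

namespace CfsgLib.FFModules.PushUpBlocks

open Cfsg
open CfsgLib.PushUp.RankOne (BlockData HasBlockData)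
open scoped commutatorElement MatrixGroups

namespace Loc

open CfsgLib.FFModules.MinimalParabolic (upperSL)

/-- An overgroup of the upper unitriangular group is triangular or everything. -/
theorem upper_dichotomy {F : Type*} [Field F] {H : Subgroup SL(2, F)} (hU : ∀ t, upperSL t ∈ H) :
    (∀ g ∈ H, (g : Matrix (Fin 2) (Fin 2) F) 1 0 = 0) ∨ H = ⊤ := by
  refine or_iff_not_imp_left.2 fun hb => ?_
  push Not at hb
  obtain ⟨g, hg, hc⟩ := hb
  set c := (g : Matrix (Fin 2) (Fin 2) F) 1 0 with hcdef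
  have hup : ∀ t, CfsgLib.ClassicalLinear.upS t ∈ H := fun t => by
    convert hU t using 1
    exact Subtype.ext (by rw [CfsgLib.ClassicalLinear.upS_coe]; rfl)
  have hlc : CfsgLib.SL2Gen.lowS c ∈ H := by
    have h1 := CfsgLib.SL2Gen.eq_upS_lowS_upS (g := g) hc
    rw [← hcdef] at h1
    set a := ((g : Matrix (Fin 2) (Fin 2) F) 0 0 - 1) / c
    set b := ((g : Matrix (Fin 2) (Fin 2) F) 1 1 - 1) / c
    have h2 := H.mul_mem (H.mul_mem (H.inv_mem (hup a)) hg) (H.inv_mem (hup b))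
    rw [h1] at h2
    simpa [mul_assoc] using h2
  set w := CfsgLib.ClassicalLinear.upS (-1 / c) * CfsgLib.SL2Gen.lowS c *
    CfsgLib.ClassicalLinear.upS (-1 / c) with hw
  have hwH : w ∈ H := H.mul_mem (H.mul_mem (hup _) hlc) (hup _)
  refine eq_top_of_upper_lower hU fun t => ?_
  have e : CfsgLib.SL2Gen.lowS t = w * CfsgLib.ClassicalLinear.upS (-t / c ^ 2) * w⁻¹ := by
    rw [eq_mul_inv_iff_mul_eq]
    apply Subtype.ext
    simp only [hw, Matrix.SpecialLinearGroup.coe_mul, CfsgLib.ClassicalLinear.upS_coe, CfsgLib.SL2Gen.lowS_coe]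
    ext i j
    fin_cases i <;> fin_cases j <;> simp [Matrix.mul_apply] <;> field_simp <;> (first | ring1 | simp)
  rw [e]
  exact H.mul_mem (H.mul_mem hwH (hup _)) (H.inv_mem hwH)

end Loc

variable {G : Type u} [Group G] {p : ℕ} [Finite G] [Fact p.Prime] {T : Sylow p G} {r : ℕ}
  {E : Fin r → Subgroup G} {M : Subgroup G}

/-- Characteristic subgroups are transported by isomorphisms. -/
theorem characteristic_map_equiv {H L : Type*} [Group H] [Group L] (e : H ≃* L) {K : Subgroup H}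
    [hK : K.Characteristic] : (K.map e.toMonoidHom).Characteristic := by
  refine Subgroup.characteristic_iff_map_eq.2 fun φ => ?_
  conv_rhs => rw [← Subgroup.characteristic_iff_map_eq.1 hK ((e.trans φ).trans e.symm)]
  rw [Subgroup.map_map, Subgroup.map_map]
  congr 1
  ext x
  simp

/-- `G₀ = ⟨B(T)^G⟩`. -/
abbrev G0 (T : Sylow p G) : Subgroup G :=
  Subgroup.normalClosure (baumannSubgroupOf p (T : Subgroup G) : Set G)

/-- `Q₀ = O_p(G) ∩ B(T)`. -/
abbrev Q0 (T : Sylow p G) : Subgroup G := pCore p G ⊓ baumannSubgroupOf p (T : Subgroup G)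

theorem baumann_le_G0 : baumannSubgroupOf p (T : Subgroup G) ≤ G0 T := Subgroup.subset_normalClosure

theorem G0_le_G1 (h : Hyp T) (hM : IsTop T M) (hE : Comps T E) : G0 T ≤ G1 E := by
  haveI := hE.G1_normal
  exact Subgroup.normalClosure_le_normal (baumann_le_G1 h hM hE)

theorem VG_le_baumann (h : Hyp T) (hM : IsTop T M) (hE : Comps T E) :
    VG G p ≤ baumannSubgroupOf p (T : Subgroup G) :=
  (UQ_facts h hM hE).2.2.1.trans (TwoGroupTricks.thompsonSubgroupOf_le_baumann _)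

theorem Q0_eq (h : Hyp T) (hM : IsTop T M) (hE : Comps T E) : Q0 T = G0 T ⊓ pCore p G :=
  le_antisymm (le_inf (inf_le_right.trans baumann_le_G0) inf_le_left)
    (le_inf inf_le_right (normalClosure_inf_le h hM hE))

theorem Q0_normal (h : Hyp T) (hM : IsTop T M) (hE : Comps T E) : (Q0 T).Normal := by
  haveI := CfsgLib.FFModules.normal_pCore (p := p) (G := G)
  rw [Q0_eq h hM hE]
  exact Subgroup.normal_inf_normal _ _

theorem Q0_isPGroup : IsPGroup p (Q0 T) := (CfsgLib.Cores.isPGroup_pCore p G).to_le inf_le_left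

theorem mem_Q0_of_mem (h : Hyp T) (hM : IsTop T M) (hE : Comps T E) {g : G} (hg : g ∈ G0 T)
    (hgQ : g ∈ pCore p G) : g ∈ Q0 T := (Q0_eq h hM hE).ge (Subgroup.mem_inf.2 ⟨hg, hgQ⟩)

/-- A `p`-subgroup of `C` lies in `O_p(G)`. -/
theorem le_pCore_of_isPGroup (h : Hyp T) (hM : IsTop T M) {P : Subgroup G} (hP : IsPGroup p P)
    (hPC : P ≤ CG G p) : P ≤ pCore p G := by
  obtain ⟨S, hS⟩ := hP.exists_le_sylow
  obtain ⟨c, rfl⟩ := MulAction.exists_smul_eq G T S
  intro x hx
  have h1 := hS hx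
  rw [Sylow.coe_subgroup_smul, Subgroup.pointwise_smul_def] at h1
  obtain ⟨y, hy, rfl⟩ := h1
  have hyC : y ∈ CG G p := by
    have := (inferInstance : (CG G p).Normal).conj_mem _ (hPC hx) c⁻¹
    simpa [mul_assoc] using this
  exact (CfsgLib.FFModules.normal_pCore (p := p) (G := G)).conj_mem y
    ((inf_CG_eq h hM).le (Subgroup.mem_inf.2 ⟨hy, hyC⟩)) c

/-- `C_{G₀}(Q₀) ≤ Q₀`. -/
theorem mem_Q0_of_centralizes (h : Hyp T) (hM : IsTop T M) (hE : Comps T E) {g : G} (hg : g ∈ G0 T)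
    (hc : g ∈ Subgroup.centralizer (Q0 T : Set G)) : g ∈ Q0 T := by
  haveI := CfsgLib.FFModules.normal_pCore (p := p) (G := G)
  haveI := Q0_normal h hM hE
  have hVQ0 : VG G p ≤ Q0 T := le_inf (VG_le.trans inf_le_left) (VG_le_baumann h hM hE)
  have hCQ : pCore p G ⊓ Subgroup.centralizer (Q0 T : Set G) ≤ Q0 T := by
    intro x hx
    refine Subgroup.mem_inf.2 ⟨hx.1, CfsgLib.FFModules.pCore_le_sylow T hx.1, ?_⟩
    refine Subgroup.mem_centralizer_iff.2 fun z hz => Subgroup.mem_centralizer_iff.1 hx.2 z ?_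
    have h1 : Z1 T ≤ Q0 T := le_inf ((UQ_facts h hM hE).1.trans ((ThompsonJ.omegaOne_le p _).trans
      (inf_le_left.trans (ThompsonJ.thompsonSubgroupOf_le p _))))
      (((ThompsonJ.omegaOne_le p _).trans (inf_le_left)).trans
        (TwoGroupTricks.thompsonSubgroupOf_le_baumann _))
    exact h1 hz
  obtain ⟨k, hk⟩ := CfsgLib.NormalPComplement.exists_pow_coprime_orderOf (p := p) (isOfFinOrder_of_finite g)
  set x := g ^ p ^ k with hx
  have hxc : x ∈ Subgroup.centralizer (Q0 T : Set G) := pow_mem hc _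
  have hxQ : Subgroup.zpowers x ≤ Subgroup.centralizer (pCore p G : Set G) := by
    refine CfsgLib.CoprimeAction.pxq (P := Q0 T) Q0_isPGroup ?_ (CfsgLib.Cores.isPGroup_pCore p G) ?_ ?_ ?_ ?_
    · rwa [Nat.card_zpowers]
    · rw [Subgroup.le_centralizer_iff]
      exact Subgroup.zpowers_le.2 hxc
    · rw [Subgroup.normalizer_eq_top_iff.2 inferInstance]; exact le_top
    · rw [Subgroup.normalizer_eq_top_iff.2 inferInstance]; exact le_top
    · intro q hq
      refine Subgroup.mem_centralizer_iff.2 fun y hy => ?_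
      have h2 : y ∈ Subgroup.centralizer (Q0 T : Set G) := (Subgroup.zpowers_le.2 hxc) hy
      exact (Subgroup.mem_centralizer_iff.1 h2 q (hCQ hq)).symm
  have hx1 : x = 1 := by
    have h1 := h.char (hxQ (Subgroup.mem_zpowers x))
    obtain ⟨j, hj⟩ := CfsgLib.Cores.isPGroup_pCore p G ⟨x, h1⟩
    exact orderOf_eq_one_iff.1 (Nat.eq_one_of_dvd_coprimes (hk.pow_right j) dvd_rfl
      (orderOf_dvd_of_pow_eq_one (congrArg Subtype.val hj)))
  have hp : IsPGroup p (Subgroup.zpowers g) := by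
    rintro ⟨_, j, rfl⟩
    refine ⟨k, Subtype.ext ?_⟩
    show (g ^ j) ^ p ^ k = 1
    rw [← zpow_natCast, ← zpow_mul, mul_comm, zpow_mul, zpow_natCast, ← hx, hx1, one_zpow]
  have hgC : g ∈ CG G p := Subgroup.centralizer_le hVQ0 hc
  have hgQ := le_pCore_of_isPGroup h hM hp (Subgroup.zpowers_le.2 hgC) (Subgroup.mem_zpowers g)
  exact hCQ (Subgroup.mem_inf.2 ⟨hgQ, hc⟩)

/-- An element of `G₁` trivial on the other components lies in its component. -/
theorem Comps.mem_E_of_Kc (hE : Comps T E) {i : Fin r} {a : G} (ha : a ∈ G1 E)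
    (h : ∀ j, j ≠ i → a ∈ Kc G p E j) : a ∈ E i := by
  obtain ⟨e, he, k, hk, rfl⟩ := hE.exists_mul i a ha
  refine mul_mem he (hE.ce i (hE.iInf_Kc (hE.Kc_le i hk) fun j => ?_))
  rcases eq_or_ne j i with rfl | hji
  · exact hk
  · have heK : e ∈ Kc G p E j :=
      Subgroup.mem_sup_left (Subgroup.mem_iSup_of_mem i (Subgroup.mem_iSup_of_mem (Ne.symm hji) he))
    simpa using mul_mem (inv_mem heK) (h j hji)

/-- An element of a component is trivial on the others. -/
theorem Comps.mem_Kc_of_E {i j : Fin r} (hji : j ≠ i) {e : G} (he : e ∈ E i) : e ∈ Kc G p E j :=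
  Subgroup.mem_sup_left (Subgroup.mem_iSup_of_mem i (Subgroup.mem_iSup_of_mem (Ne.symm hji) he))

theorem Jc_le_E (hE : Comps T E) (i : Fin r) : Jc T E i ≤ E i := fun _ ha =>
  hE.mem_E_of_Kc (Jc_le_G1 hE i ha) (mem_Jc.1 ha).2

theorem Jc_le_baumann (i : Fin r) : Jc T E i ≤ baumannSubgroupOf p (T : Subgroup G) :=
  inf_le_left.trans (TwoGroupTricks.thompsonSubgroupOf_le_baumann _)

/-- Two conjugates of `Jc` in `G₀ ∩ E_i` cover the component. -/
theorem exists_cover (h : Hyp T) (hM : IsTop T M) (hE : Comps T E) (i : Fin r) :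
    ∃ y ∈ E i, Jc T E i ⊔ (Jc T E i).map (MulAut.conj y).toMonoidHom ≤ G0 T ⊓ E i ∧
      ∀ e ∈ E i, ∃ w ∈ Jc T E i ⊔ (Jc T E i).map (MulAut.conj y).toMonoidHom, e⁻¹ * w ∈ CG G p := by
  obtain ⟨y, hy, htwo⟩ := hE.exists_two h hM i
  have hcov := (htwo y (by simp)).2
  have hle : Jc T E i ⊔ (Jc T E i).map (MulAut.conj (y : G)).toMonoidHom ≤ G0 T ⊓ E i := by
    refine sup_le (le_inf ((Jc_le_baumann i).trans baumann_le_G0) (Jc_le_E hE i)) ?_
    rintro _ ⟨a, ha, rfl⟩
    exact Subgroup.mem_inf.2 ⟨Subgroup.normalClosure_normal.conj_mem a (baumann_le_G0 (Jc_le_baumann i ha)) y,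
      mul_mem (mul_mem hy (Jc_le_E hE i ha)) (inv_mem hy)⟩
  exact ⟨y, hy, hle, fun e he => by
    obtain ⟨w, hw, hwK⟩ := hcov e ((le_iSup E i) he)
    exact ⟨w, hw, hE.inf_Kc i (Subgroup.mem_inf.2 ⟨mul_mem (inv_mem he) (hle hw).2, hwK⟩)⟩⟩

theorem exists_G0_mem (h : Hyp T) (hM : IsTop T M) (hE : Comps T E) {i : Fin r} {e : G} (he : e ∈ E i) :
    ∃ w ∈ G0 T ⊓ E i, e⁻¹ * w ∈ CG G p := by
  obtain ⟨y, -, hle, hcov⟩ := exists_cover h hM hE i
  obtain ⟨w, hw, hc⟩ := hcov e he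
  exact ⟨w, hle hw, hc⟩

/-- No component lies in `M`. -/
theorem E_not_le (h : Hyp T) (hM : IsTop T M) (hE : Comps T E) (i : Fin r) : ¬ E i ≤ M := by
  intro hi
  refine hM.coatom.1 (top_le_iff.1 ?_)
  rw [← hE.gen]
  refine sup_le (sup_le ?_ hM.le) (CG_le h hM)
  refine le_trans le_sup_left (hE.sup.ge.trans (iSup_le fun j => ?_))
  obtain ⟨t, ht, e⟩ := hE.conj i j
  rw [← e]
  rintro _ ⟨x, hx, rfl⟩
  exact mul_mem (mul_mem (hM.le ht) (hi hx)) (inv_mem (hM.le ht))

/-- `M` does not cover a component. -/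
theorem not_full_image (h : Hyp T) (hM : IsTop T M) (hE : Comps T E) (i : Fin r) :
    ¬ ∀ g ∈ E i, ∃ m ∈ M ⊓ G1 E, m⁻¹ * g ∈ Kc G p E i := by
  intro hfull
  obtain ⟨y, hy, hle, hcov⟩ := exists_cover h hM hE i
  obtain ⟨m, hm, hk⟩ := hfull y hy
  have hJM : Jc T E i ≤ M := (Jc_le_T i).trans hM.le
  have hJy : (Jc T E i).map (MulAut.conj y).toMonoidHom ≤ M := by
    rintro _ ⟨a, ha, rfl⟩
    set k := m⁻¹ * y with hkdef
    have hkG : k ∈ G1 E := hE.Kc_le i hk
    have haE := Jc_le_E hE i ha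
    have h1 : a⁻¹ * (k * a * k⁻¹) ∈ CG G p := by
      refine hE.inf_Kc i (Subgroup.mem_inf.2 ⟨mul_mem (inv_mem haE)
        ((Subgroup.mem_normalizer_iff.1 (hE.G1_le_normalizer i hkG) a).1 haE), ?_⟩)
      have h2 := (Subgroup.mem_normalizer_iff''.1 (hE.G1_le_normalizer_Kc i ((le_iSup E i) haE)) k).1 hk
      simpa [mul_assoc] using mul_mem h2 (inv_mem hk)
    have h3 : k * a * k⁻¹ ∈ M := by
      simpa using mul_mem (hJM ha) (CG_le h hM h1)
    have hm' : m ∈ M := (Subgroup.mem_inf.1 hm).1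
    have h4 := mul_mem (mul_mem hm' h3) (inv_mem hm')
    show y * a * y⁻¹ ∈ M
    convert h4 using 1
    rw [hkdef]; group
  refine E_not_le h hM hE i fun e he => ?_
  obtain ⟨w, hw, hc⟩ := hcov e he
  have := mul_mem (sup_le hJM hJy hw) (inv_mem (CG_le h hM hc))
  simpa using this

theorem thompson_normalizer_le_cStar (h : Hyp T) (hM : IsTop T M) :
    Subgroup.normalizer (thompsonSubgroupOf p (T : Subgroup G) : Set G) ≤ cStarOf p (T : Subgroup G) := by
  let K : {K : Subgroup G // K ≤ baumannSubgroupOf p (T : Subgroup G) ∧ K ≠ ⊥ ∧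
      (K.subgroupOf (baumannSubgroupOf p (T : Subgroup G))).Characteristic} :=
    ⟨thompsonSubgroupOf p (T : Subgroup G), TwoGroupTricks.thompsonSubgroupOf_le_baumann _,
      thompson_ne_bot h hM, thompson_char h⟩
  exact le_sup_of_le_right (le_iSup (fun K : {K : Subgroup G // K ≤ baumannSubgroupOf p (T : Subgroup G) ∧ K ≠ ⊥ ∧
      (K.subgroupOf (baumannSubgroupOf p (T : Subgroup G))).Characteristic} =>
    Subgroup.normalizer ((K : Subgroup G) : Set G)) K)

theorem CG_le_cStar (h : Hyp T) : CG G p ≤ cStarOf p (T : Subgroup G) :=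
  (Subgroup.centralizer_le (ZT_le_VG h)).trans le_sup_left

theorem T_le_cStar (h : Hyp T) (hM : IsTop T M) : (T : Subgroup G) ≤ cStarOf p (T : Subgroup G) :=
  (Subgroup.le_normalizer.trans (ThompsonJ.normalizer_le_normalizer_thompsonSubgroupOf p _)).trans
    (thompson_normalizer_le_cStar h hM)

/-- Elements normalizing `J(T) C` are in `C*(G,T)`. -/
theorem mem_cStar_of_normalizes (h : Hyp T) (hM : IsTop T M) {x : G}
    (hx : ∀ a ∈ thompsonSubgroupOf p (T : Subgroup G),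
      x * a * x⁻¹ ∈ thompsonSubgroupOf p (T : Subgroup G) ⊔ CG G p) : x ∈ cStarOf p (T : Subgroup G) := by
  haveI := CfsgLib.FFModules.normal_pCore (p := p) (G := G)
  set J := thompsonSubgroupOf p (T : Subgroup G) with hJ
  set H := J ⊔ CG G p with hH
  set P := J ⊔ pCore p G with hP
  have hPT : P ≤ (T : Subgroup G) := sup_le thompson_le_T (CfsgLib.FFModules.pCore_le_sylow T)
  have hPH : P ≤ H := sup_le le_sup_left (pCore_le_CG.trans le_sup_right)
  -- `P` is a maximal `p`-subgroup of `H`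
  have hmax : ∀ R : Subgroup G, IsPGroup p R → P ≤ R → R ≤ H → R ≤ P := by
    intro R hR hPR hRH g hg
    obtain ⟨a, ha, c, hc, rfl⟩ := Subgroup.mem_sup_of_normal_right.1 (hRH hg)
    have hcR : c ∈ R := by simpa using mul_mem (inv_mem (hPR (Subgroup.mem_sup_left ha))) hg
    have h1 := le_pCore_of_isPGroup h hM (hR.to_le (Subgroup.zpowers_le.2 hcR)) (Subgroup.zpowers_le.2 hc)
      (Subgroup.mem_zpowers c)
    exact Subgroup.mul_mem_sup ha h1
  let S : Sylow p ↥H :=
    { toSubgroup := P.subgroupOf H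
      isPGroup' := (T.2.to_le hPT).comap_of_injective _ H.subtype_injective
      is_maximal' := fun {R} hR hle => by
        refine le_antisymm (fun g hg => ?_) hle
        refine hmax (R.map H.subtype) (hR.map _) (fun y hy => ⟨⟨y, hPH hy⟩, hle hy, rfl⟩)
          (Subgroup.map_subtype_le R) ⟨g, hg, rfl⟩ }
  set Px := P.map (MulAut.conj x).toMonoidHom with hPx
  have hPxH : Px ≤ H := by
    rw [hPx, hP, Subgroup.map_sup]
    refine sup_le ?_ ?_
    · rintro _ ⟨a, ha, rfl⟩; exact hx a ha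
    · rintro _ ⟨q, hq, rfl⟩
      exact Subgroup.mem_sup_right (pCore_le_CG
        ((inferInstance : (pCore p G).Normal).conj_mem q hq x))
  obtain ⟨S', hS'⟩ := (((T.2.to_le hPT).map _).comap_of_injective H.subtype H.subtype_injective :
    IsPGroup p (Px.subgroupOf H)).exists_le_sylow
  obtain ⟨g, rfl⟩ := MulAction.exists_smul_eq H S S'
  -- move the conjugating element to `C`
  obtain ⟨a, ha, c, hc, e⟩ := Subgroup.mem_sup_of_normal_right.1 (show (g : G) ∈ J ⊔ CG G p from g.2)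
  set z := (g : G)⁻¹ * x with hz
  have hzP : P.map (MulAut.conj z).toMonoidHom ≤ P := by
    rintro _ ⟨y, hy, rfl⟩
    have h1 := hS' (show (⟨_, hPxH ⟨y, hy, rfl⟩⟩ : ↥H) ∈ Px.subgroupOf H from ⟨y, hy, rfl⟩)
    rw [Sylow.coe_subgroup_smul, Subgroup.mem_smul_pointwise_iff_exists] at h1
    obtain ⟨w, hw, hwe⟩ := h1
    have h2 : (g : G) * w * (g : G)⁻¹ = x * y * x⁻¹ := congrArg Subtype.val hwe
    show z * y * z⁻¹ ∈ P
    have e2 : z * y * z⁻¹ = (w : G) := by
      rw [hz]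
      calc (g : G)⁻¹ * x * y * ((g : G)⁻¹ * x)⁻¹ = (g : G)⁻¹ * (x * y * x⁻¹) * g := by group
        _ = _ := by rw [← h2]; group
    rw [e2]; exact hw
  have hzN : z ∈ Subgroup.normalizer (P : Set G) :=
    Subgroup.mem_normalizer_fintype fun y hy => hzP ⟨y, hy, rfl⟩
  have hJP : thompsonSubgroupOf p P = J := ThompsonJ.thompsonSubgroupOf_eq_of_le hPT le_sup_left
  have hzJ : z ∈ cStarOf p (T : Subgroup G) := by
    refine thompson_normalizer_le_cStar h hM ?_
    rw [← hJ, ← hJP]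
    exact ThompsonJ.normalizer_le_normalizer_thompsonSubgroupOf p _ hzN
  have hg : (g : G) ∈ cStarOf p (T : Subgroup G) := by
    rw [← e]; exact mul_mem (T_le_cStar h hM (thompson_le_T ha)) (CG_le_cStar h hc)
  have := mul_mem hg hzJ
  rwa [hz, mul_inv_cancel_left] at this

theorem exists_minimal {P : Subgroup G → Prop} {X₀ : Subgroup G} (h0 : P X₀) :
    ∃ X, P X ∧ X ≤ X₀ ∧ ∀ Y, P Y → Y ≤ X → Y = X := by
  classical
  obtain ⟨X, hX, hmin⟩ := (Set.toFinite {X : Subgroup G | P X ∧ X ≤ X₀}).exists_minimalFor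
    (fun X : Subgroup G => Nat.card X) _ ⟨X₀, h0, le_rfl⟩
  exact ⟨X, hX.1, hX.2, fun Y hY hYX => Subgroup.eq_of_le_of_card_ge hYX
    (hmin ⟨hY, hYX.trans hX.2⟩ (Subgroup.card_le_of_le hYX))⟩

/-- The data of a minimal subgroup over `B(T)` outside `M` with a rank one quotient. -/
theorem piece_data (h : Hyp T) (hM : IsTop T M) (hE : Comps T E) (hexp : HasBlockData.{u}) {X : Subgroup G}
    (hBX : baumannSubgroupOf p (T : Subgroup G) ≤ X) (hX0 : X ≤ G0 T) (hXM : ¬ X ≤ M)
    (hmin : ∀ Y : Subgroup G, baumannSubgroupOf p (T : Subgroup G) ≤ Y → Y ≤ X → Y ≠ X → Y ≤ M)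
    (hsyl : ∀ P : Subgroup G, IsPGroup p P → baumannSubgroupOf p (T : Subgroup G) ≤ P → P ≤ X →
      P ≤ baumannSubgroupOf p (T : Subgroup G) ⊔ CG G p)
    {F : Type} [Field F] [Fintype F] {n : ℕ} (hn : 1 ≤ n) (hF : Fintype.card F = p ^ n) {Γ : Type*} [Group Γ]
    (ψ : ↥X →* Γ) (hψ : Function.Surjective ψ) (θ : Γ ≃* Matrix.ProjectiveSpecialLinearGroup (Fin 2) F) :
    BlockData p n (baumannSubgroupOf p (T : Subgroup G)) (pCoreOf p X) (pResidualOf p X) F ∧
      pCoreOf p X ≤ baumannSubgroupOf p (T : Subgroup G) ∧ Q0 T ≤ pCoreOf p X ∧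
      X ≤ pResidualOf p X ⊔ baumannSubgroupOf p (T : Subgroup G) ∧
      ¬ pResidualOf p X ≤ M ∧ Nonempty (↥X ⧸ pCore p X ≃* SL(2, F)) := by
  set B := baumannSubgroupOf p (T : Subgroup G) with hB
  have hBT : B ≤ (T : Subgroup G) := baumann_le
  let S : Sylow p ↥X :=
    { toSubgroup := B.subgroupOf X
      isPGroup' := (T.2.to_le hBT).comap_of_injective _ X.subtype_injective
      is_maximal' := fun {R} hR hle => by
        refine le_antisymm (fun g hg => ?_) hle
        have hBR : B ≤ R.map X.subtype := fun y hy => ⟨⟨y, hBX hy⟩, hle hy, rfl⟩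
        have hg' : (g : G) ∈ R.map X.subtype := ⟨g, hg, rfl⟩
        obtain ⟨b, hb, c, hc, e⟩ := Subgroup.mem_sup_of_normal_right.1
          (hsyl _ (hR.map _) hBR (Subgroup.map_subtype_le R) hg')
        have hcR : c ∈ R.map X.subtype := by
          rw [show c = b⁻¹ * (g : G) by rw [← e, inv_mul_cancel_left]]
          exact mul_mem (inv_mem (hBR hb)) hg'
        have h1 := le_pCore_of_isPGroup h hM ((hR.map _).to_le (Subgroup.zpowers_le.2 hcR))
          (Subgroup.zpowers_le.2 hc) (Subgroup.mem_zpowers c)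
        have h2 := (mem_Q0_of_mem h hM hE (hX0 (Subgroup.map_subtype_le R hcR)) h1).2
        show (g : G) ∈ B
        rw [← e]; exact mul_mem hb h2 }
  have hSm : (S : Subgroup ↥X).map X.subtype = B := Subgroup.map_subgroupOf_eq_of_le hBX
  haveI := Q0_normal h hM hE
  have hQ0X : Q0 T ≤ X := inf_le_right.trans hBX
  have hQ0p : (Q0 T).subgroupOf X ≤ pCore p ↥X :=
    CfsgLib.Cores.le_pCore (Q0_isPGroup.comap_of_injective _ X.subtype_injective)
  -- characteristic `p`
  have hchar : Subgroup.centralizer (pCore p ↥X : Set ↥X) ≤ pCore p ↥X := by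
    intro g hg
    refine hQ0p (mem_Q0_of_centralizes h hM hE (hX0 g.2) (Subgroup.mem_centralizer_iff.2 fun z hz => ?_))
    exact congrArg Subtype.val (Subgroup.mem_centralizer_iff.1 hg ⟨z, hQ0X hz⟩ (hQ0p hz))
  -- one maximal subgroup
  have huniq : ∃! N : Subgroup ↥X, IsCoatom N ∧ (S : Subgroup ↥X) ≤ N := by
    have hne : M.subgroupOf X ≠ ⊤ := fun e => hXM (Subgroup.subgroupOf_eq_top.1 e)
    have hbelow : ∀ N : Subgroup ↥X, N ≠ ⊤ → (S : Subgroup ↥X) ≤ N → N ≤ M.subgroupOf X := by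
      intro N hN hSN g hg
      refine hmin (N.map X.subtype) (hSm ▸ Subgroup.map_mono hSN) (Subgroup.map_subtype_le N)
        (fun e => hN ?_) ⟨g, hg, rfl⟩
      refine Subgroup.map_injective X.subtype_injective ?_
      rw [e, ← MonoidHom.range_eq_map, Subgroup.range_subtype]
    have hSM : (S : Subgroup ↥X) ≤ M.subgroupOf X := fun g hg => hM.le (hBT hg)
    refine ⟨M.subgroupOf X, ⟨⟨hne, fun N hN => by_contra fun hN' =>
      not_le_of_gt hN (hbelow N hN' (hSM.trans hN.le))⟩, hSM⟩, fun N hN => ?_⟩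
    exact ((hN.1.le_iff.1 (hbelow N hN.1.1 hN.2)).resolve_left hne).symm
  -- no characteristic subgroup of `S` is normal
  have hd : ∀ K : Subgroup ↥(S : Subgroup ↥X), K ≠ ⊥ → K.Characteristic →
      ¬ (K.map (S : Subgroup ↥X).subtype).Normal := by
    intro K hK hKc hKn
    set eS : ↥(S : Subgroup ↥X) ≃* ↥B := Subgroup.subgroupOfEquivOfLe hBX
    set K' := (K.map eS.toMonoidHom).map B.subtype with hK'
    have hK'B : K' ≤ B := Subgroup.map_subtype_le _
    have hK'e : K'.subgroupOf B = K.map eS.toMonoidHom :=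
      Subgroup.comap_map_eq_self_of_injective B.subtype_injective _
    haveI := hKc
    have hK'c : (K'.subgroupOf B).Characteristic := by rw [hK'e]; exact characteristic_map_equiv eS
    have hK'ne : K' ≠ ⊥ := fun e => hK (by
      rw [hK', Subgroup.map_eq_bot_iff_of_injective _ B.subtype_injective] at e
      exact (Subgroup.map_eq_bot_iff_of_injective _ eS.injective).1 e)
    have hK'X : K' = (K.map (S : Subgroup ↥X).subtype).map X.subtype := by
      rw [hK', Subgroup.map_map, Subgroup.map_map]; rfl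
    refine h.noChar K' hK'B hK'ne hK'c (Subgroup.normalizer_eq_top_iff.1 ?_)
    have h1 : (T : Subgroup G) ≤ Subgroup.normalizer (K' : Set G) :=
      (TwoGroupTricks.le_normalizer_baumann_self _).trans (le_normalizer_of_char hM hK'B hK'c)
    refine hM.eq_top_of_not_le h1 fun hle => hXM (le_trans ?_ hle)
    intro x hx
    refine Subgroup.mem_normalizer_fintype fun z hz => ?_
    rw [hK'X] at hz ⊢
    obtain ⟨z', hz', rfl⟩ := hz
    exact ⟨⟨x, hx⟩ * z' * ⟨x, hx⟩⁻¹, hKn.conj_mem z' hz' _, rfl⟩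
  have e3 : Nonempty (↥X ⧸ ψ.ker ≃* Matrix.ProjectiveSpecialLinearGroup (Fin 2) F) :=
    ⟨(QuotientGroup.quotientKerEquivOfSurjective ψ hψ).trans θ⟩
  obtain ⟨hquot, -⟩ := Cfsg.Agent.S2764.result S hchar huniq ψ.ker F n hn hF e3 hd
  have hd0 := hexp S hchar huniq ψ.ker F n hn hF e3 hd
  have d := BlockData.map (f := X.subtype) X.subtype_injective hd0
  have e1 : (pResidualOf p (⊤ : Subgroup ↥X)).map X.subtype = pResidualOf p X := by
    rw [map_pResidualOf_of_injective X.subtype_injective, ← MonoidHom.range_eq_map, Subgroup.range_subtype]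
  rw [hSm, e1] at d
  haveI := CfsgLib.Transfer.pResidual_normal (G := ↥X) (p := p)
  have hsup : X ≤ pResidualOf p X ⊔ B := by
    have h1 := CfsgLib.NormalPComplement.sup_sylow_eq_top_of_isPGroup_quotient _
      (CfsgLib.Transfer.isPGroup_quotient_pResidual (G := ↥X) (p := p)) S
    intro x hx
    have h2 : (⟨x, hx⟩ : ↥X) ∈ pResidual p ↥X ⊔ (S : Subgroup ↥X) := h1.ge (Subgroup.mem_top _)
    have h3 := Subgroup.mem_map_of_mem X.subtype h2
    rwa [Subgroup.map_sup, hSm] at h3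
  refine ⟨d, hSm ▸ Subgroup.map_mono (CfsgLib.Cores.pCore_le_sylow S),
    fun x hx => ⟨⟨x, hQ0X hx⟩, hQ0p hx, rfl⟩, hsup, fun hle => hXM ?_, hquot⟩
  exact hsup.trans (sup_le hle (hBT.trans hM.le))

end CfsgLib.FFModules.PushUpBlocks
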