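import Cfsg.Agent.S2981
import Cfsg.Agent.Lib.TwoGroupTricks.BaumannNormal
import Cfsg.Agent.Lib.TwoGroupTricks.PushingUpBase

/-!
Pushing up in a `p`-minimal group of characteristic `p`: the basic consequences of the hypotheses.
-/

set_option autoImplicit false
set_option linter.unusedSectionVars false

namespace CfsgLib.FFModules.PushUpBlocks

open Cfsg
open scoped commutatorElement

variable {G : Type*} [Group G] {p : ℕ}

/-- The standing hypotheses: `G` is `p`-minimal of characteristic `p`, no nontrivial characteristic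
subgroup of `B(T)` is normal and `Ω₁(Z(T))` is not normal. -/
structure Hyp [Fact p.Prime] (T : Sylow p G) : Prop where
  pmin : IsPMinimal p G
  char : Subgroup.centralizer (pCore p G : Set G) ≤ pCore p G
  noChar : ∀ K : Subgroup G, K ≤ baumannSubgroupOf p (T : Subgroup G) → K ≠ ⊥ →
    (K.subgroupOf (baumannSubgroupOf p (T : Subgroup G))).Characteristic → ¬ K.Normal
  zNot : ¬ (omegaOneCenter p (T : Subgroup G)).Normal

/-- `M` is the unique maximal subgroup over `T`. -/
structure IsTop [Fact p.Prime] (T : Sylow p G) (M : Subgroup G) : Prop where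
  coatom : IsCoatom M
  le : (T : Subgroup G) ≤ M
  uniq : ∀ M' : Subgroup G, IsCoatom M' ∧ (T : Subgroup G) ≤ M' → M' = M

/-- `V = Ω₁(Z(O_p(G)))`. -/
abbrev VG (G : Type*) [Group G] (p : ℕ) : Subgroup G := omegaOneCenter p (pCore p G)

/-- `C = C_G(V)`. -/
abbrev CG (G : Type*) [Group G] (p : ℕ) : Subgroup G := Subgroup.centralizer (VG G p : Set G)

instance VG_normal [Finite G] [Fact p.Prime] : (VG G p).Normal :=
  haveI := CfsgLib.FFModules.normal_pCore (p := p) (G := G)
  MinimalParabolic.omegaOneCenter_normal (pCore p G)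

instance CG_normal [Finite G] [Fact p.Prime] : (CG G p).Normal := inferInstance

theorem VG_elem : IsElementaryAbelian p (VG G p) :=
  MinimalParabolic.isElementaryAbelian_omegaOneCenter _

theorem VG_le : VG G p ≤ pCore p G ⊓ Subgroup.centralizer (pCore p G : Set G) :=
  ThompsonJ.omegaOne_le p _

theorem pCore_le_CG : pCore p G ≤ CG G p :=
  Subgroup.le_centralizer_iff.1 (VG_le.trans inf_le_right)

variable [Finite G] [Fact p.Prime] {T : Sylow p G}

theorem Hyp.exists_top (h : Hyp T) : ∃ M, IsTop T M := by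
  obtain ⟨-, M, ⟨hM, hTM⟩, hu⟩ := h.pmin T
  exact ⟨M, hM, hTM, hu⟩

variable {M : Subgroup G}

theorem IsTop.le_of_ne_top (hM : IsTop T M) {X : Subgroup G} (hX : (T : Subgroup G) ≤ X) (hne : X ≠ ⊤) :
    X ≤ M :=
  TwoGroupTricks.PushingUp.le_of_ne_top hM.uniq hX hne

theorem IsTop.eq_top_of_not_le (hM : IsTop T M) {X : Subgroup G} (hX : (T : Subgroup G) ≤ X)
    (hne : ¬ X ≤ M) : X = ⊤ :=
  by_contra fun h => hne (hM.le_of_ne_top hX h)

theorem IsTop.inf_normal_le (hM : IsTop T M) {N : Subgroup G} (hN : N.Normal) (hNM : N ≤ M) :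
    (T : Subgroup G) ⊓ N ≤ pCore p G :=
  haveI := hN
  TwoGroupTricks.PushingUp.inf_normal_le_pCore T hM.coatom hM.uniq N fun e =>
    hM.coatom.1 (top_le_iff.1 (e ▸ sup_le hM.le hNM))

theorem baumann_le : baumannSubgroupOf p (T : Subgroup G) ≤ (T : Subgroup G) := inf_le_left

theorem ZT_le_VG (h : Hyp T) : omegaOneCenter p (T : Subgroup G) ≤ VG G p := by
  refine ThompsonJ.omegaOne_mono fun x hx => ?_
  have hxQ : x ∈ Subgroup.centralizer (pCore p G : Set G) :=
    Subgroup.centralizer_le (CfsgLib.FFModules.pCore_le_sylow T) hx.2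
  exact ⟨h.char hxQ, hxQ⟩

variable (h : Hyp T) (hM : IsTop T M)
include h hM

theorem centralizer_ZT_le : Subgroup.centralizer (omegaOneCenter p (T : Subgroup G) : Set G) ≤ M := by
  refine hM.le_of_ne_top (fun t ht => Subgroup.mem_centralizer_iff.2 fun z hz => ?_) fun e => h.zNot ?_
  · exact (Subgroup.mem_centralizer_iff.1 (ThompsonJ.omegaOne_le p _ hz).2 t ht).symm
  · refine ⟨fun z hz g => ?_⟩
    have := (e.ge (Subgroup.mem_top g)) z hz
    rwa [← this, mul_inv_cancel_right]

theorem CG_le : CG G p ≤ M :=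
  (Subgroup.centralizer_le (ZT_le_VG h)).trans (centralizer_ZT_le h hM)

omit h in
theorem le_normalizer_of_char {K : Subgroup G} (hKB : K ≤ baumannSubgroupOf p (T : Subgroup G))
    (hK : (K.subgroupOf (baumannSubgroupOf p (T : Subgroup G))).Characteristic) :
    Subgroup.normalizer (baumannSubgroupOf p (T : Subgroup G) : Set G) ≤ Subgroup.normalizer (K : Set G) := by
  haveI := hK
  intro g hg
  have h1 := Cores.normalizer_le_normalizer_map_subtype (baumannSubgroupOf p (T : Subgroup G))
    (K.subgroupOf (baumannSubgroupOf p (T : Subgroup G))) hg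
  rwa [Subgroup.map_subgroupOf_eq_of_le hKB] at h1

theorem normalizer_char_le {K : Subgroup G} (hKB : K ≤ baumannSubgroupOf p (T : Subgroup G)) (hne : K ≠ ⊥)
    (hK : (K.subgroupOf (baumannSubgroupOf p (T : Subgroup G))).Characteristic) :
    Subgroup.normalizer (K : Set G) ≤ M :=
  hM.le_of_ne_top ((TwoGroupTricks.le_normalizer_baumann_self _).trans (le_normalizer_of_char hM hKB hK))
    fun e => h.noChar K hKB hne hK (Subgroup.normalizer_eq_top_iff.1 e)

theorem cStar_le : cStarOf p (T : Subgroup G) ≤ M :=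
  sup_le (centralizer_ZT_le h hM) (iSup_le fun K => normalizer_char_le h hM K.2.1 K.2.2.1 K.2.2.2)

theorem thompson_ne_bot : thompsonSubgroupOf p (T : Subgroup G) ≠ ⊥ := by
  refine ThompsonJ.thompsonSubgroupOf_ne_bot ?_
  obtain ⟨k, hk⟩ := IsPGroup.iff_card.1 T.2
  rw [hk]
  refine dvd_pow_self p fun e => (h.pmin T).1 ?_
  rw [Subgroup.eq_bot_of_card_eq _ (by rw [hk, e, pow_zero] : Nat.card (T : Subgroup G) = 1)]
  infer_instance

omit hM in
theorem thompson_char : ((thompsonSubgroupOf p (T : Subgroup G)).subgroupOf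
    (baumannSubgroupOf p (T : Subgroup G))).Characteristic := by
  have hJB := TwoGroupTricks.thompsonSubgroupOf_le_baumann (p := p) (T : Subgroup G)
  rw [← ThompsonJ.thompsonSubgroupOf_eq_of_le baumann_le hJB]
  have e : (thompsonSubgroupOf p (baumannSubgroupOf p (T : Subgroup G))).subgroupOf
      (baumannSubgroupOf p (T : Subgroup G)) = thompsonSubgroup p ↥(baumannSubgroupOf p (T : Subgroup G)) :=
    Subgroup.comap_map_eq_self_of_injective (Subgroup.subtype_injective _) _
  rw [e]
  exact ThompsonJ.thompsonSubgroup_characteristic p _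

theorem cStarStar_le : cStarStarOf p (T : Subgroup G) ≤ M :=
  sup_le (centralizer_ZT_le h hM) (normalizer_char_le h hM (TwoGroupTricks.thompsonSubgroupOf_le_baumann _)
    (thompson_ne_bot h hM) (thompson_char h))

theorem inf_CG_eq : (T : Subgroup G) ⊓ CG G p = pCore p G :=
  le_antisymm (hM.inf_normal_le inferInstance (CG_le h hM))
    (le_inf (CfsgLib.FFModules.pCore_le_sylow T) pCore_le_CG)

theorem thompson_not_le_CG : ¬ thompsonSubgroupOf p (T : Subgroup G) ≤ CG G p := fun hle => by
  have h1 : thompsonSubgroupOf p (T : Subgroup G) ≤ pCore p G :=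
    inf_CG_eq h hM ▸ le_inf (ThompsonJ.thompsonSubgroupOf_le p _) hle
  have h2 := ThompsonJ.thompsonSubgroupOf_eq_of_le (CfsgLib.FFModules.pCore_le_sylow T) h1
  refine h.noChar _ (TwoGroupTricks.thompsonSubgroupOf_le_baumann _) (thompson_ne_bot h hM)
    (thompson_char h) (Subgroup.normalizer_eq_top_iff.1 (top_le_iff.1 ?_))
  haveI := CfsgLib.FFModules.normal_pCore (p := p) (G := G)
  rw [← h2, ← Subgroup.normalizer_eq_top_iff.2 (inferInstance : (pCore p G).Normal)]
  exact ThompsonJ.normalizer_le_normalizer_thompsonSubgroupOf p _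

end CfsgLib.FFModules.PushUpBlocks
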