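import Mathlib.GroupTheory.Perm.Support
import Mathlib.GroupTheory.Perm.Sign
import Mathlib.GroupTheory.QuotientGroup.Basic
import Mathlib.SetTheory.Cardinal.Finite
import Mathlib.Tactic.Group
import Mathlib.GroupTheory.Perm.Closure

/-!
A central extension of a symmetric group with an involution over a transposition that commutes with a lift of a
disjoint transposition contains a complement.
-/

set_option autoImplicit false
set_option linter.unusedSectionVars false

namespace CfsgLib.FFModules.PushUpBlocks.SymLift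

open Equiv

variable {H : Type*} [Group H] {m : ℕ} (φ : H →* Perm (Fin m))

theorem map_conj_swap {a b : Fin m} {x g : H} (hx : φ x = swap a b) :
    φ (g * x * g⁻¹) = swap (φ g a) (φ g b) := by
  rw [map_mul, map_mul, map_inv, hx, swap_apply_apply]

/-- Elements over permutations fixing the two points centralize the lift. -/
theorem commute_of_fix (hs : Function.Surjective φ) (hc : ∀ z, φ z = 1 → ∀ g, g * z = z * g)
    {a b : Fin m} {x : H} (hx : φ x = swap a b)
    (hy : ∀ k l : Fin m, k ≠ l → k ≠ a → k ≠ b → l ≠ a → l ≠ b →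
      ∃ c e : Fin m, ∃ y : H, c ≠ e ∧ c ≠ a ∧ c ≠ b ∧ e ≠ a ∧ e ≠ b ∧ φ y = swap c e ∧ x * y = y * x)
    (g : H) (hga : φ g a = a) (hgb : φ g b = b) : g * x = x * g := by
  let C₀ : Subgroup H := Subgroup.centralizer {x}
  have hK : ∀ z, φ z = 1 → z ∈ C₀ := fun z hz =>
    Subgroup.mem_centralizer_singleton_iff.2 (hc z hz x).symm
  have hmem : ∀ (g g' : H), φ g = φ g' → g' ∈ C₀ → g ∈ C₀ := fun g g' e hg' => by
    have h1 : g'⁻¹ * g ∈ C₀ := hK _ (by rw [map_mul, map_inv, e, inv_mul_cancel])
    have := mul_mem hg' h1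
    rwa [mul_inv_cancel_left] at this
  suffices h : g ∈ C₀ from Subgroup.mem_centralizer_singleton_iff.1 h
  have hswap : ∀ k l : Fin m, k ≠ l → k ≠ a → k ≠ b → l ≠ a → l ≠ b → ∃ w ∈ C₀, φ w = swap k l := by
    intro k l hkl hka hkb hla hlb
    obtain ⟨c, e, y, hce, hca, hcb, hea, heb, hyφ, hxy⟩ := hy k l hkl hka hkb hla hlb
    set e' := swap c k e with he'
    have he'k : e' ≠ k := fun h1 => hce ((swap c k).injective (h1.trans (swap_apply_left c k).symm)).symm
    have hne : ∀ z, z ≠ c → z ≠ k → z ≠ e → z ≠ e' := fun z hzc hzk hze h1 => hze (by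
      have := congrArg (swap c k) h1
      rwa [he', swap_apply_self, swap_apply_of_ne_of_ne hzc hzk] at this)
    set π := swap e' l * swap c k with hπ
    have hπc : π c = k := by
      rw [hπ, Perm.mul_apply, swap_apply_left, swap_apply_of_ne_of_ne he'k.symm hkl]
    have hπe : π e = l := by rw [hπ, Perm.mul_apply, ← he', swap_apply_left]
    have hπfix : ∀ z, z ≠ c → z ≠ k → z ≠ e → z ≠ l → π z = z := fun z hzc hzk hze hzl => by
      rw [hπ, Perm.mul_apply, swap_apply_of_ne_of_ne hzc hzk, swap_apply_of_ne_of_ne (hne z hzc hzk hze) hzl]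
    obtain ⟨w, hw⟩ := hs π
    refine ⟨w * y * w⁻¹, Subgroup.mem_centralizer_singleton_iff.2 ?_, ?_⟩
    · set z := x⁻¹ * (w * x * w⁻¹) with hz
      have hzc := hc z (by
        rw [hz, map_mul, map_inv, map_conj_swap φ hx, hx, hw, hπfix a hca.symm hka.symm hea.symm hla.symm,
          hπfix b hcb.symm hkb.symm heb.symm hlb.symm, inv_mul_cancel])
      have h1 : w * x * w⁻¹ = x * z := by rw [hz, mul_inv_cancel_left]
      have h2 : (w * y * w⁻¹) * (w * x * w⁻¹) = (w * x * w⁻¹) * (w * y * w⁻¹) := by
        calc (w * y * w⁻¹) * (w * x * w⁻¹) = w * (y * x) * w⁻¹ := by group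
          _ = w * (x * y) * w⁻¹ := by rw [hxy]
          _ = _ := by group
      have h3 : x * z * (w * y * w⁻¹) = x * (w * y * w⁻¹) * z := by
        rw [mul_assoc, ← hzc (w * y * w⁻¹), ← mul_assoc]
      rw [h1, h3, ← mul_assoc] at h2
      exact mul_right_cancel h2
    · rw [map_conj_swap φ hyφ, hw, hπc, hπe]
  suffices h : ∀ σ : Perm (Fin m), σ a = a → σ b = b → ∃ w ∈ C₀, φ w = σ by
    obtain ⟨w, hw, e⟩ := h (φ g) hga hgb
    exact hmem g w e.symm hw
  intro σ
  induction hN : σ.support.card using Nat.strong_induction_on generalizing σ with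
  | _ N ih =>
    intro hσa hσb
    by_cases h1 : σ = 1
    · exact ⟨1, one_mem _, by rw [map_one, h1]⟩
    obtain ⟨k, hk⟩ : ∃ k, σ k ≠ k := by
      by_contra hh
      push Not at hh
      exact h1 (Equiv.ext fun k => by simp [hh k])
    have hka : k ≠ a := fun e => hk (e ▸ hσa)
    have hkb : k ≠ b := fun e => hk (e ▸ hσb)
    have hla : σ k ≠ a := fun e => hka (σ.injective (e.trans hσa.symm))
    have hlb : σ k ≠ b := fun e => hkb (σ.injective (e.trans hσb.symm))
    obtain ⟨w, hw, ew⟩ := hswap k (σ k) hk.symm hka hkb hla hlb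
    obtain ⟨v, hv, ev⟩ := ih _ (hN ▸ Perm.card_support_swap_mul hk) _ rfl
      (by rw [Perm.mul_apply, hσa, swap_apply_of_ne_of_ne hka.symm hla.symm])
      (by rw [Perm.mul_apply, hσb, swap_apply_of_ne_of_ne hkb.symm hlb.symm])
    exact ⟨w * v, mul_mem hw hv, by rw [map_mul, ew, ev, ← mul_assoc, swap_mul_self, one_mul]⟩

/-- The complement. -/
theorem exists_complement [Finite H] (hs : Function.Surjective φ) (hc : ∀ z, φ z = 1 → ∀ g, g * z = z * g)
    {a b : Fin m} (hab : a ≠ b) {x : H} (hx : φ x = swap a b) (hx2 : x * x = 1)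
    (hy : ∀ k l : Fin m, k ≠ l → k ≠ a → k ≠ b → l ≠ a → l ≠ b →
      ∃ c e : Fin m, ∃ y : H, c ≠ e ∧ c ≠ a ∧ c ≠ b ∧ e ≠ a ∧ e ≠ b ∧ φ y = swap c e ∧ x * y = y * x) :
    ∃ R : Subgroup H, R.Normal ∧ R.map φ = ⊤ ∧ ∀ z ∈ R, φ z = 1 → z = 1 := by
  classical
  -- conjugates with the same image are equal
  have hsame : ∀ g h : H, φ (g * x * g⁻¹) = φ (h * x * h⁻¹) → g * x * g⁻¹ = h * x * h⁻¹ := by
    intro g h e
    set k := h⁻¹ * g with hk
    have e1 : swap (φ k a) (φ k b) = swap a b := by
      rw [← map_conj_swap φ hx, ← hx]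
      have : k * x * k⁻¹ = h⁻¹ * (g * x * g⁻¹) * h := by rw [hk]; group
      rw [this, map_mul, map_mul, e, ← map_mul, ← map_mul]
      congr 1; group
    have hmem : ∀ z, z = a ∨ z = b → φ k z = a ∨ φ k z = b := fun z hz => by
      by_contra hh
      push Not at hh
      have h1 := Equiv.congr_fun e1 (φ k z)
      rw [swap_apply_of_ne_of_ne hh.1 hh.2] at h1
      rcases hz with rfl | rfl
      · rw [swap_apply_left] at h1; exact hab ((φ k).injective h1).symm
      · rw [swap_apply_right] at h1; exact hab ((φ k).injective h1)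
    have hcomm : k * x = x * k := by
      rcases hmem a (Or.inl rfl) with ha | ha
      · refine commute_of_fix φ hs hc hx hy k ha ((hmem b (Or.inr rfl)).resolve_left fun hb => hab ((φ k).injective (ha.trans hb.symm)))
      · have hb : φ k b = a := (hmem b (Or.inr rfl)).resolve_right fun hb => hab ((φ k).injective (ha.trans hb.symm))
        have h1 := commute_of_fix φ hs hc hx hy (x * k) (by rw [map_mul, Perm.mul_apply, ha, hx, swap_apply_right])
          (by rw [map_mul, Perm.mul_apply, hb, hx, swap_apply_left])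
        rw [mul_assoc] at h1
        exact mul_left_cancel h1
    calc g * x * g⁻¹ = h * (k * x) * k⁻¹ * h⁻¹ := by rw [hk]; group
      _ = h * (x * k) * k⁻¹ * h⁻¹ := by rw [hcomm]
      _ = _ := by group
  let D : Set H := Set.range fun g : H => g * x * g⁻¹
  have hpair : ∀ u v : Fin m, ∃ d : H, u ≠ v → d ∈ D ∧ φ d = swap u v := by
    intro u v
    by_cases huv : u = v
    · exact ⟨1, fun h => absurd huv h⟩
    obtain ⟨g, hg⟩ := hs (swap (swap a u b) v * swap a u)
    refine ⟨g * x * g⁻¹, fun _ => ⟨⟨g, rfl⟩, ?_⟩⟩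
    rw [map_conj_swap φ hx, hg, Perm.mul_apply, Perm.mul_apply, swap_apply_left, swap_apply_left,
      swap_apply_of_ne_of_ne (fun e => hab ((swap a u).injective ((swap_apply_left a u).trans e))) huv]
  choose d hd using hpair
  have hDeq : ∀ {y : H} {u v : Fin m}, u ≠ v → y ∈ D → φ y = swap u v → y = d u v := by
    rintro y u v huv ⟨g, rfl⟩ e
    obtain ⟨⟨h, hh⟩, e'⟩ := hd u v huv
    rw [← hh] at e' ⊢
    exact hsame g h (e.trans e'.symm)
  have hDconj : ∀ {y : H} (g : H), y ∈ D → g * y * g⁻¹ ∈ D := by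
    rintro _ g ⟨h, rfl⟩
    exact ⟨g * h, by group⟩
  have hDinv : ∀ y ∈ D, y * y = 1 := by
    rintro _ ⟨g, rfl⟩
    calc g * x * g⁻¹ * (g * x * g⁻¹) = g * (x * x) * g⁻¹ := by group
      _ = 1 := by rw [hx2, mul_one, mul_inv_cancel]
  set R := Subgroup.closure D with hR
  refine ⟨R, ?_, ?_, ?_⟩
  · refine ⟨fun y hy g => ?_⟩
    have h1 : R ≤ R.comap (MulAut.conj g).toMonoidHom :=
      (Subgroup.closure_le _).2 fun z hz => Subgroup.subset_closure (hDconj g hz)
    exact h1 hy
  · refine (Subgroup.eq_top_iff' _).2 fun σ => ?_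
    refine Perm.swap_induction_on σ (one_mem _) fun s u v huv hs' => mul_mem ?_ hs'
    exact ⟨d u v, Subgroup.subset_closure (hd u v huv).1, (hd u v huv).2⟩
  -- counting
  let Hk : ℕ → Subgroup H := fun k =>
    Subgroup.closure {y | ∃ u v : Fin m, u ≠ v ∧ (u : ℕ) < k ∧ (v : ℕ) < k ∧ y = d u v}
  have hcount : ∀ k, k ≤ m → Nat.card (Hk k) ≤ k.factorial := by
    intro k
    induction k with
    | zero =>
      intro _
      have : Hk 0 = ⊥ := by
        simp only [Hk]
        convert Subgroup.closure_empty (G := H) using 2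
        ext y; simp
      rw [this, Subgroup.card_bot]; rfl
    | succ k ih =>
      intro hk
      set q : Fin m := ⟨k, hk⟩ with hq
      let rep : Fin m → H := fun i => if i = q then 1 else d i q
      let S : Set H := {z | ∃ i : Fin m, (i : ℕ) ≤ k ∧ ∃ h ∈ Hk k, z = rep i * h}
      have hgen : ∀ u v : Fin m, u ≠ v → (u : ℕ) ≤ k → (v : ℕ) ≤ k → ∀ z ∈ S, d u v * z ∈ S := by
        intro u v huv hu hv
        -- symmetry
        wlog hvu : u ≠ q generalizing u v
        · push Not at hvu
          intro z hz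
          rw [show d u v = d v u from hDeq huv.symm (hd u v huv).1 ((hd u v huv).2.trans (swap_comm u v))]
          exact this v u huv.symm hv hu (fun e => huv (hvu.trans e.symm)) z hz
        rintro _ ⟨i, hi, h, hh, rfl⟩
        have hu' : (u : ℕ) < k := lt_of_le_of_ne hu fun e => hvu (Fin.ext e)
        rcases eq_or_ne v q with rfl | hvq
        · rcases eq_or_ne i q with rfl | hiq
          · refine ⟨u, hu, h, hh, ?_⟩
            simp [rep, hvu]
          rcases eq_or_ne i u with rfl | hiu
          · refine ⟨q, le_of_eq rfl, h, hh, ?_⟩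
            simp only [rep, if_pos rfl, if_neg hiq, one_mul, ← mul_assoc, hDinv _ (hd i q hiq).1]
          have hi' : (i : ℕ) < k := lt_of_le_of_ne hi fun e => hiq (Fin.ext e)
          refine ⟨i, hi, d u i * h, mul_mem (Subgroup.subset_closure ⟨u, i, hiu.symm, hu', hi', rfl⟩) hh, ?_⟩
          simp only [rep, if_neg hiq]
          rw [← mul_assoc, ← mul_assoc]
          congr 1
          have hinv : (d i q)⁻¹ = d i q := inv_eq_of_mul_eq_one_right (hDinv _ (hd i q hiq).1)
          have h1 : (d i q)⁻¹ * d u q * (d i q)⁻¹⁻¹ = d u i := by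
            refine hDeq hiu.symm (hDconj _ (hd u q huv).1) ?_
            rw [inv_inv, map_mul, map_mul, map_inv, (hd i q hiq).2, (hd u q huv).2, swap_inv]
            conv_lhs => arg 2; rw [← swap_inv]
            rw [← swap_apply_apply, swap_apply_of_ne_of_ne hiu.symm huv, swap_apply_right]
          rw [← h1, inv_inv, ← mul_assoc, ← mul_assoc, mul_inv_cancel, one_mul]
        · have hv' : (v : ℕ) < k := lt_of_le_of_ne hv fun e => hvq (Fin.ext e)
          have hduv : d u v ∈ Hk k := Subgroup.subset_closure ⟨u, v, huv, hu', hv', rfl⟩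
          rcases eq_or_ne i q with rfl | hiq
          · refine ⟨q, le_of_eq rfl, d u v * h, mul_mem hduv hh, ?_⟩
            simp [rep]
          set j := swap u v i with hj
          have hjq : j ≠ q := fun e => hiq (by
            have := congrArg (swap u v) e
            rwa [hj, swap_apply_self, swap_apply_of_ne_of_ne hvu.symm hvq.symm] at this)
          have hjk : (j : ℕ) ≤ k := by
            rw [hj, swap_apply_def]
            split_ifs <;> assumption
          refine ⟨j, hjk, d u v * h, mul_mem hduv hh, ?_⟩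
          simp only [rep, if_neg hiq, if_neg hjq]
          rw [← mul_assoc, ← mul_assoc]
          congr 1
          have h1 : d u v * d i q * (d u v)⁻¹ = d j q := by
            refine hDeq hjq (hDconj _ (hd i q hiq).1) ?_
            rw [map_mul, map_mul, map_inv, (hd u v huv).2, (hd i q hiq).2, ← swap_apply_apply,
              swap_apply_of_ne_of_ne hvu.symm hvq.symm, ← hj]
          rw [← h1, inv_mul_cancel_right]
      have hclose : ∀ z ∈ Hk (k + 1), z ∈ S := by
        intro z hz
        induction hz using Subgroup.closure_induction_left with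
        | one => exact ⟨q, le_of_eq rfl, 1, one_mem _, by simp [rep]⟩
        | mul_left y hy z _ ihz =>
          obtain ⟨u, v, huv, hu, hv, rfl⟩ := hy
          exact hgen u v huv (Nat.lt_succ_iff.1 hu) (Nat.lt_succ_iff.1 hv) z ihz
        | inv_mul_cancel y hy z _ ihz =>
          obtain ⟨u, v, huv, hu, hv, rfl⟩ := hy
          rw [inv_eq_of_mul_eq_one_right (hDinv _ (hd u v huv).1)]
          exact hgen u v huv (Nat.lt_succ_iff.1 hu) (Nat.lt_succ_iff.1 hv) z ihz
      let f : Fin (k + 1) × ↥(Hk k) → H := fun z => rep ⟨z.1, by omega⟩ * z.2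
      have hsurj : ∀ z : ↥(Hk (k + 1)), ∃ w, f w = z := fun z => by
        obtain ⟨i, hi, h, hh, e⟩ := hclose z z.2
        exact ⟨(⟨i, Nat.lt_succ_iff.2 hi⟩, ⟨h, hh⟩), e.symm⟩
      choose g hg using hsurj
      have hcard := Nat.card_le_card_of_injective g fun z z' e => Subtype.ext (by rw [← hg z, ← hg z', e])
      rw [Nat.card_prod, Nat.card_fin] at hcard
      rw [Nat.factorial_succ]
      exact hcard.trans (Nat.mul_le_mul_left _ (ih (by omega)))
  have hRle : R ≤ Hk m := (Subgroup.closure_le _).2 fun y hy => by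
    obtain ⟨g, rfl⟩ := hy
    have hne : φ g a ≠ φ g b := fun e => hab ((φ g).injective e)
    exact Subgroup.subset_closure ⟨φ g a, φ g b, hne, (φ g a).isLt, (φ g b).isLt,
      hDeq hne ⟨g, rfl⟩ (map_conj_swap φ hx)⟩
  have hsurjR : Function.Surjective (φ.comp R.subtype) := fun σ => by
    have h1 : σ ∈ R.map φ := by
      refine Perm.swap_induction_on σ (one_mem _) fun s u v huv hs' => mul_mem ?_ hs'
      exact ⟨d u v, Subgroup.subset_closure (hd u v huv).1, (hd u v huv).2⟩
    obtain ⟨y, hy, e⟩ := h1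
    exact ⟨⟨y, hy⟩, e⟩
  have hcardR : Nat.card R ≤ Nat.card (Perm (Fin m)) := by
    rw [Nat.card_eq_fintype_card (α := Perm (Fin m)), Fintype.card_perm, Fintype.card_fin]
    exact (Subgroup.card_le_of_le hRle).trans (hcount m le_rfl)
  have hinj : Function.Injective (φ.comp R.subtype) :=
    ((Nat.bijective_iff_surjective_and_card _).2
      ⟨hsurjR, le_antisymm hcardR (Nat.card_le_card_of_surjective _ hsurjR)⟩).1
  intro z hz h1
  exact congrArg Subtype.val (hinj (a₁ := ⟨z, hz⟩) (a₂ := 1) (by simpa using h1))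

end CfsgLib.FFModules.PushUpBlocks.SymLift
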