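import Cfsg.Agent.Lib.FFModules.PushUpBlocks.SymPieces
import Cfsg.Agent.Lib.FFModules.PushUpBlocks.SymLift

/-!
The block of a symmetric component.
-/

set_option autoImplicit false
set_option linter.unusedSectionVars false

universe u

namespace CfsgLib.FFModules.PushUpBlocks

open Cfsg Equiv
open CfsgLib.PushUp.RankOne (BlockData HasBlockData)
open scoped commutatorElement

variable {G : Type u} [Group G] [Finite G] [Fact (Nat.Prime 2)] {T : Sylow 2 G} {r : ℕ}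
  {E : Fin r → Subgroup G} {M : Subgroup G} {i : Fin r} {m : ℕ} {D : SymData G 2 E i m} {p0 : Fin m}
  {τ : Perm (Fin m)}

/-- A piece contains a transposition of the point with a partner. -/
theorem swap_mem_of_piece {H : Subgroup (Perm (Fin m))} (hinv : ∀ x, τ (τ x) = x) {k : Fin m}
    (hsw : swap k (τ k) ∈ H) {σ : Perm (Fin m)} (hσ : σ ∈ H) (hP : σ ∈ pieceStab τ hinv p0 k)
    (h0 : σ p0 ≠ p0) (hk : k ≠ p0) (hkτ : τ k ≠ k) (hτp : τ k ≠ p0) : swap p0 k ∈ H := by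
  obtain ⟨hset, -⟩ := hP
  -- the preimage of the point
  obtain ⟨z, hz⟩ := σ.surjective p0
  have hzp : z ≠ p0 := fun e => h0 (e ▸ hz)
  have hz' : z = k ∨ z = τ k := ((hset z).2 (Or.inl hz)).resolve_left hzp
  have h1 : swap (σ k) (σ (τ k)) ∈ H := by
    rw [swap_apply_apply]; exact mul_mem (mul_mem hσ hsw) (inv_mem hσ)
  have hother : ∃ w, (w = k ∨ w = τ k) ∧ swap p0 w ∈ H := by
    rcases hz' with rfl | rfl
    · rw [hz] at h1
      rcases (hset (τ z)).1 (Or.inr (Or.inr rfl)) with e | e | e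
      · exact absurd (σ.injective (e.trans hz.symm)) hkτ
      · exact ⟨z, Or.inl rfl, e ▸ h1⟩
      · exact ⟨τ z, Or.inr rfl, e ▸ h1⟩
    · rw [hz, swap_comm] at h1
      rcases (hset k).1 (Or.inr (Or.inl rfl)) with e | e | e
      · exact absurd (σ.injective (e.trans hz.symm)).symm hkτ
      · exact ⟨k, Or.inl rfl, e ▸ h1⟩
      · exact ⟨τ k, Or.inr rfl, e ▸ h1⟩
  obtain ⟨w, hw | hw, hwH⟩ := hother
  · exact hw ▸ hwH
  · subst hw
    have h2 := mul_mem (mul_mem hsw hwH) (inv_mem hsw)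
    rwa [← swap_apply_apply, swap_apply_right, swap_apply_of_ne_of_ne hk.symm hτp.symm] at h2

set_option maxHeartbeats 1000000 in
/-- The block of a symmetric component. -/
theorem SymShape.exists_block (h : Hyp T) (hM : IsTop T M) (hE : Comps T E) (hexp : HasBlockData.{u})
    {n : ℕ} (hn : 1 ≤ n) {D : SymData G 2 E i (2 ^ n + 1)} {p0 : Fin (2 ^ n + 1)}
    {τ : Perm (Fin (2 ^ n + 1))} (hS : SymShape T D p0 τ) : ∃ Eb, CompBlock T E M i Eb := by
  classical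
  have h2n : 2 ≤ 2 ^ n := Nat.le_self_pow (by omega) 2
  have hm3 : 3 ≤ 2 ^ n + 1 := by omega
  have hodd : Odd (2 ^ n + 1) := by simp [parity_simps]; omega
  set B := baumannSubgroupOf 2 (T : Subgroup G) with hB
  set Ui := ⁅VG G 2, E i⁆ with hUi
  have hUV : Ui ≤ VG G 2 := Comps.moves_le i
  have hEG : E i ≤ G1 E := le_iSup E i
  have hVE : VG G 2 ≤ E i := (VG_le.trans inf_le_left).trans (pCore_le_CG.trans (hE.ce i))
  have hVexp : ∀ v ∈ VG G 2, v * v = 1 := fun v hv => by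
    rw [← pow_two]; exact (ThompsonJ.isElementaryAbelian_iff.1 (VG_elem (G := G) (p := 2))).2 v hv
  have hVcomm : ∀ a ∈ VG G 2, ∀ b ∈ VG G 2, a * b = b * a :=
    fun a ha b hb => Subgroup.mem_centralizer_iff.1 ((ThompsonJ.isElementaryAbelian_iff.1 (VG_elem (G := G) (p := 2))).1 hb) a ha
  haveI := Q0_normal h hM hE
  haveI : (G0 T).Normal := Subgroup.normalClosure_normal
  -- the stabilizer of the chain `Q₀ ≥ U_i`
  let N : Subgroup G :=
    { carrier := {g | g ∈ G0 T ∧ g ∈ E i ∧ ∀ q ∈ Q0 T, g * q * g⁻¹ * q⁻¹ ∈ Ui}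
      one_mem' := ⟨one_mem _, one_mem _, fun q _ => by simp⟩
      mul_mem' := fun {a b} ha hb => ⟨mul_mem ha.1 hb.1, mul_mem ha.2.1 hb.2.1, fun q hq => by
        have h1 := hE.G1_le_normalizer_moves (hEG ha.2.1) (hb.2.2 q hq)
        have h2 := mul_mem h1 (ha.2.2 q hq)
        convert h2 using 1
        group⟩
      inv_mem' := fun {a} ha => ⟨inv_mem ha.1, inv_mem ha.2.1, fun q hq => by
        have h1 := hE.G1_le_normalizer_moves (hEG (inv_mem ha.2.1)) (inv_mem (ha.2.2 q hq))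
        convert h1 using 1
        group⟩ }
  have hNE : N ≤ E i := fun g hg => hg.2.1
  have hNG : N ≤ G1 E := hNE.trans hEG
  have hNn : G1 E ≤ Subgroup.normalizer (N : Set G) := by
    intro y hy
    refine Subgroup.mem_normalizer_fintype fun g hg => ⟨(inferInstance : (G0 T).Normal).conj_mem g hg.1 y,
      (Subgroup.mem_normalizer_iff.1 (hE.G1_le_normalizer i hy) g).1 hg.2.1, fun q hq => ?_⟩
    have hq' : y⁻¹ * q * y ∈ Q0 T := by simpa using (inferInstance : (Q0 T).Normal).conj_mem q hq y⁻¹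
    have h1 := hE.G1_le_normalizer_moves hy (hg.2.2 _ hq')
    convert h1 using 1
    group
  have hUN : Ui ≤ N := fun v hv => ⟨baumann_le_G0 (VG_le_baumann h hM hE (hUV hv)), hVE (hUV hv), fun q hq => by
    have h1 : q * v = v * q :=
      ((VG_le (hUV hv)).2 q (Subgroup.mem_inf.1 hq).1)
    rw [← h1, mul_inv_cancel_right, mul_inv_cancel]; exact one_mem _⟩
  have hNC : ∀ g ∈ N, g ∈ CG G 2 → g ∈ Q0 T := by
    intro g hg hgC
    obtain ⟨j, hj⟩ := CfsgLib.NormalPComplement.exists_pow_coprime_orderOf (p := 2) (isOfFinOrder_of_finite g)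
    set x := g ^ 2 ^ j with hx
    have hxN : x ∈ N := pow_mem hg _
    have hxC : x ∈ CG G 2 := pow_mem hgC _
    have hx1 : x = 1 := by
      have hxQ : x ∈ Q0 T := mem_Q0_of_centralizes h hM hE hxN.1 (Subgroup.mem_centralizer_iff.2 fun q hq => by
        have hw : x * q * x⁻¹ * q⁻¹ ∈ VG G 2 := hUV (hxN.2.2 q hq)
        refine (commute_of_coprime_stab hj ?_ ?_).symm
        · exact (Subgroup.mem_centralizer_iff.1 hxC _ hw).symm
        · exact (ThompsonJ.isElementaryAbelian_iff.1 (VG_elem (G := G) (p := 2))).2 _ hw)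
      obtain ⟨l, hl⟩ := Q0_isPGroup (T := T) ⟨x, hxQ⟩
      exact orderOf_eq_one_iff.1 (Nat.eq_one_of_dvd_coprimes (hj.pow_right l) dvd_rfl
        (orderOf_dvd_of_pow_eq_one (congrArg Subtype.val hl :)))
    have hp : IsPGroup 2 (Subgroup.zpowers g) := by
      rintro ⟨_, l, rfl⟩
      refine ⟨j, Subtype.ext ?_⟩
      show (g ^ l) ^ 2 ^ j = 1
      rw [← zpow_natCast, ← zpow_mul, mul_comm, zpow_mul, zpow_natCast, ← hx, hx1, one_zpow]
    exact mem_Q0_of_mem h hM hE hg.1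
      (le_pCore_of_isPGroup h hM hp (Subgroup.zpowers_le.2 hgC) (Subgroup.mem_zpowers g))
  set φN : ↥N →* Perm (Fin (2 ^ n + 1)) := D.Φ.comp (Subgroup.inclusion hNG) with hφN
  have hNker : ∀ g : ↥N, φN g = 1 → (g : G) ∈ CG G 2 := fun g hg =>
    hE.inf_Kc i (Subgroup.mem_inf.2 ⟨hNE g.2, (D.kerΦ _).1 hg⟩)
  -- the pieces
  choose pu hpuB hpuE hpu2 hpuΦ hpuQ hpub pg hpg0 hpgE hpgQ hpgne hpgP using
    fun k : {k : Fin (2 ^ n + 1) // k ≠ p0} => hS.exists_piece h hM hE hexp k.2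
  have hτp : ∀ k, k ≠ p0 → τ k ≠ p0 := fun k hk e => hk (by rw [← hS.inv k, e, hS.fix])
  have hpuN : ∀ k, (pu k : G) ∈ N := fun k => ⟨baumann_le_G0 (hpuB k), hpuE k, fun q hq => by
    rw [← commutatorElement_def]; exact hpuQ k q hq⟩
  have hpgN : ∀ k, (pg k : G) ∈ N := fun k => ⟨hpg0 k, hpgE k, fun q hq => by
    rw [← commutatorElement_def, ← commutatorElement_inv]; exact inv_mem (hpgQ k q hq)⟩
  have hφs : Function.Surjective φN := by
    refine MonoidHom.range_eq_top.1 (Loc.eq_top_of_star (p0 := p0) fun k hk => ?_)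
    exact swap_mem_of_piece hS.inv ⟨⟨_, hpuN ⟨k, hk⟩⟩, hpuΦ ⟨k, hk⟩⟩
      ⟨⟨_, hpgN ⟨k, hk⟩⟩, rfl⟩ (hpgP ⟨k, hk⟩) (hpgne ⟨k, hk⟩) hk (hS.ne k hk) (hτp k hk)
  -- the quotient by `U_i`
  haveI hUn : (Ui.subgroupOf N).Normal := ⟨fun x hx g => hE.G1_le_normalizer_moves (hNG g.2) hx⟩
  let π := QuotientGroup.mk' (Ui.subgroupOf N)
  have hUker : Ui.subgroupOf N ≤ φN.ker := fun x hx => (D.kerΦ _).2
    (Subgroup.mem_sup_right (pCore_le_CG ((VG_le (hUV hx)).1)))
  let φH : ↥N ⧸ Ui.subgroupOf N →* Perm (Fin (2 ^ n + 1)) := QuotientGroup.lift _ φN hUker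
  have hφH : ∀ g : ↥N, φH (π g) = φN g := fun g => rfl
  have hHc : ∀ z, φH z = 1 → ∀ g, g * z = z * g := by
    intro z hz g
    obtain ⟨z, rfl⟩ := QuotientGroup.mk'_surjective _ z
    obtain ⟨g, rfl⟩ := QuotientGroup.mk'_surjective _ g
    rw [← commutatorElement_eq_one_iff_mul_comm, ← map_commutatorElement]
    refine (QuotientGroup.eq_one_iff _).2 ?_
    show ((⁅g, z⁆ : ↥N) : G) ∈ Ui
    exact g.2.2.2 _ (hNC _ z.2 (hNker z hz))
  obtain ⟨k0, hk0⟩ : ∃ k : Fin (2 ^ n + 1), k ≠ p0 :=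
    Fintype.exists_ne_of_one_lt_card (by simp) p0
  set x0 : ↥N := ⟨_, hpuN ⟨k0, hk0⟩⟩
  obtain ⟨R, hRn, hRtop, hRker⟩ := SymLift.exists_complement φH
    (fun σ => let ⟨g, hg⟩ := hφs σ; ⟨π g, hg⟩) hHc (hS.ne k0 hk0).symm (x := π x0)
    ((hφH x0).trans (hpuΦ ⟨k0, hk0⟩))
    (by rw [← map_mul, show x0 * x0 = 1 from Subtype.ext (hpu2 _), map_one])
    fun a b hab hak haτ hbk hbτ => by
      obtain ⟨l, hlp, hlk, hlτ⟩ : ∃ l, l ≠ p0 ∧ l ≠ k0 ∧ l ≠ τ k0 := by
        rcases eq_or_ne a p0 with rfl | ha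
        · exact ⟨b, hab.symm, hbk, hbτ⟩
        · exact ⟨a, ha, hak, haτ⟩
      refine ⟨l, τ l, π ⟨_, hpuN ⟨l, hlp⟩⟩, (hS.ne l hlp).symm, hlk, hlτ,
        fun e => hlτ (by rw [← hS.inv l, e]), fun e => hlk ?_, (hφH _).trans (hpuΦ ⟨l, hlp⟩), ?_⟩
      · rw [← hS.inv l, e, hS.inv]
      · rw [← commutatorElement_eq_one_iff_mul_comm, ← map_commutatorElement]
        refine (QuotientGroup.eq_one_iff _).2 ?_
        refine hpub ⟨k0, hk0⟩ (pu ⟨l, hlp⟩) (hpuB ⟨l, hlp⟩) ?_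
        rw [hpuΦ ⟨l, hlp⟩]
        exact swap_apply_of_ne_of_ne hlk.symm (fun e => hlτ (by
          have e' : k0 = τ l := e
          rw [e', hS.inv]))
  -- the block
  set R' : Subgroup ↥N := R.comap π with hR'
  haveI : R'.Normal := inferInstance
  have hq : IsPGroup 2 (↥N ⧸ R') := by
    intro q
    obtain ⟨g, rfl⟩ := QuotientGroup.mk_surjective q
    obtain ⟨y, hy, ey⟩ := hRtop.ge (Subgroup.mem_top (φH (π g)))
    obtain ⟨z, rfl⟩ := QuotientGroup.mk'_surjective _ y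
    have hc : φN (z⁻¹ * g) = 1 := by rw [map_mul, map_inv, ← hφH, ← hφH, ey, inv_mul_cancel]
    obtain ⟨j, hj⟩ := Q0_isPGroup (T := T) ⟨_, hNC _ (z⁻¹ * g).2 (hNker _ hc)⟩
    refine ⟨j, ?_⟩
    have e1 : (QuotientGroup.mk g : ↥N ⧸ R') = QuotientGroup.mk (z⁻¹ * g) := by
      rw [QuotientGroup.mk_mul, QuotientGroup.mk_inv, (QuotientGroup.eq_one_iff z).2 hy, inv_one, one_mul]
    rw [e1, ← QuotientGroup.mk_pow, show (z⁻¹ * g : ↥N) ^ 2 ^ j = 1 from Subtype.ext (congrArg Subtype.val hj :)]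
    rfl
  set Eb := pResidualOf 2 N with hEb
  have hEN : Eb ≤ N := Subgroup.map_subtype_le _
  have hEE : Eb ≤ E i := hEN.trans hNE
  have hEG0 : Eb ≤ G1 E := hEE.trans hEG
  have hEn : G1 E ≤ Subgroup.normalizer (Eb : Set G) :=
    hNn.trans (haveI := CfsgLib.Transfer.pResidual_characteristic (G := ↥N) (p := 2)
      Cores.normalizer_le_normalizer_map_subtype N (pResidual 2 ↥N))
  have hEU : ∀ z : ↥(G1 E), (z : G) ∈ Eb → D.Φ z = 1 → (z : G) ∈ Ui := by
    intro z hz hz1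
    obtain ⟨z', hz', e⟩ := hz
    have h1 := hRker (π z') (CfsgLib.Transfer.pResidual_le_of_isPGroup hq hz') (by
      rw [hφH, ← hz1]
      exact congrArg D.Φ (Subtype.ext e))
    rw [← e]
    exact Subgroup.mem_subgroupOf.1 ((QuotientGroup.eq_one_iff z').1 h1)
  set φE : ↥Eb →* Perm (Fin (2 ^ n + 1)) := D.Φ.comp (Subgroup.inclusion hEG0) with hφE
  have hRange : φE.range = alternatingGroup (Fin (2 ^ n + 1)) := by
    refine le_antisymm ?_ ?_
    · have hle : pResidual 2 ↥N ≤ (alternatingGroup (Fin (2 ^ n + 1))).comap φN := by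
        rw [pResidual, Subgroup.closure_le]
        intro g hg
        show φN g ∈ alternatingGroup _
        rw [Perm.mem_alternatingGroup]
        obtain ⟨c, hc⟩ : ∃ c, orderOf g = 2 * c + 1 := Nat.odd_iff.2 (by
          have := (Nat.Coprime.symm hg : Nat.Coprime 2 (orderOf g))
          rcases Nat.mod_two_eq_zero_or_one (orderOf g) with h0 | h0
          · exact absurd (Nat.dvd_of_mod_eq_zero h0) ((Nat.prime_two.coprime_iff_not_dvd).1 this)
          · exact h0)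
        have h1 : Perm.sign (φN g) ^ (2 * c + 1) = 1 := by rw [← map_pow, ← map_pow, ← hc, pow_orderOf_eq_one, map_one, map_one]
        rwa [pow_succ, pow_mul, Int.units_sq, one_pow, one_mul] at h1
      rintro _ ⟨⟨e, g, hg, rfl⟩, rfl⟩
      exact hle hg
    · rw [← Perm.closure_three_cycles_eq_alternating, Subgroup.closure_le]
      intro σ hσ
      obtain ⟨g, rfl⟩ := hφs σ
      obtain ⟨j, hj⟩ := CfsgLib.Transfer.exists_pow_mem_pResidual (p := 2) g
      have h1 : (φN g) ^ 2 ^ j ∈ φE.range := ⟨⟨_, _, hj, rfl⟩, by rw [← map_pow]; rfl⟩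
      obtain ⟨c, hc⟩ := exists_pow_eq_self_of_coprime (x := φN g) (n := 2 ^ j)
        (by rw [(hσ : (φN g).IsThreeCycle).orderOf]; exact (show Nat.Coprime 2 3 by norm_num).pow_left j)
      exact hc ▸ pow_mem h1 c
  have hEne : ∃ e : ↥Eb, φE e p0 ≠ p0 := by
    obtain ⟨σ, hσ, e⟩ := Loc.exists_even_map hm3 k0 p0
    obtain ⟨g, hg⟩ := hRange.ge hσ
    exact ⟨g, by rw [hg, e]; exact hk0⟩
  have hnotC : ¬ Eb ≤ CG G 2 := fun hle => by
    obtain ⟨e, he⟩ := hEne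
    exact he (by rw [show φE e = 1 from (D.kerΦ _).2 (Subgroup.mem_sup_right (hle e.2))]; rfl)
  -- `U_i ≤ E`
  have hEUn : E i ≤ Subgroup.normalizer (Ui : Set G) := fun e he =>
    Subgroup.mem_normalizer_fintype fun u hu => hE.G1_le_normalizer_moves (hEG he) hu
  have hEnE : E i ≤ Subgroup.normalizer (Eb : Set G) := hEG.trans hEn
  set XU := ⁅Ui, Eb⁆ with hXU
  have hXUi : XU ≤ Ui := CoprimeAction.commutator_le_left (hEE.trans hEUn)
  have hXn : E i ≤ Subgroup.normalizer (XU : Set G) := fun e he =>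
    TwoGroupTricks.normalizer_le_normalizer_commutator_left (hEnE he) (hEUn he)
  have hUX : Ui ≤ XU := by
    rcases hE.le_Wc_or i (hXUi.trans hUV) hXn with h1 | h1
    · exfalso
      refine hnotC fun g hg => hE.inf_Kc i (Subgroup.mem_inf.2 ⟨hEE hg, hE.mem_Kc (hEG0 hg) fun v hv => ?_⟩)
      have h2 := inv_mem (h1 (Subgroup.commutator_mem_commutator hv hg))
      rw [commutatorElement_inv, commutatorElement_def] at h2
      exact h2
    · rw [hUi, Subgroup.commutator_le]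
      intro v hv e he
      have hv' : v ∈ ((XU ⊔ Wc G 2 E i : Subgroup G) : Set G) := h1.ge hv
      rw [Subgroup.coe_mul_of_left_le_normalizer_right _ _ (fun a ha => Subgroup.mem_normalizer_fintype fun b hb => by
        rw [hVcomm a (hUV (hXUi ha)) b hb.1, mul_inv_cancel_right]; exact hb)] at hv'
      obtain ⟨a, ha, w, hw, rfl⟩ := hv'
      have hwe : w * e = e * w := (Subgroup.mem_centralizer_iff.1 hw.2 e he).symm
      have e1 : ⁅a * w, e⁆ = a * (e * a⁻¹ * e⁻¹) := by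
        rw [commutatorElement_def, mul_assoc a w e, hwe]; group
      show ⁅a * w, e⁆ ∈ XU
      rw [e1]
      exact mul_mem ha ((Subgroup.mem_normalizer_iff.1 (hXn he) _).1 (inv_mem ha))
  have hUE : Ui ≤ Eb := hUX.trans (by
    rw [hXU, Subgroup.commutator_comm]; exact CoprimeAction.commutator_le_left ((hUV.trans hVE).trans hEnE))
  have hUUE : ⁅Ui, Eb⁆ = Ui := le_antisymm hXUi hUX
  -- the core
  have hUp : IsPGroup 2 Ui :=
    (CfsgLib.Cores.isPGroup_pCore 2 G).to_le (hUV.trans (VG_le.trans inf_le_left))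
  have hcore : pCoreOf 2 Eb = Ui := by
    refine le_antisymm (fun z hz => ?_) ((le_inf le_rfl hUE).trans
      (TwoGroupTricks.inf_le_pCoreOf hUp (hEE.trans hEUn)))
    have hzE : z ∈ Eb := Subgroup.map_subtype_le _ hz
    set P := pCoreOf 2 Eb with hP
    have hPn : G1 E ≤ Subgroup.normalizer (P : Set G) :=
      hEn.trans (Cores.normalizer_le_normalizer_map_subtype Eb (pCore 2 ↥Eb))
    haveI : ((P.subgroupOf (G1 E)).map D.Φ).Normal := ⟨by
      rintro _ ⟨y, hy, rfl⟩ σ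
      obtain ⟨g, rfl⟩ := hφs σ
      refine ⟨⟨g, hNG g.2⟩ * y * ⟨g, hNG g.2⟩⁻¹, (Subgroup.mem_normalizer_iff.1 (hPn (hNG g.2)) _).1 hy, ?_⟩
      rw [map_mul, map_mul, map_inv]; rfl⟩
    have hbot := Loc.normal_two_eq_bot hodd (N := (P.subgroupOf (G1 E)).map D.Φ)
      ((((CfsgLib.Cores.isPGroup_pCore 2 ↥Eb).map Eb.subtype : IsPGroup 2 P).comap_of_injective _
        (G1 E).subtype_injective).map _)
    exact hEU ⟨z, hEG0 hzE⟩ hzE ((Subgroup.eq_bot_iff_forall _).1 hbot _ ⟨⟨z, hEG0 hzE⟩, hz, rfl⟩)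
  have hW : omegaOneCenter 2 (pCoreOf 2 Eb) = Ui := by
    rw [hcore]
    refine le_antisymm ((TwoGroupTricks.omegaOneCenter_le _).trans inf_le_left) fun u hu => ?_
    exact ThompsonJ.mem_omegaOne ⟨hu, Subgroup.mem_centralizer_iff.2 fun v hv => hVcomm v (hUV hv) u (hUV hu)⟩
      ((ThompsonJ.isElementaryAbelian_iff.1 (VG_elem (G := G) (p := 2))).2 u (hUV hu))
  have hEker : ∀ z : ↥Eb, φE z = 1 ↔ z ∈ pCore 2 ↥Eb := fun z => by
    rw [← Subgroup.mem_map_iff_mem Eb.subtype_injective]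
    show _ ↔ (z : G) ∈ pCoreOf 2 Eb
    rw [hcore]
    exact ⟨hEU _ z.2, fun hz => (D.kerΦ _).2 (Subgroup.mem_sup_right (pCore_le_CG ((VG_le (hUV hz)).1)))⟩
  let θ : ↥Eb ⧸ pCore 2 ↥Eb ≃* ↥(alternatingGroup (Fin (2 ^ n + 1))) :=
    (QuotientGroup.quotientMulEquivOfEq (Subgroup.ext fun x => (hEker x).symm : pCore 2 ↥Eb = φE.ker)).trans
      ((QuotientGroup.quotientKerEquivRange φE).trans (MulEquiv.subgroupCongr hRange))
  -- commutators with `B(T)`
  have hEB : ⁅Eb, B⁆ = Eb := by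
    have hBn : B ≤ Subgroup.normalizer (Eb : Set G) := (baumann_le_G1 h hM hE).trans hEn
    refine le_antisymm (CoprimeAction.commutator_le_left hBn) ?_
    set X := ⁅Eb, B⁆ with hX
    have hXle : X ≤ Eb := CoprimeAction.commutator_le_left hBn
    set ΦX := (X.subgroupOf (G1 E)).map D.Φ with hΦX
    have hXne : Eb ≤ Subgroup.normalizer (X : Set G) := Subgroup.normalizer_commutator_ge_left Eb B
    have hXnB : B ≤ Subgroup.normalizer (X : Set G) := Subgroup.normalizer_commutator_ge_right Eb B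
    set u0 := pu ⟨k0, hk0⟩
    have hconjX : ∀ y : ↥(G1 E), (y : G) ∈ Subgroup.normalizer (X : Set G) →
        D.Φ y ∈ Subgroup.normalizer (ΦX : Set (Perm (Fin (2 ^ n + 1)))) := fun y hy =>
      Subgroup.mem_normalizer_fintype fun σ hσ => by
        obtain ⟨x, hx, rfl⟩ := hσ
        exact ⟨y * x * y⁻¹, (Subgroup.mem_normalizer_iff.1 hy _).1 hx, by rw [map_mul, map_mul, map_inv]⟩
    haveI : ΦX.Normal := by
      rw [← Subgroup.normalizer_eq_top_iff, Subgroup.eq_top_iff']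
      intro σ
      rcases Int.units_eq_one_or (Perm.sign σ) with hs | hs
      · obtain ⟨e, rfl⟩ := hRange.ge (Perm.mem_alternatingGroup.2 hs)
        exact hconjX (Subgroup.inclusion hEG0 e) (hXne e.2)
      · obtain ⟨e, he⟩ := hRange.ge (show σ * D.Φ u0 ∈ alternatingGroup _ by
          rw [Perm.mem_alternatingGroup, map_mul, hs, hpuΦ ⟨k0, hk0⟩, Perm.sign_swap (hS.ne k0 hk0).symm]; rfl)
        have h1 := mul_mem (hconjX (Subgroup.inclusion hEG0 e) (hXne e.2)) (inv_mem (hconjX u0 (hXnB (hpuB ⟨k0, hk0⟩))))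
        rw [show D.Φ (Subgroup.inclusion hEG0 e) = σ * D.Φ u0 from he, mul_inv_cancel_right] at h1
        exact h1
    have hk' := hτp k0 hk0
    set σ3 := swap p0 k0 * swap p0 (τ k0) with hσ3
    have h3c : σ3.IsThreeCycle := Perm.isThreeCycle_swap_mul_swap_same hk0.symm hk'.symm (hS.ne k0 hk0).symm
    obtain ⟨e, he⟩ := hRange.ge h3c.mem_alternatingGroup
    have hmem : σ3 * D.Φ u0 * σ3⁻¹ * (D.Φ u0)⁻¹ ∈ ΦX := by
      refine ⟨⁅Subgroup.inclusion hEG0 e, u0⁆, Subgroup.commutator_mem_commutator e.2 (hpuB ⟨k0, hk0⟩), ?_⟩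
      rw [map_commutatorElement, commutatorElement_def, show D.Φ (Subgroup.inclusion hEG0 e) = σ3 from he]
    have h3 : (σ3 * D.Φ u0 * σ3⁻¹ * (D.Φ u0)⁻¹).IsThreeCycle := by
      have a1 : σ3 k0 = p0 := by
        rw [hσ3, Perm.mul_apply, swap_apply_of_ne_of_ne hk0 (hS.ne k0 hk0).symm, swap_apply_right]
      have a2 : σ3 (τ k0) = k0 := by rw [hσ3, Perm.mul_apply, swap_apply_right, swap_apply_left]
      rw [hpuΦ ⟨k0, hk0⟩, ← swap_apply_apply, a1, a2, swap_inv, swap_comm p0 k0]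
      exact Perm.isThreeCycle_swap_mul_swap_same hk0 (hS.ne k0 hk0).symm hk'.symm
    have hA := Loc.alternating_le_of_threeCycle h3 hmem
    have hcov : ∀ e ∈ Eb, ∃ x ∈ X, x⁻¹ * e ∈ Ui := fun e he' => by
      obtain ⟨x, hx, ex⟩ := hA (hRange.le ⟨⟨e, he'⟩, rfl⟩)
      refine ⟨x, hx, hEU (x⁻¹ * ⟨e, hEG0 he'⟩) (mul_mem (inv_mem (hXle hx)) he') ?_⟩
      rw [map_mul, map_inv, ex]; exact inv_mul_cancel _
    have hUX' : Ui ≤ X := by
      rw [← hUUE, Subgroup.commutator_le]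
      intro v hv e he'
      obtain ⟨x, hx, hw⟩ := hcov e he'
      have h1 : ⁅v, e⁆ = ⁅v, x⁆ := by
        have hw' := hVcomm v (hUV hv) _ (hUV hw)
        calc ⁅v, e⁆ = v * x * (x⁻¹ * e) * v⁻¹ * (x⁻¹ * e)⁻¹ * x⁻¹ := by rw [commutatorElement_def]; group
          _ = v * x * ((x⁻¹ * e) * v⁻¹ * (x⁻¹ * e)⁻¹) * x⁻¹ := by group
          _ = _ := by
            rw [← hVcomm v⁻¹ (inv_mem (hUV hv)) _ (hUV hw), mul_inv_cancel_right, commutatorElement_def]
      rw [h1, commutatorElement_def, mul_assoc, mul_assoc]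
      refine (show v * (x * (v⁻¹ * x⁻¹)) ∈ X from ?_)
      rw [← mul_assoc, ← mul_assoc]
      exact mul_mem ((Subgroup.mem_normalizer_iff.1 (hXne (hUE hv)) x).1 hx) (inv_mem hx)
    intro e he'
    obtain ⟨x, hx, hw⟩ := hcov e he'
    simpa using mul_mem hx (hUX' hw)
  -- the point stabilizer centralizes `Ω₁(Z(T))`
  have hstab : ∀ e : ↥Eb, φE e p0 = p0 → (e : G) ∈ Subgroup.centralizer (omegaOneCenter 2 (T : Subgroup G) : Set G) := by
    intro e he
    refine Subgroup.mem_centralizer_iff.2 fun z hz => ?_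
    have hzV := ZT_le_VG h hz
    set zz := Multiplicative.toAdd (D.Ψ ⟨z, hzV⟩) with hzz
    have hconst : ∀ k l, k ≠ p0 → l ≠ p0 → zz k = zz l := by
      intro k l hk hl
      obtain ⟨t, ht, et⟩ := hS.trans k l hk hl
      have htz : (t : G) * z * (t : G)⁻¹ = z := by
        rw [(ThompsonJ.omegaOne_le 2 _ hz).2 t ht, mul_inv_cancel_right]
      have h1 := D.equiv t ⟨z, hzV⟩ ⟨z, hzV⟩ htz.symm l
      show Multiplicative.toAdd (D.Ψ ⟨z, hzV⟩) k = Multiplicative.toAdd (D.Ψ ⟨z, hzV⟩) l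
      refine (h1.trans ?_).symm
      rw [← et, Perm.inv_def, Equiv.symm_apply_apply]
    have heven : ∀ c : ZMod 2, (2 ^ n) • c = 0 := fun c => by
      rw [show 2 ^ n = 2 * 2 ^ (n - 1) by rw [← pow_succ']; congr 1; omega, mul_smul, two_smul]
      exact CharTwo.add_self_eq_zero _
    have hz0 : zz p0 = 0 := by
      have h1 : ∑ k, zz k = 0 := D.even _
      rw [← Finset.add_sum_erase _ _ (Finset.mem_univ p0),
        Finset.sum_congr rfl (fun k hk => hconst k k0 (Finset.ne_of_mem_erase hk) hk0), Finset.sum_const,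
        Finset.card_erase_of_mem (Finset.mem_univ p0), Finset.card_univ, Fintype.card_fin,
        Nat.add_sub_cancel] at h1
      rwa [heven, add_zero] at h1
    have hfix : ∀ σ : Perm (Fin (2 ^ n + 1)), σ p0 = p0 → ∀ l, zz (σ⁻¹ l) = zz l := fun σ hσ l => by
      rcases eq_or_ne l p0 with rfl | hl
      · rw [show σ⁻¹ l = l by rw [Perm.inv_def, Equiv.symm_apply_eq]; exact hσ.symm]
      · exact hconst _ _ (fun e1 => hl (by rw [← hσ, ← e1]; simp)) hl
    have hw : ∀ g : ↥Eb, φE g p0 = p0 → (g : G) * z * (g : G)⁻¹ * z⁻¹ ∈ Ui ⊓ Wc G 2 E i := fun g hg => by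
      have hV' : (g : G) * z * (g : G)⁻¹ ∈ VG G 2 := VG_normal.conj_mem _ hzV _
      refine Subgroup.mem_inf.2 ⟨?_, ?_⟩
      · have h1 := inv_mem (Subgroup.commutator_mem_commutator hzV (hEE g.2))
        rw [commutatorElement_inv, commutatorElement_def] at h1
        exact h1
      · refine (D.kerΨ (⟨_, hV'⟩ * ⟨z, hzV⟩⁻¹)).1 (Multiplicative.toAdd.injective (funext fun l => ?_))
        rw [map_mul, toAdd_mul, Pi.add_apply, D.equiv ⟨g, hEG0 g.2⟩ ⟨z, hzV⟩ ⟨_, hV'⟩ rfl l, map_inv,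
          toAdd_inv, Pi.neg_apply]
        show zz ((φE g)⁻¹ l) + -zz l = 0
        rw [hfix _ hg l, add_neg_cancel]
    let Cz : Subgroup G := Subgroup.centralizer {z}
    suffices hsuff : (e : G) ∈ Cz from (Subgroup.mem_centralizer_singleton_iff.1 hsuff).symm
    have hCzU : Ui ≤ Cz := fun v hv => Subgroup.mem_centralizer_singleton_iff.2 (hVcomm v (hUV hv) z hzV)
    obtain ⟨π', hπ', hπe⟩ := (Loc.mem_stab_alternating (p0 := p0) (σ := φE e)).2
      ⟨hRange.le ⟨e, rfl⟩, he⟩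
    suffices hgen : (alternatingGroup (Fin (2 ^ n))).map (Loc.stabEmb p0) ≤ ((Cz.subgroupOf Eb).map φE) by
      obtain ⟨g, hg, eg⟩ := hgen ⟨π', hπ', hπe⟩
      have h1 : (g : G)⁻¹ * e ∈ Ui := hEU ((Subgroup.inclusion hEG0 g)⁻¹ * Subgroup.inclusion hEG0 e)
        (mul_mem (inv_mem g.2) e.2) (by rw [map_mul, map_inv]; exact inv_mul_eq_one.2 eg)
      have := mul_mem (Subgroup.mem_subgroupOf.1 hg) (hCzU h1)
      rwa [show ((g : ↥Eb) : G) * ((g : G)⁻¹ * e) = e from mul_inv_cancel_left _ _] at this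
    rw [← Perm.closure_three_cycles_eq_alternating, MonoidHom.map_closure, Subgroup.closure_le]
    rintro _ ⟨c, hc, rfl⟩
    have hσm := (Loc.mem_stab_alternating (p0 := p0)).1 ⟨c, (Perm.IsThreeCycle.mem_alternatingGroup hc), rfl⟩
    obtain ⟨g, hg⟩ := hRange.ge hσm.1
    refine ⟨g, ?_, hg⟩
    show (g : G) ∈ Cz
    refine Subgroup.mem_centralizer_singleton_iff.2 ?_
    set w := (g : G) * z * (g : G)⁻¹ * z⁻¹ with hwdef
    have hgfix : φE g p0 = p0 := by rw [hg]; exact hσm.2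
    obtain ⟨hwU, hwW⟩ := Subgroup.mem_inf.1 (hw g hgfix)
    have hgw : (g : G) * w = w * g := (Subgroup.mem_centralizer_iff.1 hwW.2 g (hEE g.2))
    have h3 : φE g ^ 3 = 1 := by
      rw [hg, ← map_pow, show c ^ 3 = 1 by rw [← (hc : c.IsThreeCycle).orderOf]; exact pow_orderOf_eq_one c, map_one]
    have hg3 : (g : G) ^ 3 ∈ Cz := by
      have h4 := hEU (Subgroup.inclusion hEG0 (g ^ 3)) (g ^ 3).2 (by
        rw [show D.Φ (Subgroup.inclusion hEG0 (g ^ 3)) = φE (g ^ 3) from rfl, map_pow]; exact h3)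
      exact hCzU (show ((g ^ 3 : ↥Eb) : G) ∈ Ui from h4)
    have hit : (g : G) ^ 3 * z * ((g : G) ^ 3)⁻¹ = w ^ 3 * z := by
      have hw2 : (g : G) * w ^ 2 = w ^ 2 * g := ((show Commute (g : G) w from hgw).pow_right 2).eq
      calc (g : G) ^ 3 * z * ((g : G) ^ 3)⁻¹ = g * (g * ((g : G) * z * (g : G)⁻¹) * (g : G)⁻¹) * (g : G)⁻¹ := by
            rw [pow_succ, pow_two]; group
        _ = g * (g * (w * z) * (g : G)⁻¹) * (g : G)⁻¹ := by rw [hwdef, inv_mul_cancel_right]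
        _ = g * (w * ((g : G) * z * (g : G)⁻¹)) * (g : G)⁻¹ := by rw [← mul_assoc (g : G) w z, hgw]; group
        _ = g * (w * (w * z)) * (g : G)⁻¹ := by rw [hwdef, inv_mul_cancel_right]
        _ = w ^ 2 * ((g : G) * z * (g : G)⁻¹) := by rw [← mul_assoc w w z, ← pow_two, ← mul_assoc (g : G), hw2]; group
        _ = w ^ 2 * (w * z) := by rw [hwdef, inv_mul_cancel_right]
        _ = _ := by rw [← mul_assoc, ← pow_succ]
    rw [Subgroup.mem_centralizer_singleton_iff.1 hg3, mul_inv_cancel_right, eq_comm, mul_eq_right] at hit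
    have hw1 : w = 1 := by
      rw [pow_succ, pow_two, hVexp w (hUV hwU), one_mul] at hit
      exact hit
    exact mul_inv_eq_iff_eq_mul.1 (mul_inv_eq_one.1 hw1)
  have hcS : ∀ e : ↥Eb, (e : G) ∈ cStarOf 2 (T : Subgroup G) ↔ φE e p0 = p0 := fun e =>
    ⟨fun he => hS.fix_of_mem h hM hE (cStar_le h hM he), fun he => (le_sup_left : _ ≤ cStarOf 2 (T : Subgroup G)) (hstab e he)⟩
  have hρker : ∀ u : ↥Ui, D.Ψ ⟨u, hUV u.2⟩ = 1 ↔ (u : G) ∈ Ui ⊓ Subgroup.centralizer (Eb : Set G) := fun u => by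
    constructor
    · intro hu
      exact Subgroup.mem_inf.2 ⟨u.2, Subgroup.centralizer_le hEE ((D.kerΨ _).1 hu).2⟩
    · intro hu
      have hc : ∀ a b, Multiplicative.toAdd (D.Ψ ⟨u, hUV u.2⟩) a = Multiplicative.toAdd (D.Ψ ⟨u, hUV u.2⟩) b := by
        intro a b
        obtain ⟨σ, hσ, e⟩ := Loc.exists_even_map hm3 a b
        obtain ⟨g, hg⟩ := hRange.ge hσ
        have hgu : (u : G) = (g : G) * u * (g : G)⁻¹ := by
          rw [Subgroup.mem_centralizer_iff.1 (Subgroup.mem_inf.1 hu).2 g g.2, mul_inv_cancel_right]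
        have h1 := D.equiv ⟨g, hEG0 g.2⟩ ⟨u, hUV u.2⟩ ⟨u, hUV u.2⟩ hgu a
        rw [show D.Φ ⟨g, hEG0 g.2⟩ = σ from hg] at h1
        rw [h1, ← e]
        simp
      have h0 : ∑ k, Multiplicative.toAdd (D.Ψ ⟨u, hUV u.2⟩) k = 0 := D.even _
      rw [Finset.sum_congr rfl (fun k _ => hc k p0), Finset.sum_const, Finset.card_univ, Fintype.card_fin,
        add_smul, one_smul] at h0
      have heven : ∀ c : ZMod 2, (2 ^ n) • c = 0 := fun c => by
        rw [show 2 ^ n = 2 * 2 ^ (n - 1) by rw [← pow_succ']; congr 1; omega, mul_smul, two_smul]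
        exact CharTwo.add_self_eq_zero _
      rw [heven, zero_add] at h0
      exact Multiplicative.toAdd.injective (funext fun k => (hc k p0).trans h0)
  have hdeg : 2 * 2 ^ (n - 1) = 2 ^ n := by rw [← pow_succ']; congr 1; omega
  refine ⟨Eb, ⟨?_, hEB, ?_, fun e => ?_, Or.inr ⟨rfl, 2 ^ (n - 1), ⟨θ.trans (Loc.altCongr (by omega))⟩, ?_, ?_⟩⟩,
    hEE, hEnE, hnotC, fun hle => hEne.elim fun g hg => hg (hS.fix_of_mem h hM hE (hle g.2)), fun e he ⟨w, hw, hk⟩ => ?_, Or.inr (Or.inl ⟨rfl, 2 ^ (n - 1),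
      ⟨θ.trans (Loc.altCongr (by omega))⟩, ?_⟩), fun m' ⟨θ'⟩ => ⟨n, Loc.degree_eq hm3 (θ.symm.trans θ')⟩⟩
  · haveI := CfsgLib.Transfer.pResidual_normal (G := ↥N) (p := 2)
    refine le_antisymm (Subgroup.map_subtype_le _) ?_
    rintro _ ⟨g, hg, rfl⟩
    have h1 : (⟨g, hg⟩ : ↥(pResidual 2 ↥N)) ∈ pResidual 2 ↥(pResidual 2 ↥N) := by
      rw [CfsgLib.Transfer.pResidual_pResidual]; exact Subgroup.mem_top _
    let f : ↥(pResidual 2 ↥N) →* ↥Eb :=
      { toFun := fun y => ⟨(y : ↥N), (y : ↥N), y.2, rfl⟩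
        map_one' := rfl
        map_mul' := fun _ _ => rfl }
    exact ⟨f ⟨g, hg⟩, CfsgLib.Transfer.map_pResidual_le f ⟨_, h1, rfl⟩, rfl⟩
  · rw [hcore]; exact hUUE
  · obtain ⟨g, hg⟩ := hEne
    exact hg (hS.fix_of_mem h hM hE
      (centralizer_ZT_le h hM (Subgroup.commutator_eq_bot_iff_le_centralizer.1 e g.2)))
  · rw [hW]
    have hgen : ∀ (N' : ℕ) (he : N' = 2 ^ n + 1), ActsAsOddPermModuleOnSection N' (alternatingGroup (Fin N')) Eb Ui
        (Ui ⊓ Subgroup.centralizer (Eb : Set G)) := by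
      rintro N' rfl
      refine ⟨hEE.trans hEUn, inf_le_left, φE, D.Ψ.comp (Subgroup.inclusion hUV), hRange,
        fun u => D.even _, fun v hv => ?_, hρker, fun g u => ?_⟩
      · obtain ⟨w, hw, e⟩ := D.surjΨ v hv
        exact ⟨⟨w, hw⟩, e⟩
      · exact ⟨⟨_, (Subgroup.mem_normalizer_iff.1 (hEUn (hEE g.2)) u).1 u.2⟩, rfl,
          D.equiv ⟨g, hEG0 g.2⟩ ⟨u, hUV u.2⟩ ⟨_, _⟩ rfl⟩
    exact hgen _ (by omega)
  · rw [hW]; exact hcore
  · refine (hcS ⟨e, he⟩).2 ?_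
    have h1 := (D.kerΦ ((⟨w, hw.2⟩ : ↥(G1 E))⁻¹ * (⟨e, hEG0 he⟩ : ↥(G1 E)))).2 hk
    rw [map_mul, map_inv, inv_mul_eq_one] at h1
    show D.Φ ⟨e, hEG0 he⟩ p0 = p0
    rw [← h1]
    exact hS.fix_of_mem h hM hE (g := ⟨w, hw.2⟩) hw.1
  · set Q := ((cStarOf 2 (T : Subgroup G) ⊓ Eb).subgroupOf Eb).map (QuotientGroup.mk' (pCore 2 ↥Eb))
    let θ'' : ↥Eb ⧸ pCore 2 ↥Eb →* Perm (Fin (2 ^ n + 1)) := (Subgroup.subtype _).comp θ.toMonoidHom
    have hθ : ∀ x : ↥Eb, θ'' (QuotientGroup.mk x) = φE x := fun x => rfl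
    have hinj : Function.Injective θ'' := (Subgroup.subtype_injective _).comp θ.injective
    have himg : Q.map θ'' = (alternatingGroup (Fin (2 ^ n))).map (Loc.stabEmb p0) := by
      apply Subgroup.ext
      intro σ
      rw [Loc.mem_stab_alternating]
      constructor
      · rintro ⟨_, ⟨x, hx, rfl⟩, rfl⟩
        exact ⟨hRange.le ⟨x, rfl⟩, (hcS x).1 (Subgroup.mem_inf.1 hx).1⟩
      · rintro ⟨hσ, hp⟩
        obtain ⟨x, rfl⟩ := hRange.ge hσ
        exact ⟨_, ⟨x, Subgroup.mem_inf.2 ⟨(hcS x).2 hp, x.2⟩, rfl⟩, rfl⟩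
    exact ⟨((Subgroup.equivMapOfInjective Q θ'' hinj).trans (MulEquiv.subgroupCongr himg)).trans
      (((Subgroup.equivMapOfInjective _ _ (Loc.stabEmb_injective p0)).symm).trans (Loc.altCongr hdeg.symm))⟩

end CfsgLib.FFModules.PushUpBlocks
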