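import Mathlib.GroupTheory.SpecificGroups.Alternating
import Mathlib.GroupTheory.PGroup
import Mathlib.LinearAlgebra.Matrix.ProjectiveSpecialLinearGroup
import Cfsg.Agent.Lib.SL2.Card

/-!
Facts on symmetric groups for the symmetric components.
-/

set_option autoImplicit false
set_option linter.unusedSectionVars false

namespace CfsgLib.FFModules.PushUpBlocks.Loc

open Equiv
open scoped MatrixGroups

/-- `PSL₂(2)` is the symmetric group of degree three. -/
theorem psl2_two : Nonempty (Perm (Fin 3) ≃* Matrix.ProjectiveSpecialLinearGroup (Fin 2) (ZMod 2)) := by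
  let P := {v : Fin 2 → ZMod 2 // v ≠ 0}
  let act : SL(2, ZMod 2) → (Fin 2 → ZMod 2) → (Fin 2 → ZMod 2) := fun g v =>
    Matrix.mulVec (g : Matrix (Fin 2) (Fin 2) (ZMod 2)) v
  have hmul : ∀ a b v, act (a * b) v = act a (act b v) := fun a b v => by
    simp only [act, Matrix.SpecialLinearGroup.coe_mul, Matrix.mulVec_mulVec]
  have hone : ∀ v, act 1 v = v := fun v => by
    simp only [act, Matrix.SpecialLinearGroup.coe_one, Matrix.one_mulVec]
  have hne : ∀ g v, v ≠ 0 → act g v ≠ 0 := fun g v hv e => hv (by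
    rw [← hone v, ← inv_mul_cancel g, hmul, e]
    exact Matrix.mulVec_zero _)
  let f : SL(2, ZMod 2) →* Perm P := MonoidHom.mk' (fun g =>
      { toFun := fun v => ⟨act g v.1, hne g v.1 v.2⟩
        invFun := fun v => ⟨act g⁻¹ v.1, hne g⁻¹ v.1 v.2⟩
        left_inv := fun v => Subtype.ext (show act g⁻¹ (act g v.1) = v.1 by rw [← hmul, inv_mul_cancel, hone])
        right_inv := fun v => Subtype.ext (show act g (act g⁻¹ v.1) = v.1 by rw [← hmul, mul_inv_cancel, hone]) })
    fun a b => Equiv.ext fun v => Subtype.ext (hmul a b v.1)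
  have hinj : Function.Injective f := by
    intro a b e
    refine Subtype.ext (Matrix.ext fun i j => ?_)
    have h := congrArg Subtype.val (Equiv.congr_fun e ⟨Pi.single j 1, fun h => one_ne_zero (α := ZMod 2)
      (by simpa using congrFun h j)⟩)
    have h2 := congrFun (show (a : Matrix (Fin 2) (Fin 2) (ZMod 2)).mulVec (Pi.single j 1) =
      (b : Matrix (Fin 2) (Fin 2) (ZMod 2)).mulVec (Pi.single j 1) from h) i
    simpa using h2
  have hcard : Nat.card SL(2, ZMod 2) = Nat.card (Perm P) := by
    rw [CfsgLib.SL2.card_SL, Nat.card_zmod, Nat.card_eq_fintype_card, Fintype.card_perm]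
    decide
  let e : SL(2, ZMod 2) ≃* Perm P :=
    MulEquiv.ofBijective f ((Nat.bijective_iff_injective_and_card f).2 ⟨hinj, hcard⟩)
  have hP : Fintype.card P = 3 := by decide
  let e3 : SL(2, ZMod 2) ≃* Perm (Fin 3) := e.trans (Fintype.equivFinOfCardEq hP).permCongrHom
  have hc : Subgroup.center SL(2, ZMod 2) = ⊥ := (Subgroup.eq_bot_iff_forall _).2 fun z hz => by
    refine e3.injective ?_
    rw [map_one]
    refine (by decide : ∀ z : Perm (Fin 3), (∀ g, g * z = z * g) → z = 1) _ fun g => ?_
    obtain ⟨g, rfl⟩ := e3.surjective g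
    rw [← map_mul, ← map_mul, Subgroup.mem_center_iff.1 hz g]
  exact ⟨(e3.symm.trans (QuotientGroup.quotientBot (G := SL(2, ZMod 2))).symm).trans
    (QuotientGroup.quotientMulEquivOfEq hc.symm)⟩

/-- A transposition and an element moving the remaining point generate the symmetric group of degree three. -/
theorem three_gen {H : Subgroup (Perm (Fin 3))} (hs : swap 1 2 ∈ H) {σ : Perm (Fin 3)} (hσ : σ ∈ H)
    (h0 : σ 0 ≠ 0) : H = ⊤ := by
  refine (Subgroup.eq_top_iff' H).2 fun π => ?_
  have key : ∀ σ π : Perm (Fin 3), σ 0 ≠ 0 →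
      π ∈ [1, swap 1 2, σ, σ⁻¹, swap 1 2 * σ, σ * swap 1 2, swap 1 2 * σ * swap 1 2] := by decide
  have h := key σ π h0
  simp only [List.mem_cons, List.not_mem_nil, or_false] at h
  rcases h with rfl | rfl | rfl | rfl | rfl | rfl | rfl
  exacts [one_mem _, hs, hσ, inv_mem hσ, mul_mem hs hσ, mul_mem hσ hs, mul_mem (mul_mem hs hσ) hs]

variable {m : ℕ}

/-- Transpositions through one point generate. -/
theorem eq_top_of_star {H : Subgroup (Perm (Fin m))} {p0 : Fin m} (h : ∀ k, k ≠ p0 → swap p0 k ∈ H) :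
    H = ⊤ := by
  refine (Subgroup.eq_top_iff' H).2 fun σ => Perm.swap_induction_on σ (one_mem _) fun s u v huv hs => ?_
  refine mul_mem ?_ hs
  rcases eq_or_ne u p0 with rfl | hu
  · exact h v huv.symm
  rcases eq_or_ne v p0 with rfl | hv
  · rw [swap_comm]; exact h u hu
  have h3 := mul_mem (mul_mem (h u hu) (h v hv)) (inv_mem (h u hu))
  rwa [← swap_apply_apply, swap_apply_left, swap_apply_of_ne_of_ne hv huv.symm] at h3

/-- A normal subgroup with a three-cycle contains the alternating group. -/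
theorem alternating_le_of_threeCycle {N : Subgroup (Perm (Fin m))} [N.Normal] {σ : Perm (Fin m)}
    (hσ : σ.IsThreeCycle) (hmem : σ ∈ N) : alternatingGroup (Fin m) ≤ N := by
  rw [← Perm.closure_three_cycles_eq_alternating, Subgroup.closure_le]
  intro τ hτ
  obtain ⟨c, hc⟩ := isConj_iff.1 (Perm.isConj_iff_cycleType_eq.2 (hσ.trans (hτ : τ.IsThreeCycle).symm))
  rw [← hc]
  exact (inferInstance : N.Normal).conj_mem σ hmem c

/-- A normal `2`-subgroup of a symmetric group of odd degree is trivial. -/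
theorem normal_two_eq_bot (hodd : Odd m) {N : Subgroup (Perm (Fin m))} [N.Normal] (hN : IsPGroup 2 N) : N = ⊥ := by
  haveI : Fact (Nat.Prime 2) := ⟨Nat.prime_two⟩
  obtain ⟨a, ha⟩ := hN.nonempty_fixed_point_of_prime_not_dvd_card (Fin m)
    (by rw [Nat.card_eq_fintype_card, Fintype.card_fin]
        exact fun h2 => Nat.not_even_iff_odd.2 hodd (even_iff_two_dvd.2 h2))
  refine (Subgroup.eq_bot_iff_forall _).2 fun x hx => Equiv.ext fun k => ?_
  have h1 := ha ⟨_, (inferInstance : N.Normal).conj_mem x hx (swap a k)⟩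
  have h2 : (swap a k * x * (swap a k)⁻¹) a = a := h1
  rw [swap_inv, Perm.mul_apply, Perm.mul_apply, swap_apply_left] at h2
  rw [Perm.one_apply]
  refine (swap a k).injective ?_
  rw [h2, swap_apply_right]

/-- A three-cycle moving `b` to `a`. -/
theorem exists_even_map (hm : 3 ≤ m) (a b : Fin m) :
    ∃ σ ∈ alternatingGroup (Fin m), σ b = a := by
  rcases eq_or_ne a b with rfl | hab
  · exact ⟨1, one_mem _, rfl⟩
  obtain ⟨c, -, hc⟩ := Finset.exists_mem_notMem_of_card_lt_card
    (t := Finset.univ) (s := ({a, b} : Finset (Fin m)))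
    (lt_of_le_of_lt Finset.card_le_two (by simp; omega))
  simp at hc
  refine ⟨swap a c * swap b c, ?_, by rw [Perm.mul_apply, swap_apply_left, swap_apply_right]⟩
  rw [Perm.mem_alternatingGroup, map_mul, Perm.sign_swap (Ne.symm hc.1), Perm.sign_swap (Ne.symm hc.2)]
  decide

/-- The embedding of a symmetric group as a point stabilizer. -/
noncomputable def stabEmb {N : ℕ} (p0 : Fin (N + 1)) : Perm (Fin N) →* Perm (Fin (N + 1)) :=
  Perm.extendDomainHom (Fintype.equivFinOfCardEq (α := {k : Fin (N + 1) // k ≠ p0}) (by simp)).symm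

theorem stabEmb_injective {N : ℕ} (p0 : Fin (N + 1)) : Function.Injective (stabEmb p0) :=
  Perm.extendDomainHom_injective _

theorem mem_stab_alternating {N : ℕ} {p0 : Fin (N + 1)} {σ : Perm (Fin (N + 1))} :
    σ ∈ (alternatingGroup (Fin N)).map (stabEmb p0) ↔ σ ∈ alternatingGroup (Fin (N + 1)) ∧ σ p0 = p0 := by
  set f := (Fintype.equivFinOfCardEq (α := {k : Fin (N + 1) // k ≠ p0}) (n := N) (by simp)).symm
  have hfix : ∀ π : Perm (Fin N), π.extendDomain f p0 = p0 := fun π =>
    Perm.extendDomain_apply_not_subtype π f (by simp)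
  constructor
  · rintro ⟨π, hπ, rfl⟩
    exact ⟨by rw [Perm.mem_alternatingGroup]; exact (Perm.sign_extendDomain π f).trans hπ, hfix π⟩
  · rintro ⟨hσ, hp⟩
    have hiff : ∀ k, σ k ≠ p0 ↔ k ≠ p0 := fun k =>
      not_congr ⟨fun e => σ.injective (e.trans hp.symm), fun e => e ▸ hp⟩
    set s : Perm {k : Fin (N + 1) // k ≠ p0} := σ.subtypePerm hiff
    set π := f.symm.permCongr s with hπ
    have hext : π.extendDomain f = σ := Equiv.ext fun k => by
      rcases eq_or_ne k p0 with rfl | hk
      · rw [hfix, hp]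
      · rw [Perm.extendDomain_apply_subtype π f hk, hπ, Equiv.permCongr_apply]
        simp [s]
    refine ⟨π, ?_, hext⟩
    rw [SetLike.mem_coe, Perm.mem_alternatingGroup, ← Perm.sign_extendDomain π f, hext]
    exact hσ

/-- Alternating groups of equal degree. -/
def altCongr {a b : ℕ} (h : a = b) : ↥(alternatingGroup (Fin a)) ≃* ↥(alternatingGroup (Fin b)) :=
  h ▸ MulEquiv.refl _

/-- The degree of an alternating group is determined by its order. -/
theorem degree_eq {a b : ℕ} (ha : 3 ≤ a) (θ : ↥(alternatingGroup (Fin a)) ≃* ↥(alternatingGroup (Fin b))) :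
    b = a := by
  have h1 := Nat.card_congr θ.toEquiv
  rw [Nat.card_eq_fintype_card, Nat.card_eq_fintype_card] at h1
  haveI : Nontrivial (Fin a) := Fin.nontrivial_iff_two_le.2 (by omega)
  have h2 := two_mul_card_alternatingGroup (α := Fin a)
  rw [Fintype.card_perm, Fintype.card_fin] at h2
  rcases Nat.lt_or_ge b 2 with hb | hb
  · haveI : Subsingleton (Fin b) := Fin.subsingleton_iff_le_one.2 (by omega)
    haveI : Subsingleton (Perm (Fin b)) := ⟨fun x y => Equiv.ext fun i => Subsingleton.elim _ _⟩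
    have h4 : Fintype.card ↥(alternatingGroup (Fin b)) ≤ 1 := Fintype.card_le_one_iff_subsingleton.2 inferInstance
    have h5 : (3 : ℕ).factorial ≤ a.factorial := Nat.factorial_le ha
    have h6 : (3 : ℕ).factorial = 6 := rfl
    omega
  · haveI : Nontrivial (Fin b) := Fin.nontrivial_iff_two_le.2 hb
    have h3 := two_mul_card_alternatingGroup (α := Fin b)
    rw [Fintype.card_perm, Fintype.card_fin, ← h1, h2] at h3
    exact ((Nat.factorial_inj (show 1 < a by omega)).1 h3).symm

end CfsgLib.FFModules.PushUpBlocks.Loc
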