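import Cfsg.Agent.Lib.FFModules.PushUpBlocks.Linear
import Cfsg.Agent.Lib.FFModules.PushUpBlocks.SymLocal

/-!
The rank one pieces of a symmetric component.
-/

set_option autoImplicit false
set_option linter.unusedSectionVars false

universe u

namespace CfsgLib.FFModules.PushUpBlocks

open Cfsg Equiv
open CfsgLib.PushUp.RankOne (BlockData HasBlockData)
open scoped commutatorElement MatrixGroups

/-- The permutations preserving `{p₀, k, τ k}` and the other pairs. -/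
def pieceStab {m : ℕ} (τ : Perm (Fin m)) (hinv : ∀ x, τ (τ x) = x) (p0 k : Fin m) : Subgroup (Perm (Fin m)) where
  carrier := {σ | (∀ x, (x = p0 ∨ x = k ∨ x = τ k) ↔ (σ x = p0 ∨ σ x = k ∨ σ x = τ k)) ∧
    ∀ x, ¬ (x = p0 ∨ x = k ∨ x = τ k) → σ x = x ∨ σ x = τ x}
  one_mem' := ⟨fun _ => Iff.rfl, fun _ _ => Or.inl rfl⟩
  mul_mem' := fun {a b} ha hb => ⟨fun x => (hb.1 x).trans (ha.1 (b x)), fun x hx => by
    have h1 : ¬ (b x = p0 ∨ b x = k ∨ b x = τ k) := fun h => hx ((hb.1 x).2 h)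
    rw [Perm.mul_apply]
    rcases ha.2 _ h1 with e | e <;> rw [e] <;> rcases hb.2 x hx with e' | e' <;> rw [e']
    · exact Or.inl rfl
    · exact Or.inr rfl
    · exact Or.inr rfl
    · exact Or.inl (hinv x)⟩
  inv_mem' := fun {a} ha => ⟨fun x => by
      have h1 := ha.1 (a⁻¹ x)
      simp only [Perm.inv_def, Equiv.apply_symm_apply] at h1
      simpa only [Perm.inv_def] using h1.symm, fun x hx => by
    have h1 : ¬ (a⁻¹ x = p0 ∨ a⁻¹ x = k ∨ a⁻¹ x = τ k) := fun h => hx (by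
      have := (ha.1 (a⁻¹ x)).1 h
      simpa using this)
    rcases ha.2 _ h1 with e | e
    · simp at e; exact Or.inl e.symm
    · simp at e
      exact Or.inr (by
        have h2 := congrArg τ e
        rw [hinv] at h2
        simpa using h2.symm)⟩

variable {G : Type u} [Group G] [Finite G] [Fact (Nat.Prime 2)] {T : Sylow 2 G} {r : ℕ}
  {E : Fin r → Subgroup G} {M : Subgroup G} {i : Fin r} {m : ℕ} {D : SymData G 2 E i m} {p0 : Fin m}
  {τ : Perm (Fin m)}

/-- The image of `B(T)` consists of products of the pairs. -/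
theorem SymShape.upper_baumann (h : Hyp T) (hM : IsTop T M) (hE : Comps T E) (hS : SymShape T D p0 τ)
    (b : ↥(G1 E)) (hb : (b : G) ∈ baumannSubgroupOf 2 (T : Subgroup G)) (x : Fin m) :
    D.Φ b x = x ∨ D.Φ b x = τ x := by
  haveI := CfsgLib.FFModules.normal_pCore (p := 2) (G := G)
  obtain ⟨j, hj, q, hq, e⟩ := Subgroup.mem_sup_of_normal_right.1 (baumann_le_sup h hM hE hb)
  have hjG := thompson_le_G1 hE hj
  have h1 : D.Φ (⟨j, hjG⟩⁻¹ * b) = 1 := (D.kerΦ _).2 (Subgroup.mem_sup_right (pCore_le_CG (by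
    show j⁻¹ * (b : G) ∈ pCore 2 G
    rw [← e, inv_mul_cancel_left]; exact hq)))
  rw [map_mul, map_inv, inv_mul_eq_one] at h1
  rw [← h1]
  exact hS.upper _ hj x

/-- The image of `M ∩ G₁` fixes the point. -/
theorem SymShape.fix_of_mem (h : Hyp T) (hM : IsTop T M) (hE : Comps T E) (hS : SymShape T D p0 τ)
    {g : ↥(G1 E)} (hg : (g : G) ∈ M) : D.Φ g p0 = p0 := by
  by_contra hne
  set H := (M.subgroupOf (G1 E)).map D.Φ with hH
  have hT : ∀ t : ↥(G1 E), (t : G) ∈ (T : Subgroup G) → D.Φ t ∈ H := fun t ht => ⟨t, hM.le ht, rfl⟩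
  have hgH : D.Φ g ∈ H := ⟨g, hg, rfl⟩
  set l := (D.Φ g)⁻¹ p0 with hl
  have hlp : l ≠ p0 := fun e => hne (by rw [hl, Perm.inv_def, Equiv.symm_apply_eq] at e; exact e.symm)
  obtain ⟨a, ha, ea⟩ := hS.full (swap l (τ l)) fun x => by
    rcases eq_or_ne x l with rfl | h1
    · exact Or.inr (swap_apply_left _ _)
    rcases eq_or_ne x (τ l) with rfl | h2
    · exact Or.inr (by rw [swap_apply_right, hS.inv])
    exact Or.inl (swap_apply_of_ne_of_ne h1 h2)
  have h1 : swap p0 (D.Φ g (τ l)) ∈ H := by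
    have h2 := mul_mem (mul_mem hgH (ea ▸ hT a (Jc_le_T i ha))) (inv_mem hgH)
    rwa [← swap_apply_apply, hl, Perm.inv_def, Equiv.apply_symm_apply, ← Perm.inv_def, ← hl] at h2
  have hx : D.Φ g (τ l) ≠ p0 := fun e => hS.ne l hlp ((D.Φ g).injective (e.trans (by rw [hl]; simp)))
  have htop : H = ⊤ := Loc.eq_top_of_star (p0 := p0) fun y hy => by
    obtain ⟨t, ht, et⟩ := hS.trans _ y hx hy
    have h2 := mul_mem (mul_mem (hT t ht) h1) (inv_mem (hT t ht))
    rwa [← swap_apply_apply, hS.fixT t ht, et] at h2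
  refine not_full_image h hM hE i fun x hx' => ?_
  obtain ⟨w, hw, e⟩ := htop.ge (Subgroup.mem_top (D.Φ ⟨x, (le_iSup E i) hx'⟩))
  exact ⟨w, Subgroup.mem_inf.2 ⟨hw, w.2⟩, (D.kerΦ (w⁻¹ * ⟨x, (le_iSup E i) hx'⟩)).1
    (by rw [map_mul, map_inv, e, inv_mul_cancel])⟩

/-- Every permutation is induced by `G₀ ∩ E_i`. -/
theorem SymData.exists_G0 (h : Hyp T) (hM : IsTop T M) (hE : Comps T E) (D : SymData G 2 E i m)
    (σ : Perm (Fin m)) : ∃ g : ↥(G1 E), (g : G) ∈ G0 T ∧ (g : G) ∈ E i ∧ D.Φ g = σ := by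
  obtain ⟨e, he, rfl⟩ := D.surjΦ σ
  obtain ⟨w, hw, hc⟩ := exists_G0_mem h hM hE he
  refine ⟨⟨w, (le_iSup E i) hw.2⟩, hw.1, hw.2, ?_⟩
  have h1 := (D.kerΦ (e⁻¹ * ⟨w, (le_iSup E i) hw.2⟩)).2 (Subgroup.mem_sup_right hc)
  rw [map_mul, map_inv, inv_mul_eq_one] at h1
  exact h1.symm

set_option maxHeartbeats 800000 in
/-- The piece of a pair. -/
theorem SymShape.exists_piece (h : Hyp T) (hM : IsTop T M) (hE : Comps T E) (hexp : HasBlockData.{u})
    (hS : SymShape T D p0 τ) {k : Fin m} (hk : k ≠ p0) :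
    ∃ u : ↥(G1 E), (u : G) ∈ baumannSubgroupOf 2 (T : Subgroup G) ∧ (u : G) ∈ E i ∧ (u : G) * u = 1 ∧
      D.Φ u = swap k (τ k) ∧ (∀ q ∈ Q0 T, ⁅(u : G), q⁆ ∈ ⁅VG G 2, E i⁆) ∧
      (∀ b : ↥(G1 E), (b : G) ∈ baumannSubgroupOf 2 (T : Subgroup G) → D.Φ b k = k →
        ⁅(u : G), (b : G)⁆ ∈ ⁅VG G 2, E i⁆) ∧
      ∃ g : ↥(G1 E), (g : G) ∈ G0 T ∧ (g : G) ∈ E i ∧ (∀ q ∈ Q0 T, ⁅q, (g : G)⁆ ∈ ⁅VG G 2, E i⁆) ∧
        D.Φ g p0 ≠ p0 ∧ D.Φ g ∈ pieceStab τ hS.inv p0 k := by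
  classical
  set B := baumannSubgroupOf 2 (T : Subgroup G) with hB
  have hBG1 := baumann_le_G1 h hM hE
  have hkτ : τ k ≠ k := hS.ne k hk
  have hτp : τ k ≠ p0 := fun e => hk (by have := congrArg τ e; rwa [hS.inv, hS.fix] at this)
  -- pairs
  have hpair : ∀ σ : Perm (Fin m), (∀ x, σ x = x ∨ σ x = τ x) → σ ∈ pieceStab τ hS.inv p0 k := by
    intro σ hσ
    refine ⟨fun x => ?_, fun x _ => hσ x⟩
    rcases hσ x with e | e <;> rw [e]
    constructor
    · rintro (rfl | rfl | rfl)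
      · exact Or.inl hS.fix
      · exact Or.inr (Or.inr rfl)
      · exact Or.inr (Or.inl (hS.inv k))
    · rintro (h1 | h1 | h1)
      · exact Or.inl (by rw [← hS.inv x, h1, hS.fix])
      · exact Or.inr (Or.inr (by rw [← hS.inv x, h1]))
      · exact Or.inr (Or.inl (by rw [← hS.inv x, h1, hS.inv]))
  set X₀ : Subgroup G :=
    G0 T ⊓ (E i ⊔ B) ⊓ ((pieceStab τ hS.inv p0 k).comap D.Φ).map (G1 E).subtype with hX₀
  have hBX₀ : B ≤ X₀ := fun b hb => Subgroup.mem_inf.2 ⟨Subgroup.mem_inf.2 ⟨baumann_le_G0 hb,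
    Subgroup.mem_sup_right hb⟩, ⟨⟨b, hBG1 hb⟩, hpair _ (hS.upper_baumann h hM hE _ hb), rfl⟩⟩
  obtain ⟨X, ⟨hBX, hXle, hXM⟩, -, hminX⟩ := exists_minimal
    (P := fun Y : Subgroup G => B ≤ Y ∧ Y ≤ X₀ ∧ ¬ Y ≤ M) (X₀ := X₀) ⟨hBX₀, le_rfl, fun hle => by
      obtain ⟨g, hg0, hgE, hgΦ⟩ := D.exists_G0 h hM hE (swap p0 k)
      have hg : (g : G) ∈ M := hle (Subgroup.mem_inf.2 ⟨Subgroup.mem_inf.2 ⟨hg0, Subgroup.mem_sup_left hgE⟩,
        ⟨g, by
          show D.Φ g ∈ pieceStab τ hS.inv p0 k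
          rw [hgΦ]
          refine ⟨fun x => ?_, fun x hx => Or.inl ?_⟩
          · rcases eq_or_ne x p0 with rfl | h1
            · simp
            rcases eq_or_ne x k with rfl | h2
            · simp
            rw [swap_apply_of_ne_of_ne h1 h2]
          · push Not at hx
            exact swap_apply_of_ne_of_ne hx.1 hx.2.1, rfl⟩⟩)
      have := hS.fix_of_mem h hM hE hg
      rw [hgΦ, swap_apply_left] at this
      exact hk this⟩
  have hX0 : X ≤ G0 T := hXle.trans (inf_le_left.trans inf_le_left)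
  have hXG1 : X ≤ G1 E := hX0.trans (G0_le_G1 h hM hE)
  set φ : ↥X →* Perm (Fin m) := D.Φ.comp (Subgroup.inclusion hXG1) with hφ
  have hφP : ∀ x : ↥X, φ x ∈ pieceStab τ hS.inv p0 k := fun x => by
    obtain ⟨y, hy, e⟩ := (Subgroup.mem_inf.1 (hXle x.2)).2
    rw [show φ x = D.Φ y from congrArg D.Φ (Subtype.ext e.symm)]
    exact hy
  have hdec : ∀ x ∈ X, ∃ e ∈ E i, e ∈ X ∧ ∃ b ∈ B, x = e * b := fun x hx => by
    obtain ⟨e, he, b, hb, rfl⟩ := le_sup_dec h hM hE i (Subgroup.mem_inf.1 (Subgroup.mem_inf.1 (hXle hx)).1).2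
    refine ⟨e, he, ?_, b, hb, rfl⟩
    simpa using mul_mem hx (inv_mem (hBX hb))
  have hφB : ∀ x : ↥X, (x : G) ∈ B → ∀ y, φ x y = y ∨ φ x y = τ y := fun x hx => hS.upper_baumann h hM hE _ hx
  -- elements fixing the point are in `B C`
  have hfixBC : ∀ e, e ∈ E i → ∀ heX : e ∈ X, φ ⟨e, heX⟩ p0 = p0 → e ∈ B ⊔ CG G 2 := by
    intro e he heX hfix
    obtain ⟨hSset, hout⟩ := hφP ⟨e, heX⟩
    obtain ⟨a, ha, ea⟩ := hS.full (φ ⟨e, heX⟩) fun x => by
      by_cases hx : x = p0 ∨ x = k ∨ x = τ k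
      · rcases (hSset x).1 hx with e1 | e1 | e1
        · have : x = p0 := (φ ⟨e, heX⟩).injective (e1.trans hfix.symm)
          exact Or.inl (this ▸ hfix)
        all_goals
          rcases hx with rfl | rfl | rfl
          · exact Or.inl hfix
          · first | exact Or.inl e1 | exact Or.inr e1
          · first | exact Or.inl e1 | exact Or.inr (by rw [e1, hS.inv])
      · exact hout x hx
    have hk' : (a : G)⁻¹ * e ∈ CG G 2 := hE.inf_Kc i (Subgroup.mem_inf.2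
      ⟨mul_mem (inv_mem (Jc_le_E hE i ha)) he,
        (D.kerΦ (a⁻¹ * (⟨e, hXG1 heX⟩ : ↥(G1 E)))).1 (by rw [map_mul, map_inv, ea]; exact inv_mul_cancel _)⟩)
    have h1 := mul_mem (Subgroup.mem_sup_left (T := CG G 2) (Jc_le_baumann (E := E) i ha))
      (Subgroup.mem_sup_right hk')
    simpa using h1
  have hswap : ∃ a : ↥X, φ a = swap k (τ k) ∧ (a : G) ∈ B := by
    obtain ⟨a, ha, ea⟩ := hS.full (swap k (τ k)) fun x => by
      rcases eq_or_ne x k with rfl | h1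
      · exact Or.inr (swap_apply_left _ _)
      rcases eq_or_ne x (τ k) with rfl | h2
      · exact Or.inr (by rw [swap_apply_right, hS.inv])
      exact Or.inl (swap_apply_of_ne_of_ne h1 h2)
    exact ⟨⟨a, hBX (Jc_le_baumann i ha)⟩, ea, Jc_le_baumann i ha⟩
  have hmove : ∃ x : ↥X, φ x p0 ≠ p0 := by
    by_contra hh
    push Not at hh
    refine hXM fun x hx => ?_
    obtain ⟨e, he, heX, b, hb, rfl⟩ := hdec x hx
    exact mul_mem (sup_le ((baumann_le).trans hM.le) (CG_le h hM) (hfixBC e he heX (hh ⟨e, heX⟩)))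
      (hM.le (baumann_le hb))
  -- the three points
  let S3 := {x : Fin m // x = p0 ∨ x = k ∨ x = τ k}
  let f3 : Fin 3 → S3 := ![⟨p0, Or.inl rfl⟩, ⟨k, Or.inr (Or.inl rfl)⟩, ⟨τ k, Or.inr (Or.inr rfl)⟩]
  have hf3 : Function.Bijective f3 := by
    refine ⟨fun a b e => ?_, fun ⟨x, hx⟩ => ?_⟩
    · have e' := congrArg Subtype.val e
      fin_cases a <;> fin_cases b <;> simp [f3] at e' <;> first
        | rfl | exact absurd e' hk | exact absurd e'.symm hk | exact absurd e' hτp | exact absurd e'.symm hτp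
        | exact absurd e' hkτ | exact absurd e'.symm hkτ
    · rcases hx with rfl | rfl | rfl
      exacts [⟨0, rfl⟩, ⟨1, rfl⟩, ⟨2, rfl⟩]
  set e3 : Fin 3 ≃ S3 := Equiv.ofBijective f3 hf3
  let ψ₀ : ↥X →* Perm S3 := MonoidHom.mk' (fun x => (φ x).subtypePerm fun y => ((hφP x).1 y).symm)
    fun a b => Equiv.ext fun y => Subtype.ext (by simp)
  let ψ : ↥X →* Perm (Fin 3) := (e3.symm.permCongrHom.toMonoidHom).comp ψ₀
  have hψ : ∀ x y, (e3 (ψ x y) : Fin m) = φ x (e3 y : Fin m) := fun x y => by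
    show ((e3 (e3.symm.permCongr (ψ₀ x) y)) : Fin m) = _
    rw [Equiv.permCongr_apply, Equiv.apply_symm_apply, Equiv.symm_symm]
    rfl
  have hψ0 : ∀ x, ψ x 0 = 0 ↔ φ x p0 = p0 := fun x => by
    constructor
    · intro e
      have := hψ x 0
      rw [e] at this
      exact this.symm
    · intro e
      exact e3.injective (Subtype.ext ((hψ x 0).trans e))
  have hψs : Function.Surjective ψ := by
    obtain ⟨a, ha, -⟩ := hswap
    obtain ⟨x, hx⟩ := hmove
    refine MonoidHom.range_eq_top.1 (Loc.three_gen (σ := ψ x) ?_ ⟨x, rfl⟩ fun e => hx ((hψ0 x).1 e))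
    refine ⟨a, Equiv.ext fun y => e3.injective (Subtype.ext ?_)⟩
    rw [hψ, ha]
    fin_cases y <;> simp [e3, f3, swap_apply_of_ne_of_ne hk.symm hτp.symm, swap_apply_def]
  have hsyl : ∀ P : Subgroup G, IsPGroup 2 P → B ≤ P → P ≤ X → P ≤ B ⊔ CG G 2 := by
    intro P hP hBP hPX x hx
    obtain ⟨e, he, heX, b, hb, rfl⟩ := hdec x (hPX hx)
    have heP : e ∈ P := by simpa using mul_mem hx (inv_mem (hBP hb))
    refine mul_mem (hfixBC e he heX ?_) (Subgroup.mem_sup_left hb)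
    by_contra hne
    obtain ⟨a, ha, haB⟩ := hswap
    have htop : (P.subgroupOf X).map ψ = ⊤ := by
      refine Loc.three_gen (σ := ψ ⟨e, heX⟩) ⟨a, hBP haB, Equiv.ext fun y => e3.injective (Subtype.ext ?_)⟩
        ⟨⟨e, heX⟩, heP, rfl⟩ fun e' => hne ((hψ0 _).1 e')
      rw [hψ, ha]
      fin_cases y <;> simp [e3, f3, swap_apply_of_ne_of_ne hk.symm hτp.symm, swap_apply_def]
    obtain ⟨j, hj⟩ := IsPGroup.iff_card.1 ((hP.comap_of_injective _ X.subtype_injective).map ψ)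
    have h6 : Nat.card ↥((P.subgroupOf X).map ψ) = 6 := by
      rw [htop, Subgroup.card_top, Nat.card_eq_fintype_card, Fintype.card_perm, Fintype.card_fin]; rfl
    have h7 : Nat.card ↥((P.subgroupOf X).map ψ) = 2 ^ j := hj
    have h3 : 3 ∣ 2 ^ j := ⟨2, by omega⟩
    exact absurd (Nat.prime_three.dvd_of_dvd_pow h3) (by norm_num)
  obtain ⟨θ0⟩ := Loc.psl2_two
  obtain ⟨d, hQXB, hQ0X, hXsup, hLM, ⟨θX⟩⟩ := piece_data h hM hE hexp hBX hX0 hXM
    (fun Y hBY hYX hne => by_contra fun hYM => hne (hminX Y ⟨hBY, hYX.trans hXle, hYM⟩ hYX)) hsyl le_rfl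
    (F := ZMod 2) (by simp) ψ hψs θ0
  have hker : ψ.ker = pCore 2 ↥X := by
    have hle : pCore 2 ↥X ≤ ψ.ker := by
      intro x hx
      have hfix : ∀ y ∈ pCore 2 ↥X, ψ y 0 = 0 := fun y hy => (hψ0 y).2 (by
        rcases hφB y (hQXB ⟨y, hy, rfl⟩) p0 with e | e
        · exact e
        · rw [e, hS.fix])
      rw [MonoidHom.mem_ker]
      refine (by decide : ∀ π : Perm (Fin 3), (∀ σ : Perm (Fin 3), (σ * π * σ⁻¹) 0 = 0) → π = 1) _ fun σ => ?_
      obtain ⟨w, rfl⟩ := hψs σ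
      rw [← map_inv, ← map_mul, ← map_mul]
      exact hfix _ ((inferInstance : (pCore 2 ↥X).Normal).conj_mem x hx w)
    refine (Subgroup.eq_of_le_of_card_ge hle (le_of_eq ?_)).symm
    have h2 := Subgroup.card_mul_index ψ.ker
    have h3 := Subgroup.card_mul_index (pCore 2 ↥X)
    rw [Subgroup.index_ker, MonoidHom.range_eq_top.2 hψs, Subgroup.card_top] at h2
    rw [show (pCore 2 ↥X).index = Nat.card SL(2, ZMod 2) from Nat.card_congr θX.toEquiv] at h3
    have h6 : Nat.card SL(2, ZMod 2) = Nat.card (Perm (Fin 3)) := by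
      rw [CfsgLib.SL2.card_SL, Nat.card_zmod, Nat.card_eq_fintype_card, Fintype.card_perm, Fintype.card_fin]; rfl
    rw [h6] at h3
    exact Nat.eq_of_mul_eq_mul_right Nat.card_pos (h2.trans h3.symm)
  set L := pResidualOf 2 X with hL
  set QX := pCoreOf 2 X with hQX
  have hLX : L ≤ X := Subgroup.map_subtype_le _
  have hQXX : QX ≤ X := Subgroup.map_subtype_le _
  have hXN : X ≤ Subgroup.normalizer (E i : Set G) := hXG1.trans (hE.G1_le_normalizer i)
  have hLE : L ≤ E i := by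
    haveI : ((E i).subgroupOf X).Normal := ⟨fun x hx g =>
      (Subgroup.mem_normalizer_iff.1 (hXN g.2) _).1 hx⟩
    have hq : IsPGroup 2 (↥X ⧸ (E i).subgroupOf X) := by
      intro q
      obtain ⟨x, rfl⟩ := QuotientGroup.mk_surjective q
      obtain ⟨e, he, heX, b, hb, e'⟩ := hdec x x.2
      obtain ⟨j, hj⟩ := T.2 ⟨b, baumann_le hb⟩
      refine ⟨j, ?_⟩
      have h1 : (QuotientGroup.mk x : ↥X ⧸ (E i).subgroupOf X) = QuotientGroup.mk ⟨b, hBX hb⟩ := by
        rw [show x = (⟨e, heX⟩ : ↥X) * ⟨b, hBX hb⟩ from Subtype.ext e', QuotientGroup.mk_mul,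
          (QuotientGroup.eq_one_iff _).2 (show (⟨e, heX⟩ : ↥X) ∈ (E i).subgroupOf X from he), one_mul]
      rw [h1, ← QuotientGroup.mk_pow,
        show (⟨b, hBX hb⟩ : ↥X) ^ 2 ^ j = 1 from Subtype.ext (congrArg Subtype.val hj :)]
      rfl
    rintro _ ⟨x, hx, rfl⟩
    exact CfsgLib.Transfer.pResidual_le_of_isPGroup hq hx
  have hXNL : X ≤ Subgroup.normalizer (L : Set G) :=
    Subgroup.le_normalizer.trans ((haveI := CfsgLib.Transfer.pResidual_characteristic (G := ↥X) (p := 2)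
      Cores.normalizer_le_normalizer_map_subtype X (pResidual 2 ↥X)))
  have hXNQ : X ≤ Subgroup.normalizer (QX : Set G) :=
    Subgroup.le_normalizer.trans (Cores.normalizer_le_normalizer_map_subtype X (pCore 2 ↥X))
  have hblock : IsBaumannBlock 2 (T : Subgroup G) L := by
    refine ⟨d.res, d.comm, d.coreComm, fun e => hLM ?_,
      Or.inl ⟨ZMod 2, inferInstance, inferInstance, 1, by simp, d.quot, d.natural, ?_⟩⟩
    · exact (Subgroup.commutator_eq_bot_iff_le_centralizer.1 e).trans (centralizer_ZT_le h hM)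
    · rcases d.shape with ⟨h1, -⟩ | h1
      · exact Or.inl h1
      · exact Or.inr h1
  obtain ⟨hshape, u, huB, huQ, hu2, hua⟩ := d.shape.resolve_right fun h1 => by
    exact absurd h1.1 (by norm_num)
  -- elements of `L` fix the points outside
  have hLfix : ∀ x : ↥X, (x : G) ∈ L → ∀ y, ¬ (y = p0 ∨ y = k ∨ y = τ k) → φ x y = y := by
    let Fx : Subgroup ↥X :=
      { carrier := {x | ∀ y, ¬ (y = p0 ∨ y = k ∨ y = τ k) → φ x y = y}
        one_mem' := fun y _ => by simp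
        mul_mem' := fun {a b} ha hb y hy => by rw [map_mul, Perm.mul_apply, hb y hy, ha y hy]
        inv_mem' := fun {a} ha y hy => by
          rw [map_inv, Perm.inv_def, Equiv.symm_apply_eq]; exact (ha y hy).symm }
    intro x hx
    have hle : pResidual 2 ↥X ≤ Fx := by
      rw [pResidual, Subgroup.closure_le]
      intro g hg y hy
      have h2 : φ g (φ g y) = y := by
        rcases (hφP g).2 y hy with e | e
        · rw [e, e]
        · have hy' : ¬ (τ y = p0 ∨ τ y = k ∨ τ y = τ k) := by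
            rw [← e]; exact fun h1 => hy (((hφP g).1 y).2 h1)
          rcases (hφP g).2 (τ y) hy' with e' | e'
          · exact absurd ((φ g).injective (e.trans e'.symm)) (hS.ne y fun h1 => hy (Or.inl h1)).symm
          · rw [e, e', hS.inv]
      obtain ⟨c, hc⟩ : ∃ c, orderOf g = 2 * c + 1 := Nat.odd_iff.2 (by
        have := (Nat.Coprime.symm hg : Nat.Coprime 2 (orderOf g))
        rcases Nat.mod_two_eq_zero_or_one (orderOf g) with h0 | h0
        · exact absurd (Nat.dvd_of_mod_eq_zero h0) ((Nat.prime_two.coprime_iff_not_dvd).1 this)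
        · exact h0)
      have h3 : ∀ j : ℕ, φ (g ^ (2 * j)) y = y := by
        intro j
        induction j with
        | zero => simp
        | succ j ih => rw [Nat.mul_succ, pow_add, map_mul, Perm.mul_apply, pow_two, map_mul, Perm.mul_apply, h2, ih]
      have h4 : φ (g ^ (2 * c + 1)) y = y := by rw [← hc, pow_orderOf_eq_one]; simp
      rwa [pow_succ', map_mul, Perm.mul_apply, h3] at h4
    obtain ⟨x', hx', e⟩ := hx
    rw [← show x' = x from Subtype.ext e]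
    exact hle hx'
  have hnotC : ¬ L ≤ CG G 2 := fun hle => hLM (hle.trans (CG_le h hM))
  have hVX : VG G 2 ≤ QX :=
    le_trans (le_inf (VG_le.trans inf_le_left) (VG_le_baumann h hM hE)) hQ0X
  have hQC : ∀ x : G, x ∈ QX → x ∈ L → x ∈ CG G 2 := fun x hx hxL => by
    have h0 : ψ ⟨x, hQXX hx⟩ = 1 := by
      rw [← MonoidHom.mem_ker, hker]
      exact (Subgroup.mem_map_iff_mem X.subtype_injective).1 hx
    refine hE.inf_Kc i (Subgroup.mem_inf.2 ⟨hLE hxL, (D.kerΦ ⟨x, hXG1 (hQXX hx)⟩).1 (Equiv.ext fun y => ?_)⟩)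
    show φ ⟨x, hQXX hx⟩ y = y
    by_cases hy : y = p0 ∨ y = k ∨ y = τ k
    · have := hψ ⟨x, hQXX hx⟩ (e3.symm ⟨y, hy⟩)
      rw [h0, Perm.one_apply, Equiv.apply_symm_apply] at this
      exact this.symm
    · exact hLfix _ hxL y hy
  have hVL : ⁅VG G 2, L⁆ ≤ omegaOneCenter 2 (pCoreOf 2 L) := by
    have hle : ⁅VG G 2, L⁆ ≤ L ⊓ QX := le_inf
      (by rw [Subgroup.commutator_comm]
          exact CoprimeAction.commutator_le_left ((hVX.trans hQXX).trans hXNL))
      ((Subgroup.commutator_le_left _ _).trans hVX)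
    rw [← d.core] at hle
    intro z hz
    refine ThompsonJ.mem_omegaOne ⟨hle hz, Subgroup.mem_centralizer_iff.2 fun q hq => ?_⟩
      ((ThompsonJ.isElementaryAbelian_iff.1 (VG_elem (G := G) (p := 2))).2 z (Subgroup.commutator_le_left _ _ hz))
    have hq' := d.core.le hq
    exact (Subgroup.mem_centralizer_iff.1 (hQC q hq'.2 hq'.1) z (Subgroup.commutator_le_left _ _ hz)).symm
  have hQL : pCoreOf 2 L ≤ ⁅VG G 2, L⁆ := by
    have h1 := block_moves_le_VG hblock hVL hnotC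
    rw [← hshape] at h1
    calc pCoreOf 2 L = ⁅pCoreOf 2 L, L⁆ := d.coreComm.symm
      _ = ⁅⁅pCoreOf 2 L, L⁆, L⁆ := by rw [d.coreComm, d.coreComm]
      _ ≤ ⁅VG G 2, L⁆ := Subgroup.commutator_mono h1 le_rfl
  have hQLU : pCoreOf 2 L ≤ ⁅VG G 2, E i⁆ := hQL.trans (Subgroup.commutator_mono le_rfl hLE)
  -- vectors of `[V, L]` vanish outside
  have hsupp : ∀ v : ↥(VG G 2), (v : G) ∈ pCoreOf 2 L → ∀ y, ¬ (y = p0 ∨ y = k ∨ y = τ k) →
      Multiplicative.toAdd (D.Ψ v) y = 0 := by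
    let Vs : Subgroup ↥(VG G 2) :=
      { carrier := {v | ∀ y, ¬ (y = p0 ∨ y = k ∨ y = τ k) → Multiplicative.toAdd (D.Ψ v) y = 0}
        one_mem' := fun y _ => by simp
        mul_mem' := fun {a b} ha hb y hy => by rw [map_mul, toAdd_mul, Pi.add_apply, ha y hy, hb y hy, add_zero]
        inv_mem' := fun {a} ha y hy => by rw [map_inv, toAdd_inv, Pi.neg_apply, ha y hy, neg_zero] }
    intro v hv
    have hle : ⁅VG G 2, L⁆ ≤ Vs.map (VG G 2).subtype := by
      rw [Subgroup.commutator_le]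
      intro a ha g hg
      have hconj : g * a⁻¹ * g⁻¹ ∈ VG G 2 := VG_normal.conj_mem _ (inv_mem ha) g
      refine ⟨⟨a, ha⟩ * ⟨_, hconj⟩, fun y hy => ?_, ?_⟩
      · have h1 := D.equiv ⟨g, hXG1 (hLX hg)⟩ (⟨a, ha⟩⁻¹) ⟨_, hconj⟩ rfl y
        have h2 : φ ⟨g, hLX hg⟩ y = y := hLfix ⟨g, hLX hg⟩ hg y hy
        have h3 : (D.Φ ⟨g, hXG1 (hLX hg)⟩)⁻¹ y = y := by
          rw [Perm.inv_def, Equiv.symm_apply_eq]; exact h2.symm
        rw [map_mul, toAdd_mul, Pi.add_apply, h1, h3, map_inv, toAdd_inv, Pi.neg_apply, add_neg_cancel]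
      · show a * (g * a⁻¹ * g⁻¹) = ⁅a, g⁆
        rw [commutatorElement_def]; group
    obtain ⟨v', hv', e⟩ := hle (hQL hv)
    rw [← show v' = v from Subtype.ext e]
    exact hv'
  have huX : u ∈ X := hBX huB
  set u' : ↥(G1 E) := ⟨u, hXG1 huX⟩
  have hua' : ∀ a ∈ QX, ⁅u, a⁆ ∈ ⁅VG G 2, E i⁆ := fun a ha => hQLU (hua a ha)
  have huE : u ∈ E i := hE.mem_E_of_Kc (hXG1 huX) fun j hj => hE.mem_Kc (hXG1 huX) fun v hv => by
    have h1 := hua' v (hVX (Comps.moves_le j hv))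
    rw [commutatorElement_def] at h1
    exact hE.moves_le_Wc (Ne.symm hj) h1
  have huφ : D.Φ u' = swap k (τ k) := by
    have hout : ∀ l, ¬ (l = p0 ∨ l = k ∨ l = τ k) → D.Φ u' l = l := by
      intro l hl
      rcases hS.upper_baumann h hM hE u' huB l with e | e
      · exact e
      exfalso
      obtain ⟨v, hv, ev⟩ := D.exists_pair p0 l
      have hw : ⁅u, (v : G)⁆ ∈ pCoreOf 2 L := hua _ (hVX v.2)
      have hwV : ⁅u, (v : G)⁆ ∈ VG G 2 := mul_mem (VG_normal.conj_mem _ v.2 u) (inv_mem v.2)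
      have h0 := hsupp ⟨_, hwV⟩ hw l hl
      have hcj : u * (v : G) * u⁻¹ ∈ VG G 2 := VG_normal.conj_mem _ v.2 u
      rw [show (⟨⁅u, (v : G)⁆, hwV⟩ : ↥(VG G 2)) = ⟨_, hcj⟩ * v⁻¹ from Subtype.ext (by
        show ⁅u, (v : G)⁆ = _; rw [commutatorElement_def]; rfl), map_mul, toAdd_mul, Pi.add_apply,
        D.equiv u' v ⟨_, hcj⟩ rfl, map_inv, toAdd_inv, Pi.neg_apply, ev] at h0
      have hinv : (D.Φ u')⁻¹ l = τ l := by
        rw [Perm.inv_def, Equiv.symm_apply_eq]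
        have hl' : ¬ (τ l = p0 ∨ τ l = k ∨ τ l = τ k) := by
          rw [← e]; exact fun h1 => hl (((hφP ⟨u, huX⟩).1 l).2 h1)
        rcases hS.upper_baumann h hM hE u' huB (τ l) with e' | e'
        · exact absurd ((D.Φ u').injective (e.trans e'.symm)) (hS.ne l fun h1 => hl (Or.inl h1)).symm
        · rw [e', hS.inv]
      have hlp : l ≠ p0 := fun h1 => hl (Or.inl h1)
      have h5 : τ l ≠ p0 := fun h1 => hlp (by rw [← hS.inv l, h1, hS.fix])
      rw [hinv] at h0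
      simp [Pi.single_apply, hlp, h5, hS.ne l hlp] at h0
    have hp : D.Φ u' p0 = p0 := hS.fixT _ (baumann_le huB)
    have hkk : D.Φ u' k = τ k := by
      refine (hS.upper_baumann h hM hE u' huB k).resolve_left fun hkk => huQ ?_
      have h1 : D.Φ u' = 1 := Equiv.ext fun y => by
        rw [Perm.one_apply]
        by_cases hy : y = p0 ∨ y = k ∨ y = τ k
        · rcases hy with rfl | rfl | rfl
          · exact hp
          · exact hkk
          · rcases hS.upper_baumann h hM hE u' huB (τ k) with e | e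
            · exact e
            · rw [hS.inv] at e
              exact absurd ((D.Φ u').injective (e.trans hkk.symm)) hkτ
        · exact hout y hy
      have huC : u ∈ CG G 2 := hE.inf_Kc i (Subgroup.mem_inf.2 ⟨huE, (D.kerΦ u').1 h1⟩)
      refine hQ0X (Subgroup.mem_inf.2 ⟨?_, huB⟩)
      exact (inf_CG_eq h hM).le (Subgroup.mem_inf.2 ⟨baumann_le huB, huC⟩)
    refine Equiv.ext fun y => ?_
    rcases eq_or_ne y k with rfl | h1
    · rw [swap_apply_left, hkk]
    rcases eq_or_ne y (τ k) with rfl | h2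
    · rw [swap_apply_right]
      rcases hS.upper_baumann h hM hE u' huB (τ k) with e | e
      · exact absurd ((D.Φ u').injective (hkk.trans e.symm)) hkτ.symm
      · rw [e, hS.inv]
    rw [swap_apply_of_ne_of_ne h1 h2]
    rcases eq_or_ne y p0 with rfl | h3
    · exact hp
    · exact hout y (by push Not; exact ⟨h3, h1, h2⟩)
  refine ⟨u', huB, huE, by rw [← pow_two]; exact hu2, huφ, fun q hq => hua' q (hQ0X hq), fun b hb hbk => ?_, ?_⟩
  · refine hua' b ?_
    have h1 : ψ ⟨b, hBX hb⟩ = 1 := Equiv.ext fun y => e3.injective (Subtype.ext ((hψ _ y).trans ?_))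
    · refine Subgroup.mem_map_of_mem X.subtype (show (⟨b, hBX hb⟩ : ↥X) ∈ pCore 2 ↥X from ?_)
      rw [← hker]; exact h1
    rw [Perm.one_apply]
    show D.Φ b (e3 y : Fin m) = _
    fin_cases y
    · exact hS.fixT b (baumann_le hb)
    · exact hbk
    · rcases hS.upper_baumann h hM hE b hb (τ k) with e | e
      · exact e
      · rw [hS.inv] at e
        exact absurd ((D.Φ b).injective (e.trans hbk.symm)) hkτ
  · obtain ⟨x, hx⟩ := hmove
    have hx' : (x : G) ∈ ((L ⊔ B : Subgroup G) : Set G) := hXsup x.2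
    rw [Subgroup.coe_mul_of_right_le_normalizer_left _ _ (hBX.trans hXNL)] at hx'
    obtain ⟨l, hl, b, hb, e⟩ := hx'
    refine ⟨⟨l, hXG1 (hLX hl)⟩, hX0 (hLX hl), hLE hl, fun q hq => hQLU ?_, fun hlp => hx ?_, hφP ⟨l, hLX hl⟩⟩
    · refine d.core.ge (Subgroup.mem_inf.2 ⟨?_, ?_⟩)
      · have hqX : q ∈ X := hQXX (hQ0X hq)
        show ⁅q, l⁆ ∈ L
        rw [commutatorElement_def]
        exact mul_mem ((Subgroup.mem_normalizer_iff.1 (hXNL hqX) l).1 hl) (inv_mem hl)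
      · show ⁅q, l⁆ ∈ QX
        rw [commutatorElement_def, mul_assoc, mul_assoc]
        refine mul_mem (hQ0X hq) ?_
        rw [← mul_assoc]
        exact (Subgroup.mem_normalizer_iff.1 (hXNQ (hLX hl)) _).1 (inv_mem (hQ0X hq))
    · rw [show x = (⟨l, hLX hl⟩ : ↥X) * ⟨b, hBX hb⟩ from Subtype.ext e.symm, map_mul, Perm.mul_apply,
        show φ ⟨b, hBX hb⟩ p0 = p0 from hS.fixT _ (baumann_le hb)]
      exact hlp

end CfsgLib.FFModules.PushUpBlocks
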