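import Cfsg.Agent.Lib.FFModules.PushUpBlocks.BaumannImage
import Cfsg.Agent.Lib.SL2Gen.Basic

/-!
On every component two conjugates of `J(T)` generate, and two conjugates of `C_V(J(T))` span.
-/

set_option autoImplicit false
set_option linter.unusedSectionVars false

namespace CfsgLib.FFModules.PushUpBlocks

open Cfsg
open scoped commutatorElement MatrixGroups
open CfsgLib.FFModules.MinimalParabolic (upperSL upperSL_mulVec)

namespace Loc

/-- The standard matching missing the first point. -/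
def matchA (N : ℕ) (k : Fin (2 * N + 1)) : Fin (2 * N + 1) :=
  if h0 : (k : ℕ) = 0 then k
  else if h1 : (k : ℕ) % 2 = 1 then ⟨k + 1, by omega⟩ else ⟨k - 1, by omega⟩

/-- The standard matching missing the last point. -/
def matchB (N : ℕ) (k : Fin (2 * N + 1)) : Fin (2 * N + 1) :=
  if h0 : (k : ℕ) = 2 * N then k
  else if h1 : (k : ℕ) % 2 = 0 then ⟨k + 1, by omega⟩ else ⟨k - 1, by omega⟩

theorem matchA_val {N : ℕ} (k : Fin (2 * N + 1)) :
    (matchA N k : ℕ) = if (k : ℕ) = 0 then 0 else if (k : ℕ) % 2 = 1 then (k : ℕ) + 1 else (k : ℕ) - 1 := by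
  unfold matchA
  split_ifs <;> simp_all

theorem matchB_val {N : ℕ} (k : Fin (2 * N + 1)) :
    (matchB N k : ℕ) = if (k : ℕ) = 2 * N then 2 * N else if (k : ℕ) % 2 = 0 then (k : ℕ) + 1 else (k : ℕ) - 1 := by
  unfold matchB
  split_ifs <;> simp_all

theorem matchA_inv (N : ℕ) : Function.Involutive (matchA N) := fun k => by
  apply Fin.ext
  have := k.isLt
  rw [matchA_val, matchA_val]
  rcases Nat.eq_zero_or_pos (k : ℕ) with h0 | h0
  · simp [h0]
  rw [if_neg h0.ne' (α := ℕ)]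
  rcases Nat.mod_two_eq_zero_or_one (k : ℕ) with hm | hm
  · rw [if_neg (show ¬ (k : ℕ) % 2 = 1 by omega), if_neg (show ¬ (k : ℕ) - 1 = 0 by omega),
      if_pos (show ((k : ℕ) - 1) % 2 = 1 by omega)]
    omega
  · rw [if_pos hm, if_neg (show ¬ (k : ℕ) + 1 = 0 by omega), if_neg (show ¬ ((k : ℕ) + 1) % 2 = 1 by omega)]
    omega

theorem matchB_inv (N : ℕ) : Function.Involutive (matchB N) := fun k => by
  apply Fin.ext
  have := k.isLt
  rw [matchB_val, matchB_val]
  split_ifs <;> omega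

theorem matchA_fix {N : ℕ} {k : Fin (2 * N + 1)} : matchA N k = k ↔ (k : ℕ) = 0 := by
  rw [Fin.ext_iff, matchA_val]
  split_ifs <;> omega

theorem matchB_fix {N : ℕ} {k : Fin (2 * N + 1)} : matchB N k = k ↔ (k : ℕ) = 2 * N := by
  rw [Fin.ext_iff, matchB_val]
  split_ifs <;> omega

/-- An involution of odd degree with a single fixed point and a conjugate of it generate a transitive group. -/
theorem exists_path {m : ℕ} (hodd : Odd m) {τ : Equiv.Perm (Fin m)} {p0 : Fin m} (hfix : τ p0 = p0)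
    (hinv : ∀ k, τ (τ k) = k) (hne : ∀ k, k ≠ p0 → τ k ≠ k) :
    ∃ ρ : Equiv.Perm (Fin m), ∀ P : Fin m → Prop, P p0 → (∀ k, P k → P (τ k)) →
      (∀ k, P k → P ((ρ * τ * ρ⁻¹) k)) → ∀ k, P k := by
  classical
  obtain ⟨N, rfl⟩ := hodd
  haveI : Fact (Nat.Prime 2) := ⟨Nat.prime_two⟩
  have hconj : ∀ (σ : Equiv.Perm (Fin (2 * N + 1))) (q : Fin (2 * N + 1)), (∀ k, σ (σ k) = k) →
      (∀ k, σ k = k ↔ k = q) → σ.cycleType = Multiset.replicate N 2 := by
    intro σ q h1 h2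
    have h3 := Equiv.Perm.cycleType_of_pow_prime_eq_one (σ := σ) (p := 2)
      (Equiv.ext fun k => by rw [pow_two, Equiv.Perm.mul_apply, h1, Equiv.Perm.one_apply])
    have h4 : σ.support = {q}ᶜ := by
      ext k; simp [h2]
    have h5 := σ.sum_cycleType
    rw [h4, Finset.card_compl, Finset.card_singleton, Fintype.card_fin, h3, Multiset.sum_replicate,
      smul_eq_mul] at h5
    rw [h3, show Multiset.card σ.cycleType = N by omega]
  set A := (matchA_inv N).toPerm (matchA N)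
  set B := (matchB_inv N).toPerm (matchB N)
  have hA : A.cycleType = Multiset.replicate N 2 := hconj A ⟨0, by omega⟩ (matchA_inv N) fun k => by
    show matchA N k = k ↔ _
    rw [matchA_fix, Fin.ext_iff]
  have hB : B.cycleType = Multiset.replicate N 2 := hconj B ⟨2 * N, by omega⟩ (matchB_inv N) fun k => by
    show matchB N k = k ↔ _
    rw [matchB_fix, Fin.ext_iff]
  have hτ : τ.cycleType = Multiset.replicate N 2 := hconj τ p0 hinv fun k =>
    ⟨fun e => by_contra fun h => hne k h e, fun e => e ▸ hfix⟩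
  obtain ⟨c, hc⟩ := isConj_iff.1 (Equiv.Perm.isConj_iff_cycleType_eq.2 (hA.trans hτ.symm))
  obtain ⟨d, hd⟩ := isConj_iff.1 (Equiv.Perm.isConj_iff_cycleType_eq.2 (hA.trans hB.symm))
  refine ⟨c * d * c⁻¹, fun P h0 hP1 hP2 k => ?_⟩
  have hρ : c * d * c⁻¹ * τ * (c * d * c⁻¹)⁻¹ = c * B * c⁻¹ := by
    rw [← hc, ← hd]; group
  have hstart : c ⟨0, by omega⟩ = p0 := by
    by_contra h
    refine hne _ h ?_
    rw [← hc]
    simp only [Equiv.Perm.mul_apply, Equiv.Perm.inv_def, Equiv.symm_apply_apply]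
    exact congrArg c ((matchA_fix (k := ⟨0, by omega⟩)).2 rfl)
  have key : ∀ (j : ℕ) (hj : j < 2 * N + 1), P (c ⟨j, hj⟩) := by
    intro j
    induction j with
    | zero => intro hj; exact hstart ▸ h0
    | succ j ih =>
      intro hj
      have h1 := ih (by omega)
      rcases Nat.mod_two_eq_zero_or_one j with hm | hm
      · have h2 := hP2 _ h1
        rw [hρ] at h2
        simp only [Equiv.Perm.mul_apply, Equiv.Perm.inv_def, Equiv.symm_apply_apply] at h2
        convert h2 using 2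
        show _ = matchB N _
        unfold matchB
        split_ifs <;> simp_all [Fin.ext_iff] <;> omega
      · have h2 := hP1 _ h1
        rw [← hc] at h2
        simp only [Equiv.Perm.mul_apply, Equiv.Perm.inv_def, Equiv.symm_apply_apply] at h2
        convert h2 using 2
        show _ = matchA N _
        unfold matchA
        split_ifs <;> simp_all [Fin.ext_iff] <;> omega
  have := key (c⁻¹ k : Fin _) (c⁻¹ k).isLt
  simpa using this

/-- The Weyl element. -/
def weyl {F : Type*} [Field F] : SL(2, F) := ⟨!![0, 1; -1, 0], by simp [Matrix.det_fin_two]⟩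

/-- The opposite unipotent elements are conjugate under the Weyl element. -/
theorem weyl_conj {F : Type*} [Field F] (t : F) :
    weyl * upperSL t * weyl⁻¹ = CfsgLib.SL2Gen.lowS (-t) := by
  rw [mul_inv_eq_iff_eq_mul]
  apply Subtype.ext
  rw [Matrix.SpecialLinearGroup.coe_mul, Matrix.SpecialLinearGroup.coe_mul, CfsgLib.SL2Gen.lowS_coe]
  ext a b
  fin_cases a <;> fin_cases b <;> simp [weyl, upperSL, Matrix.mul_apply]

theorem eq_top_of_upper_lower {F : Type*} [Field F] {H : Subgroup SL(2, F)} (hU : ∀ t, upperSL t ∈ H)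
    (hL : ∀ t, CfsgLib.SL2Gen.lowS t ∈ H) : H = ⊤ := by
  have hne : ∀ g : SL(2, F), (g : Matrix (Fin 2) (Fin 2) F) 1 0 ≠ 0 → g ∈ H := fun g hg => by
    rw [CfsgLib.SL2Gen.eq_upS_lowS_upS hg]
    refine H.mul_mem (H.mul_mem ?_ (hL _)) ?_
    all_goals
      convert hU _ using 1
      exact Subtype.ext (by rw [CfsgLib.ClassicalLinear.upS_coe]; rfl)
  refine (Subgroup.eq_top_iff' H).2 fun g => ?_
  by_cases hg : (g : Matrix (Fin 2) (Fin 2) F) 1 0 = 0
  · have h1 : g * CfsgLib.SL2Gen.lowS 1 ∈ H := by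
      refine hne _ fun e => ?_
      rw [Matrix.SpecialLinearGroup.coe_mul, CfsgLib.SL2Gen.lowS_coe] at e
      simp [Matrix.mul_apply, hg] at e
      have hd := g.2
      rw [Matrix.det_fin_two, hg, e] at hd
      simp at hd
    simpa using H.mul_mem h1 (H.inv_mem (hL 1))
  · exact hne g hg

/-- A subgroup with the transpositions of a connected graph is everything. -/
theorem eq_top_of_swaps {m : ℕ} {H : Subgroup (Equiv.Perm (Fin m))} {f g : Equiv.Perm (Fin m)} {p0 : Fin m}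
    (hf : ∀ k, Equiv.swap k (f k) ∈ H) (hg : ∀ k, Equiv.swap k (g k) ∈ H)
    (hconn : ∀ P : Fin m → Prop, P p0 → (∀ k, P k → P (f k)) → (∀ k, P k → P (g k)) → ∀ k, P k) : H = ⊤ := by
  classical
  have hstep : ∀ k l, Equiv.swap p0 k ∈ H → Equiv.swap k l ∈ H → Equiv.swap p0 l ∈ H := by
    intro k l h1 h2
    rcases eq_or_ne p0 k with rfl | hpk
    · exact h2
    rcases eq_or_ne p0 l with rfl | hpl
    · rw [Equiv.swap_self]; exact H.one_mem
    rcases eq_or_ne k l with rfl | hkl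
    · exact h1
    have h3 := H.mul_mem (H.mul_mem h2 h1) (H.inv_mem h2)
    rwa [← Equiv.swap_apply_apply, Equiv.swap_apply_of_ne_of_ne hpk hpl, Equiv.swap_apply_left] at h3
  have hall : ∀ k, Equiv.swap p0 k ∈ H := hconn _ (by rw [Equiv.swap_self]; exact H.one_mem)
    (fun k hk => hstep _ _ hk (hf k)) (fun k hk => hstep _ _ hk (hg k))
  have hsw : ∀ a b, a ≠ b → Equiv.swap a b ∈ H := fun a b hab => by
    rcases eq_or_ne p0 a with rfl | hpa
    · exact hall b
    rcases eq_or_ne p0 b with rfl | hpb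
    · rw [Equiv.swap_comm]; exact hall a
    have h1 := H.mul_mem (H.mul_mem (hall a) (hall b)) (H.inv_mem (hall a))
    rwa [← Equiv.swap_apply_apply, Equiv.swap_apply_left,
      Equiv.swap_apply_of_ne_of_ne (Ne.symm hpb) (Ne.symm hab)] at h1
  refine (Subgroup.eq_top_iff' H).2 fun σ => ?_
  exact Equiv.Perm.swap_induction_on σ H.one_mem fun s a b hab hs => H.mul_mem (hsw a b hab) hs

end Loc

variable {G : Type*} [Group G] {p : ℕ} [Finite G] [Fact p.Prime] {T : Sylow p G} {r : ℕ}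
  {E : Fin r → Subgroup G} {M : Subgroup G}

/-- Two conjugates of `J(T)` generate the component, two conjugates of `C_V(J(T))` span it. -/
theorem Comps.exists_two (h : Hyp T) (hM : IsTop T M) (hE : Comps T E) (i : Fin r) :
    ∃ y₀ : ↥(G1 E), (y₀ : G) ∈ E i ∧ ∀ y : ↥(G1 E), (y₀ : G)⁻¹ * y ∈ Kc G p E i →
      (∀ v ∈ VG G p, ∃ u₁ u₂ : G, u₁ ∈ ⁅VG G p, E i⁆ ∧ u₁ ∈ Z1 T ∧ u₂ ∈ ⁅VG G p, E i⁆ ∧ u₂ ∈ Z1 T ∧
        v⁻¹ * (u₁ * ((y : G) * u₂ * (y : G)⁻¹)) ∈ Wc G p E i) ∧
      ∀ g ∈ G1 E, ∃ w ∈ Jc T E i ⊔ (Jc T E i).map (MulAut.conj (y : G)).toMonoidHom,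
        g⁻¹ * w ∈ Kc G p E i := by
  haveI : Nonempty (Fin r) := ⟨i⟩
  have hmemV : ∀ (x : G) (v : ↥(VG G p)), x * v * x⁻¹ ∈ VG G p := fun x v => VG_normal.conj_mem _ v.2 x
  have hgen : ∀ {Γ : Type} [Group Γ] (Φ : ↥(G1 E) →* Γ), (∀ g, Φ g = 1 ↔ (g : G) ∈ Kc G p E i) →
      ∀ y : ↥(G1 E), (∀ x : Γ, x ∈ ((Jc T E i ⊔ (Jc T E i).map (MulAut.conj (y : G)).toMonoidHom).subgroupOf
        (G1 E)).map Φ) → ∀ g ∈ G1 E, ∃ w ∈ Jc T E i ⊔ (Jc T E i).map (MulAut.conj (y : G)).toMonoidHom,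
          g⁻¹ * w ∈ Kc G p E i := fun Φ hker y hall g hg => by
    obtain ⟨w, hw, e⟩ := hall (Φ ⟨g, hg⟩)
    exact ⟨w, hw, (hker (⟨g, hg⟩⁻¹ * w)).1 (by rw [map_mul, map_inv, e, inv_mul_cancel])⟩
  have hconjmem : ∀ (y a : ↥(G1 E)), (a : G) ∈ Jc T E i →
      y * a * y⁻¹ ∈ (Jc T E i ⊔ (Jc T E i).map (MulAut.conj (y : G)).toMonoidHom).subgroupOf (G1 E) :=
    fun y a ha => Subgroup.mem_sup_right ⟨a, ha, rfl⟩
  have heq : ∀ {Γ : Type} [Group Γ] (Φ : ↥(G1 E) →* Γ), (∀ g, Φ g = 1 ↔ (g : G) ∈ Kc G p E i) →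
      ∀ y₀ y : ↥(G1 E), (y₀ : G)⁻¹ * y ∈ Kc G p E i → Φ y = Φ y₀ := fun Φ hker y₀ y hy => by
    have h1 := (hker (y₀⁻¹ * y)).2 hy
    rw [map_mul, map_inv, inv_mul_eq_one] at h1
    exact h1.symm
  obtain ⟨n, hn, ⟨F, hF, hFt, hcard, ⟨D₀⟩⟩ | ⟨hp, ⟨D⟩⟩⟩ := hE.exists_data i
  · haveI : CharP F p := by
      obtain ⟨c, hc⟩ := CharP.exists F
      obtain ⟨m, hcp, hm⟩ := FiniteField.card F c
      have h1 : c ∣ p := hcp.dvd_of_dvd_pow (hcard ▸ hm ▸ dvd_pow_self c m.pos.ne')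
      rwa [(Nat.prime_dvd_prime_iff_eq hcp Fact.out).1 h1] at hc
    obtain ⟨D, hD⟩ := D₀.exists_normalised hE
    obtain ⟨y₀, hy₀, e₀⟩ := D.surjΦ Loc.weyl
    refine ⟨y₀, hy₀, fun y hy => ?_⟩
    have ey : D.Φ y = Loc.weyl := (heq D.Φ D.kerΦ y₀ y hy).trans e₀
    constructor
    · intro v hv
      set z := Multiplicative.toAdd (D.Ψ ⟨v, hv⟩) with hz
      obtain ⟨u₁, hu₁, eu₁⟩ := D.surjΨ (Multiplicative.ofAdd ![z 0, 0])
      obtain ⟨u₂, hu₂, eu₂⟩ := D.surjΨ (Multiplicative.ofAdd ![-z 1, 0])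
      have hZ : ∀ u : ↥(VG G p), (u : G) ∈ ⁅VG G p, E i⁆ → Multiplicative.toAdd (D.Ψ u) 1 = 0 →
          (u : G) ∈ Z1 T := fun u hu h0 => by
        refine mem_Z1_of_Fi h hM hE u.2 fun A hA j => ?_
        have hA1 := (offFacts h hM hE hA).le
        rcases eq_or_ne j i with rfl | hji
        · refine (mem_Fi_iff D.Φ D.Ψ (fun s y => Multiplicative.ofAdd (Loc.app s (Multiplicative.toAdd y))) D.kerΨ
            (fun g v w hw => Multiplicative.toAdd.injective (D.equiv g v w hw)) hA1 u).2 ?_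
          rintro _ ⟨a, ha, rfl⟩
          obtain ⟨t, ht⟩ := Loc.exists_of_fix (hD a (hA.le ha))
          refine Multiplicative.toAdd.injective ?_
          show Loc.app (D.Φ a) _ = _
          rw [ht, Loc.app, upperSL_mulVec]
          funext k; fin_cases k <;> simp [h0]
        · exact Wc_le_Fi hE hA1 j (hE.moves_le_Wc (Ne.symm hji) hu)
      refine ⟨u₁, u₂, hu₁, hZ u₁ hu₁ (by rw [eu₁]; simp), hu₂, hZ u₂ hu₂ (by rw [eu₂]; simp), ?_⟩
      refine (D.kerΨ (⟨v, hv⟩⁻¹ * (u₁ * ⟨_, hmemV y u₂⟩))).1 ?_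
      rw [map_mul, map_inv, inv_mul_eq_one]
      refine Multiplicative.toAdd.injective ?_
      rw [map_mul, toAdd_mul, D.equiv y u₂ ⟨_, hmemV y u₂⟩ rfl, eu₁, eu₂, toAdd_ofAdd, toAdd_ofAdd, ey]
      funext k
      fin_cases k <;> simp [Loc.weyl, Matrix.mulVec, dotProduct, ← hz]
    · refine hgen D.Φ D.kerΦ y fun x => ?_
      set H := ((Jc T E i ⊔ (Jc T E i).map (MulAut.conj (y : G)).toMonoidHom).subgroupOf (G1 E)).map D.Φ
      have hU : ∀ t, upperSL t ∈ H := fun t => by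
        obtain ⟨a, ha, ea⟩ := imageSL h hM hE D hD t
        exact ⟨a, Subgroup.mem_sup_left ha, ea⟩
      have htop : H = ⊤ := Loc.eq_top_of_upper_lower hU fun t => by
        obtain ⟨a, ha, ea⟩ := imageSL h hM hE D hD (-t)
        refine ⟨_, hconjmem y a ha, ?_⟩
        rw [map_mul, map_mul, map_inv, ey, ea, Loc.weyl_conj, neg_neg]
      exact htop ▸ Subgroup.mem_top x
  · obtain ⟨p0, τ, hS⟩ := exists_symShape h hM hE hp hn D
    have hodd : Odd (2 ^ n + 1) := by simp [parity_simps]; omega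
    obtain ⟨ρ, hρ⟩ := Loc.exists_path hodd hS.fix hS.inv hS.ne
    obtain ⟨y₀, hy₀, e₀⟩ := D.surjΦ ρ
    refine ⟨y₀, hy₀, fun y hy => ?_⟩
    have ey : D.Φ y = ρ := (heq D.Φ D.kerΦ y₀ y hy).trans e₀
    have hswap : ∀ k, ∃ a : ↥(G1 E), (a : G) ∈ Jc T E i ∧ D.Φ a = Equiv.swap k (τ k) := fun k => hS.full _ fun x => by
      rcases eq_or_ne x k with rfl | h1
      · exact Or.inr (Equiv.swap_apply_left _ _)
      rcases eq_or_ne x (τ k) with rfl | h2
      · exact Or.inr (by rw [Equiv.swap_apply_right, hS.inv])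
      exact Or.inl (Equiv.swap_apply_of_ne_of_ne h1 h2)
    constructor
    · intro v hv
      have hmul : ∀ u w, Multiplicative.toAdd (D.Ψ (u * w)) = Multiplicative.toAdd (D.Ψ u) + Multiplicative.toAdd (D.Ψ w) :=
        fun u w => by simp
      -- the vectors of the form required
      let S : Set (Fin (2 ^ n + 1) → ZMod 2) := {z | ∃ u₁ u₂ : ↥(VG G p), (u₁ : G) ∈ ⁅VG G p, E i⁆ ∧ (u₁ : G) ∈ Z1 T ∧
        (u₂ : G) ∈ ⁅VG G p, E i⁆ ∧ (u₂ : G) ∈ Z1 T ∧
        Multiplicative.toAdd (D.Ψ (u₁ * ⟨_, hmemV y u₂⟩)) = z}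
      have h0 : (0 : Fin (2 ^ n + 1) → ZMod 2) ∈ S :=
        ⟨1, 1, one_mem _, one_mem _, one_mem _, one_mem _, by
          rw [show (1 : ↥(VG G p)) * ⟨_, hmemV y 1⟩ = 1 from Subtype.ext (by simp)]; simp⟩
      have hadd : ∀ a ∈ S, ∀ b ∈ S, a + b ∈ S := by
        rintro _ ⟨a1, a2, ha1, ha1', ha2, ha2', rfl⟩ _ ⟨b1, b2, hb1, hb1', hb2, hb2', rfl⟩
        refine ⟨a1 * b1, a2 * b2, mul_mem ha1 hb1, mul_mem ha1' hb1', mul_mem ha2 hb2, mul_mem ha2' hb2', ?_⟩
        have e : (⟨_, hmemV y (a2 * b2)⟩ : ↥(VG G p)) = ⟨_, hmemV y a2⟩ * ⟨_, hmemV y b2⟩ := Subtype.ext (by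
          show (y : G) * ((a2 : G) * b2) * (y : G)⁻¹ = (y : G) * a2 * (y : G)⁻¹ * ((y : G) * b2 * (y : G)⁻¹)
          group)
        rw [e, hmul, hmul, hmul, hmul, hmul]; abel
      have hZ : ∀ u : ↥(VG G p), (u : G) ∈ ⁅VG G p, E i⁆ →
          (∀ k, Multiplicative.toAdd (D.Ψ u) (τ k) = Multiplicative.toAdd (D.Ψ u) k) → (u : G) ∈ Z1 T := fun u hu h0 => by
        refine mem_Z1_of_Fi h hM hE u.2 fun A hA j => ?_
        have hA1 := (offFacts h hM hE hA).le
        rcases eq_or_ne j i with rfl | hji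
        · refine (mem_Fi_iff D.Φ D.Ψ (fun s y => Multiplicative.ofAdd fun k => Multiplicative.toAdd y (s⁻¹ k)) D.kerΨ
            (fun g v w hw => Multiplicative.toAdd.injective (funext (D.equiv g v w hw))) hA1 u).2 ?_
          rintro _ ⟨a, ha, rfl⟩
          refine Multiplicative.toAdd.injective (funext fun k => ?_)
          show Multiplicative.toAdd (D.Ψ u) ((D.Φ a)⁻¹ k) = _
          rcases hS.upper a (ThompsonJ.le_thompsonSubgroupOf hA ha) ((D.Φ a)⁻¹ k) with e | e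
          · rw [Equiv.Perm.inv_def, Equiv.apply_symm_apply, ← Equiv.Perm.inv_def] at e
            rw [← e]
          · rw [Equiv.Perm.inv_def, Equiv.apply_symm_apply, ← Equiv.Perm.inv_def] at e
            conv_rhs => rw [e]
            rw [h0]
        · exact Wc_le_Fi hE hA1 j (hE.moves_le_Wc (Ne.symm hji) hu)
      have hpA : ∀ k, (Pi.single k 1 + Pi.single (τ k) 1 : Fin (2 ^ n + 1) → ZMod 2) ∈ S := fun k => by
        obtain ⟨u, hu, e⟩ := D.exists_pair k (τ k)
        refine ⟨u, 1, hu, hZ u hu (fun x => by rw [e]; exact pair_const hS.inv k x), one_mem _, one_mem _, ?_⟩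
        rw [show (⟨_, hmemV y 1⟩ : ↥(VG G p)) = 1 from Subtype.ext (by simp), mul_one, e]
      have hpB : ∀ k, (Pi.single k 1 + Pi.single ((ρ * τ * ρ⁻¹) k) 1 : Fin (2 ^ n + 1) → ZMod 2) ∈ S := fun k => by
        obtain ⟨u, hu, e⟩ := D.exists_pair (ρ⁻¹ k) (τ (ρ⁻¹ k))
        refine ⟨1, u, one_mem _, one_mem _, hu, hZ u hu (fun x => by rw [e]; exact pair_const hS.inv _ x), ?_⟩
        rw [one_mul]
        funext x
        rw [D.equiv y u ⟨_, hmemV y u⟩ rfl, e, ey]
        simp [Pi.single_apply, Equiv.symm_apply_eq]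
      have hall : ∀ k, (Pi.single p0 1 + Pi.single k 1 : Fin (2 ^ n + 1) → ZMod 2) ∈ S := by
        refine hρ _ (by convert h0 using 1; funext x; exact CharTwo.add_self_eq_zero _) ?_ ?_
        · intro k hk
          convert hadd _ hk _ (hpA k) using 1
          funext x
          simp only [Pi.add_apply]
          exact (by decide : ∀ A B C : ZMod 2, A + C = A + B + (B + C)) _ _ _
        · intro k hk
          convert hadd _ hk _ (hpB k) using 1
          funext x
          simp only [Pi.add_apply]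
          exact (by decide : ∀ A B C : ZMod 2, A + C = A + B + (B + C)) _ _ _
      have hx : Multiplicative.toAdd (D.Ψ ⟨v, hv⟩) ∈ S := by
        set z := Multiplicative.toAdd (D.Ψ ⟨v, hv⟩) with hz
        suffices h1 : ∀ s : Finset (Fin (2 ^ n + 1)),
            (∑ k ∈ s, if z k = 1 then (Pi.single p0 1 + Pi.single k 1 : Fin (2 ^ n + 1) → ZMod 2) else 0) ∈ S by
          convert h1 Finset.univ using 1
          funext x
          rw [Finset.sum_apply]
          have hc : ∀ k, (if z k = 1 then (Pi.single p0 1 + Pi.single k 1 : Fin (2 ^ n + 1) → ZMod 2) else 0) x =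
              z k * (Pi.single p0 1 : Fin (2 ^ n + 1) → ZMod 2) x + (if x = k then z k else 0) := fun k => by
            have hcases : ∀ c : ZMod 2, c = 0 ∨ c = 1 := by decide
            rcases hcases (z k) with e | e <;> simp [e, Pi.single_apply]
          rw [Finset.sum_congr rfl fun k _ => hc k, Finset.sum_add_distrib, ← Finset.sum_mul,
            show ∑ k, z k = 0 from D.even _, zero_mul, zero_add, Finset.sum_ite_eq, if_pos (Finset.mem_univ x)]
        intro s
        classical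
        induction s using Finset.induction_on with
        | empty => rw [Finset.sum_empty]; exact h0
        | insert a s ha ih =>
          rw [Finset.sum_insert ha]
          refine hadd _ ?_ _ ih
          split_ifs
          · exact hall a
          · exact h0
      obtain ⟨u₁, u₂, h1, h1', h2, h2', e⟩ := hx
      refine ⟨u₁, u₂, h1, h1', h2, h2', (D.kerΨ (⟨v, hv⟩⁻¹ * (u₁ * ⟨_, hmemV y u₂⟩))).1 ?_⟩
      rw [map_mul, map_inv, inv_mul_eq_one]
      exact Multiplicative.toAdd.injective e.symm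
    · refine hgen D.Φ D.kerΦ y fun x => ?_
      set H := ((Jc T E i ⊔ (Jc T E i).map (MulAut.conj (y : G)).toMonoidHom).subgroupOf (G1 E)).map D.Φ
      have htop : H = ⊤ := Loc.eq_top_of_swaps (f := τ) (g := ρ * τ * ρ⁻¹) (p0 := p0)
        (fun k => let ⟨a, ha, ea⟩ := hswap k; ⟨a, Subgroup.mem_sup_left ha, ea⟩)
        (fun k => by
          obtain ⟨a, ha, ea⟩ := hswap (ρ⁻¹ k)
          refine ⟨_, hconjmem y a ha, ?_⟩
          rw [map_mul, map_mul, map_inv, ey, ea, ← Equiv.swap_apply_apply]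
          simp) hρ
      exact htop ▸ Subgroup.mem_top x

end CfsgLib.FFModules.PushUpBlocks
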